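/-
Character degrees of `³D₄(q)`.
-/
import Cfsg.Agent.Lib.Lie.DegT1
import Cfsg.Agent.Lib.Lie.TwM8

set_option autoImplicit false
set_option linter.unusedSectionVars false

namespace CA.DegT

open Cfsg CA.Wt CA.DegO Finset Module Cfsg.Lie CA.Chev CA.Chev.Sys0 CA.Chev.Twist CA.TwM
open scoped commutatorElement

variable {K : Type*} [Field K] [Fintype K] {α : K →+* K} {G : Type*} [Group G] {V : Type*} [AddCommGroup V] [Module ℂ V]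
  [FiniteDimensional ℂ V] {ρ : Representation ℂ G V} {P : Par K K} {ψ : AddChar K ℂ} (hP : ∀ c s, P.e c s = ψ (c * s))

section
variable {z w : AddChar K G}

variable (α z w) in
/-- shearing `w` along `z` -/
def Sh : Prop := ∀ u, α u = u → ∃ g, (∀ s, g * w s * g⁻¹ = z (u * s) * w s) ∧ ∀ s, Commute g (z s)

include hP
theorem shear {g : G} {u c d : K} (h1 : ∀ s, g * w s * g⁻¹ = z (u * s) * w s) {v : V} (hz : v ∈ Ws ρ z (P.e c)) (hw : v ∈ Ws ρ w (P.e d)) :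
    ρ g⁻¹ v ∈ Ws ρ w (P.e (d + c * u)) := fun s => by
  rw [conj_apply (h1 s), map_mul, End.mul_apply, hw, map_smul, hz, map_smul, map_smul, smul_smul, hP, hP, hP, add_mul,
    AddChar.map_add_eq_mul, mul_assoc]

theorem Sh.eq (h : Sh α z w) {c d d' : K} (c0 : c ≠ 0) (hc : α c = c) (hd : α d = d) (hd' : α d' = d') :
    finrank ℂ ↥(Ws ρ z (P.e c) ⊓ Ws ρ w (P.e d)) = finrank ℂ ↥(Ws ρ z (P.e c) ⊓ Ws ρ w (P.e d')) := by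
  have k : ∀ d d', α d = d → α d' = d' →
      finrank ℂ ↥(Ws ρ z (P.e c) ⊓ Ws ρ w (P.e d)) ≤ finrank ℂ ↥(Ws ρ z (P.e c) ⊓ Ws ρ w (P.e d')) := fun d d' hd hd' => by
    obtain ⟨g, h1, h2⟩ := h ((d' - d) / c) (by simp [hc, hd, hd'])
    exact fr_le g⁻¹ fun v hv => ⟨st_comm (fun s => (h2 s).inv_left) hv.1, by simpa [mul_div_cancel₀, c0] using shear hP h1 hv.1 hv.2⟩
  exact (k _ _ hd hd').antisymm (k _ _ hd' hd)

theorem pair [DecidableEq K] {q : ℕ} (hF : #{t | α t = t} = q) (hc : ∀ s t, Commute (w s) (z t)) (h1 : Sh α z w) (h2 : Sh α w z)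
    (hz : ∀ c, α c ≠ c → Ws ρ z (P.e c) = ⊥) (hw : ∀ c, α c ≠ c → Ws ρ w (P.e c) = ⊥) :
    ∃ k, (∀ d ≠ 0, α d = d → finrank ℂ ↥(Ws ρ z (P.e 0) ⊓ Ws ρ w (P.e d)) = k) ∧
      finrank ℂ V = finrank ℂ (Ws ρ z (P.e 0)) + (q - 1) * (q * k) ∧
      finrank ℂ (Ws ρ z (P.e 0)) = finrank ℂ ↥(Ws ρ z (P.e 0) ⊓ Ws ρ w (P.e 0)) + (q - 1) * k := by
  have e : ∀ m : K → ℕ, (∀ c, α c ≠ c → m c = 0) → ∀ k, (∀ c ≠ 0, α c = c → m c = k) → ∑ c, m c = m 0 + (q - 1) * k := fun m a b k => by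
    rw [← sum_subset (subset_univ {t | α t = t}) fun c _ hc => a c (by simpa using hc), ← add_sum_erase _ _ (a := 0) (by simp),
      sum_congr rfl fun c hc => k c (ne_of_mem_erase hc) (by simpa using mem_of_mem_erase hc), sum_const, card_erase_of_mem (by simp), hF, smul_eq_mul]
  have a1 : ∀ c ≠ 0, α c = c → ∀ d, α d = d → finrank ℂ ↥(Ws ρ z (P.e c) ⊓ Ws ρ w (P.e d)) = finrank ℂ ↥(Ws ρ z (P.e 1) ⊓ Ws ρ w (P.e 1)) :=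
    fun c c0 hc d hd => by rw [h1.eq hP c0 hc hd (map_one α), inf_comm, h2.eq hP one_ne_zero (map_one α) hc (map_one α), inf_comm]
  have a2 : ∀ d ≠ 0, α d = d → finrank ℂ ↥(Ws ρ z (P.e 0) ⊓ Ws ρ w (P.e d)) = finrank ℂ ↥(Ws ρ z (P.e 1) ⊓ Ws ρ w (P.e 1)) :=
    fun d d0 hd => by rw [inf_comm, h2.eq hP d0 hd (map_zero α) (map_one α), inf_comm, a1 1 one_ne_zero (map_one α) d hd]
  have a3 := fun c => sum_Ws P (ρ := ρ) (x := w) (W := Ws ρ z (P.e c)) fun s v hv => st_comm (hc s) hv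
  have a4 : 1 ≤ q := hF ▸ card_pos.2 ⟨0, by simp⟩
  refine ⟨_, a2, ?_, by rw [← a3, e _ (fun c hc => by simp [hw c hc]) _ a2]⟩
  rw [← finrank_top, ← sum_Ws P (ρ := ρ) (x := z) (W := ⊤) fun _ _ _ => trivial, sum_congr rfl fun c _ => by rw [top_inf_eq]]
  refine e _ (fun c hc => by simp [hz c hc]) _ fun c c0 hc => ?_
  rw [← a3, e _ (fun c hc => by simp [hw c hc]) _ fun d _ => a1 c c0 hc d, a1 c c0 hc 0 (map_zero α), ← one_add_mul, Nat.add_sub_cancel' a4]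
end

variable {D : ChevalleyDatum} [Good D] {Γ : Type*} [Group Γ] {A : Sys D K Γ} {M : Mod A G} (h : S3 M α)

/-- the root subgroups -/
noncomputable def Y (r : Rt D) : AddChar K G := ⟨h.y r, by simpa using h.y_add r 0 0, h.y_add r⟩

theorem e_Y (r : Rt D) (t : K) : M.e (Y h r t) = N3 M (A.x r t) := h.e_y r t
theorem Y_mem {r θ : Rt D} (e : M.τ.ρ θ = θ) (hr : 0 < pr θ r) (t : K) : Y h r t ∈ M.X (Qs θ) :=
  M.X_mono (forall_O3.2 (by simp [mem_Qs, pr_fix h.toSL e, hr])) (h.y_mem r t)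

include h in
theorem f_eq {r : Rt D} (e : M.τ.T.f r 1 = 1) (t : K) : M.τ.T.f r t = α t := by rw [← mul_one t, h.f_mul, e, mul_one, mul_one]

theorem e_fix {r : Rt D} (e : M.τ.ρ r = r) (t : K) : M.e (Y h r t) = A.x r (tr α t) := by
  simp only [e_Y, h.N3_eq, e, f_eq h (h.fix1 r e), tr_apply, A.add]

theorem sh {a b r : Rt D} (ha : M.τ.ρ a = a) (hb : M.τ.ρ b = b) (hr : M.τ.ρ r = r) (e : rt r = rt a + rt b) : Sh α (Y h r) (Y h b) := fun u hu => by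
  obtain ⟨C, C0, hC, e1⟩ := h.exists_C e
  obtain ⟨g, -, hg⟩ := lift_fix ha (t := u / C) (by simp [f_eq h (h.fix1 a ha), hu, hC])
  refine ⟨g, fun s => M.inj ?_, fun s => M.inj ?_⟩
  · rw [map_mul, map_mul, map_mul, map_inv, hg, e_fix h hb, e_fix h hr, tr_mul hu, ← mul_div_cancel₀ u C0, ← e1, mul_div_cancel₀ u C0]
    group
  · rw [map_mul, map_mul, hg, e_fix h hr]
    exact A.comm_of_nonneg h.hl (by rw [pr_sum e, pr_self, pr_of_sum h.hl e]; omega) _ _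

theorem comm_Y {r s : Rt D} (e : M.τ.ρ r = r) (h1 : 0 ≤ pr r s) (t u : K) : Commute (Y h r t) (Y h s u) :=
  h.comm_X (by simp [O3_fix e, forall_O3, pr_fix h.toSL e, h1]) _ (h.y_mem r t) _ (h.y_mem s u)

include hP in
theorem Ws_bot (hψ : ∀ s, ψ (α s) = ψ s) {r : Rt D} (e : M.τ.ρ r = r) (c : K) (hc : α c ≠ c) : Ws ρ (Y h r) (P.e c) = ⊥ :=
  eq_bot_iff.2 fun v hv => by_contra fun v0 => hc (P.inj (DFunLike.ext _ _ fun s => by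
    have := hv (α (α s))
    rw [show Y h r (α (α s)) = Y h r (α (α (α s))) from M.inj (by simp only [e_fix h e, tr_α h.α3]), hv] at this
    simpa [hP, ← hψ (c * α (α s)), h.α3] using (smul_left_injective ℂ v0 this).symm))

theorem mem_Z {θ : Rt D} {T : Set (Rt D)} (h1 : θ ∈ T) (h2 : T ⊆ Qs θ) (h3 : ∀ s ∈ T, M.τ.ρ s ∈ T → M.τ.ρ (M.τ.ρ s) ∈ T → s = θ)
    (hQ : ∀ a ∈ Qs θ, ∀ b ∈ Qs θ, ∀ k, Cmb a b k → k = θ) (e : M.τ.ρ θ = θ) (h : S3 M α) : M.X T ≤ M.X {θ} := fun g hg => by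
  have n : ∀ {T}, θ ∈ T → T ⊆ Qs θ → Nil T := fun h1 h2 => (qF θ).nil.mono h2 fun r hr s hs k hk => hQ r (h2 hr) s (h2 hs) k hk ▸ h1
  have k : ∀ {T}, θ ∈ T → T ⊆ Qs θ → g ∈ M.X T → (θ ∈ M.τ.ρ '' T ∧ M.τ.ρ '' T ⊆ Qs θ) ∧ g ∈ M.X (M.τ.ρ '' T) := fun h1 h2 hg =>
    ⟨⟨⟨θ, h1, e⟩, by rintro _ ⟨s, hs, rfl⟩; simpa [mem_Qs, pr_fix h.toSL e] using h2 hs⟩,
      M.mem_X.2 (M.memF g ▸ M.τ.is.mem_X (fun r hr => Set.mem_image_of_mem _ hr) hg)⟩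
  obtain ⟨⟨a1, a2⟩, a3⟩ := k h1 h2 hg
  obtain ⟨⟨b1, b2⟩, b3⟩ := k a1 a2 a3
  have := (A.X_inf (qF θ).nil (n h1 h2) ((n a1 a2).inter (n b1 b2)) h2 (Set.inter_subset_left.trans a2)).le
    ⟨hg, (A.X_inf (qF θ).nil (n a1 a2) (n b1 b2) a2 b2).le ⟨a3, b3⟩⟩
  refine A.X_mono ?_ this
  rintro s ⟨c1, ⟨s1, c2, rfl⟩, _, ⟨s2, c3, rfl⟩, c4⟩
  exact h3 _ c1 (by rwa [← c4, h.ρ3]) (by rwa [h.ρ3])

/-- the configuration of roots -/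
structure Cf (φ : Rt D → Rt D) (θ γ β a r s : Rt D) : Prop where
  fθ : φ θ = θ
  fγ : φ γ = γ
  fβ : φ β = β
  nγ : φ (ng γ) = ng γ
  nβ : φ (ng β) = ng β
  e0 : rt θ = rt β + rt γ
  e1 : rt r = rt a + rt β
  e2 : rt (φ r) = rt (φ a) + rt β
  e3 : rt (φ (φ r)) = rt (φ (φ a)) + rt β
  e4 : rt s = rt (φ a) + rt (φ (φ r))
  e5 : rt (φ s) = rt a + rt (φ (φ r))
  e6 : rt (φ (φ s)) = rt a + rt (φ r)
  e7 : rt γ = rt a + rt s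
  p : 0 ≤ pr a (φ s) ∧ 0 ≤ pr a (φ (φ s)) ∧ 0 ≤ pr θ a ∧ 0 ≤ pr γ a ∧ 0 ≤ pr γ s ∧ 0 < pr θ γ ∧ 0 < pr θ β ∧ 0 < pr θ r ∧ 0 < pr θ s
  T : ∀ k ∈ [θ, φ r, φ (φ r), φ s, φ (φ s)], φ k ∈ [θ, φ r, φ (φ r), φ s, φ (φ s)] → φ (φ k) ∈ [θ, φ r, φ (φ r), φ s, φ (φ s)] → k = θ

variable {θ γ β a r s : Rt D} (c : Cf M.τ.ρ θ γ β a r s) (η1 : M.τ.T.f a 1 = 1) (η2 : M.τ.T.f (M.τ.ρ a) 1 = 1)
include c

theorem F1 : ∃ C : K, C ≠ 0 ∧ ∀ t u, Y h a t * Y h s u * (Y h a t)⁻¹ = Y h γ (C * t * u) * Y h s u := by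
  obtain ⟨C, C0, -, e⟩ := h.exists_C c.e7
  refine ⟨C, C0, fun t u => M.inj ?_⟩
  simp only [map_mul, map_inv, e_Y, ← e, ← h.comm_nm c.p.1 c.p.2.1]
  group

include η1 η2 in
theorem F2 : ∃ C1 C2 C3 : K, C3 ≠ 0 ∧ α C3 = C3 ∧ ∀ t u, Y h a t * Y h β u * (Y h a t)⁻¹ * (Y h γ (C3 * (t * α t * α (α t)) * u) *
    Y h s (C2 * (α t * α (α t)) * tr α u) * Y h r (C1 * t * tr α u) * Y h β u)⁻¹ ∈ M.X {θ} := by
  obtain ⟨C1, -, -, e1⟩ := h.exists_C c.e1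
  obtain ⟨C2, -, -, e2⟩ := h.exists_C c.e2
  obtain ⟨C3, a3, b3, e3⟩ := h.exists_C c.e3
  obtain ⟨C4, a4, b4, e4⟩ := h.exists_C c.e4
  obtain ⟨C5, -, -, e5⟩ := h.exists_C c.e5
  obtain ⟨C6, -, -, e6⟩ := h.exists_C c.e6
  obtain ⟨C7, a7, b7, e7⟩ := h.exists_C c.e7
  obtain ⟨-, -, -, -, -, p1, p2, p3, p4⟩ := c.p
  have hQ : ∀ a ∈ Qs θ, ∀ b ∈ Qs θ, ∀ k, Cmb a b k → k = θ := fun a ha b hb k hk => by
    obtain ⟨i, j, h1, h2, h3⟩ := Cmb.pr hk θ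
    rw [mem_Qs] at ha hb
    have : 2 ≤ pr θ k := by nlinarith
    rcases pr_cases h.hl θ k with e | rfl | e | e | e
    exacts [e, by simp at this, by omega, by omega, by omega]
  let T : Set (Rt D) := {k | k ∈ [θ, M.τ.ρ r, M.τ.ρ (M.τ.ρ r), M.τ.ρ s, M.τ.ρ (M.τ.ρ s)]}
  have hT : T ⊆ Qs θ := by simp [T, Set.subset_def, mem_Qs, pr_fix h.toSL c.fθ, p3, p4]
  have k : ∀ k, 0 < pr θ k → ∀ t, ∀ y ∈ A.X T, A.x k t * y * (A.x k t)⁻¹ ∈ A.X T := fun k hk t y =>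
    A.x_conj_mem (fun s hs => ⟨(qF θ).nil.ne_ng (mem_Qs.2 hk) (hT hs), fun j hj => by simp [T, hQ k (mem_Qs.2 hk) s (hT hs) j hj]⟩) t
  have m : ∀ k ∈ T, ∀ t, A.x k t ∈ A.X T := fun k hk => A.x_mem hk
  have cj : ∀ {a b d : Γ}, ⁅a, b⁆ = d → MulAut.conj a b = d * b := fun e => by rw [← e, MulAut.conj_apply]; group
  refine ⟨C1, C4 * C3, C7 * C4 * C3, by simp [*], by simp [*], fun t u => mem_Z (by simp [T]) hT c.T hQ c.fθ h ?_⟩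
  rw [Mod.mem_X, map_mul, map_mul, map_mul, map_inv, ← MulAut.conj_apply, e_Y h a, h.N3_eq, f_eq h η1, f_eq h η2, map_mul, map_mul,
    MulAut.mul_apply, MulAut.mul_apply, e_fix h c.fβ, cj (e3 _ _)]
  simp only [map_mul, map_inv, cj (e1 _ _), cj (e2 _ _), cj (e4 _ _), cj (e5 _ _), cj (e6 _ _), cj (e7 _ _)]
  rw [e_fix h c.fβ, e_fix h c.fγ, tr_mul (by simp [*, h.α3]; ring), e_Y, e_Y, h.N3_eq, h.N3_eq]
  have g : ∀ a b t1 t2 t3 t4 c d t5 t6 t7 t8 : Γ, a * b * (t1 * t2) * (t3 * t4 * (c * d)) * (a * (b * t5 * t6) * (c * t7 * t8) * d)⁻¹ =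
      a * (b * (t1 * t2 * t3 * t4 * (c * (t7 * t8)⁻¹ * c⁻¹) * (t5 * t6)⁻¹) * b⁻¹) * a⁻¹ := fun _ _ _ _ _ _ _ _ _ _ _ _ => by group
  rw [show C7 * t * (C4 * α t * (C3 * α (α t) * tr α u)) = C7 * C4 * C3 * (t * α t * α (α t)) * tr α u by ring,
    show C4 * α t * (C3 * α (α t) * tr α u) = C4 * C3 * (α t * α (α t)) * tr α u by ring, g]
  refine k _ p1 _ _ (k _ p4 _ _ (mul_mem (mul_mem (mul_mem (mul_mem (mul_mem (m _ ?_ _) (m _ ?_ _)) (m _ ?_ _)) (m _ ?_ _))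
    (k _ p3 _ _ (inv_mem (mul_mem (m _ ?_ _) (m _ ?_ _))))) (inv_mem (mul_mem (m _ ?_ _) (m _ ?_ _))))) <;> simp [T]

include η1 η2 in
theorem main {q : ℕ} (hq : ∀ t, α t = t ^ q) (h2 : 2 ≤ q) (hK : Fintype.card K = q ^ 3) (hne : ¬∀ s, ρ (Y h θ s) = 1) :
    (q ^ 2 - 1) * q ^ 3 + (q - 1) ≤ finrank ℂ V := by
  classical
  obtain ⟨P, ψ, hP, p1, p2⟩ := exists_par hq h.α3 h2 hK
  obtain ⟨s0, hs0⟩ := exists_tr hq h.α3 h2 hK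
  have hF : #{t | α t = t} = q := by
    rw [← card_fix (K := K) (d := 3) (by omega) (Nat.card_eq_fintype_card.trans hK), Nat.card_eq_fintype_card, Fintype.card_subtype]
    simp [hq]
  obtain ⟨-, -, q1, q2, q3, q4, q5, q6, q7⟩ := c.p
  have b := fun {r} e => Ws_bot (ρ := ρ) hP h p1 (r := r) e
  obtain ⟨k, a1, a2, a3⟩ := pair (ρ := ρ) hP hF (fun s t => (comm_Y h c.fθ q4.le t s).symm) (sh h c.fβ c.fγ c.fθ c.e0)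
    (sh h c.nβ c.fθ c.fγ (by simp [c.e0])) (b c.fθ) (b c.fγ)
  obtain ⟨k', -, a5, a6⟩ := pair (ρ := ρ) hP hF (fun s t => (comm_Y h c.fθ q5.le t s).symm) (sh h c.fγ c.fβ c.fθ (by rw [c.e0, add_comm]))
    (sh h c.nγ c.fθ c.fβ (by simp [c.e0])) (b c.fθ) (b c.fβ)
  obtain rfl : k = k' := by simpa [show q - 1 ≠ 0 by omega, show q ≠ 0 by omega] using a2.symm.trans a5
  have k0 : k ≠ 0 := by
    rintro rfl
    have := Submodule.eq_top_of_finrank_eq (by simpa using a2.symm : finrank ℂ (Ws ρ (Y h θ) (P.e 0)) = finrank ℂ V)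
    exact hne fun s => LinearMap.ext fun v => by simpa [P.zero] using this.ge Submodule.mem_top (x := v) s
  have z1 : ∀ v ∈ Ws ρ (Y h θ) (P.e 0), ∀ z ∈ M.X {θ}, ρ z v = v := fun v hv z hz => by
    obtain ⟨t, ht, e⟩ := mem_fix c.fθ hz
    rw [f_eq h (h.fix1 θ c.fθ)] at ht
    simpa [P.zero, show Y h θ (t * s0) = z from M.inj (by rw [e_fix h c.fθ, tr_mul ht, hs0, mul_one, e])] using hv (t * s0)
  have z2 : ∀ {r}, 0 < pr θ r → ∀ χ, ∀ g ∈ M.X (Qs θ), ∀ v ∈ Ws ρ (Y h θ) (P.e 0), v ∈ Ws ρ (Y h r) χ → ρ g v ∈ Ws ρ (Y h r) χ :=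
    fun hr χ g hg v h1 h2 => st_mod (fun a => comm_Qs h.hl (inv_mem (Y_mem h c.fθ hr a)) (inv_mem hg)) (z1 v h1) h2
  have z3 : ∀ g ∈ M.X (Qs θ), ∀ v ∈ Ws ρ (Y h θ) (P.e 0), ρ g v ∈ Ws ρ (Y h θ) (P.e 0) := fun g hg v hv => z2 (by simp) _ g hg v hv hv
  obtain ⟨C, C0, f1⟩ := F1 h c
  have z4 : ∀ d t, ∀ v ∈ Ws ρ (Y h θ) (P.e 0) ⊓ Ws ρ (Y h γ) (P.e d), ρ (Y h a t)⁻¹ v ∈ Ws ρ (Y h θ) (P.e 0) ⊓ Ws ρ (Y h γ) (P.e d) :=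
    fun d t v hv => ⟨st_comm (fun s => (comm_Y h c.fθ q1 s t).symm.inv_left) hv.1, st_comm (fun s => (comm_Y h c.fγ q2 s t).symm.inv_left) hv.2⟩
  have z5 := fun d => sum_Ws P (ρ := ρ) (x := Y h s) (W := Ws ρ (Y h θ) (P.e 0) ⊓ Ws ρ (Y h γ) (P.e d)) fun t v hv =>
    ⟨z3 _ (Y_mem h c.fθ q7 t) v hv.1, z2 q4 _ _ (Y_mem h c.fθ q7 t) v hv.1 hv.2⟩
  have k1 : q ^ 3 ≤ k := by
    rw [← a1 1 one_ne_zero (map_one α), ← z5] at k0 ⊢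
    obtain ⟨b, -, hb⟩ := exists_ne_zero_of_sum_ne_zero k0
    rw [← hK, ← card_univ, card_eq_sum_ones]
    refine sum_le_sum fun b' _ => (Nat.one_le_iff_ne_zero.2 hb).trans (fr_le (Y h a ((b' - b) / C))⁻¹ fun v hv => ⟨z4 _ _ v hv.1, ?_⟩)
    simpa [mul_div_cancel₀, C0] using shear hP (f1 ((b' - b) / C)) hv.1.2 hv.2
  obtain ⟨C1, C2, C3, C4, C5, f2⟩ := F2 h c η1 η2
  have k2 : ∀ d ≠ 0, α d = d → 1 ≤ finrank ℂ ↥(Ws ρ (Y h θ) (P.e 0) ⊓ Ws ρ (Y h β) (P.e 0) ⊓ Ws ρ (Y h γ) (P.e d)) := fun d d0 hd => by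
    rw [← a1 d d0 hd, ← z5] at k0
    obtain ⟨b1, -, b2⟩ := exists_ne_zero_of_sum_ne_zero k0
    obtain ⟨b3, b4⟩ := exists_Ws P (ρ := ρ) (x := Y h r) b2 fun t v hv => have m := Y_mem h c.fθ q6 t
        ⟨⟨z3 _ m v hv.1.1, z2 q4 _ _ m v hv.1.1 hv.1.2⟩, z2 q7 _ _ m v hv.1.1 hv.2⟩
    obtain ⟨b5, b6⟩ := exists_Ws P (ρ := ρ) (x := Y h β) b4 fun t v hv => have m := Y_mem h c.fθ q5 t
        ⟨⟨⟨z3 _ m v hv.1.1.1, z2 q4 _ _ m v hv.1.1.1 hv.1.1.2⟩, z2 q7 _ _ m v hv.1.1.1 hv.1.2⟩, z2 q6 _ _ m v hv.1.1.1 hv.2⟩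
    obtain ⟨t, ht⟩ := exists_root hq h.α3 h2 hK (mul_ne_zero d0 C4) (by simp [hd, C5]) (d := b5)
      (by_contra fun e => b6 (by simp [b c.fβ b5 e])) (b1 * C2) (b3 * C1)
    refine (Nat.one_le_iff_ne_zero.2 b6).trans (fr_le (ρ := ρ) (Y h a t)⁻¹ fun v ⟨⟨⟨hv, v1⟩, v2⟩, v3⟩ => ?_)
    refine ⟨⟨(z4 d t v hv).1, fun u => ?_⟩, (z4 d t v hv).2⟩
    have z6 : ∀ g g', g' ∈ M.X (Qs θ) → g * g'⁻¹ ∈ M.X {θ} → ρ g v = ρ g' v := fun g g' h1 h2 => by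
      rw [← z1 _ (z3 g' h1 v hv.1) _ h2, ← End.mul_apply, ← map_mul, inv_mul_cancel_right]
    rw [conj_apply rfl, z6 _ _ (mul_mem (mul_mem (mul_mem (Y_mem h c.fθ q4 _) (Y_mem h c.fθ q7 _)) (Y_mem h c.fθ q6 _)) (Y_mem h c.fθ q5 _)) (f2 t u)]
    simp only [map_mul, End.mul_apply, v3 u, v2 _, v1 _, hv.2 _, map_smul, smul_smul, hP, ← AddChar.map_add_eq_mul]
    congr 1
    rw [← ht, add_mul, AddChar.map_add_eq_mul _ _ (tr α _ * u), ← p2, ← AddChar.map_add_eq_mul]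
    congr 1
    ring
  have k3 := sum_Ws P (ρ := ρ) (x := Y h γ) (W := Ws ρ (Y h θ) (P.e 0) ⊓ Ws ρ (Y h β) (P.e 0)) fun t v hv =>
    ⟨z3 _ (Y_mem h c.fθ q4 t) v hv.1, z2 q5 _ _ (Y_mem h c.fθ q4 t) v hv.1 hv.2⟩
  have k4 : q - 1 ≤ finrank ℂ ↥(Ws ρ (Y h θ) (P.e 0) ⊓ Ws ρ (Y h β) (P.e 0)) := by
    rw [← k3, ← hF, ← card_erase_of_mem (a := 0) (by simp), card_eq_sum_ones]
    exact (sum_le_sum fun d hd => k2 d (ne_of_mem_erase hd) (by simpa using mem_of_mem_erase hd)).trans (sum_le_sum_of_subset (subset_univ _))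
  obtain ⟨n, rfl⟩ := Nat.exists_eq_add_of_le' (show 1 ≤ q by omega)
  rw [a5, a6, show (n + 1) ^ 2 - 1 = n + n * (n + 1) from Nat.sub_eq_of_eq_add (by ring)]
  rw [Nat.add_sub_cancel] at k4 ⊢
  nlinarith [Nat.mul_le_mul_left (n + n * (n + 1)) k1]

omit c in
theorem cf : Cf D4.ph (⟨23, by decide⟩ : Rt chevD4) ⟨22, by decide⟩ ⟨14, by decide⟩ ⟨18, by decide⟩ ⟨19, by decide⟩ ⟨17, by decide⟩ := by
  constructor <;> (try rw [D4.rc]) <;> decide +kernel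

end CA.DegT
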