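/-
Character degrees of simply laced Chevalley groups: Heisenberg groups and fixed lines.
-/
import Cfsg.Agent.Lib.Lie.DegT2

set_option autoImplicit false
set_option linter.unusedSectionVars false

namespace CA.DegE

open Cfsg CA.Wt CA.DegO CA.DegT Finset Module Cfsg.Lie CA.Chev CA.Chev.Sys0 CA.TwM
open scoped commutatorElement

variable {D : ChevalleyDatum} [Good D]

section
/-- `α - a` -/
noncomputable def io (α a : Rt D) : Rt D := ng (refl α a)

@[simp] theorem io_io (α a : Rt D) : io α (io α a) = a := by simp [io, map_ng (refl_mem_RA α)]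
@[simp] theorem pr_io (α a : Rt D) : pr α (io α a) = pr α a := by simp [io, pr_refl_right]
theorem rt_io {α a : Rt D} (h : pr α a = 1) : rt α = rt a + rt (io α a) := by simp [io, rt_refl, h]
theorem io_eq {α a b : Rt D} (h : pr α a = 1) (e : rt α = rt a + rt b) : b = io α a := rt_injective (add_left_cancel (e.symm.trans (rt_io h)))
theorem io_map {w : Equiv.Perm (Rt D)} (hw : w ∈ RA D) (α a : Rt D) : io (w α) (w a) = w (io α a) := by
  rw [io, io, map_ng hw, ← Equiv.Perm.mul_apply w, mul_refl hw, Equiv.Perm.mul_apply]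
theorem rt_neg1 {a b : Rt D} (h : pr a b = -1) : rt (refl a b) = rt a + rt b := by simp [rt_refl, h, add_comm]
theorem ht_add {a b r : Rt D} (e : rt r = rt a + rt b) : ht r = ht a + ht b := by simp [ht, e, sum_add_distrib]
theorem pos_add {a b r : Rt D} (e : rt r = rt a + rt b) (ha : Pos a) (hb : Pos b) : Pos r := by
  rw [pos_iff_ht] at *; rw [ht_add e]; omega

variable (hl : ∀ r s : Rt D, pr r s = pr s r)
include hl

theorem eq_of_two {r s : Rt D} (h : 2 ≤ pr r s) : s = r := by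
  rcases pr_cases hl r s with e | rfl | e | e | e
  exacts [e, by simp at h, by omega, by omega, by omega]

theorem neg_one_le {r s : Rt D} (h : s ≠ ng r) : -1 ≤ pr r s := by
  rcases pr_cases hl r s with rfl | e | e | e | e
  exacts [by simp, (h e).elim, by omega, by omega, by omega]

theorem le_one {r s : Rt D} (h : s ≠ r) : pr r s ≤ 1 := not_lt.1 fun e => h (eq_of_two hl e)

theorem pr_ge {α r s : Rt D} (h : pr α r + pr α s ≠ 0) : -1 ≤ pr r s := neg_one_le hl (by rintro rfl; simp at h)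

theorem pr_io' {α a : Rt D} (h : pr α a = 1) (β : Rt D) : pr (io α a) β = pr α β - pr a β := by
  rw [hl α, pr_sum (rt_io h), hl β, hl β]; ring

theorem heis {α a b : Rt D} (ha : pr α a = 1) (hb : pr α b = 1) (h : b ≠ io α a) : 0 ≤ pr a b := by
  have := pr_ge hl (α := α) (r := a) (s := b) (by omega)
  by_contra e
  have e := rt_neg1 (show pr a b = -1 by omega)
  exact h (io_eq ha (by rwa [eq_of_two hl (show 2 ≤ pr α (refl a b) by rw [pr_sum e]; omega)] at e))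

theorem pr_sim_le {i j : Nd D} (h : sim j ≠ (sim i : Rt D)) : pr (sim i) (sim j) ≤ 0 := by
  have := ((pos_sim j).sR_pos h).ht_pos
  rw [ht_sR, ht_sim, ← pr_sim_left] at this; omega

theorem split {β : Rt D} (h : Pos β) (h1 : ∀ i, β ≠ sim i) : ∃ a b, Pos a ∧ Pos b ∧ rt β = rt a + rt b := by
  obtain ⟨i, h2, -⟩ := h.exists_wt_pos
  have := le_one hl (h1 i)
  rw [pr_sim_left] at this
  exact ⟨_, _, pos_sim i, h.sR_pos (h1 i), by rw [rt_sR, show wt β i = 1 by omega]; simp⟩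
end

/-- isotropic halves -/
def Lag (α : Rt D) (Λ : Finset (Rt D)) : Prop := ∀ a, (a ∈ Λ → pr α a = 1) ∧ (pr α a = 1 → (a ∈ Λ ↔ io α a ∉ Λ))

theorem Lag.card {α : Rt D} {Λ : Finset (Rt D)} (h : Lag α Λ) : #{a | pr α a = 1} = 2 * #Λ := by
  have e : Λ ⊆ univ.filter (pr α · = 1) := fun a ha => by simpa using (h a).1 ha
  rw [← card_sdiff_add_card_eq_card e, two_mul]
  congr 1
  refine card_nbij' (io α) (io α) (fun a ha => ?_) (fun a ha => ?_) (fun _ _ => io_io ..) fun _ _ => io_io ..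
  · simp only [coe_sdiff, Set.mem_sdiff, coe_filter, mem_coe, Set.mem_ofPred_eq, mem_univ, true_and] at ha ⊢
    exact not_not.1 (mt ((h a).2 ha.1).2 ha.2)
  · simpa using ⟨(h a).1 ha, ((h a).2 ((h a).1 ha)).1 ha⟩

section
variable {G M : Type*} [Group G] [AddCommGroup M] [Module ℂ M] {ρ : Representation ℂ G M} {L : Submodule ℂ M}

theorem scal (h : finrank ℂ L = 1) {g : G} (hg : ∀ v ∈ L, ρ g v ∈ L) {v : M} (hv : v ∈ L) : ∃ l : ℂ, l ≠ 0 ∧ ρ g v = l • v := by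
  by_cases v0 : v = 0
  · exact ⟨1, one_ne_zero, by simp [v0]⟩
  obtain ⟨l, e⟩ := (finrank_eq_one_iff_of_nonzero' (⟨v, hv⟩ : L) (by simpa)).1 h ⟨_, hg v hv⟩
  have e : l • v = ρ g v := congrArg Subtype.val e
  exact ⟨l, by rintro rfl; exact v0 (by simpa using congrArg (ρ g⁻¹) e.symm), e.symm⟩

theorem comm_fix (h : finrank ℂ L = 1) {g k : G} (hg : ∀ v ∈ L, ρ g v ∈ L) (hk : ∀ v ∈ L, ρ k v ∈ L) {v : M} (hv : v ∈ L) : ρ ⁅g, k⁆ v = v := by
  obtain ⟨l, l0, e⟩ := scal h hg hv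
  obtain ⟨m, m0, e'⟩ := scal h hk hv
  have : ρ ⁅g, k⁆ (ρ k (ρ g v)) = ρ g (ρ k v) := by
    simp only [← End.mul_apply, ← map_mul]; congr 2; group
  simp only [e, e', map_smul] at this
  rw [smul_comm m l] at this
  exact smul_right_injective _ m0 (smul_right_injective _ l0 this)
end

variable (D) in
/-- the setting -/
structure St (K G V : Type*) [Field K] [Group G] [AddCommGroup V] [Module ℂ V] where
  A : Sys D K G
  ρ : Representation ℂ G V
  P : Par K K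
  ψ : AddChar K ℂ
  hP : ∀ c s, P.e c s = ψ (c * s)
  hl : ∀ r s : Rt D, pr r s = pr s r

variable {K : Type*} [Field K] [Fintype K] {G : Type*} [Group G] {V : Type*} [AddCommGroup V] [Module ℂ V] [FiniteDimensional ℂ V]

namespace St
variable (S : St D K G V)

/-- root subgroups -/
def Z (r : Rt D) : AddChar K G := ⟨S.A.x r, S.A.x_zero r, S.A.add r⟩
/-- weight spaces -/
def Wt (r : Rt D) (c : K) : Submodule ℂ V := Ws S.ρ (S.Z r) (S.P.e c)
/-- fixed spaces -/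
def Fx (T : Finset (Rt D)) : Submodule ℂ V := ⨅ r ∈ T, S.Wt r 0
/-- stability -/
def Stb (W : Submodule ℂ V) (r : Rt D) : Prop := ∀ t, ∀ v ∈ W, S.ρ (S.A.x r t) v ∈ W

variable {S}
theorem mem_Wt {r : Rt D} {c : K} {v : V} : v ∈ S.Wt r c ↔ ∀ t, S.ρ (S.A.x r t) v = S.ψ (c * t) • v :=
  forall_congr' fun t => by rw [← S.hP]; rfl
theorem mem_Wt0 {r : Rt D} {v : V} : v ∈ S.Wt r 0 ↔ ∀ t, S.ρ (S.A.x r t) v = v := by simp [mem_Wt]
theorem mem_Fx {T : Finset (Rt D)} {v : V} : v ∈ S.Fx T ↔ ∀ r ∈ T, v ∈ S.Wt r 0 := by simp [Fx]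
theorem Fx_insert (a : Rt D) (T : Finset (Rt D)) : S.Fx (insert a T) = S.Fx T ⊓ S.Wt a 0 := by ext; simp [mem_Fx, and_comm]
theorem Wt_ne {r : Rt D} {c d : K} {v : V} (h : v ∈ S.Wt r c) (h' : v ∈ S.Wt r d) (v0 : v ≠ 0) : c = d :=
  S.P.inj (DFunLike.ext _ _ fun s => smul_left_injective ℂ v0 ((h s).symm.trans (h' s)))

variable (S) in
theorem exC {a b r : Rt D} (e : rt r = rt a + rt b) : ∃ C : K, C ≠ 0 ∧ ∀ t u, ⁅S.A.x a t, S.A.x b u⁆ = S.A.x r (C * t * u) := by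
  obtain ⟨C, h1, h2⟩ := cT_one (K := K) S.hl e
  have := pr_of_sum S.hl e
  exact ⟨C, h2, Sys.comm_eq (ne_of_le (by omega)) (ne_ng_of_nonneg (by omega)) h1⟩

theorem st {r β : Rt D} {c : K} {v : V} (hv : v ∈ S.Wt r c) (h1 : -1 ≤ pr r β) (h2 : ∀ k, rt k = rt r + rt β → v ∈ S.Wt k 0) (t : K) :
    S.ρ (S.A.x β t) v ∈ S.Wt r c := by
  by_cases h : 0 ≤ pr r β
  · exact st_comm (x := S.Z r) (fun a => (S.A.comm_of_nonneg S.hl h a t).symm) hv
  have e := rt_neg1 (show pr r β = -1 by omega)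
  obtain ⟨C, -, hC⟩ := S.exC e
  refine st_mod (x := S.Z r) (Z := S.A.X {refl r β}) (fun a => ?_) (fun z hz => ?_) hv
  · change ⁅(S.A.x r a)⁻¹, _⁆ ∈ _
    rw [← x_neg, ← x_neg, hC]; exact S.A.x_mem (Set.mem_singleton _) _
  · obtain ⟨u, rfl⟩ := S.A.mem_X_single.1 hz
    exact mem_Wt0.1 (h2 _ e) u

theorem st0 {r β : Rt D} {c : K} {v : V} (hv : v ∈ S.Wt r c) (h1 : 0 ≤ pr r β) (t : K) : S.ρ (S.A.x β t) v ∈ S.Wt r c :=
  st hv (by omega) (fun k e => by have := pr_of_sum S.hl e; omega) t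

theorem Stb.inf {W W' : Submodule ℂ V} {r : Rt D} (h : S.Stb W r) (h' : S.Stb W' r) : S.Stb (W ⊓ W') r := fun t v hv => ⟨h t v hv.1, h' t v hv.2⟩
theorem stb_Fx {T : Finset (Rt D)} {r : Rt D} (h : ∀ s ∈ T, 0 ≤ pr s r) : S.Stb (S.Fx T) r := fun t _ hv =>
  mem_Fx.2 fun s hs => st0 (mem_Fx.1 hv s hs) (h s hs) t

theorem sh {α a b : Rt D} (e : rt α = rt a + rt b) :
    ∃ C : K, C ≠ 0 ∧ ∀ c d u v, v ∈ S.Wt α c → v ∈ S.Wt b d → S.ρ (S.A.x a u) v ∈ S.Wt b (d - c * C * u) := by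
  obtain ⟨C, C0, hC⟩ := S.exC e
  refine ⟨C, C0, fun c d u v h1 h2 => ?_⟩
  have := shear S.hP (g := S.A.x a (-u)) (u := C * -u) (z := S.Z α) (w := S.Z b) (fun s => by
    change _ * S.A.x b s * _ = S.A.x α _ * S.A.x b s
    rw [← hC]; group) h1 h2
  rwa [x_neg, inv_inv, mul_neg, mul_neg, ← sub_eq_add_neg, ← mul_assoc] at this

theorem h1 {W : Submodule ℂ V} {α a b : Rt D} {c : K} (hW : W ≤ S.Wt α c) (c0 : c ≠ 0) (e : rt α = rt a + rt b) (ha : S.Stb W a) (hb : S.Stb W b) :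
    finrank ℂ W = Fintype.card K * finrank ℂ ↥(W ⊓ S.Wt b 0) := by
  obtain ⟨C, C0, hC⟩ := sh (S := S) e
  have k : ∀ d d', finrank ℂ ↥(W ⊓ S.Wt b d) ≤ finrank ℂ ↥(W ⊓ S.Wt b d') := fun d d' =>
    fr_le (S.A.x a ((d - d') / (c * C))) fun v hv => ⟨ha _ v hv.1, by simpa [mul_div_cancel₀, c0, C0] using hC c d ((d - d') / (c * C)) v (hW hv.1) hv.2⟩
  rw [← sum_Ws S.P (ρ := S.ρ) (x := S.Z b) hb]
  exact (sum_congr rfl fun d _ => (k d 0).antisymm (k 0 d)).trans (by simp)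

theorem h2 {W : Submodule ℂ V} {α : Rt D} {c : K} (hW : W ≤ S.Wt α c) (c0 : c ≠ 0) (T : Finset (Rt D))
    (hT : ∀ a ∈ T, pr α a = 1 ∧ io α a ∉ T ∧ S.Stb W a ∧ S.Stb W (io α a)) : finrank ℂ W = Fintype.card K ^ #T * finrank ℂ ↥(W ⊓ S.Fx T) := by
  induction T using Finset.induction_on with
  | empty => rw [show W ⊓ S.Fx ∅ = W by simp [Fx]]; simp
  | insert a T ha ih =>
    have k := fun s hs => hT s (mem_insert_of_mem hs)
    obtain ⟨a1, a2, a3, a4⟩ := hT a (mem_insert_self ..)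
    rw [ih fun s hs => ⟨(k s hs).1, fun e => (k s hs).2.1 (mem_insert_of_mem e), (k s hs).2.2⟩, card_insert_of_notMem ha, pow_succ, mul_assoc,
      Fx_insert, ← inf_assoc, h1 (inf_le_left.trans hW) c0 ((rt_io a1).trans (add_comm ..))
      (a4.inf (stb_Fx fun s hs => heis S.hl (k s hs).1 (by simpa) fun e => ha (by rwa [← io_io α a, e, io_io])))
      (a3.inf (stb_Fx fun s hs => heis S.hl (k s hs).1 a1 fun e => a2 (by simp [e, hs])))]

theorem pj_stb {W : Submodule ℂ V} {a : Rt D} (h : S.Stb W a) {v : V} (hv : v ∈ W) (c : K) : pj S.ρ (S.Z a) (S.P.e c) v ∈ W := by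
  simp only [pj, LinearMap.smul_apply, LinearMap.sum_apply]
  exact W.smul_mem _ (W.sum_mem fun t _ => W.smul_mem _ (h t v hv))

theorem flip {α : Rt D} {c : K} (c0 : c ≠ 0) {g : G} {l : ℂ} (T : Finset (Rt D)) (hT : ∀ a ∈ T, pr α a = 1 ∧ io α a ∉ T ∧ ∀ t, Commute g (S.A.x a t))
    {v : V} (v0 : v ≠ 0) (h1 : v ∈ S.Wt α c) (h2 : ∀ a ∈ T, v ∈ S.Wt (io α a) 0) (h3 : S.ρ g v = l • v) :
    ∃ w ≠ 0, w ∈ S.Wt α c ∧ S.ρ g w = l • w ∧ w ∈ S.Fx T ∧ ∀ r, pr α r = 1 → io α r ∉ T → v ∈ S.Wt r 0 → w ∈ S.Wt r 0 := by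
  induction T using Finset.induction_on with
  | empty => exact ⟨v, v0, h1, h3, by simp [Fx], fun _ _ _ h => h⟩
  | insert a T ha ih =>
    have k := fun s hs => hT s (mem_insert_of_mem hs)
    obtain ⟨a1, a2, a3⟩ := hT a (mem_insert_self ..)
    obtain ⟨w, w0, b1, b2, b3, b4⟩ := ih (fun s hs => ⟨(k s hs).1, fun e => (k s hs).2.1 (mem_insert_of_mem e), (k s hs).2.2⟩)
      fun s hs => h2 s (mem_insert_of_mem hs)
    have b5 := b4 (io α a) (by simpa) (by simpa) (h2 a (mem_insert_self ..))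
    have m : ∀ r d, 0 ≤ pr r a → w ∈ S.Wt r d → pj S.ρ (S.Z a) (S.P.e 0) w ∈ S.Wt r d := fun r d h hw =>
      pj_stb (fun t _ hv => st0 hv h t) hw 0
    refine ⟨pj S.ρ (S.Z a) (S.P.e 0) w, fun e => w0 ?_, m _ _ (by omega) b1, ?_, ?_, fun r r1 r2 r3 => m _ _
      (heis S.hl r1 a1 fun e => r2 (by simp [← e])) (b4 r r1 (fun e => r2 (mem_insert_of_mem e)) r3)⟩
    · obtain ⟨C, C0, hC⟩ := sh (S := S) (rt_io a1)
      have := congrArg (pj S.ρ (S.Z (io α a)) (S.P.e 0)) e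
      rw [pj.eq_def S.ρ (S.Z a), LinearMap.smul_apply, LinearMap.sum_apply, map_smul, map_sum, map_zero, sum_eq_single 0 (fun t _ t0 => ?_) (by simp)] at this
      · simpa [pj_of_mem b5] using this
      have b6 := hC c 0 t w b1 b5
      rw [LinearMap.smul_apply, map_smul, smul_eq_zero]
      exact Or.inr (by_contra fun e => by simpa [c0, C0, t0] using Wt_ne (pj_stb (fun t _ hv => st0 hv (by simp) t) b6 0) (pj_mem _ _ _ _) e)
    · simp only [pj, LinearMap.smul_apply, LinearMap.sum_apply, map_smul, map_sum, smul_comm l, smul_sum (r := l)]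
      refine congrArg _ (sum_congr rfl fun t _ => congrArg _ ?_)
      change S.ρ g (S.ρ (S.A.x a t) w) = l • S.ρ (S.A.x a t) w
      rw [← End.mul_apply, ← map_mul, a3 t, map_mul, End.mul_apply, b2, map_smul]
    · rw [Fx_insert]
      exact ⟨mem_Fx.2 fun s hs => m _ _ (heis S.hl (k s hs).1 a1 fun e => a2 (by simp [e, hs])) (mem_Fx.1 b3 s hs), pj_mem _ _ _ _⟩

end St

end CA.DegE
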