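/-
Character degrees of simply laced Chevalley groups: the filtration by root subgroups.
-/
import Cfsg.Agent.Lib.Lie.DegE1

set_option autoImplicit false
set_option linter.unusedSectionVars false

namespace CA.DegE

open Cfsg CA.Wt CA.DegO CA.DegT Finset Module Cfsg.Lie CA.Chev CA.Chev.Sys0 CA.TwM
open scoped commutatorElement

variable {D : ChevalleyDatum} [Good D]

/-- the positive roots at angle `π / 3` to a simple root -/
def L0 (j : Nd D) : Finset (Rt D) := {r | Pos r ∧ pr (sim j) r = 1}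

theorem mem_L0 {j : Nd D} {r : Rt D} : r ∈ L0 j ↔ Pos r ∧ pr (sim j) r = 1 := by simp [L0]

theorem lag0 (j : Nd D) : Lag (sim j) (L0 j) := fun a => ⟨fun h => (mem_L0.1 h).2, fun h => by
  simp only [mem_L0, h, pr_io, and_true]
  rw [io, refl_sim, not_pos_ng]
  refine ⟨fun e => e.sR_pos (ne_of_le h.le), fun e => ?_⟩
  simpa using e.sR_pos (i := j) (ne_of_le (by rw [← refl_sim, pr_refl_right]; omega))⟩

theorem exists_half (hl : ∀ r s : Rt D, pr r s = pr s r) {α : Rt D} (h : Pos α) :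
    ∃ T : Finset (Rt D), (#T : ℤ) + 1 = ht α ∧ ∀ a ∈ T, pr α a = 1 ∧ io α a ∉ T ∧ Pos a ∧ Pos (io α a) := by
  refine Pos.induction (P := fun α => ∃ T : Finset (Rt D), (#T : ℤ) + 1 = ht α ∧ ∀ a ∈ T, pr α a = 1 ∧ io α a ∉ T ∧ Pos a ∧ Pos (io α a))
    (fun i => ⟨∅, by simp, by simp⟩) (fun r i h1 h2 h3 _ ⟨T, a1, a2⟩ => ?_) h
  have b1 : pr (sim i) r = 1 := by have := le_one hl h2; rw [pr_sim_left] at this ⊢; omega
  have b2 : pr (sR i r) (sim i) = -1 := by rw [hl, ← refl_sim, pr_refl_right, b1]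
  have b3 : ∀ a, io r (sR i a) = sR i (io (sR i r) a) := fun a => by rw [← io_map (sR_mem_RA i), sR_sR]
  have b4 : sim i ∉ T.map (sR i).toEmbedding := by
    simp only [mem_map_equiv, ← Equiv.Perm.inv_def, sR_inv, sR_sim]
    exact fun e => (pos_ng _).1 (a2 _ e).2.2.1 (pos_sim i)
  have b5 : io r (sim i) = sR i r := (io_eq (hl r _ ▸ b1) (by rw [rt_sR, ← pr_sim_left, b1]; simp)).symm
  refine ⟨insert (sim i) (T.map (sR i).toEmbedding), ?_, forall_mem_insert .. |>.2 ⟨⟨hl r _ ▸ b1, ?_, pos_sim i, b5 ▸ h1.sR_pos h2⟩, ?_⟩⟩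
  · rw [card_insert_of_notMem b4, card_map]
    rw [ht_sR, ← pr_sim_left] at a1; push_cast; omega
  · simp only [b5, mem_insert, mem_map_equiv, ← Equiv.Perm.inv_def, sR_inv, sR_sR, not_or]
    refine ⟨fun e => by simp [e] at b2, fun e => ?_⟩
    have := (a2 _ e).2.2.2
    rw [← sR_sR i (io _ _), ← b3, ← b5, io_io, sR_sim] at this
    exact (pos_ng _).1 this (pos_sim i)
  · simp only [mem_map, Equiv.coe_toEmbedding]
    rintro _ ⟨a, ha, rfl⟩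
    obtain ⟨c1, c2, c3, c4⟩ := a2 a ha
    refine ⟨by rwa [← pr_sR i, sR_sR], ?_, c3.sR_pos (by rintro rfl; omega), b3 a ▸ c4.sR_pos fun e => by have := pr_io (sR i r) a; rw [e] at this; omega⟩
    simp only [b3, mem_insert, mem_map_equiv, ← Equiv.Perm.inv_def, sR_inv, sR_sR, not_or]
    refine ⟨fun e => ?_, c2⟩
    rw [← sR_sR i (io _ _), e, sR_sim] at c4
    exact (pos_ng _).1 c4 (pos_sim i)

variable {K : Type*} [Field K] [Fintype K] {G : Type*} [Group G] {V : Type*} [AddCommGroup V] [Module ℂ V] [FiniteDimensional ℂ V]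

namespace St
variable {S : St D K G V}

theorem cm {L : Submodule ℂ V} (h : finrank ℂ L = 1) {a b r : Rt D} (e : rt r = rt a + rt b) (ha : S.Stb L a) (hb : S.Stb L b) : L ≤ S.Wt r 0 := fun v hv => by
  obtain ⟨C, C0, hC⟩ := S.exC e
  exact mem_Wt0.2 fun t => by simpa [hC, C0] using comm_fix h (ha 1) (hb (C⁻¹ * t)) hv

theorem stbL {α β : Rt D} {c : K} {Λ : Finset (Rt D)}
    (h : ∀ r ∈ insert α Λ, -1 ≤ pr r β ∧ ∀ k, rt k = rt r + rt β → S.Wt α c ⊓ S.Fx Λ ≤ S.Wt k 0) : S.Stb (S.Wt α c ⊓ S.Fx Λ) β := fun t _ hv =>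
  ⟨st hv.1 (h α (mem_insert_self ..)).1 (fun k e => (h α (mem_insert_self ..)).2 k e hv) t, mem_Fx.2 fun r hr =>
    st (mem_Fx.1 hv.2 r hr) (h r (mem_insert_of_mem hr)).1 (fun k e => (h r (mem_insert_of_mem hr)).2 k e hv) t⟩

theorem le_of_mem {α k : Rt D} {c : K} {Λ : Finset (Rt D)} (h : k ∈ Λ) : S.Wt α c ⊓ S.Fx Λ ≤ S.Wt k 0 := fun _ hv => mem_Fx.1 hv.2 k h

theorem stb0 {α β : Rt D} {c : K} {Λ : Finset (Rt D)} (hΛ : Lag α Λ) (h : pr α β = 0) (hn : ∀ r ∈ Λ, ∀ k, rt k = rt r + rt β → k ∈ Λ) :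
    S.Stb (S.Wt α c ⊓ S.Fx Λ) β := stbL (forall_mem_insert .. |>.2 ⟨⟨by omega, fun k e => by have := pr_of_sum S.hl e; omega⟩, fun r hr =>
      ⟨pr_ge S.hl (α := α) (by have := (hΛ r).1 hr; omega), fun k e => le_of_mem (hn r hr k e)⟩⟩)

theorem fr_eq {α : Rt D} {c : K} (c0 : c ≠ 0) {Λ : Finset (Rt D)} (hΛ : Lag α Λ) :
    finrank ℂ (S.Wt α c) = Fintype.card K ^ #Λ * finrank ℂ ↥(S.Wt α c ⊓ S.Fx Λ) :=
  h2 le_rfl c0 Λ fun a ha => have k := (hΛ a).1 ha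
    ⟨k, ((hΛ a).2 k).1 ha, fun t _ hv => st0 hv (by omega) t, fun t _ hv => st0 hv (by simp [k]) t⟩

variable (S) in
/-- all weight spaces are irreducible for the Heisenberg group -/
def One (α : Rt D) : Prop := ∀ c ≠ 0, ∀ Λ, Lag α Λ → finrank ℂ ↥(S.Wt α c ⊓ S.Fx Λ) = 1

variable (hs : ∀ r s : Rt D, 0 ≤ pr r s → ∃ a b, rt s = rt a + rt b ∧ 0 ≤ pr r a ∧ 0 ≤ pr r b)
include hs

theorem fixb {α β : Rt D} (h1 : S.One α) {c : K} (c0 : c ≠ 0) {Λ : Finset (Rt D)} (hΛ : Lag α Λ) (h : pr α β = 0)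
    (hn : ∀ r ∈ Λ, ∀ k, rt k = rt r + rt β → k ∈ Λ) : S.Wt α c ⊓ S.Fx Λ ≤ S.Wt β 0 := fun v hv => mem_Wt0.2 fun t => by
  by_cases v0 : v = 0
  · simp [v0]
  obtain ⟨l, -, e⟩ := scal (h1 c c0 Λ hΛ) (stb0 hΛ h hn t) hv
  have a1 : ∀ a, pr α a = 1 → pr (io α a) β = -pr a β := fun a ha => by rw [pr_io' S.hl ha, h, zero_sub]
  obtain ⟨w, w0, b1, b2, b3, b4⟩ := flip c0 {a | pr α a = 1 ∧ pr a β = 1 ∧ a ∉ Λ} (fun a ha => by
      simp only [mem_filter, mem_univ, true_and] at ha ⊢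
      exact ⟨ha.1, fun e => by have := a1 a ha.1; omega, fun u => (S.A.comm_of_nonneg S.hl (by omega) u t).symm⟩) v0 hv.1 (fun a ha => by
      simp only [mem_filter, mem_univ, true_and] at ha
      exact mem_Fx.1 hv.2 _ (not_not.1 (mt ((hΛ a).2 ha.1).2 ha.2.2))) e
  let Λ' : Finset (Rt D) := {a | pr α a = 1 ∧ (pr a β = 1 ∨ pr a β = 0 ∧ a ∈ Λ)}
  have m : ∀ a, a ∈ Λ' ↔ pr α a = 1 ∧ (pr a β = 1 ∨ pr a β = 0 ∧ a ∈ Λ) := by simp [Λ']
  have a2 : Lag α Λ' := fun a => ⟨fun ha => ((m a).1 ha).1, fun ha => by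
    have := pr_ge S.hl (α := α) (r := a) (s := β) (by omega)
    have := le_one S.hl (r := a) (s := β) (by rintro rfl; omega)
    rw [m, m, pr_io, a1 a ha, (hΛ a).2 ha]
    by_cases io α a ∈ Λ <;> simp [*] <;> omega⟩
  have a3 : ∀ a b, rt β = rt a + rt b → pr α a = 0 → S.Stb (S.Wt α c ⊓ S.Fx Λ') a := fun a b e ha => stb0 a2 ha fun r hr k e' => by
    have c1 := pr_sum e a
    have c2 := pr_sum e' α
    have c3 := pr_sum e' β
    rw [m] at hr ⊢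
    rw [pr_self, pr_of_sum S.hl e, S.hl] at c1
    have := le_one S.hl (r := β) (s := k) (by rintro rfl; omega)
    rw [S.hl k, S.hl r] at *
    omega
  obtain ⟨a, b, e1, e2, e3⟩ := hs α β h.ge
  have := pr_sum e1 α
  have := mem_Wt0.1 (cm (h1 c c0 Λ' a2) e1 (a3 a b e1 (by omega)) (a3 b a (e1.trans (add_comm ..)) (by omega)) (x := w) ⟨b1, mem_Fx.2 fun r hr => ?_⟩) t
  · rw [e, smul_left_injective ℂ w0 (b2.symm.trans (this.trans (one_smul ℂ w).symm)), one_smul]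
  rw [m] at hr
  by_cases r1 : r ∈ Λ
  · exact b4 r hr.1 (fun e => by have := a1 r hr.1; simp only [mem_filter] at e; omega) (mem_Fx.1 hv.2 r r1)
  · exact mem_Fx.1 b3 r (by simpa [hr.1, r1] using hr.2)

section
variable {j : Nd D} (h1 : S.One (sim j)) {c : K} (c0 : c ≠ 0)
include h1 c0

theorem f0 {β : Rt D} (h : Pos β) (e : 0 ≤ pr (sim j) β) (n : β ≠ sim j) : S.Wt (sim j) c ⊓ S.Fx (L0 j) ≤ S.Wt β 0 := by
  have := le_one S.hl n
  by_cases e1 : pr (sim j) β = 1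
  · exact le_of_mem (mem_L0.2 ⟨h, e1⟩)
  refine fixb hs h1 c0 (lag0 j) (by omega) fun r hr k e' => ?_
  rw [mem_L0] at hr ⊢
  exact ⟨pos_add e' hr.1 h, by rw [pr_sum e']; omega⟩

theorem s0 {β : Rt D} (h : Pos β) (n : β ≠ sim j) : S.Stb (S.Wt (sim j) c ⊓ S.Fx (L0 j)) β := by
  have a1 := neg_one_le S.hl (r := sim j) (s := β) (by rintro rfl; exact (pos_ng _).1 h (pos_sim j))
  refine stbL fun r hr => ?_
  have a2 : Pos r ∧ 1 ≤ pr (sim j) r := by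
    rcases mem_insert.1 hr with rfl | hr
    exacts [⟨pos_sim j, by simp⟩, ⟨(mem_L0.1 hr).1, (mem_L0.1 hr).2.ge⟩]
  refine ⟨neg_one_le S.hl (by rintro rfl; exact (pos_ng _).1 h a2.1), fun k e => f0 hs h1 c0 (pos_add e a2.1 h) (by rw [pr_sum e]; omega) ?_⟩
  rintro rfl
  have := ht_add e
  have := h.ht_pos
  have := a2.1.ht_pos
  simp only [ht_sim] at *; omega

theorem f1 {β : Rt D} (h : Pos β) (n : ∀ i, β ≠ sim i) : S.Wt (sim j) c ⊓ S.Fx (L0 j) ≤ S.Wt β 0 := by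
  by_cases e : 0 ≤ pr (sim j) β
  · exact f0 hs h1 c0 h e (n j)
  obtain ⟨a, b, ha, hb, e1⟩ := split S.hl h n
  have := pr_sum e1 (sim j)
  have k := pr_of_sum S.hl e1
  exact cm (h1 c c0 _ (lag0 j)) e1 (s0 hs h1 c0 ha (by rintro rfl; simp at this; omega)) (s0 hs h1 c0 hb (by rintro rfl; rw [S.hl] at k; simp at this; omega))

theorem f2 {i k : Nd D} (e0 : pr (sim j) (sim i) = -1) (e1 : pr (sim k) (sim i) = -1) (e2 : pr (sim j) (sim k) = 0) :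
    S.Wt (sim j) c ⊓ S.Fx (L0 j) ≤ S.Wt (sim i) 0 := by
  have e := rt_neg1 e1
  refine cm (h1 c c0 _ (lag0 j)) (a := refl (sim k) (sim i)) (b := ng (sim k)) (by simp [e]) (s0 hs h1 c0 (pos_add e (pos_sim k) (pos_sim i)) fun n => ?_)
    (stb0 (lag0 j) (by simp [e2]) fun r hr m e' => ?_)
  · have := pr_sum e (sim j)
    rw [n, pr_self] at this; omega
  rw [mem_L0] at hr ⊢
  have a1 := pr_of_sum S.hl e'
  rw [pr_ng_right, S.hl] at a1
  refine ⟨?_, by simp [pr_sum e', hr.2, e2]⟩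
  rw [show m = sR k r from rt_injective (by rw [e', rt_sR, ← pr_sim_left, neg_inj.1 a1]; simp [sub_eq_add_neg])]
  exact hr.1.sR_pos (by rintro rfl; omega)
end

variable (h1 : ∀ j, S.One (sim j)) (hd : ∀ i j : Nd D, pr (sim j) (sim i) = -1 →
  (∃ k, pr (sim k) (sim i) = -1 ∧ pr (sim j) (sim k) = 0) ∨ ∃ k, pr (sim k) (sim j) = -1 ∧ pr (sim i) (sim k) = 0)
include h1 hd

theorem f3 {j : Nd D} {c : K} (c0 : c ≠ 0) {β : Rt D} (h : Pos β) (n : β ≠ sim j) : S.Wt (sim j) c ⊓ S.Fx (L0 j) ≤ S.Wt β 0 := by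
  by_cases e : 0 ≤ pr (sim j) β
  · exact f0 hs (h1 j) c0 h e n
  by_cases e1 : ∀ i, β ≠ sim i
  · exact f1 hs (h1 j) c0 h e1
  obtain ⟨i, rfl⟩ : ∃ i, β = sim i := by simpa using e1
  have e2 : pr (sim j) (sim i) = -1 := by have := neg_one_le S.hl (r := sim j) (s := sim i) (fun e => (pos_ng _).1 (e ▸ h) (pos_sim j)); omega
  rcases hd i j e2 with ⟨k, k1, k2⟩ | ⟨k, k1, k2⟩
  · exact f2 hs (h1 j) c0 e2 k1 k2
  have a1 := h1 j c c0 _ (lag0 j)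
  obtain ⟨y, hy⟩ := exists_Ws S.P (ρ := S.ρ) (x := S.Z (sim i)) (a1 ▸ one_ne_zero) (s0 hs (h1 j) c0 h n)
  obtain ⟨v, hv, v0⟩ := Submodule.exists_mem_ne_zero_of_ne_bot (mt Submodule.finrank_eq_zero.2 hy)
  obtain rfl : y = 0 := by_contra fun y0 => c0 (Wt_ne hv.1.1 (f2 hs (h1 i) y0 (S.hl _ _ ▸ e2) k1 k2 ⟨hv.2, mem_Fx.2 fun r hr =>
    f1 hs (h1 j) c0 (mem_L0.1 hr).1 (fun m e => by
      have a := (mem_L0.1 hr).2
      have := pr_sim_le S.hl (i := i) (j := m) (e ▸ ne_of_le a.le)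
      rw [e] at a; omega) hv.1⟩) v0)
  exact inf_eq_left.1 (Submodule.eq_of_le_of_finrank_le inf_le_left (a1.trans_le (Nat.one_le_iff_ne_zero.2 hy)))

omit hs h1 hd in
theorem tr_Wt {g : G} {w : Equiv.Perm (Rt D)} (h : S.A.Act g w) (s : Rt D) : ∃ e : Kˣ, ∀ c v, v ∈ S.Wt s (c * e) → S.ρ g v ∈ S.Wt (w s) c := by
  obtain ⟨e, he⟩ := h.conj_x s
  refine ⟨e, fun c v hv => mem_Wt.2 fun t => ?_⟩
  have := he ((e : K)⁻¹ * t)
  rw [mul_inv_cancel_left₀ e.ne_zero] at this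
  rw [← this, ← End.mul_apply, ← map_mul, inv_mul_cancel_right, map_mul, End.mul_apply, mem_Wt.1 hv, map_smul, mul_assoc, mul_inv_cancel_left₀ e.ne_zero]

theorem exists_v {α : Rt D} (h : Pos α) : ∀ c ≠ 0, ∃ v ≠ 0, v ∈ S.Wt α c ∧ ∀ β, ht α ≤ ht β → β ≠ α → v ∈ S.Wt β 0 := by
  refine Pos.induction (P := fun α => ∀ c ≠ 0, ∃ v ≠ 0, v ∈ S.Wt α c ∧ ∀ β, ht α ≤ ht β → β ≠ α → v ∈ S.Wt β 0)
    (fun j c c0 => ?_) (fun r i a1 a2 a3 _ ih c c0 => ?_) h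
  · obtain ⟨v, hv, v0⟩ := Submodule.exists_mem_ne_zero_of_ne_bot (mt Submodule.finrank_eq_zero.2 (h1 j c c0 _ (lag0 j) ▸ one_ne_zero))
    exact ⟨v, v0, hv.1, fun β e n => f3 hs h1 hd c0 ((pos_iff_ht β).2 (by rw [ht_sim] at e; omega)) n hv⟩
  have k := tr_Wt (S.A.act_sim i 1)
  obtain ⟨e, he⟩ := k (sR i r)
  obtain ⟨v, v0, b1, b2⟩ := ih (c * e) (by simp [c0])
  refine ⟨S.ρ (S.A.n (sim i) 1) v, fun e => v0 (by simpa using congrArg (S.ρ (S.A.n (sim i) 1)⁻¹) e), by simpa using he c v b1, fun β e n => ?_⟩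
  obtain ⟨e', he'⟩ := k (sR i β)
  have := (a1.sR_pos a2).ht_pos
  have := le_one S.hl (r := sim i) (s := β) (by rintro rfl; rw [ht_sR] at this; rw [ht_sim] at e; omega)
  simpa using he' 0 v (by simpa using b2 _ (by rw [ht_sR, ht_sR, ← pr_sim_left i β]; omega) (mt (sR i).injective.eq_iff.1 n))

theorem filt (T : Finset (Rt D)) : (∀ β ∈ T, Pos β ∧ ∀ γ, ht β < ht γ → γ ∈ T) →
    finrank ℂ (S.Fx T) + (Fintype.card K - 1) * ∑ α ∈ T, Fintype.card K ^ ((ht α).toNat - 1) ≤ finrank ℂ V := by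
  classical
  refine induction_on_min_value ht T (fun _ => by simpa using Submodule.finrank_le _) fun α T ha hm ih hT => le_trans ?_ (ih fun β hβ =>
    ⟨(hT β (mem_insert_of_mem hβ)).1, fun γ e => (mem_insert.1 ((hT β (mem_insert_of_mem hβ)).2 γ e)).resolve_left (by rintro rfl; exact e.not_ge (hm β hβ))⟩)
  obtain ⟨a1, a2⟩ := hT α (mem_insert_self ..)
  have a3 : ∀ β ∈ insert α T, ∀ r c, Pos r → ∀ v ∈ S.Fx T, v ∈ S.Wt β c → ∀ t, S.ρ (S.A.x r t) v ∈ S.Wt β c := fun β hβ r c hr v hv h t =>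
    st h (neg_one_le S.hl (by rintro rfl; exact (pos_ng _).1 hr (hT β hβ).1)) (fun k e => mem_Fx.1 hv k (by
      have := ht_add e
      have := hr.ht_pos
      have : ht α ≤ ht β := (mem_insert.1 hβ).elim (fun e => e ▸ le_rfl) (hm β)
      exact (mem_insert.1 (a2 k (by omega))).resolve_left (by rintro rfl; omega))) t
  have a4 : ∀ r, Pos r → S.Stb (S.Fx T) r := fun r hr t v hv => mem_Fx.2 fun β hβ => a3 β (mem_insert_of_mem hβ) r 0 hr v hv (mem_Fx.1 hv β hβ) t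
  obtain ⟨U, u1, u2⟩ := exists_half S.hl a1
  rw [sum_insert ha, mul_add, ← add_assoc, Nat.add_le_add_iff_right, ← sum_Ws S.P (ρ := S.ρ) (x := S.Z α) (a4 α a1), ← add_sum_erase _ _ (mem_univ 0), Fx_insert,
    ← card_univ, ← card_erase_of_mem (mem_univ (0 : K)), ← smul_eq_mul, ← sum_const]
  refine Nat.add_le_add_left (sum_le_sum fun c hc => ?_) _
  have c0 := ne_of_mem_erase hc
  have a5 : ∀ r, Pos r → S.Stb (S.Fx T ⊓ S.Wt α c) r := fun r hr t v hv => ⟨a4 r hr t v hv.1, a3 α (mem_insert_self ..) r c hr v hv.1 hv.2 t⟩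
  have a6 := h2 inf_le_right c0 U fun a ha => ⟨(u2 a ha).1, (u2 a ha).2.1, a5 a (u2 a ha).2.2.1, a5 _ (u2 a ha).2.2.2⟩
  obtain ⟨v, v0, b1, b2⟩ := exists_v hs h1 hd a1 c c0
  have a7 : finrank ℂ ↥(S.Fx T ⊓ S.Wt α c) ≠ 0 := mt Submodule.finrank_eq_zero.1 (Submodule.ne_bot_iff _ |>.2
    ⟨v, ⟨mem_Fx.2 fun β hβ => b2 β (hm β hβ) (by rintro rfl; exact ha hβ), b1⟩, v0⟩)
  rw [a6] at a7
  rw [card_univ, show (ht α).toNat - 1 = #U by omega]
  exact (Nat.le_mul_of_pos_right _ (Nat.pos_of_ne_zero (right_ne_zero_of_mul a7))).trans a6.ge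

end St

end CA.DegE
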