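/-
Character degrees of simply laced Chevalley groups: the class of root elements.
-/
import Cfsg.Agent.Lib.Lie.DegE2
import Cfsg.Agent.Lib.Lie.ChevOrdCert

set_option autoImplicit false
set_option linter.unusedSectionVars false

namespace CA.DegE

open Cfsg CA.DegO CA.DegT Finset Module Cfsg.Lie CA.Chev CA.Chev.Sys0 CA.TwM CChar.CharInt CChar.CharKer

theorem class_dvd {G : Type*} [Group G] [Finite G] {χ : G → ℂ} (hχ : IsIrrCharacter G χ) {D N E i : ℕ} (hD : χ 1 = D) {z : G} (hz : χ z = D - N)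
    {H : Subgroup G} (hH : ∀ g ∈ H, g * z * g⁻¹ = z) (e : Nat.card G * i = E * Nat.card H) : D ∣ E * N := by
  classical
  have := Fintype.ofFinite G
  have h2 := isIntegral_sum_mul_div hχ (f := fun g => if IsConj z g then 1 else 0) (fun g k => by
    have : IsConj z (k * g * k⁻¹) ↔ IsConj z g := ⟨fun e => e.trans (isConj_iff.2 ⟨k, rfl⟩).symm, fun e => e.trans (isConj_iff.2 ⟨k, rfl⟩)⟩
    simp only [this]) fun g => by split_ifs; exacts [isIntegral_one, isIntegral_zero]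
  have h3 : ∑ g, (if IsConj z g then (1 : ℂ) else 0) * χ g = ((#{g | IsConj z g} * (D - N) : ℤ) : ℂ) := by
    rw [sum_congr rfl (g := fun g => if IsConj z g then (D - N : ℂ) else 0) fun g _ => by
      split_ifs with h
      · obtain ⟨k, rfl⟩ := isConj_iff.1 h
        obtain ⟨n, ρ, -, rfl⟩ := hχ
        rw [one_mul, ρ.char_conj, hz]
      · rw [zero_mul], ← sum_filter, sum_const, nsmul_eq_mul]
    push_cast; rfl
  have hd0 : D ≠ 0 := by rintro rfl; exact CChar.CharFun.irr_apply_one_ne_zero hχ (by simpa using hD)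
  rw [h3, hD, ← Int.cast_natCast] at h2
  have h4 := int_dvd_of_isIntegral_div (by exact_mod_cast hd0) h2
  rw [mul_sub, dvd_sub_right (dvd_mul_left _ _)] at h4
  refine (Int.natCast_dvd_natCast.1 (by push_cast; exact h4)).trans (Nat.mul_dvd_mul_right ?_ N)
  have h5 : #{g | IsConj z g} * Nat.card (Subgroup.centralizer {z}) = Nat.card G := by
    rw [← Subgroup.index_mul_card (Subgroup.centralizer {z}), ← CChar.CharOrth.card_class_eq_index]
  obtain ⟨m, hm⟩ : Nat.card H ∣ Nat.card (Subgroup.centralizer {z}) := Subgroup.card_dvd_of_le fun g hg =>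
    Subgroup.mem_centralizer_singleton_iff.2 (mul_inv_eq_iff_eq_mul.1 (hH g hg))
  rw [← h5, hm] at e
  exact ⟨m * i, Nat.eq_of_mul_eq_mul_right (Nat.card_pos (α := H)) (by rw [← e]; ring)⟩

variable {D : ChevalleyDatum} [Good D] {K : Type*} [Field K] [Fintype K] {G : Type*} [Group G]

/-- the normalizer of a root subgroup -/
def Nr (A : Sys D K G) (θ : Rt D) : Subgroup G where
  carrier := {g | ∃ c : Kˣ, ∀ u, g * A.x θ u * g⁻¹ = A.x θ (c * u)}
  one_mem' := ⟨1, by simp⟩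
  mul_mem' := fun {a b} ⟨c, hc⟩ ⟨d, hd⟩ => ⟨d * c, fun u => by
    rw [show a * b * A.x θ u * (a * b)⁻¹ = a * (b * A.x θ u * b⁻¹) * a⁻¹ by group, hd, hc]; simp [mul_left_comm, mul_assoc]⟩
  inv_mem' := fun {a} ⟨c, hc⟩ => ⟨c⁻¹, fun u => by
    have := hc ((c⁻¹ : Kˣ) * u)
    rw [Units.mul_inv_cancel_left] at this
    rw [← this]; group⟩

theorem card_Nr (A : Sys D K G) (hG : A.G = ⊤) (hl : ∀ r s : Rt D, pr r s = pr s r) {θ : Rt D} (hθ : ∀ j, 0 ≤ wt θ j) :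
    Nat.card (Nr A θ) = Nat.card A.B * poin {j | wt θ j = 0} (Nat.card K) := by
  classical
  have : Fintype (WJ {j | wt θ j = 0}) := Fintype.ofFinite _
  choose m hm hw using fun w : WJ {j | wt θ j = 0} => A.exists_N (WJ_le _ w.2)
  have hc : ∀ w : WJ {j | wt θ j = 0}, Nat.card (A.X (invs w.1)) = Nat.card K ^ lg w.1 := fun w => by
    rw [A.card_X (Sys.nil_invs (W_le_RA (WJ_le _ w.2))), Set.ncard_coe_finset, lg]
  have : ∀ w : WJ {j | wt θ j = 0}, Finite (A.X (invs w.1)) := fun w =>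
    Nat.finite_of_card_ne_zero (by rw [hc]; exact pow_ne_zero _ Nat.card_pos.ne')
  have hB : A.B ≤ Nr A θ := sup_le (A.X_le.2 fun r hr t => ⟨1, fun u => by
      simpa using (A.comm_of_nonneg hl (pr_nonneg_of_dom (J := Set.univ) (fun j _ => hθ j) hr fun i hi => (hi trivial).elim) t u).mul_inv_cancel⟩)
    (A.H_le.2 fun r t => ⟨t ^ pr r θ, fun u => by simpa using A.h_conj r θ t u⟩)
  have hU : ∀ w : Equiv.Perm (Rt D), A.X (invs w) ≤ A.B := fun w => (A.X_mono fun r hr => (mem_invs.1 hr).1).trans A.U_le_B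
  rw [poin, finsum_eq_sum_of_fintype, ← Finset.sum_congr rfl fun w _ => hc w, ← Nat.card_sigma, ← Nat.card_prod]
  refine (Nat.card_congr (Equiv.ofBijective
    (fun p : A.B × (Σ w : WJ {j | wt θ j = 0}, A.X (invs w.1)) => (⟨p.1 * m p.2.1 * p.2.2,
      mul_mem (mul_mem (hB p.1.2) (show ∃ _, _ by simpa only [fix_of_mem_WJ (fun _ h => h) p.2.1.2] using (hw p.2.1).conj_x θ)) (hB (hU _ p.2.2.2))⟩ : Nr A θ)) ⟨?_, ?_⟩)).symm
  · rintro ⟨b, w, u⟩ ⟨b', w', u'⟩ e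
    have e : (b : G) * m w * u = b' * m w' * u' := congrArg Subtype.val e
    obtain rfl : w = w' := Subtype.ext (A.bruhat_unique (mul_mem (inv_mem b'.2) b.2)
      (mul_mem (hU _ u.2) (inv_mem (hU _ u'.2))) (hm w) (hw w) (hw w') (by
        calc m w' = (b' : G)⁻¹ * (b' * m w' * u') * (u' : G)⁻¹ := by group
          _ = _ := by rw [← e]; group))
    obtain ⟨h1, h2⟩ := A.canon_unique b.2 b'.2 (hw w) u.2 u'.2 e
    rw [Subtype.ext h1, Subtype.ext h2]
  · rintro ⟨g, hg⟩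
    obtain ⟨b, hb, m', hm', w, hw', u, hu, rfl⟩ := A.bruhat_canon (hG.ge (Subgroup.mem_top g))
    obtain ⟨c, hc⟩ := (mul_mem_cancel_left (hB hb)).1 ((mul_mem_cancel_right (hB (hU _ hu))).1 hg)
    obtain ⟨d, hd⟩ := hw'.conj_x θ
    have e : w ∈ WJ {j | wt θ j = 0} := by
      simpa using mem_WJ_of_fix (J := Set.univ) (fun j _ => hθ j) (WJ_univ.ge hw'.1) (A.x_eq_x (by simp) ((hd 1).symm.trans (hc 1))).1
    have := A.mem_H_of_act_eq (inv_mem hm') (inv_mem (hm ⟨w, e⟩)) hw'.inv (hw ⟨w, e⟩).inv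
    exact ⟨(⟨_, mul_mem hb (A.H_le_B this)⟩, ⟨⟨w, e⟩, ⟨u, hu⟩⟩), Subtype.ext (by simp [mul_assoc])⟩

theorem exists_cent [Finite G] (A : Sys D K G) (θ : Rt D) :
    ∃ H : Subgroup G, (∀ g ∈ H, g * A.x θ 1 * g⁻¹ = A.x θ 1) ∧ ∃ i, Nat.card (Nr A θ) * i = (Nat.card K - 1) * Nat.card H := by
  choose c hc using fun g : Nr A θ => g.2
  have u : ∀ (g : Nr A θ) d, (g : G) * A.x θ 1 * (g : G)⁻¹ = A.x θ ((d : Kˣ) * 1) → c g = d := fun g d e => Units.ext (by simpa using A.x_injective θ ((hc g 1).symm.trans e))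
  let φ : Nr A θ →* Kˣ := MonoidHom.mk' c fun a b => u _ _ (by
    rw [Subgroup.coe_mul, show (a : G) * b * A.x θ 1 * ((a : G) * b)⁻¹ = a * (b * A.x θ 1 * (b : G)⁻¹) * (a : G)⁻¹ by group, hc, hc]; simp)
  obtain ⟨i, hi⟩ := Subgroup.card_subgroup_dvd_card φ.range
  refine ⟨φ.ker.map (Nr A θ).subtype, ?_, i, ?_⟩
  · rintro _ ⟨g, hg, rfl⟩
    simpa [show c g = 1 from hg] using hc g 1
  rw [Subgroup.card_map_of_injective (Nr A θ).subtype_injective, ← Nat.card_units, hi, ← φ.ker.index_mul_card, Subgroup.index_ker]; ring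

variable {V : Type*} [AddCommGroup V] [Module ℂ V] [FiniteDimensional ℂ V]

namespace St
variable {S : St D K G V} (hs : ∀ r s : Rt D, 0 ≤ pr r s → ∃ a b, rt s = rt a + rt b ∧ 0 ≤ pr r a ∧ 0 ≤ pr r b)
include hs

variable (S) in
include S in
theorem exists_one (r : Rt D) : ∃ a, pr a r = 1 := by
  obtain ⟨a, b, e, -⟩ := hs r r (by simp)
  exact ⟨a, by rw [pr_sum e, pr_of_sum S.hl e, pr_self]; rfl⟩

theorem m_c (r : Rt D) {c d : K} (c0 : c ≠ 0) (d0 : d ≠ 0) : finrank ℂ (S.Wt r c) ≤ finrank ℂ (S.Wt r d) := by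
  obtain ⟨a, ha⟩ := exists_one S hs r
  refine fr_le (ρ := S.ρ) (S.A.h a (.mk0 (d / c) (by simp [*])))⁻¹ fun v hv => mem_Wt.2 fun t => ?_
  rw [conj_apply (S.A.h_conj a r _ t), mem_Wt.1 hv, map_smul, ha]
  simp [← mul_assoc, mul_div_cancel₀, c0]

theorem m_W {w : Equiv.Perm (Rt D)} (hw : w ∈ W D) (r : Rt D) : finrank ℂ (S.Wt (w r) 1) = finrank ℂ (S.Wt r 1) := by
  have k : ∀ w ∈ W D, ∀ r, finrank ℂ (S.Wt r 1) ≤ finrank ℂ (S.Wt (w r) 1) := fun w hw r => by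
    obtain ⟨g, -, hg⟩ := S.A.exists_N hw
    obtain ⟨e, he⟩ := tr_Wt hg r
    exact (m_c hs r one_ne_zero (by simp)).trans (fr_le g (he 1))
  exact le_antisymm ((k _ (inv_mem hw) (w r)).trans_eq (by rw [pinv_apply])) (k w hw r)

theorem m_eq (r s : Rt D) {c : K} (c0 : c ≠ 0) : finrank ℂ (S.Wt r c) = finrank ℂ (S.Wt s 1) := by
  obtain ⟨w, hw, i, rfl⟩ := exists_W_sim r
  obtain ⟨w', hw', j, rfl⟩ := exists_W_sim s
  rw [(m_c hs _ c0 one_ne_zero).antisymm (m_c hs _ one_ne_zero c0), m_W hs hw, m_W hs hw']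
  by_contra e
  obtain ⟨a, ha, b, hb, h⟩ := exists_bond (J := {i | finrank ℂ (S.Wt (sim i) 1) = finrank ℂ (S.Wt (sim j) 1)}) (i0 := j) rfl e
  have n : (sim b : Rt D) ≠ sim a := fun e => hb (sim_injective e ▸ ha)
  have h1 := pr_sim_le S.hl n
  have h2 := neg_one_le S.hl (r := sim a) (s := sim b) fun e => (pos_ng _).1 (e ▸ pos_sim b) (pos_sim a)
  rw [← pr_sim_left] at h
  have h3 : pr (sim a) (sim b) = -1 := by omega
  refine hb (Eq.trans ?_ ha)
  rw [← m_W hs (refl_mem (sim a)), ← m_W hs (refl_mem (sim b)) (sim a),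
    rt_injective ((rt_neg1 h3).trans ((add_comm ..).trans (rt_neg1 (S.hl _ _ ▸ h3)).symm))]

theorem dim_eq (r : Rt D) : finrank ℂ V = finrank ℂ (S.Wt r 0) + (Fintype.card K - 1) * finrank ℂ (S.Wt r 1) := by
  classical
  rw [← finrank_top, ← sum_Ws S.P (ρ := S.ρ) (x := S.Z r) (W := ⊤) fun _ _ _ => trivial, ← add_sum_erase _ _ (mem_univ 0), top_inf_eq]
  refine congrArg₂ _ rfl ((sum_congr rfl (g := fun _ => finrank ℂ (S.Wt r 1)) fun c hc => ?_).trans (by simp))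
  rw [top_inf_eq]; exact m_eq hs r r (ne_of_mem_erase hc)

theorem chi_eq (r : Rt D) : S.ρ.character (S.A.x r 1) = finrank ℂ V - (Fintype.card K * finrank ℂ (S.Wt r 1) : ℕ) := by
  classical
  have a1 := S.P.sum (1 : K)
  have a2 : ∀ y, CA.Wt.wt S.ρ.character (S.Z r) (S.P.e y) (S.A.x r 1) = S.P.e y 1 * finrank ℂ (S.Wt r y) := fun y => by
    rw [Wt, finrank_Ws (S.A.x_injective r), ← CA.Wt.wt_mul, one_mul]; rfl
  rw [← add_sum_erase _ _ (mem_univ 0), if_neg one_ne_zero, S.P.zero, AddChar.one_apply, add_eq_zero_iff_neg_eq] at a1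
  rw [← CA.Wt.sum_wt S.P (χ := S.ρ.character) (x := S.Z r), ← add_sum_erase _ _ (mem_univ 0), dim_eq (S := S) hs r, a2,
    sum_congr rfl fun c hc => (a2 c).trans (by rw [m_eq hs r r (ne_of_mem_erase hc)]), ← sum_mul, ← a1, S.P.zero]
  simp [Nat.cast_sub Fintype.card_pos]; ring

theorem low (r : Rt D) : (Fintype.card K ^ 2 - 1) * finrank ℂ (S.Wt r 1) ≤ Fintype.card K * finrank ℂ V := by
  classical
  obtain ⟨a, ha⟩ := exists_one S hs r
  rw [S.hl] at ha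
  have a1 : (Fintype.card K - 1) * finrank ℂ (S.Wt r 1) ≤ Fintype.card K * finrank ℂ (S.Wt a 0) := by
    rw [← sum_Ws S.P (ρ := S.ρ) (x := S.Z r) (W := S.Wt a 0) fun t _ hv => st0 hv (by rw [S.hl]; omega) t, mul_sum, ← card_univ,
      ← card_erase_of_mem (mem_univ (0 : K)), ← smul_eq_mul, ← sum_const]
    refine (sum_le_sum fun c hc => ?_).trans (sum_le_sum_of_subset (subset_univ _))
    rw [← m_eq hs r r (ne_of_mem_erase hc), h1 le_rfl (ne_of_mem_erase hc) ((rt_io ha).trans (add_comm ..)) (fun t _ hv => st0 hv (by simp [ha]) t)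
      (fun t _ hv => st0 hv (by omega) t), inf_comm]
    rfl
  rw [dim_eq (S := S) hs a, m_eq hs a r one_ne_zero]
  obtain ⟨n, hn⟩ := Nat.exists_eq_add_of_le' (Fintype.card_pos (α := K))
  rw [hn, Nat.add_sub_cancel] at a1 ⊢
  rw [show (n + 1) ^ 2 - 1 = n + n * (n + 1) from Nat.sub_eq_of_eq_add (by ring)]
  nlinarith

theorem main [Finite G] (hG : S.A.G = ⊤) (hχ : IsIrrCharacter G S.ρ.character) (hne : charKer S.ρ.character ≠ ⊤)
    (hd : ∀ i j : Nd D, pr (sim j) (sim i) = -1 → (∃ k, pr (sim k) (sim i) = -1 ∧ pr (sim j) (sim k) = 0) ∨ ∃ k, pr (sim k) (sim j) = -1 ∧ pr (sim i) (sim k) = 0)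
    {n E : ℕ} (hn : ∀ j : Nd D, #{a | pr (sim j) a = 1} = 2 * n) {θ : Rt D} (hθ : ∀ j, 0 ≤ wt θ j)
    (hE : poin (Set.univ : Set (Nd D)) (Nat.card K) = E * poin {j | wt θ j = 0} (Nat.card K)) :
    (Fintype.card K ^ 2 - 1) * (Fintype.card K ^ n * 2) ≤ Fintype.card K * finrank ℂ V ∨
      (Fintype.card K - 1) * ∑ α : Rt D with Pos α, Fintype.card K ^ ((ht α).toNat - 1) ≤ finrank ℂ V ∧
        finrank ℂ V ∣ E * (Fintype.card K - 1) * Fintype.card K ^ (n + 1) := by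
  obtain ⟨_, -, j, -⟩ := exists_W_sim θ
  have a1 : ∀ (j : Nd D) c, c ≠ 0 → ∀ Λ, Lag (sim j) Λ → finrank ℂ (S.Wt θ 1) = Fintype.card K ^ n * finrank ℂ ↥(S.Wt (sim j) c ⊓ S.Fx Λ) := fun j c c0 Λ h => by
    rw [← m_eq hs (sim j) θ c0, fr_eq c0 h, show #Λ = n by have := h.card; have := hn j; omega]
  have a2 := a1 j 1 one_ne_zero (L0 j) (lag0 j)
  generalize finrank ℂ ↥(S.Wt (sim j) 1 ⊓ S.Fx (L0 j)) = d at a2
  rcases (by omega : d = 0 ∨ d = 1 ∨ 2 ≤ d) with rfl | rfl | h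
  · refine (hne (top_unique (hG.ge.trans (S.A.X_le.2 fun r _ t => ?_)))).elim
    have := Submodule.eq_top_of_finrank_eq (S := S.Wt r 0) (by simp [dim_eq (S := S) hs r, m_eq hs r θ one_ne_zero, a2])
    rw [charKer_character]
    exact LinearMap.ext fun v => mem_Wt0.1 (this.ge trivial) t
  · refine Or.inr ⟨le_add_self.trans (filt hs (fun j c c0 Λ h => by simpa [a2] using (a1 j c c0 Λ h).symm) hd _ fun β hβ => ?_), ?_⟩
    · simp only [mem_filter, mem_univ, true_and, pos_iff_ht] at hβ ⊢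
      exact ⟨hβ, fun _ => hβ.trans⟩
    obtain ⟨H, h1, i, h2⟩ := exists_cent S.A θ
    refine class_dvd hχ S.ρ.char_one (by rw [chi_eq hs, a2, mul_one, pow_succ']) h1 (i := i) ?_
    rw [← Subgroup.card_top, ← hG, S.A.card_G, ← poin_univ, hE, mul_left_comm, ← card_Nr S.A hG S.hl hθ, mul_assoc, h2, mul_assoc, Nat.card_eq_fintype_card]
  · exact Or.inl ((Nat.mul_le_mul_left _ ((Nat.mul_le_mul_left _ h).trans a2.ge)).trans (low hs θ))

end St

theorem arith {q D h F B l : ℕ} (hq : IsPrimePow q) (hB : q * B = q ^ h + F) (h1 : q * B ≤ D + l) (hD : D ∣ (q ^ (h + 1) - 1) * B * q ^ h)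
    (l1 : l < q) (l2 : l < F) (l3 : l * l * (q * F + 1) ≤ q ^ h) : q * B ≤ D := not_lt.1 fun hlt => by
  obtain ⟨j, e⟩ := Nat.exists_eq_add_of_lt hlt
  obtain ⟨p, a, hp, -, rfl⟩ := (isPrimePow_nat_iff q).1 hq
  have a0 : 0 < (p ^ a) ^ h := pow_pos (by omega) h
  obtain ⟨s, D', a1, rfl⟩ := Nat.exists_eq_pow_mul_and_not_dvd (n := D) (by omega) p hp.ne_one
  have a2 : p ^ s ∣ j + 1 := by
    have k : ∀ n ≤ a, n ≤ s → p ^ n ∣ j + 1 := fun n h1 h2 => (Nat.dvd_add_right ((pow_dvd_pow p h2).mul_right D')).1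
      (add_assoc (p ^ s * D') j 1 ▸ e ▸ (pow_dvd_pow p h1).mul_right B)
    exact k s (not_lt.1 fun e => (Nat.le_of_dvd j.succ_pos (k a le_rfl e.le)).not_gt (by omega)) le_rfl
  have a3 : D' ∣ ((p ^ a) ^ (h + 1) - 1) * (j + 1) := by
    refine (((hp.coprime_iff_not_dvd.2 a1).symm.pow_right a).pow_right h).dvd_of_dvd_mul_right
      ((Nat.dvd_add_right (((dvd_mul_left D' (p ^ s)).mul_left ((p ^ a) ^ (h + 1) - 1)).mul_right ((p ^ a) ^ h))).1 ?_)
    rw [← add_mul, ← mul_add, ← add_assoc, ← e]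
    exact ((Dvd.intro_left _ rfl).trans hD).trans ⟨p ^ a, by ring⟩
  have a4 := mul_dvd_mul a2 a3
  generalize p ^ s * D' = D at *
  generalize p ^ a = q at *
  have a5 : D ∣ (j + 1) * (j + 1) * (q * (F - (j + 1)) + 1) := by
    refine (Nat.dvd_add_right a4).1 ⟨(j + 1) * (j + 1) * q, ?_⟩
    zify [show j + 1 ≤ F by omega, Nat.one_le_pow (h + 1) q (by omega)] at e hB ⊢
    rw [show (D : ℤ) = q ^ h + F - j - 1 by linarith]; ring
  have := (Nat.le_of_dvd (by positivity) a5).trans (Nat.mul_le_mul (Nat.mul_self_le_mul_self (show j + 1 ≤ l by omega))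
    (Nat.add_le_add_right (Nat.mul_le_mul_left q (Nat.sub_le F _)) 1))
  omega

theorem arith' {q D h F B l c E : ℕ} (hq : IsPrimePow q) (hB : q * B = q ^ (h + 1) + F) (e1 : q * B = (q - 1) * c + l) (e2 : E * (q - 1) = (q ^ (h + 2) - 1) * B)
    (e3 : q * (q * B) ≤ (q ^ 2 - 1) * (q ^ h * 2)) (l1 : l < q → l < F ∧ l * l * (q * F + 1) ≤ q ^ (h + 1))
    (l2 : q ≤ l → ∀ j < l, ¬q * B - (j + 1) ∣ (q ^ (h + 2) - 1) * B * q ^ (h + 1))
    (H : (q ^ 2 - 1) * (q ^ h * 2) ≤ q * D ∨ (q - 1) * c ≤ D ∧ D ∣ E * (q - 1) * q ^ (h + 1)) : q * B ≤ D := by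
  rcases H with H | ⟨h1, h2⟩
  · exact Nat.le_of_mul_le_mul_left (e3.trans H) hq.pos
  rw [e2] at h2
  rcases lt_or_ge l q with e | e
  · exact arith hq hB (by omega) h2 e (l1 e).1 (l1 e).2
  · exact not_lt.1 fun hlt => l2 e (q * B - D - 1) (by omega) (by rwa [show q * B - (q * B - D - 1 + 1) = D by omega])

theorem main' {T : Tab} (hT : tab D = T) {w : List ℕ} (hw : slChk T w = true) {m δ E} (hE : poinChk T (2 ^ T.l - 1) (T.n - 1) m δ E = true)
    (hd : ∀ i < T.l, ∀ j < T.l, T.wt (T.simple i) j = -1 → (∃ k < T.l, T.wt (T.simple i) k = -1 ∧ T.wt (T.simple k) j = 0) ∨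
      ∃ k < T.l, T.wt (T.simple j) k = -1 ∧ T.wt (T.simple k) i = 0) {n : ℕ} (hn : ∀ j < T.l, #{a ∈ range T.n | T.wt a j = 1} = 2 * n)
    {c} (hc : coefs T.n (fun r => (sumLt T.l (T.co r)).toNat) = c) {k : ℕ} {ρ : Representation ℂ (D.group K) (Fin k → ℂ)} (hρ : ρ.IsIrreducible) (hk : 2 ≤ k) :
    (Fintype.card K ^ 2 - 1) * (Fintype.card K ^ n * 2) ≤ Fintype.card K * k ∨
      (Fintype.card K - 1) * evalL c (Fintype.card K) ≤ k ∧ k ∣ evalL E (Fintype.card K) * (Fintype.card K - 1) * Fintype.card K ^ (n + 1) := by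
  obtain ⟨hl, hs⟩ := sl_of_chk hT hw
  obtain ⟨ψ, hψ⟩ := CA.Wt.exists_addChar K one_ne_zero
  have a1 := poin_of_chk hT hE (Nat.card K)
  subst hT hc
  simp only [poinChk, Bool.and_eq_true, decide_eq_true_eq, allLt_iff, Bool.or_eq_true, Bool.not_eq_true', beq_iff_eq, Nat.testBit_two_pow_sub_one] at hE
  obtain ⟨⟨⟨⟨h1, -⟩, -⟩, h4⟩, -⟩ := hE
  have := St.main (S := ⟨adjG D K, ρ, .of ψ AddMonoidHom.mul (fun a ha => ⟨a⁻¹, by simpa [ha]⟩) rfl, ψ, fun _ _ => rfl, hl⟩) hs adjG_G ⟨k, ρ, hρ, rfl⟩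
    (CA.DegLS.ker_ne (.refl _) hρ hk) (fun i j h => ?_) (n := n) (E := evalL E (Fintype.card K)) (fun j => ?_) (θ := ⟨_, h1⟩)
    (fun j => (h4 j j.2).1.resolve_left (by simp)) ?_
  · rw [evalL_coefs]
    convert this using 4
    · simp
    · rw [sum_filter]
      refine sum_congr rfl fun r _ => ?_
      rw [show sumLt (tab D).l ((tab D).co r) = ht r by rw [sumLt_eq]; exact sum_congr rfl fun i _ => (congrFun (rt_eq_cor hl r) i).symm]
      simp only [Int.toNat_eq_zero, ← not_lt, ite_not]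
      split_ifs with e1 e2 e2
      exacts [rfl, (e2 ((pos_iff_ht r).2 e1)).elim, (e1 ((pos_iff_ht r).1 e2)).elim, rfl]
    · simp
    · simp
  · simp only [pr_sim_left] at h ⊢
    exact (hd i i.2 j j.2 h).imp (fun ⟨k, h, e⟩ => ⟨⟨k, h⟩, e⟩) fun ⟨k, h, e⟩ => ⟨⟨k, h⟩, e⟩
  · rw [← hn j j.2]
    exact card_nbij Fin.val (fun a ha => mem_coe.2 (mem_filter.2 ⟨mem_range.2 a.2, by simpa [pr_sim_left, wt] using ha⟩)) Fin.val_injective.injOn fun a ha => by
      simp only [coe_filter, mem_range, Set.mem_ofPred_eq] at ha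
      exact ⟨⟨a, ha.1⟩, by simpa [pr_sim_left, wt] using ha.2, rfl⟩
  · rw [← JM_univ, ← Nat.card_eq_fintype_card]
    refine a1.trans (congrArg (_ * poin · _) (Set.ext fun j => ?_))
    simp [JM, wt, (h4 j j.2).2]
    exact decide_eq_true_iff

end CA.DegE
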