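/-
Character degrees of `²E₆(q)`: Heisenberg groups.
-/
import Cfsg.Agent.Lib.Lie.DegE3

set_option autoImplicit false
set_option linter.unusedSectionVars false

namespace CA.DegF

open Cfsg CA.DegO CA.DegT CA.DegE Finset Module Cfsg.Lie CA.Chev CA.Chev.Sys0 CA.Chev.Twist CA.TwM
open scoped commutatorElement Classical

variable {D : ChevalleyDatum} [Good D]

theorem cmb_eq (hl : ∀ r s : Rt D, pr r s = pr s r) {a b k : Rt D} (n : b ≠ ng a) (h : Cmb a b k) : rt k = rt a + rt b := by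
  have a2 : pr a b = -1 := by have := neg_one_le hl n; have := mt (not_cmb hl · h) not_false; omega
  obtain ⟨i, j, h1, h2, e⟩ := h
  have a1 := cmb_norm hl e
  rw [a2] at a1
  obtain rfl : i = 1 := by zify at h1 h2 ⊢; nlinarith [sq_nonneg (2 * j - i : ℤ)]
  obtain rfl : j = 1 := by zify at h1 h2 ⊢; push_cast at a1; nlinarith
  simpa using e

theorem ht_ne (r : Rt D) : ht r ≠ 0 := fun e => by simpa [pos_iff_ht, e] using pos_ng r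

/-- stabilizer of a vector -/
def stabV {G V : Type*} [Group G] [AddCommGroup V] [Module ℂ V] (ρ : Representation ℂ G V) (v : V) : Subgroup G where
  carrier := {g | ρ g v = v}
  one_mem' := by simp
  mul_mem' := fun {a b} (ha : _ = _) (hb : _ = _) => by simp [ha, hb]
  inv_mem' := fun {a} (ha : _ = _) => by simpa using (congrArg (ρ a⁻¹) ha).symm

variable {K : Type*} [Field K] [Fintype K] {Γ : Type*} [Group Γ]

/-- the setting -/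
structure St (A : Sys D K Γ) (G V : Type*) [Group G] [AddCommGroup V] [Module ℂ V] where
  M : Mod A G
  α : K →+* K
  h : S2 M α
  h0 : ∀ r, 0 ≤ pr r (M.τ.ρ r)
  hf : ∀ r, M.τ.ρ r = r → M.τ.T.f r 1 = 1
  ρ : Representation ℂ G V
  P : CA.Wt.Par K K
  ψ : AddChar K ℂ
  hP : ∀ c s, P.e c s = ψ (c * s)
  hψ : ∀ s, ψ (α s) = ψ s
  q : ℕ
  hq : #{t | α t = t} = q
  hK : Fintype.card K = q ^ 2

variable {A : Sys D K Γ} {G : Type*} [Group G] {V : Type*} [AddCommGroup V] [Module ℂ V] [FiniteDimensional ℂ V]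

namespace St
variable (S : St A G V)

include S in
theorem hl (r s : Rt D) : pr r s = pr s r := S.h.hl r s
@[simp] theorem φφ (r : Rt D) : S.M.τ.ρ (S.M.τ.ρ r) = r := S.h.ρρ r
@[simp] theorem pr_φ (r s : Rt D) : pr (S.M.τ.ρ r) (S.M.τ.ρ s) = pr r s := S.h.pr_ρ r s
@[simp] theorem ht_φ (r : Rt D) : ht (S.M.τ.ρ r) = ht r := by simpa [hF, ht] using S.h.inv_hF.2 r
@[simp] theorem pos_φ (r : Rt D) : Pos (S.M.τ.ρ r) ↔ Pos r := S.M.τ.pos r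
theorem φ_io {α : Rt D} (e : S.M.τ.ρ α = α) (a : Rt D) : S.M.τ.ρ (io α a) = io α (S.M.τ.ρ a) := by rw [← io_map S.h.ra, e]
theorem prf {α : Rt D} (e : S.M.τ.ρ α = α) (a : Rt D) : pr α (S.M.τ.ρ a) = pr α a := pr_fix S.h.toSL e a
theorem pr0 {a : Rt D} (e : S.M.τ.ρ a ≠ a) : pr a (S.M.τ.ρ a) = 0 := by
  have a1 := le_one S.hl e
  have a2 := S.h0 a
  by_contra a3
  have a4 := ht_add (rt_io (show pr a (S.M.τ.ρ a) = 1 by omega))
  rw [ht_φ] at a4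
  exact ht_ne (io a (S.M.τ.ρ a)) (by omega)

/-- root elements -/
noncomputable def y (r : Rt D) (t : K) : G := (S.h.nm (S.h0 r) t).choose
theorem y_mem (r : Rt D) (t : K) : S.y r t ∈ S.M.X (O S.M r) := (S.h.nm (S.h0 r) t).choose_spec.1
theorem e_y (r : Rt D) (t : K) : S.M.e (S.y r t) = A.x r t * S.M.τ.σ (A.x r t) := (S.h.nm (S.h0 r) t).choose_spec.2
theorem exists_y {r : Rt D} {g : G} (h : g ∈ S.M.X (O S.M r)) : ∃ t, g = S.y r t :=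
  (S.h.mem_O (S.h0 r) h).imp fun _ e => S.M.inj (by rw [e, e_y])
theorem f_fix {r : Rt D} (e : S.M.τ.ρ r = r) (t : K) : S.M.τ.T.f r t = S.α t := by rw [← mul_one t, S.h.f_mul, S.hf r e, mul_one, mul_one]
theorem e_fix {r : Rt D} (e : S.M.τ.ρ r = r) (t : K) : S.M.e (S.y r t) = A.x r (t + S.α t) := by rw [e_y, σ_x, e, S.f_fix e, A.add]

/-- root subgroups -/
noncomputable def Y (r : Rt D) : AddChar K G := ⟨S.y r, S.M.inj (by simp [e_y]), fun t u => S.M.inj (by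
  simp only [e_y, A.add, map_mul, σ_x, mul_assoc]
  rw [← mul_assoc (A.x r u), (A.comm_of_nonneg S.hl (S.h0 r) u _).eq, mul_assoc])⟩
/-- weight spaces -/
noncomputable def Wt (r : Rt D) (c : K) : Submodule ℂ V := Ws S.ρ (S.Y r) (S.P.e c)
/-- fixed spaces -/
noncomputable def Fx (T : Finset (Rt D)) : Submodule ℂ V := ⨅ r ∈ T, S.Wt r 0
/-- stability -/
def Stb (W : Submodule ℂ V) (r : Rt D) : Prop := ∀ t, ∀ v ∈ W, S.ρ (S.y r t) v ∈ W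
/-- admissible weights -/
def Ok (c : K) : Prop := c ≠ 0 ∧ S.α c = c

variable {S}
theorem mem_Wt {r : Rt D} {c : K} {v : V} : v ∈ S.Wt r c ↔ ∀ t, S.ρ (S.y r t) v = S.ψ (c * t) • v :=
  forall_congr' fun t => by rw [← S.hP]; rfl
theorem mem_Wt0 {r : Rt D} {v : V} : v ∈ S.Wt r 0 ↔ ∀ t, S.ρ (S.y r t) v = v := by simp [mem_Wt]
theorem mem_Wt0' {r : Rt D} {v : V} : v ∈ S.Wt r 0 ↔ ∀ g ∈ S.M.X (O S.M r), S.ρ g v = v :=
  mem_Wt0.trans ⟨fun h g hg => by obtain ⟨t, rfl⟩ := S.exists_y hg; exact h t, fun h t => h _ (S.y_mem r t)⟩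
@[simp] theorem Wt_φ (r : Rt D) : S.Wt (S.M.τ.ρ r) 0 = S.Wt r 0 := by ext; simp [mem_Wt0', S.h.O_ρ]
theorem Stb.mem {W : Submodule ℂ V} {r : Rt D} (h : S.Stb W r) {g : G} (hg : g ∈ S.M.X (O S.M r)) : ∀ v ∈ W, S.ρ g v ∈ W := by
  obtain ⟨t, rfl⟩ := S.exists_y hg; exact h t
theorem mem_Fx {T : Finset (Rt D)} {v : V} : v ∈ S.Fx T ↔ ∀ r ∈ T, v ∈ S.Wt r 0 := by simp [Fx]
theorem Fx_insert (a : Rt D) (T : Finset (Rt D)) : S.Fx (insert a T) = S.Fx T ⊓ S.Wt a 0 := by ext; simp [mem_Fx, and_comm]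
theorem Wt_ne {r : Rt D} {c d : K} {v : V} (h : v ∈ S.Wt r c) (h' : v ∈ S.Wt r d) (v0 : v ≠ 0) : c = d :=
  S.P.inj (DFunLike.ext _ _ fun s => smul_left_injective ℂ v0 ((h s).symm.trans (h' s)))
theorem Wt_fix {r : Rt D} (e : S.M.τ.ρ r = r) {c : K} {v : V} (h : v ∈ S.Wt r c) (v0 : v ≠ 0) : S.α c = c := Wt_ne (mem_Wt.2 fun t => by
  rw [show S.y r t = S.y r (S.α t) from S.M.inj (by rw [S.e_fix e, S.e_fix e, S.h.α2, add_comm]), mem_Wt.1 h, ← S.hψ, map_mul, S.h.α2]) h v0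

theorem comm_y {r s : Rt D} (h1 : 0 ≤ pr r s) (h2 : 0 ≤ pr r (S.M.τ.ρ s)) (t u : K) : Commute (S.y r t) (S.y s u) :=
  S.h.comm_X (by simp [forall_O, h1, h2, S.h.pr_ρ']) _ (S.y_mem r t) _ (S.y_mem s u)

theorem st0 {r β : Rt D} {c : K} {v : V} (hv : v ∈ S.Wt r c) (h1 : 0 ≤ pr r β) (h2 : 0 ≤ pr r (S.M.τ.ρ β)) (t : K) : S.ρ (S.y β t) v ∈ S.Wt r c :=
  st_comm (x := S.Y r) (fun a => (comm_y h1 h2 a t).symm) hv

theorem st {r β : Rt D} {c : K} {v : V} (hv : v ∈ S.Wt r c) (f : (Nd D → ℤ) →ₗ[ℤ] ℤ) (hf : ∀ k, f (rt (S.M.τ.ρ k)) = f (rt k)) (f1 : 0 < f (rt r))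
    (f2 : 0 ≤ f (rt β)) (p : Rt D → Prop) (p1 : ∀ k, p k → p (S.M.τ.ρ k)) (p2 : ∀ k, p k → 0 < f (rt k))
    (p3 : ∀ a b k, rt k = rt a + rt b → p a ∨ a ∈ O S.M r → p b ∨ b ∈ O S.M r ∨ b ∈ O S.M β → p k) (h : ∀ k, p k → v ∈ S.Wt k 0) (t : K) :
    S.ρ (S.y β t) v ∈ S.Wt r c := by
  have a0 : ∀ a b : Rt D, 0 < f (rt a) → 0 ≤ f (rt b) → a ≠ ng b := by rintro _ b h1 h2 rfl; simp at h1; omega
  have a1 : ∀ s, ∀ a ∈ O S.M s, f (rt a) = f (rt s) := by simp [forall_O, hf]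
  let F : Fl D := ⟨{k | p k}, f, (nil_of_fun f).mono p2 fun a ha b hb k hk => p3 a b k (cmb_eq S.hl (a0 b a (p2 b hb) (p2 a ha).le) hk) (.inl ha) (.inl hb), p2⟩
  have a2 : ∀ s, 0 ≤ f (rt s) → O S.M s ⊆ {b | b ∈ O S.M r ∨ b ∈ O S.M β} → ∀ a ∈ O S.M s, ∀ b ∈ F.S, b ≠ ng a ∧ ∀ k, Cmb a b k → k ∈ F.S :=
    fun s h1 h2 a ha b hb => have n := a0 b a (p2 b hb) (by rwa [a1 s a ha])
      ⟨n, fun k hk => p3 b a k ((cmb_eq S.hl n hk).trans (add_comm ..)) (.inl hb) (.inr (h2 ha))⟩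
  have a3 : ∀ a ∈ O S.M r, ∀ u, (A.x a u)⁻¹ * ((S.M.e (S.y β t))⁻¹ * A.x a u * S.M.e (S.y β t)) ∈ A.X F.S := fun a ha u =>
    A.central_mod (a2 β f2 fun _ => .inr) (fun b hb => have n := a0 a b (by rwa [a1 r a ha]) (by rwa [a1 β b hb])
      ⟨n, fun k hk => p3 a b k ((cmb_eq S.hl n hk).trans (add_comm ..)) (.inr ha) (.inr (.inr hb))⟩) u (S.y_mem β t)
  refine st_mod (x := S.Y r) (Z := S.M.X F.S) (fun a => ?_) (fun z hz => ?_) hv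
  · change S.M.e ⁅(S.y r a)⁻¹, _⁆ ∈ A.X F.S
    have g : ∀ a b c : Γ, ⁅(a * b)⁻¹, c⁻¹⁆ = b⁻¹ * (a⁻¹ * (c⁻¹ * a * c)) * b * (b⁻¹ * (c⁻¹ * b * c)) := fun _ _ _ => by group
    rw [map_commutatorElement, map_inv, map_inv, e_y S r, σ_x, g]
    exact mul_mem (A.conj_mem' (a2 r f1.le fun _ => .inl) (A.x_mem (by simp [O]) _) (a3 r (by simp [O]) _)) (a3 _ (by simp [O]) _)
  · exact le_of_rp (f := F) (P := stabV S.ρ v) (fun k hk u hu => (S.h.rp_O (F := F) ⟨p1, hf⟩ hk (S.h0 k) u hu).imp fun y hy => ⟨mem_Wt0'.1 (h k hk) y hy.1, hy.2⟩) hz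

theorem Stb.inf {W W' : Submodule ℂ V} {r : Rt D} (h : S.Stb W r) (h' : S.Stb W' r) : S.Stb (W ⊓ W') r := fun t v hv => ⟨h t v hv.1, h' t v hv.2⟩
theorem stb_Fx {T : Finset (Rt D)} {r : Rt D} (h : ∀ s ∈ T, 0 ≤ pr s r ∧ 0 ≤ pr s (S.M.τ.ρ r)) : S.Stb (S.Fx T) r := fun t _ hv =>
  mem_Fx.2 fun s hs => st0 (mem_Fx.1 hv s hs) (h s hs).1 (h s hs).2 t

theorem sh {α a b : Rt D} (eα : S.M.τ.ρ α = α) (e : rt α = rt a + rt b) : ∃ μ : K → K, (∀ c d u v, v ∈ S.Wt α c → v ∈ S.Wt b d → S.ρ (S.y a u) v ∈ S.Wt b (d + c * μ u)) ∧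
    (∀ u, μ u = 0 → S.y a u = 1) ∧ ∀ d, (S.M.τ.ρ b = b → S.α d = d) → ∃ u, μ u = d := by
  obtain ⟨C, C0, C1, hC⟩ := S.h.exists_C e
  have k : ∀ μ : K → K, (∀ u s, ⁅S.M.e (S.y a u), S.M.e (S.y b s)⁆ = S.M.e (S.y α (μ u * s))) →
      ∀ c d u v, v ∈ S.Wt α c → v ∈ S.Wt b d → S.ρ (S.y a u) v ∈ S.Wt b (d + c * μ (-u)) := fun μ h c d u v h1 h2 => by
    have := shear S.hP (g := S.Y a (-u)) (u := μ (-u)) (z := S.Y α) (w := S.Y b) (fun s => S.M.inj (by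
      change S.M.e (S.y a (-u) * S.y b s * (S.y a (-u))⁻¹) = S.M.e (S.y α _ * S.y b s)
      rw [map_mul _ (S.y α _), ← h, map_mul, map_mul, map_inv]; group)) h1 h2
    rwa [AddChar.map_neg_eq_inv, inv_inv] at this
  have e' := S.h.rt_add e
  rw [eα] at e'
  by_cases eb : S.M.τ.ρ b = b
  · have ea : S.M.τ.ρ a = a := rt_injective (add_right_cancel (e'.symm.trans (by rw [e, eb])))
    obtain ⟨s, hs⟩ := S.h.exists_tr
    refine ⟨fun u => C * (-u + S.α (-u)), k (fun u => C * (u + S.α u)) fun u s => ?_, fun u hu => S.M.inj ?_, fun d hd => ⟨-(s * (d / C)), ?_⟩⟩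
    · rw [S.e_fix ea, S.e_fix eb, S.e_fix eα, hC]; simp [C1, S.h.α2]; ring_nf
    · rw [S.e_fix ea, show u + S.α u = 0 by simpa only [C0, ← neg_add, map_neg, mul_eq_zero, false_or, neg_eq_zero] using hu]; simp
    · simp [hd eb, C1, ← add_mul, hs, mul_div_cancel₀, C0]
  · have a1 : pr α b = 1 := by rw [S.hl, pr_sum e, pr_self, S.hl b, pr_of_sum S.hl e]; rfl
    have a2 := io_eq a1 (e.trans (add_comm ..))
    refine ⟨fun u => C * -u, k (fun u => C * u) fun u s => ?_, fun u hu => ?_, fun d _ => ⟨-(d / C), by simp [mul_div_cancel₀, C0]⟩⟩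
    · rw [e_y, e_y, e_y, S.h.comm_nm (S.h0 a) (S.h0 b) (heis S.hl (α := α) (by simp [a2, a1]) (by rw [S.prf eα, a1]) (by simpa [a2])), hC]
    · rw [show u = 0 by simpa [C0] using hu]; exact (S.Y a).map_zero_eq_one

theorem sum_eq {W : Submodule ℂ V} {b : Rt D} (hb : S.Stb W b) : finrank ℂ W = ∑ d with S.M.τ.ρ b = b → S.α d = d, finrank ℂ ↥(W ⊓ S.Wt b d) := by
  rw [← sum_Ws S.P (ρ := S.ρ) (x := S.Y b) hb]
  refine (sum_subset (subset_univ _) fun d _ hd => Submodule.finrank_eq_zero.2 (eq_bot_iff.2 fun v hv => by_contra fun v0 => hd ?_)).symm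
  simpa using fun e => Wt_fix e hv.2 v0

theorem card_ok (b : Rt D) : #{d | S.M.τ.ρ b = b → S.α d = d} = S.q ^ #({b, S.M.τ.ρ b} : Finset (Rt D)) := by
  by_cases e : S.M.τ.ρ b = b
  · simp [e, S.hq]
  · simp [e, S.hK, card_pair (Ne.symm e)]

theorem h1 {W : Submodule ℂ V} {α a b : Rt D} {c : K} (eα : S.M.τ.ρ α = α) (hW : W ≤ S.Wt α c) (c0 : S.Ok c) (e : rt α = rt a + rt b) (ha : S.Stb W a)
    (hb : S.Stb W b) {d : K} (hd : S.M.τ.ρ b = b → S.α d = d) : finrank ℂ W = S.q ^ #({b, S.M.τ.ρ b} : Finset (Rt D)) * finrank ℂ ↥(W ⊓ S.Wt b d) := by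
  obtain ⟨μ, h1, -, h2⟩ := sh eα e
  have k : ∀ d d', (S.M.τ.ρ b = b → S.α d = d) → (S.M.τ.ρ b = b → S.α d' = d') → finrank ℂ ↥(W ⊓ S.Wt b d) ≤ finrank ℂ ↥(W ⊓ S.Wt b d') := fun d d' e e' => by
    obtain ⟨u, hu⟩ := h2 ((d' - d) / c) fun h => by simp [e h, e' h, c0.2]
    exact fr_le (S.y a u) fun v hv => ⟨ha _ v hv.1, by simpa [hu, mul_div_cancel₀, c0.1] using h1 c d u v (hW hv.1) hv.2⟩
  rw [sum_eq hb, ← card_ok, ← smul_eq_mul, ← sum_const]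
  exact sum_congr rfl fun d' h => (k _ _ (mem_filter.1 h).2 hd).antisymm (k _ _ hd (mem_filter.1 h).2)

/-- stable isotropic sets -/
def Iso (α : Rt D) (Λ : Finset (Rt D)) : Prop := ∀ a ∈ Λ, pr α a = 1 ∧ io α a ∉ Λ ∧ S.M.τ.ρ a ∈ Λ

theorem Iso.c1 {α : Rt D} {Λ : Finset (Rt D)} (h : S.Iso α Λ) {a s : Rt D} (ha : a ∈ Λ) (hs : s ∈ Λ) : 0 ≤ pr s a ∧ 0 ≤ pr s (S.M.τ.ρ a) :=
  have k : ∀ a ∈ Λ, 0 ≤ pr s a := fun a ha => heis S.hl (h s hs).1 (h a ha).1 fun e => (h s hs).2.1 (e ▸ ha)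
  ⟨k a ha, k _ (h a ha).2.2⟩

theorem c2 {α a s : Rt D} (eα : S.M.τ.ρ α = α) (ha : pr α a = 1) (hs : pr α s = 1) (h1 : io α s ≠ a) (h2 : io α s ≠ S.M.τ.ρ a) : 0 ≤ pr s a ∧ 0 ≤ pr s (S.M.τ.ρ a) :=
  ⟨heis S.hl hs ha h1.symm, heis S.hl hs (by rwa [S.prf eα]) h2.symm⟩

theorem h2 {W : Submodule ℂ V} {α : Rt D} {c : K} (eα : S.M.τ.ρ α = α) (hW : W ≤ S.Wt α c) (c0 : S.Ok c) {Λ : Finset (Rt D)} (hΛ : S.Iso α Λ)
    (h : ∀ a ∈ Λ, S.Stb W a ∧ S.Stb W (io α a)) : finrank ℂ W = S.q ^ #Λ * finrank ℂ ↥(W ⊓ S.Fx Λ) := by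
  suffices ∀ T ⊆ Λ, finrank ℂ W = S.q ^ #(T ∪ T.image S.M.τ.ρ) * finrank ℂ ↥(W ⊓ S.Fx T) by
    rw [this Λ subset_rfl, union_eq_left.2 (image_subset_iff.2 fun a ha => (hΛ a ha).2.2)]
  intro T
  induction T using Finset.induction_on with
  | empty => rw [show W ⊓ S.Fx ∅ = W by simp [Fx]]; simp
  | insert a T ha ih =>
    intro hT
    obtain ⟨a1, a2⟩ := insert_subset_iff.1 hT
    rw [ih a2, Fx_insert, ← inf_assoc]
    by_cases e : S.M.τ.ρ a ∈ T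
    · rw [inf_eq_left.2 (show W ⊓ S.Fx T ≤ S.Wt a 0 from fun v hv => Wt_φ (S := S) a ▸ mem_Fx.1 hv.2 _ e), image_insert, union_insert, insert_union, insert_eq_of_mem (by simp [e]),
        insert_eq_of_mem (mem_union_right _ (mem_image.2 ⟨_, e, by simp⟩))]
    rw [h1 eα (inf_le_left.trans hW) c0 ((rt_io (hΛ a a1).1).trans (add_comm ..)) ((h a a1).2.inf (stb_Fx fun s hs => c2 eα (by simpa using (hΛ a a1).1)
      (hΛ s (a2 hs)).1 (fun e' => ha (by rwa [← io_io α a, ← e', io_io])) fun e' => e (by rwa [← io_io α (S.M.τ.ρ a), ← S.φ_io eα, ← e', io_io])))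
      ((h a a1).1.inf (stb_Fx fun s hs => hΛ.c1 a1 (a2 hs))) (d := 0) fun _ => map_zero _, ← mul_assoc, ← pow_add, ← card_union_of_disjoint]
    · congr 3; ext; simp; tauto
    simp only [disjoint_insert_right, disjoint_singleton_right, mem_union, mem_image, not_or]
    exact ⟨⟨ha, fun ⟨b, hb, e'⟩ => e (by simpa [← e'])⟩, e, fun ⟨b, hb, e'⟩ => ha (S.M.τ.ρ.injective e' ▸ hb)⟩

theorem pj_stb {W : Submodule ℂ V} {a : Rt D} (h : S.Stb W a) {v : V} (hv : v ∈ W) (c : K) : pj S.ρ (S.Y a) (S.P.e c) v ∈ W := by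
  simp only [pj, LinearMap.smul_apply, LinearMap.sum_apply]
  exact W.smul_mem _ (W.sum_mem fun t _ => W.smul_mem _ (h t v hv))

theorem flip {α : Rt D} (eα : S.M.τ.ρ α = α) {c : K} (c0 : c ≠ 0) {g : G} {l : ℂ} {Λ : Finset (Rt D)} (hΛ : S.Iso α Λ) (hg : ∀ a ∈ Λ, ∀ t, Commute g (S.y a t))
    {v : V} (v0 : v ≠ 0) (h1 : v ∈ S.Wt α c) (h2 : ∀ a ∈ Λ, v ∈ S.Wt (io α a) 0) (h3 : S.ρ g v = l • v) (T : Finset (Rt D)) : T ⊆ Λ →
    ∃ w ≠ 0, w ∈ S.Wt α c ∧ S.ρ g w = l • w ∧ w ∈ S.Fx T ∧ ∀ r, pr α r = 1 → io α r ∉ T → S.M.τ.ρ (io α r) ∉ T → v ∈ S.Wt r 0 → w ∈ S.Wt r 0 := by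
  induction T using Finset.induction_on with
  | empty => exact fun _ => ⟨v, v0, h1, h3, by simp [Fx], fun _ _ _ _ h => h⟩
  | insert a T ha ih =>
    intro hT
    obtain ⟨a0, a2⟩ := insert_subset_iff.1 hT
    have a1 := (hΛ a a0).1
    obtain ⟨w, w0, b1, b2, b3, b4⟩ := ih a2
    have b4' := fun r r1 (r2 : io α r ∉ insert a T) (r3 : S.M.τ.ρ (io α r) ∉ insert a T) => b4 r r1 (mt mem_insert_of_mem r2) (mt mem_insert_of_mem r3)
    by_cases e : S.M.τ.ρ a ∈ T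
    · exact ⟨w, w0, b1, b2, Fx_insert (S := S) a T ▸ ⟨b3, Wt_φ (S := S) a ▸ mem_Fx.1 b3 _ e⟩, b4'⟩
    have b5 := b4 (io α a) (by simpa) (by simpa) (by simpa) (h2 a a0)
    have m : ∀ r d, 0 ≤ pr r a ∧ 0 ≤ pr r (S.M.τ.ρ a) → w ∈ S.Wt r d → pj S.ρ (S.Y a) (S.P.e 0) w ∈ S.Wt r d := fun r d h hw =>
      pj_stb (fun t _ hv => st0 hv h.1 h.2 t) hw 0
    refine ⟨pj S.ρ (S.Y a) (S.P.e 0) w, fun e => w0 ?_, m _ _ (by rw [S.prf eα]; omega) b1, ?_, ?_, fun r r1 r2 r3 r4 => m _ _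
      (c2 eα a1 r1 (fun e => r2 (by simp [e])) fun e => r3 (by simp [e])) (b4' r r1 r2 r3 r4)⟩
    · obtain ⟨μ, m1, m2, -⟩ := sh eα (rt_io a1)
      have := congrArg (pj S.ρ (S.Y (io α a)) (S.P.e 0)) e
      rw [pj.eq_def S.ρ (S.Y a), LinearMap.smul_apply, LinearMap.sum_apply, map_smul, map_sum, map_zero,
        sum_congr rfl (g := fun t => if S.y a t = 1 then w else 0) fun t _ => ?_, ← sum_filter, sum_const, ← Nat.cast_smul_eq_nsmul ℂ] at this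
      · have k : #{t | S.y a t = 1} ≠ 0 := card_ne_zero.2 ⟨0, mem_filter.2 ⟨mem_univ _, (S.Y a).map_zero_eq_one⟩⟩
        simpa [k] using this
      rw [S.P.zero, AddChar.one_apply, one_smul, ← S.P.zero]
      change pj _ _ _ (S.ρ (S.y a t) w) = _
      split_ifs with e1
      · simpa [e1] using pj_of_mem b5
      · exact by_contra fun e => e1 (m2 t (by
          simpa [c0] using Wt_ne (pj_stb (fun t _ hv => st0 hv (by simp) (S.h0 _) t) (m1 c 0 t w b1 b5) 0) (pj_mem _ _ _ _) e))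
    · simp only [pj, LinearMap.smul_apply, LinearMap.sum_apply, map_smul, map_sum, smul_comm l, smul_sum (r := l)]
      refine congrArg _ (sum_congr rfl fun t _ => congrArg _ ?_)
      change S.ρ g (S.ρ (S.y a t) w) = l • S.ρ (S.y a t) w
      rw [← End.mul_apply, ← map_mul, hg a a0 t, map_mul, End.mul_apply, b2, map_smul]
    · rw [Fx_insert]
      exact ⟨mem_Fx.2 fun s hs => m _ _ (hΛ.c1 a0 (a2 hs)) (mem_Fx.1 b3 s hs), pj_mem _ _ _ _⟩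

theorem cm {L : Submodule ℂ V} (h : finrank ℂ L = 1) {a b r : Rt D} (e : rt r = rt a + rt b) (hc : S.M.τ.ρ a = a ∧ S.M.τ.ρ b = b ∨ 0 ≤ pr a (S.M.τ.ρ b))
    (ha : S.Stb L a) (hb : S.Stb L b) : L ≤ S.Wt r 0 := fun v hv => mem_Wt0'.2 fun g hg => by
  have : S.M.X (O S.M r) ≤ ⁅S.M.X (O S.M a), S.M.X (O S.M b)⁆ := by
    rcases hc with ⟨e1, e2⟩ | hc
    · rw [O_fix e1, O_fix e2, O_fix (rt_injective (by rw [S.h.rt_add e, e1, e2, e]))]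
      exact S.h.le_S1 e1 e2 e one_ne_zero (S.hf b e2)
    · exact S.h.le_S2 (S.h0 a) (S.h0 b) hc (S.h0 r) e
  exact (Subgroup.commutator_le (H₃ := stabV S.ρ v)).2 (fun x hx y hy => comm_fix h (ha.mem hx) (hb.mem hy) hv) (this hg)

end St

end CA.DegF
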