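/-
Character degrees of `²E₆(q)`: the filtration by root subgroups.
-/
import Cfsg.Agent.Lib.Lie.DegF1

set_option autoImplicit false
set_option linter.unusedSectionVars false

namespace CA.DegF

open Cfsg CA.DegO CA.DegT CA.DegE Finset Module Cfsg.Lie CA.Chev CA.Chev.Sys0 CA.Chev.Twist CA.TwM
open scoped commutatorElement Classical

variable {D : ChevalleyDatum} [Good D] {K : Type*} [Field K] [Fintype K] {Γ : Type*} [Group Γ]
  {A : Sys D K Γ} {G : Type*} [Group G] {V : Type*} [AddCommGroup V] [Module ℂ V] [FiniteDimensional ℂ V]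

theorem coord_pos {r : Rt D} (h : Pos r) {j : Nd D} (e : 0 < pr (sim j) r) : 1 ≤ rt r j := not_lt.1 fun a => by
  have a1 := h.rt_nonneg j
  have := (h.sR_pos (i := j) (by rintro rfl; simp [rt_sim] at a)).rt_nonneg j
  simp [rt_sR, rt_sim, ← pr_sim_left] at this
  omega

namespace St
variable {S : St A G V}

variable (S) in
/-- stable isotropic halves -/
def Lg (α : Rt D) (Λ : Finset (Rt D)) : Prop := Lag α Λ ∧ ∀ a ∈ Λ, S.M.τ.ρ a ∈ Λ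

theorem Lg.iso {α : Rt D} {Λ : Finset (Rt D)} (h : S.Lg α Λ) : S.Iso α Λ := fun a ha => ⟨(h.1 a).1 ha, ((h.1 a).2 ((h.1 a).1 ha)).1 ha, h.2 a ha⟩

theorem exists_half {α : Rt D} (e : S.M.τ.ρ α = α) : ∃ T : Finset (Rt D), #{a | pr α a = 1 ∧ 0 < ht a ∧ ht a < ht α} = 2 * #T ∧ S.Iso α T ∧
    ∀ a ∈ T, Pos a ∧ Pos (io α a) := by
  let κ := fun a => min a (S.M.τ.ρ a)
  have k1 : ∀ a, κ (S.M.τ.ρ a) = κ a := fun a => by simp [κ, min_comm]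
  have k2 : ∀ a, pr α a = 1 → κ a ≠ κ (io α a) := fun a ha h => by
    have a1 := pr_of_sum S.hl (rt_io ha)
    have a2 := S.h0 a
    have : io α a = a ∨ io α a = S.M.τ.ρ a := by
      rcases min_choice a (S.M.τ.ρ a) with e1 | e1 <;> rcases min_choice (io α a) (S.M.τ.ρ (io α a)) with e2 | e2 <;> simp only [κ, e1, e2] at h
      exacts [.inl h.symm, .inr (by rw [← S.φφ (io α a), ← h]), .inr h.symm, .inl (S.M.τ.ρ.injective h).symm]
    rcases this with e | e <;> rw [e] at a1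
    · simp at a1
    · omega
  have k3 : ∀ a, pr α a = 1 → ht (io α a) = ht α - ht a := fun a ha => by rw [ht_add (rt_io ha)]; ring
  refine ⟨(univ.filter fun a => pr α a = 1 ∧ 0 < ht a ∧ ht a < ht α).filter fun a => κ a < κ (io α a), ?_, fun a ha => ?_, fun a ha => ?_⟩
  · rw [← card_filter_add_card_filter_not (fun a => κ a < κ (io α a)), two_mul]
    congr 1
    refine card_nbij' (io α) (io α) (fun a ha => ?_) (fun a ha => ?_) (fun _ _ => io_io ..) fun _ _ => io_io .. <;>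
      simp only [coe_filter, mem_filter, mem_univ, true_and, Set.mem_ofPred_eq, pr_io, io_io] at ha ⊢ <;> have := k3 a ha.1.1
    exacts [⟨⟨ha.1.1, by omega, by omega⟩, (not_lt.1 ha.2).lt_of_ne' (k2 a ha.1.1)⟩, ⟨⟨ha.1.1, by omega, by omega⟩, ha.2.not_gt⟩]
  all_goals simp only [mem_filter, mem_univ, true_and, pr_io, io_io, S.prf e, ht_φ, ← S.φ_io e, k1, pos_iff_ht] at ha ⊢
  · exact ⟨ha.1.1, fun h => h.2.not_gt ha.2, ha⟩
  · have := k3 a ha.1.1; omega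

theorem le_of_mem {α k : Rt D} {c : K} {Λ : Finset (Rt D)} (h : k ∈ Λ) : S.Wt α c ⊓ S.Fx Λ ≤ S.Wt k 0 := fun _ hv => mem_Fx.1 hv.2 k h

theorem stb0 {α β : Rt D} (eα : S.M.τ.ρ α = α) {c : K} {Λ : Finset (Rt D)} (hΛ : S.Iso α Λ) (h : pr α β = 0)
    (hn : ∀ r ∈ Λ, ∀ b ∈ O S.M β, ∀ k, rt k = rt r + rt b → k ∈ Λ) : S.Stb (S.Wt α c ⊓ S.Fx Λ) β := fun t v hv => by
  refine ⟨st0 hv.1 h.ge (by rw [S.prf eα, h]) t, mem_Fx.2 fun r hr => st (mem_Fx.1 hv.2 r hr) (prL α) (by simp [prL_rt, S.prf eα])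
    (by simp [prL_rt, (hΛ r hr).1]) (by simp [prL_rt, h]) (· ∈ Λ) (fun k hk => (hΛ k hk).2.2) (fun k hk => by simp [prL_rt, (hΛ k hk).1])
    (fun a b k e ha hb => ?_) (mem_Fx.1 hv.2) t⟩
  have m : ∀ a ∈ O S.M r, a ∈ Λ := forall_O.2 ⟨hr, (hΛ r hr).2.2⟩
  replace ha := ha.elim id (m a)
  have := pr_of_sum S.hl e
  rcases hb with hb | hb | hb
  exacts [by have := (hΛ.c1 hb ha).1; omega, by have := (hΛ.c1 (m b hb) ha).1; omega, hn a ha b hb k e]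

theorem fr_eq {α : Rt D} (eα : S.M.τ.ρ α = α) {c : K} (c0 : S.Ok c) {Λ : Finset (Rt D)} (hΛ : S.Iso α Λ) :
    finrank ℂ (S.Wt α c) = S.q ^ #Λ * finrank ℂ ↥(S.Wt α c ⊓ S.Fx Λ) :=
  h2 eα le_rfl c0 hΛ fun a ha => have k := (hΛ a ha).1
    ⟨fun t _ hv => st0 hv (by omega) (by simp [S.prf eα, k]) t, fun t _ hv => st0 hv (by simp [k]) (by simp [S.prf eα, k]) t⟩

variable (S) in
/-- all weight spaces are irreducible for the Heisenberg group -/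
def One (α : Rt D) : Prop := ∀ c, S.Ok c → ∀ Λ, S.Lg α Λ → finrank ℂ ↥(S.Wt α c ⊓ S.Fx Λ) = 1

variable (S) in
/-- good decompositions -/
def Cd (β a b : Rt D) : Prop := rt β = rt a + rt b ∧ (S.M.τ.ρ a = a ∧ S.M.τ.ρ b = b ∨ 0 ≤ pr a (S.M.τ.ρ b))

theorem fixb {α β : Rt D} (eα : S.M.τ.ρ α = α) (h1 : S.One α) {c : K} (c0 : S.Ok c) {Λ : Finset (Rt D)} (hΛ : S.Lg α Λ) (h : pr α β = 0)
    (hs : ∃ a b, S.Cd β a b ∧ pr α a = 0 ∧ 0 ≤ pr (S.M.τ.ρ β) a ∧ 0 ≤ pr (S.M.τ.ρ β) b)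
    (hn : ∀ r ∈ Λ, ∀ b ∈ O S.M β, ∀ k, rt k = rt r + rt b → k ∈ Λ) : S.Wt α c ⊓ S.Fx Λ ≤ S.Wt β 0 := fun v hv => mem_Wt0.2 fun t => by
  by_cases v0 : v = 0
  · simp [v0]
  obtain ⟨l, -, e⟩ := scal (h1 c c0 Λ hΛ) (stb0 eα hΛ.iso h hn t) hv
  obtain ⟨g, hg⟩ : ∃ g : Rt D → ℤ, ∀ a, g a = pr β a + pr (S.M.τ.ρ β) a := ⟨_, fun _ => rfl⟩
  have g1 : ∀ a, pr α a = 1 → g (io α a) = -g a := fun a ha => by
    rw [hg, hg, S.hl β, S.hl (S.M.τ.ρ β), pr_io' S.hl ha, pr_io' S.hl ha, S.prf eα, h, S.hl β, S.hl (S.M.τ.ρ β)]; ring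
  have g2 : ∀ a, g (S.M.τ.ρ a) = g a := fun a => by rw [hg, hg, pr_φ, ← S.h.pr_ρ', add_comm]
  have g3 : ∀ a, S.M.τ.ρ a ∈ Λ ↔ a ∈ Λ := fun a => ⟨fun h => by simpa using hΛ.2 _ h, hΛ.2 a⟩
  let T : Finset (Rt D) := {a | pr α a = 1 ∧ 0 < g a ∧ a ∉ Λ}
  have m0 : ∀ a, a ∈ T ↔ pr α a = 1 ∧ 0 < g a ∧ a ∉ Λ := by simp [T]
  obtain ⟨w, w0, b1, b2, b3, b4⟩ := flip eα c0.1 (Λ := T) (fun a ha => by
      rw [m0] at ha
      exact ⟨ha.1, fun e => by have := g1 a ha.1; have := (m0 _).1 e; omega, by rwa [m0, S.prf eα, g2, g3]⟩) (fun a ha u => by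
      rw [m0, hg] at ha
      have := le_one S.hl (r := β) (s := a) (by rintro rfl; omega)
      have := le_one S.hl (r := S.M.τ.ρ β) (s := a) (by rintro rfl; rw [S.prf eα] at ha; omega)
      exact comm_y (by omega) (by rw [← S.h.pr_ρ']; omega) t u) v0 hv.1 (fun a ha => by
      rw [m0] at ha
      exact mem_Fx.1 hv.2 _ (not_not.1 (mt ((hΛ.1 a).2 ha.1).2 ha.2.2))) e T subset_rfl
  let Λ' : Finset (Rt D) := {a | pr α a = 1 ∧ (0 < g a ∨ g a = 0 ∧ a ∈ Λ)}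
  have m : ∀ a, a ∈ Λ' ↔ pr α a = 1 ∧ (0 < g a ∨ g a = 0 ∧ a ∈ Λ) := by simp [Λ']
  have a2 : S.Lg α Λ' := ⟨fun a => ⟨fun ha => ((m a).1 ha).1, fun ha => by
    rw [m, m, pr_io, g1 a ha, (hΛ.1 a).2 ha]
    by_cases io α a ∈ Λ <;> simp [*] <;> omega⟩, fun a ha => by rwa [m, S.prf eα, g2, g3, ← m]⟩
  have a3 : ∀ a b, rt β = rt a + rt b → pr α a = 0 → 0 ≤ pr (S.M.τ.ρ β) a → S.Stb (S.Wt α c ⊓ S.Fx Λ') a := fun a b e ha hb =>
    stb0 eα a2.iso ha fun r hr b' hb' k e' => by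
      have c1 := pr_sum e a
      have c2 : pr α b' = 0 ∧ g b' = g a := forall_O (P := fun b' => pr α b' = 0 ∧ g b' = g a).2 ⟨⟨ha, rfl⟩, by rwa [S.prf eα], g2 a⟩ b' hb'
      have c3 : g k = g r + g b' := by simp only [hg, pr_sum e']; ring
      have c4 := hg a
      rw [m] at hr ⊢
      rw [pr_self, pr_of_sum S.hl e, S.hl] at c1
      have := pr_sum e' α
      omega
  obtain ⟨a, b, ⟨e1, e0⟩, e2, e3, e4⟩ := hs
  have := pr_sum e1 α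
  have := mem_Wt0.1 (cm (h1 c c0 Λ' a2) e1 e0 (a3 a b e1 e2 e3) (a3 b a (e1.trans (add_comm ..)) (by omega) e4) (x := w) ⟨b1, mem_Fx.2 fun r hr => ?_⟩) t
  · rw [e, smul_left_injective ℂ w0 (b2.symm.trans (this.trans (one_smul ℂ w).symm)), one_smul]
  rw [m] at hr
  by_cases r1 : r ∈ Λ
  · have := g1 r hr.1
    exact b4 r hr.1 (fun e => by have := (m0 _).1 e; omega) (fun e => by have := (m0 _).1 e; rw [g2] at this; omega) (mem_Fx.1 hv.2 r r1)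
  · exact mem_Fx.1 b3 r (by simpa [m0, hr.1, r1] using hr.2)

theorem stU {r β : Rt D} {c : K} {v : V} (hv : v ∈ S.Wt r c) (hr : Pos r) (hβ : Pos β) (p : Rt D → Prop) (p0 : p r) (p1 : ∀ k, p k → p (S.M.τ.ρ k))
    (p3 : ∀ a b k, rt k = rt a + rt b → p a → p b ∨ b ∈ O S.M β → p k) (h : ∀ k, p k → ht r < ht k → v ∈ S.Wt k 0) (t : K) :
    S.ρ (S.y β t) v ∈ S.Wt r c := by
  have e : ∀ k, (hF D).f (rt k) = ht k := by simp [hF, ht]
  have a1 := hr.ht_pos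
  have a2 := hβ.ht_pos
  have m : ∀ a ∈ O S.M r, p a ∧ ht a = ht r := forall_O.2 ⟨⟨p0, rfl⟩, p1 r p0, S.ht_φ r⟩
  have m' : ∀ a ∈ O S.M β, ht a = ht β := forall_O.2 ⟨rfl, S.ht_φ β⟩
  refine st hv (hF D).f (by simp [e]) (by rwa [e]) (by rw [e]; omega) (fun k => p k ∧ ht r < ht k) (fun k hk => ⟨p1 k hk.1, by simpa using hk.2⟩)
    (fun k hk => by rw [e]; omega) (fun a b k e ha hb => ?_) (fun k hk => h k hk.1 hk.2) t
  have a3 : p a ∧ ht r ≤ ht a := ha.elim (fun h => ⟨h.1, h.2.le⟩) fun h => ⟨(m a h).1, (m a h).2.ge⟩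
  have a4 : (p b ∨ b ∈ O S.M β) ∧ 0 < ht b := by
    rcases hb with h | h | h
    exacts [⟨.inl h.1, by omega⟩, ⟨.inl (m b h).1, (m b h).2 ▸ a1⟩, ⟨.inr h, m' b h ▸ a2⟩]
  exact ⟨p3 a b k e a3.1 a4.1, by have := ht_add e; omega⟩

variable (S) in
/-- the combinatorial hypotheses on a node -/
structure Nod (j : Nd D) : Prop where
  e : S.M.τ.ν j = j
  s : ∀ β, Pos β → pr (sim j) β = 0 → ∃ a b, S.Cd β a b ∧ pr (sim j) a = 0 ∧ 0 ≤ pr (S.M.τ.ρ β) a ∧ 0 ≤ pr (S.M.τ.ρ β) b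
  γ : ∀ β, S.M.τ.ρ β = β → pr (sim j) β = -1 → 1 ≤ rt β j → ∃ a b, S.M.τ.ρ a = a ∧ Pos a ∧ Pos b ∧ rt β = rt a + rt b

theorem sim_fix {j : Nd D} (e : S.M.τ.ν j = j) : S.M.τ.ρ (sim j) = sim j := by rw [S.M.τ.dsym.map_sim, e]

theorem lg0 {j : Nd D} (e : S.M.τ.ν j = j) : S.Lg (sim j) (L0 j) := ⟨lag0 j, fun a => by simp [mem_L0, S.prf (sim_fix e)]⟩

variable (S) in
/-- decomposable roots -/
def Dec (j : Nd D) (β : Rt D) : Prop := ∃ a b, S.Cd β a b ∧ Pos a ∧ (Pos b ∨ ht b = -1 ∧ pr (sim j) b = 0)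

section
variable {j : Nd D} (hj : S.Nod j) (h1 : S.One (sim j)) {c : K} (c0 : S.Ok c)
include hj h1 c0

theorem f0 {β : Rt D} (h : Pos β) (e : 0 ≤ pr (sim j) β) (n : β ≠ sim j) : S.Wt (sim j) c ⊓ S.Fx (L0 j) ≤ S.Wt β 0 := by
  have := le_one S.hl n
  by_cases e1 : pr (sim j) β = 1
  · exact le_of_mem (mem_L0.2 ⟨h, e1⟩)
  refine fixb (sim_fix hj.e) h1 c0 (lg0 hj.e) (by omega) (hj.s β h (by omega)) fun r hr b hb k e' => ?_
  have : Pos b ∧ pr (sim j) b = 0 := forall_O (P := fun b => Pos b ∧ pr (sim j) b = 0).2 ⟨⟨h, by omega⟩, by simpa, by rw [S.prf (sim_fix hj.e)]; omega⟩ b hb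
  rw [mem_L0] at hr ⊢
  exact ⟨pos_add e' hr.1 this.1, by rw [pr_sum e']; omega⟩

omit hj h1 c0 in
theorem sU {β : Rt D} (h : Pos β) (p : Rt D → Prop) (p0 : ∀ r, Pos r → 1 ≤ pr (sim j) r → p r) (p1 : ∀ k, p k → p (S.M.τ.ρ k))
    (p3 : ∀ a b k, rt k = rt a + rt b → p a → p b ∨ b ∈ O S.M β → p k) (p4 : ∀ k, p k → Pos k → k ≠ sim j → S.Wt (sim j) c ⊓ S.Fx (L0 j) ≤ S.Wt k 0) :
    S.Stb (S.Wt (sim j) c ⊓ S.Fx (L0 j)) β := fun t v hv => by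
  have k : ∀ r d, Pos r → 1 ≤ pr (sim j) r → v ∈ S.Wt r d → S.ρ (S.y β t) v ∈ S.Wt r d := fun r d h1 h2 h3 => stU h3 h1 h p (p0 r h1 h2) p1 p3 (fun k hk e => by
    have := h1.ht_pos
    exact p4 k hk ((pos_iff_ht k).2 (by omega)) (by rintro rfl; rw [ht_sim] at e; omega) hv) t
  exact ⟨k _ _ (pos_sim j) (by simp) hv.1, mem_Fx.2 fun r hr => k _ _ (mem_L0.1 hr).1 (mem_L0.1 hr).2.ge (mem_Fx.1 hv.2 r hr)⟩

theorem s1 {β : Rt D} (h : Pos β) (n : β ≠ sim j) (e : 0 ≤ pr (sim j) β ∨ S.M.τ.ρ β = β) : S.Stb (S.Wt (sim j) c ⊓ S.Fx (L0 j)) β := by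
  have eα := sim_fix hj.e
  have a1 := neg_one_le S.hl (r := sim j) (s := β) (by rintro rfl; exact (pos_ng _).1 h (pos_sim j))
  rcases e with e | e
  · exact sU h (0 ≤ pr (sim j) ·) (fun r _ _ => by omega) (by simp [S.prf eα]) (fun a b k e' ha hb => by
      have : 0 ≤ pr (sim j) b := hb.elim id (forall_O (P := (0 ≤ pr (sim j) ·)).2 ⟨e, by rwa [S.prf eα]⟩ b)
      rw [pr_sum e']; omega) fun k h1' h2 h3 => f0 hj h1 c0 h2 h1' h3
  · refine sU h (fun k => 0 < 2 * pr (sim j) k + pr β k) (fun r hr _ => ?_) (by simp [S.prf eα, S.prf e]) (fun a b k e' ha hb => ?_)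
      fun k h1' h2 h3 => f0 hj h1 c0 h2 (by have := pr_bd S.hl β k; omega) h3
    · have := neg_one_le S.hl (r := β) (s := r) (by rintro rfl; exact (pos_ng _).1 hr h)
      omega
    have : 0 ≤ 2 * pr (sim j) b + pr β b := hb.elim le_of_lt (by rw [O_fix e]; rintro rfl; rw [pr_self]; omega)
    rw [pr_sum e', pr_sum e']; omega

omit hj h1 c0 in
variable (S) in
include S in
theorem ne_of_neg {α β a b : Rt D} (e : rt β = rt a + rt b) (h : pr α β = -1) : a ≠ α ∧ b ≠ α := by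
  have := pr_sum e α
  have k := pr_of_sum S.hl e
  exact ⟨by rintro rfl; simp at this; omega, by rintro rfl; rw [S.hl] at k; simp at this; omega⟩

theorem s0 {β : Rt D} (h : Pos β) (n : β ≠ sim j) : S.Stb (S.Wt (sim j) c ⊓ S.Fx (L0 j)) β := by
  by_cases e : 0 ≤ pr (sim j) β ∨ S.M.τ.ρ β = β
  · exact s1 hj h1 c0 h n e
  rw [not_or] at e
  have eα := sim_fix hj.e
  have a0 : ∀ {r s}, Pos r → Pos s → -1 ≤ pr r s := fun hr hs => neg_one_le S.hl (by rintro rfl; exact (pos_ng _).1 hs hr)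
  have a1 : pr (sim j) β = -1 := by have := a0 (pos_sim j) h; omega
  have a2 := S.pr0 e.2
  have a3 := h.ht_pos
  have a4 : ∀ k, rt (S.M.τ.ρ k) j = rt k j := fun k => by simpa [hj.e] using S.h.hφ k j
  refine sU h (fun k => 1 ≤ rt k j ∧ 0 < ht β * pr (sim j) k + ht k ∧ 0 ≤ 2 * pr (sim j) k + pr β k + pr (S.M.τ.ρ β) k) (fun r hr e => ?_) (fun k => ?_)
    (fun a b k e' ha hb => ?_) fun k ⟨b1, b2, b3⟩ h2 h3 => ?_
  · have := a0 h hr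
    have := a0 ((S.pos_φ β).2 h) hr
    exact ⟨coord_pos hr (by omega), by have := hr.ht_pos; positivity, by omega⟩
  · rw [a4, S.prf eα, ht_φ, pr_φ, ← S.h.pr_ρ', add_right_comm]; exact id
  · have : 0 ≤ rt b j ∧ 0 ≤ ht β * pr (sim j) b + ht b ∧ 0 ≤ 2 * pr (sim j) b + pr β b + pr (S.M.τ.ρ β) b := by
      rcases hb with hb | rfl | rfl
      exacts [by omega, by simp [h.rt_nonneg, a1, S.hl (S.M.τ.ρ b), a2], by simp [h.rt_nonneg, a1, a2, a4, S.prf eα]]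
    rw [e', pr_sum e', pr_sum e', pr_sum e', ht_add e', mul_add, Pi.add_apply]; omega
  by_cases e1 : 0 ≤ pr (sim j) k
  · exact f0 hj h1 c0 h2 e1 h3
  have b4 : pr (sim j) k = -1 := by have := a0 (pos_sim j) h2; omega
  rw [b4] at b2 b3
  have b5 := le_one S.hl (r := β) (s := k) (by rintro rfl; omega)
  have b6 := le_one S.hl (r := S.M.τ.ρ β) (s := k) (by rintro rfl; rw [ht_φ] at b2; omega)
  have b7 : S.M.τ.ρ k = k := by_contra fun e => by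
    have c1 := rt_io (show pr k β = 1 by rw [S.hl]; omega)
    have c2 := rt_io (show pr (io k β) (S.M.τ.ρ β) = 1 by rw [pr_io' S.hl (by rw [S.hl]; omega), S.hl]; omega)
    have c3 := pr_sum c1 (S.M.τ.ρ k)
    have c4 := pr_sum c2 (S.M.τ.ρ k)
    rw [S.hl, S.pr0 e, S.h.pr_ρ', S.hl k] at c3
    rw [pr_φ, S.hl k] at c4
    have c5 := congrArg ht (eq_of_two S.hl (r := ng (S.M.τ.ρ k)) (s := io (io k β) (S.M.τ.ρ β)) (by rw [pr_ng_left]; omega))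
    have := ht_add c1
    have := ht_add c2
    simp only [ht_ng, ht_φ] at *; omega
  obtain ⟨a, b, c1, c2, c3, c4⟩ := hj.γ k b7 b4 b1
  have c5 : S.M.τ.ρ b = b := rt_injective (add_left_cancel ((c1 ▸ S.h.rt_add c4).symm.trans (by rw [b7, c4])))
  exact cm (h1 c c0 _ (lg0 hj.e)) c4 (.inl ⟨c1, c5⟩) (s1 hj h1 c0 c2 (S.ne_of_neg c4 b4).1 (.inr c1)) (s1 hj h1 c0 c3 (S.ne_of_neg c4 b4).2 (.inr c5))

theorem f1 {β : Rt D} (e : pr (sim j) β = -1) (h : S.Dec j β) : S.Wt (sim j) c ⊓ S.Fx (L0 j) ≤ S.Wt β 0 := by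
  obtain ⟨a, b, ⟨e1, e2⟩, ha, hb⟩ := h
  refine cm (h1 c c0 _ (lg0 hj.e)) e1 e2 (s0 hj h1 c0 ha (S.ne_of_neg e1 e).1) (hb.elim (fun hb => s0 hj h1 c0 hb (S.ne_of_neg e1 e).2) fun hb =>
    stb0 (sim_fix hj.e) (lg0 hj.e).iso hb.2 fun r hr b' hb' k e' => ?_)
  have : ht b' = -1 ∧ pr (sim j) b' = 0 := forall_O (P := fun b => ht b = -1 ∧ pr (sim j) b = 0).2 ⟨hb, by simpa [S.prf (sim_fix hj.e)]⟩ b' hb'
  rw [mem_L0, pos_iff_ht] at hr ⊢
  have := ht_add e'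
  have := ht_ne k
  exact ⟨by omega, by rw [pr_sum e']; omega⟩
end

variable {i : Nd D} (hj : ∀ j, S.M.τ.ν j = j → S.Nod j) (h1 : ∀ j, S.M.τ.ν j = j → S.One (sim j)) (hi : S.M.τ.ν i = i)
  (hd : ∀ j, S.M.τ.ν j = j → ∀ β, Pos β → pr (sim j) β = -1 → β ≠ sim i → S.Dec j β)
include hj h1 hi hd

theorem f3 {j : Nd D} (ej : S.M.τ.ν j = j) {c : K} (c0 : S.Ok c) {β : Rt D} (h : Pos β) (n : β ≠ sim j) : S.Wt (sim j) c ⊓ S.Fx (L0 j) ≤ S.Wt β 0 := by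
  have k : ∀ {j c β}, S.M.τ.ν j = j → S.Ok c → Pos β → β ≠ sim j → (β = sim i → 0 ≤ pr (sim j) β) → S.Wt (sim j) c ⊓ S.Fx (L0 j) ≤ S.Wt β 0 :=
    fun {j c β} ej c0 h n n' => by
      by_cases e : 0 ≤ pr (sim j) β
      · exact f0 (hj j ej) (h1 j ej) c0 h e n
      have := neg_one_le S.hl (r := sim j) (s := β) (by rintro rfl; exact (pos_ng _).1 h (pos_sim j))
      exact f1 (hj j ej) (h1 j ej) c0 (by omega) (hd j ej β h (by omega) (mt n' e))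
  by_cases e : β = sim i
  swap
  · exact k ej c0 h n fun e' => (e e').elim
  subst e
  have a1 := h1 j ej c c0 _ (lg0 ej)
  obtain ⟨y, hy⟩ := exists_Ws S.P (ρ := S.ρ) (x := S.Y (sim i)) (a1 ▸ one_ne_zero) (s0 (hj j ej) (h1 j ej) c0 h n)
  obtain ⟨v, hv, v0⟩ := Submodule.exists_mem_ne_zero_of_ne_bot (mt Submodule.finrank_eq_zero.2 hy)
  obtain rfl : y = 0 := by_contra fun y0 => c0.1 (Wt_ne hv.1.1 (k hi ⟨y0, Wt_fix (sim_fix hi) hv.2 v0⟩ (pos_sim j) n.symm (fun e => (n e.symm).elim)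
    ⟨hv.2, mem_Fx.2 fun r hr => k ej c0 (mem_L0.1 hr).1 (fun e => by
      have a := (mem_L0.1 hr).2
      have := pr_sim_le S.hl (i := i) (j := j) n.symm
      rw [e] at a; omega) (fun e => absurd e (ne_of_le (mem_L0.1 hr).2.le)) hv.1⟩) v0)
  exact inf_eq_left.1 (Submodule.eq_of_le_of_finrank_le inf_le_left (a1.trans_le (Nat.one_le_iff_ne_zero.2 hy)))

omit hj h1 hi hd in
theorem tr_Wt {w : Equiv.Perm (Rt D)} (hw : w ∈ W1 S.M.τ.ρ) : ∃ g : G, ∀ s, ∃ e : K, e ≠ 0 ∧ (S.M.τ.ρ s = s → S.α e = e) ∧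
    ∀ c v, v ∈ S.Wt s (c * e) → S.ρ g v ∈ S.Wt (w s) c := by
  obtain ⟨m, hm, h⟩ := S.M.ok.exists_N1 hw
  obtain ⟨g, rfl⟩ := S.M.lift hm.2
  refine ⟨g, fun s => ?_⟩
  obtain ⟨e, he⟩ := h.conj_x s
  have k := fun u => congrArg S.M.τ.σ (he u)
  simp only [map_mul, map_inv, show S.M.τ.σ (S.M.e g) = S.M.e g from S.M.memF g] at k
  refine ⟨e, e.ne_zero, fun es => ?_, fun c v hv => mem_Wt.2 fun t => ?_⟩
  · have ew : S.M.τ.ρ (w s) = w s := by rw [← W1_apply hw, es]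
    have := k 1
    rw [σ_x, σ_x, es, ew, S.f_fix es, S.f_fix ew, map_one, he] at this
    simpa using (A.x_injective _ this).symm
  have : g * S.y s ((e : K)⁻¹ * t) * g⁻¹ = S.y (w s) t := S.M.inj (by
    rw [map_mul, map_mul, map_inv, e_y, e_y, ← mul_inv_cancel_left₀ e.ne_zero t, ← k, ← he, inv_mul_cancel_left₀ e.ne_zero]; group)
  rw [← this, ← End.mul_apply, ← map_mul, inv_mul_cancel_right, map_mul, End.mul_apply, mem_Wt.1 hv, map_smul, mul_assoc, mul_inv_cancel_left₀ e.ne_zero]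

theorem exists_v (n : ℕ) : ∀ α, S.M.τ.ρ α = α → ht α = n + 1 → ∀ c, S.Ok c → ∃ v ≠ 0, v ∈ S.Wt α c ∧ ∀ β, ht α ≤ ht β → β ≠ α → v ∈ S.Wt β 0 := by
  induction n using Nat.strong_induction_on with | _ n ih => ?_
  intro α eα hn c c0
  have h : Pos α := (pos_iff_ht α).2 (by omega)
  obtain ⟨j, a1, -⟩ := h.exists_wt_pos
  rw [← pr_sim_left] at a1
  by_cases e : α = sim j
  · subst e
    have ej : S.M.τ.ν j = j := sim_injective (by rw [← S.M.τ.dsym.map_sim, eα])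
    obtain ⟨v, hv, v0⟩ := Submodule.exists_mem_ne_zero_of_ne_bot (mt Submodule.finrank_eq_zero.2 (h1 j ej c c0 _ (lg0 ej) ▸ one_ne_zero))
    exact ⟨v, v0, hv.1, fun β e n => f3 hj h1 hi hd ej c0 ((pos_iff_ht β).2 (by omega)) n hv⟩
  have a2 : pr (sim j) α = 1 := by have := le_one S.hl e; omega
  have a3 : 1 ≤ n := by have := (h.sR_pos e).ht_pos; rw [ht_sR, ← pr_sim_left] at this; omega
  have a4 : ∀ a β : Rt D, ht (Chev.refl a β) = ht β - pr a β * ht a := fun a β => by simp [ht, rt_refl, mul_sum]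
  have a5 : ∀ a β : Rt D, ht a = 1 → ht α ≤ ht β → pr a β ≤ 1 := fun a β h1 h2 => le_one S.hl (by rintro rfl; omega)
  have a6 : ∀ a, S.M.τ.ρ * Chev.refl a * (S.M.τ.ρ)⁻¹ = Chev.refl (S.M.τ.ρ a) := conj_refl S.h.ra
  obtain ⟨w, hw, b1, b2, b3⟩ : ∃ w ∈ W1 S.M.τ.ρ, ht (w α) < ht α ∧ 0 ≤ ht (w α) ∧ ∀ β, ht α ≤ ht β → ht (w α) ≤ ht (w β) := by
    by_cases e : S.M.τ.ρ (sim j) = sim j
    · refine ⟨Chev.refl (sim j), mem_W1.2 ⟨refl_mem _, by rw [a6, e]⟩, ?_⟩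
      simp only [a4, a2, ht_sim]
      exact ⟨by omega, by omega, fun β hβ => by have := a5 _ β (ht_sim j) hβ; omega⟩
    have b0 := S.pr0 e
    have b1 : ∀ β, ht ((Chev.refl (sim j) * Chev.refl (S.M.τ.ρ (sim j))) β) = ht β - pr (sim j) β - pr (S.M.τ.ρ (sim j)) β := fun β => by
      rw [Equiv.Perm.mul_apply, a4, a4, ← prL_rt _ (Chev.refl _ _), rt_refl, map_sub, map_smul, prL_rt, prL_rt, b0]; simp; ring
    refine ⟨Chev.refl (sim j) * Chev.refl (S.M.τ.ρ (sim j)), mem_W1.2 ⟨mul_mem (refl_mem _) (refl_mem _), ?_⟩, ?_⟩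
    · rw [← conj_mul, a6, a6, φφ, mul_refl (refl_mem_RA (sim j)), refl_eq_self b0]
    simp only [b1, a2, S.h.pr_ρ', eα]
    exact ⟨by omega, by omega, fun β hβ => by
      have := a5 _ β (ht_sim j) hβ
      have := a5 (S.M.τ.ρ (sim j)) β (by simp) hβ
      rw [S.h.pr_ρ'] at this; omega⟩
  obtain ⟨g, k⟩ := tr_Wt (inv_mem hw)
  have ew : S.M.τ.ρ (w α) = w α := by rw [← W1_apply hw, eα]
  obtain ⟨e, e0, e1, he⟩ := k (w α)
  have := ht_ne (w α)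
  obtain ⟨v, v0, c1, c2⟩ := ih ((ht (w α)).toNat - 1) (by omega) (w α) ew (by omega) (c * e) ⟨mul_ne_zero c0.1 e0, by simp [c0.2, e1 ew]⟩
  refine ⟨S.ρ g v, fun e => v0 (by simpa using congrArg (S.ρ g⁻¹) e), by simpa only [pinv_apply] using he c v c1, fun β e n => ?_⟩
  obtain ⟨e', -, -, he'⟩ := k (w β)
  simpa only [pinv_apply] using he' 0 v (by simpa using c2 _ (b3 β e) (mt w.injective.eq_iff.1 n))

theorem filt (T : Finset (Rt D)) : (∀ β ∈ T, Pos β ∧ ∀ γ, ht β < ht γ → γ ∈ T) → finrank ℂ (S.Fx T) + (S.q - 1) *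
    ∑ α ∈ T, (if S.M.τ.ρ α = α then S.q ^ (#{a | pr α a = 1 ∧ 0 < ht a ∧ ht a < ht α} / 2) else 0) ≤ finrank ℂ V := by
  refine induction_on_min_value ht T (fun _ => by simpa using Submodule.finrank_le _) fun α T ha hm ih hT => le_trans ?_ (ih fun β hβ =>
    ⟨(hT β (mem_insert_of_mem hβ)).1, fun γ e => (mem_insert.1 ((hT β (mem_insert_of_mem hβ)).2 γ e)).resolve_left (by rintro rfl; exact e.not_ge (hm β hβ))⟩)
  obtain ⟨a1, a2⟩ := hT α (mem_insert_self ..)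
  rw [sum_insert ha, mul_add, ← add_assoc, Nat.add_le_add_iff_right, Fx_insert]
  split_ifs with eα
  swap
  · simpa using Submodule.finrank_mono inf_le_left
  have a3 : ∀ β ∈ insert α T, ∀ r c, Pos r → ∀ v ∈ S.Fx T, v ∈ S.Wt β c → ∀ t, S.ρ (S.y r t) v ∈ S.Wt β c := fun β hβ r c hr v hv h t =>
    stU h (hT β hβ).1 hr (fun _ => True) trivial (fun _ _ => trivial) (fun _ _ _ _ _ _ => trivial) (fun k _ e => mem_Fx.1 hv k (by
      have : ht α ≤ ht β := (mem_insert.1 hβ).elim (fun e => e ▸ le_rfl) (hm β)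
      exact (mem_insert.1 (a2 k (by omega))).resolve_left (by rintro rfl; omega))) t
  have a4 : ∀ r, Pos r → S.Stb (S.Fx T) r := fun r hr t v hv => mem_Fx.2 fun β hβ => a3 β (mem_insert_of_mem hβ) r 0 hr v hv (mem_Fx.1 hv β hβ) t
  obtain ⟨U, u1, u2, u3⟩ := exists_half eα
  rw [sum_eq (a4 α a1), ← add_sum_erase _ _ (a := 0) (by simp), u1, Nat.mul_div_cancel_left _ two_pos, ← S.hq, ← card_erase_of_mem (a := 0) (by simp),
    ← smul_eq_mul, ← sum_const, S.hq]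
  simp only [eα, forall_const]
  refine Nat.add_le_add_left (sum_le_sum fun c hc => ?_) _
  have c0 : S.Ok c := ⟨ne_of_mem_erase hc, by simpa using mem_of_mem_erase hc⟩
  have a5 : ∀ r, Pos r → S.Stb (S.Fx T ⊓ S.Wt α c) r := fun r hr t v hv => ⟨a4 r hr t v hv.1, a3 α (mem_insert_self ..) r c hr v hv.1 hv.2 t⟩
  have a6 := h2 eα inf_le_right c0 u2 fun a ha => ⟨a5 a (u3 a ha).1, a5 _ (u3 a ha).2⟩
  obtain ⟨v, v0, b1, b2⟩ := exists_v hj h1 hi hd ((ht α).toNat - 1) α eα (by have := a1.ht_pos; omega) c c0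
  have a7 : finrank ℂ ↥(S.Fx T ⊓ S.Wt α c) ≠ 0 := mt Submodule.finrank_eq_zero.1 (Submodule.ne_bot_iff _ |>.2
    ⟨v, ⟨mem_Fx.2 fun β hβ => b2 β (hm β hβ) (by rintro rfl; exact ha hβ), b1⟩, v0⟩)
  rw [a6] at a7
  exact (Nat.le_mul_of_pos_right _ (Nat.pos_of_ne_zero (right_ne_zero_of_mul a7))).trans a6.ge

end St

end CA.DegF
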