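/-
Character degrees of `²E₆(q)`: the class of long root elements.
-/
import Cfsg.Agent.Lib.Lie.DegF2

set_option autoImplicit false
set_option linter.unusedSectionVars false

namespace CA.DegF

open Cfsg CA.DegO CA.DegT CA.DegE Finset Module Cfsg.Lie CA.Chev CA.Chev.Sys0 CA.Chev.Twist CA.TwM
open scoped commutatorElement Classical

variable {D : ChevalleyDatum} [Good D] {K : Type*} [Field K] [Fintype K] {Γ : Type*} [Group Γ]
  {A : Sys D K Γ} {G : Type*} [Group G] {V : Type*} [AddCommGroup V] [Module ℂ V] [FiniteDimensional ℂ V]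

theorem card_Nr1 {τ : Twist A} (h : τ.OK) (hl : ∀ r s : Rt D, pr r s = pr s r) {θ : Rt D} (hθ : ∀ j, 0 ≤ wt θ j) {q : ℕ}
    (hQ : ∀ i, Nat.card (τ.X1 (τ.Op i)) = q ^ lg (wJ (orb τ.ν i))) :
    Nat.card ↥(τ.G1 ⊓ Nr A θ) = Nat.card ↥(A.B ⊓ τ.G1) * poin1 τ.ρ {j | wt θ j = 0} q := by
  have : Fintype ↥(W1 τ.ρ ⊓ WJ {j | wt θ j = 0}) := Fintype.ofFinite _
  choose m hm hw using fun w : ↥(W1 τ.ρ ⊓ WJ {j | wt θ j = 0}) => h.exists_N1 w.2.1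
  have hc : ∀ w : ↥(W1 τ.ρ ⊓ WJ {j | wt θ j = 0}), Nat.card (τ.X1 (invs w.1)) = q ^ lg w.1 := fun w => by
    simpa using h.card_X1 (d := 1) (Q := q) (by simpa using hQ) w.2.1
  have : ∀ w : ↥(W1 τ.ρ ⊓ WJ {j | wt θ j = 0}), Finite (τ.X1 (invs w.1)) := fun w => τ.finite_X1 (Sys.nil_invs (W1_ra w.2.1))
  have hB : A.B ≤ Nr A θ := sup_le (A.X_le.2 fun r hr t => ⟨1, fun u => by
      simpa using (A.comm_of_nonneg hl (pr_nonneg_of_dom (J := Set.univ) (fun j _ => hθ j) hr fun i hi => (hi trivial).elim) t u).mul_inv_cancel⟩)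
    (A.H_le.2 fun r t => ⟨t ^ pr r θ, fun u => by simpa using A.h_conj r θ t u⟩)
  have hU : ∀ w : Equiv.Perm (Rt D), τ.X1 (invs w) ≤ A.B := fun w u hu => A.U_le_B (X1_invs_le w hu).1
  rw [poin1, finsum_eq_sum_of_fintype, ← Finset.sum_congr rfl fun w _ => hc w, ← Nat.card_sigma, ← Nat.card_prod]
  refine (Nat.card_congr (Equiv.ofBijective
    (fun p : ↥(A.B ⊓ τ.G1) × (Σ w : ↥(W1 τ.ρ ⊓ WJ {j | wt θ j = 0}), τ.X1 (invs w.1)) => (⟨p.1 * m p.2.1 * p.2.2,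
      mul_mem (mul_mem p.1.2.2 (hm _).2) (X1_invs_le _ p.2.2.2).2, mul_mem (mul_mem (hB p.1.2.1)
      (show ∃ _, _ by simpa only [fix_of_mem_WJ (fun _ h => h) p.2.1.2.2] using (hw p.2.1).conj_x θ)) (hB (hU _ p.2.2.2))⟩ : ↥(τ.G1 ⊓ Nr A θ))) ⟨?_, ?_⟩)).symm
  · rintro ⟨b, w, u⟩ ⟨b', w', u'⟩ e
    have e : (b : Γ) * m w * u = b' * m w' * u' := congrArg Subtype.val e
    obtain rfl : w = w' := Subtype.ext (A.bruhat_unique (mul_mem (inv_mem b'.2.1) b.2.1)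
      (mul_mem (hU _ u.2) (inv_mem (hU _ u'.2))) (hm w).1 (hw w) (hw w') (by
        calc m w' = (b' : Γ)⁻¹ * (b' * m w' * u') * (u' : Γ)⁻¹ := by group
          _ = _ := by rw [← e]; group))
    obtain ⟨h1, h2⟩ := A.canon_unique b.2.1 b'.2.1 (hw w) u.2.1 u'.2.1 e
    rw [Subtype.ext h1, Subtype.ext h2]
  · rintro ⟨g, hg1, hg⟩
    obtain ⟨b, hb, m', hm', w, hw1, hw', u, hu, rfl⟩ := bruhat1 hg1
    obtain ⟨c, hc⟩ := (mul_mem_cancel_left (hB (A.U_le_B hb.1))).1 ((mul_mem_cancel_right (hB (hU _ hu))).1 hg)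
    obtain ⟨d, hd⟩ := hw'.conj_x θ
    have e : w ∈ WJ {j | wt θ j = 0} := by
      simpa using mem_WJ_of_fix (J := Set.univ) (fun j _ => hθ j) (WJ_univ.ge hw'.1) (A.x_eq_x (by simp) ((hd 1).symm.trans (hc 1))).1
    have := A.mem_H_of_act_eq (inv_mem hm'.1) (inv_mem (hm ⟨w, hw1, e⟩).1) hw'.inv (hw ⟨w, hw1, e⟩).inv
    exact ⟨(⟨_, Subgroup.mem_inf.2 ⟨mul_mem (A.U_le_B hb.1) (A.H_le_B this), mul_mem (τ.mem_G1_of_U hb.1 hb.2)
      (mul_mem (inv_mem (inv_mem (hm'.2 : m' ∈ τ.G1))) (inv_mem ((hm ⟨w, hw1, e⟩).2 : _ ∈ τ.G1)))⟩⟩, ⟨⟨w, hw1, e⟩, ⟨u, hu⟩⟩),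
      Subtype.ext (by simp [mul_assoc])⟩

namespace St
variable {S : St A G V}

theorem exists_cent [Finite G] (hq : ∀ t, S.α t = t ^ S.q) {θ : Rt D} (eθ : S.M.τ.ρ θ = θ) {z : G} (hz : S.M.e z = A.x θ 1) :
    ∃ H : Subgroup G, (∀ g ∈ H, g * z * g⁻¹ = z) ∧ ∃ i, Nat.card ((Nr A θ).comap S.M.e) * i = (S.q - 1) * Nat.card H := by
  choose c hc using fun g : (Nr A θ).comap S.M.e => g.2
  have u : ∀ (g : (Nr A θ).comap S.M.e) d, S.M.e g * A.x θ 1 * (S.M.e g)⁻¹ = A.x θ ((d : Kˣ) * 1) → c g = d := fun g d e =>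
    Units.ext (by simpa using A.x_injective θ ((hc g 1).symm.trans e))
  let φ : (Nr A θ).comap S.M.e →* Kˣ := MonoidHom.mk' c fun a b => u _ _ (by
    rw [Subgroup.coe_mul, map_mul, show S.M.e a * S.M.e b * A.x θ 1 * (S.M.e a * S.M.e b)⁻¹ = S.M.e a * (S.M.e b * A.x θ 1 * (S.M.e b)⁻¹) * (S.M.e a)⁻¹ by group,
      hc, hc]; simp)
  obtain ⟨i, hi⟩ : Nat.card φ.range ∣ S.q - 1 := IsCyclic.exponent_eq_card (α := φ.range) ▸ Monoid.exponent_dvd_of_forall_pow_eq_one (by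
    rintro ⟨_, g, rfl⟩
    have := congrArg S.M.τ.σ (hc g 1)
    rw [map_mul, map_mul, map_inv, show S.M.τ.σ (S.M.e g) = S.M.e g from S.M.memF g, σ_x, σ_x, eθ, S.f_fix eθ, S.f_fix eθ, map_one, hc, mul_one, hq] at this
    generalize S.q = q at this ⊢
    rcases q with _ | n
    · simp
    exact Subtype.ext (Units.ext (by simpa [pow_succ, φ] using (A.x_injective _ this).symm)))
  refine ⟨φ.ker.map (Subgroup.subtype _), ?_, i, ?_⟩
  · rintro _ ⟨g, hg, rfl⟩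
    exact S.M.inj (by simpa [hz, show c g = 1 from hg] using hc g 1)
  rw [Subgroup.card_map_of_injective (Subgroup.subtype_injective _), hi, ← φ.ker.index_mul_card, Subgroup.index_ker]; ring

theorem h1' {z w : Rt D} (ez : S.M.τ.ρ z = z) (ew : S.M.τ.ρ w = w) (h : pr z w = 1) {c d : K} (c0 : S.Ok c) (d0 : S.α d = d) :
    finrank ℂ (S.Wt z c) = S.q * finrank ℂ ↥(S.Wt z c ⊓ S.Wt w d) := by
  simpa [ew] using h1 ez le_rfl c0 ((rt_io h).trans (add_comm ..)) (fun t _ hv => st0 hv (by simp [h]) (by simp [S.prf ez, h]) t)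
    (fun t _ hv => st0 hv (by omega) (by simp [S.prf ez, h]) t) fun _ => d0

theorem m_adj {z w : Rt D} (ez : S.M.τ.ρ z = z) (ew : S.M.τ.ρ w = w) (h : pr z w = 1) {c d : K} (c0 : S.Ok c) (d0 : S.Ok d) :
    finrank ℂ (S.Wt z c) = finrank ℂ (S.Wt w d) := by rw [h1' ez ew h c0 d0.2, h1' ew ez (S.hl _ _ ▸ h) d0 c0.2, inf_comm]

theorem dim_eq {r : Rt D} (e : S.M.τ.ρ r = r) {m : ℕ} (hm : ∀ c, S.Ok c → finrank ℂ (S.Wt r c) = m) : finrank ℂ V = finrank ℂ (S.Wt r 0) + (S.q - 1) * m := by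
  rw [← finrank_top, sum_eq (S := S) (W := ⊤) (b := r) fun _ _ _ => trivial, ← add_sum_erase _ _ (a := 0) (by simp), top_inf_eq, ← S.hq,
    ← card_erase_of_mem (a := 0) (by simp), ← smul_eq_mul, ← sum_const]
  simp only [e, forall_const]
  exact congrArg _ (sum_congr rfl fun c hc => by rw [top_inf_eq, hm c ⟨ne_of_mem_erase hc, by simpa using mem_of_mem_erase hc⟩])

theorem chi_eq {r : Rt D} (e : S.M.τ.ρ r = r) {m : ℕ} (hm : ∀ c, S.Ok c → finrank ℂ (S.Wt r c) = m) {s : K} (hs : S.ψ s ≠ 1) :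
    S.ρ.character (S.y r s) = finrank ℂ V - (S.q * m : ℕ) := by
  have a0 : ∑ c with S.α c = c, S.ψ (c * s) = 0 := by
    refine (mul_eq_zero.1 (show (∑ c with S.α c = c, S.ψ (c * s)) * (S.ψ s - 1) = 0 from ?_)).resolve_right (sub_ne_zero.2 hs)
    rw [mul_sub, mul_one, sub_eq_zero, sum_mul]
    exact sum_nbij' (· + 1) (· - 1) (by simp) (by simp) (by simp) (by simp) fun c _ => by rw [add_mul, one_mul, AddChar.map_add_eq_mul]
  have a1 : S.ρ.character (S.y r s) = ∑ c, S.ψ (c * s) * finrank ℂ (S.Wt r c) := by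
    let z : AddChar K (Multiplicative K) := ⟨.ofAdd, rfl, fun _ _ => rfl⟩
    have := CA.Wt.sum_wt S.P (χ := Representation.character (S.ρ.comp (S.Y r).toMonoidHom)) (x := z) (1 * z s)
    simp only [CA.Wt.wt_mul, ← finrank_Ws (x := z) fun _ _ h => h, S.hP] at this
    rw [one_mul] at this
    exact this.symm
  rw [← add_sum_erase _ _ (a := 0) (by simp), zero_mul, AddChar.map_zero_eq_one, add_eq_zero_iff_neg_eq] at a0
  rw [a1, ← sum_subset (subset_univ {c | S.α c = c}) fun c _ hc => by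
      rw [Submodule.finrank_eq_zero.2 (eq_bot_iff.2 fun v hv => by_contra fun v0 => hc (by simpa using Wt_fix e hv v0))]; simp,
    ← add_sum_erase _ _ (a := 0) (by simp), dim_eq e hm, sum_congr rfl fun c hc => by
      rw [hm c ⟨ne_of_mem_erase hc, by simpa using mem_of_mem_erase hc⟩], ← sum_mul, ← a0]
  simp [Nat.cast_sub (show 1 ≤ S.q from S.hq ▸ card_pos.2 ⟨0, by simp⟩)]; ring

theorem low {z w : Rt D} (ez : S.M.τ.ρ z = z) (ew : S.M.τ.ρ w = w) (h : pr z w = 1) : (S.q ^ 2 - 1) * finrank ℂ (S.Wt z 1) ≤ S.q * finrank ℂ V := by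
  have o : S.Ok 1 := ⟨one_ne_zero, map_one _⟩
  have a1 : (S.q - 1) * finrank ℂ (S.Wt z 1) ≤ S.q * finrank ℂ (S.Wt w 0) := by
    rw [sum_eq (W := S.Wt w 0) (b := z) fun t _ hv => st0 hv (by rw [S.hl]; omega) (by rw [ez, S.hl]; omega) t, mul_sum, ← S.hq,
      ← card_erase_of_mem (a := 0) (by simp), ← smul_eq_mul, ← sum_const, S.hq]
    simp only [ez, forall_const]
    refine (sum_le_sum fun c hc => ?_).trans (sum_le_sum_of_subset (erase_subset 0 _))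
    have c0 : S.Ok c := ⟨ne_of_mem_erase hc, by simpa using mem_of_mem_erase hc⟩
    rw [m_adj ez ew h o o, ← m_adj ez ew h c0 o, h1' ez ew h c0 (map_zero _), inf_comm]
  rw [dim_eq ew fun c hc => (m_adj ez ew h o hc).symm]
  obtain ⟨n, hn⟩ := Nat.exists_eq_add_of_le' (show 1 ≤ S.q from S.hq ▸ card_pos.2 ⟨0, by simp⟩)
  rw [hn, Nat.add_sub_cancel] at a1 ⊢
  rw [show (n + 1) ^ 2 - 1 = n + n * (n + 1) from Nat.sub_eq_of_eq_add (by ring)]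
  nlinarith

theorem main [Finite G] (hq : ∀ t, S.α t = t ^ S.q) (hχ : IsIrrCharacter G S.ρ.character) {s : K} (hs : s + S.α s = 1) (hs' : S.ψ s ≠ 1)
    {i : Nd D} (hj : ∀ j, S.M.τ.ν j = j → S.Nod j) (hi : S.M.τ.ν i = i) (hd : ∀ j, S.M.τ.ν j = j → ∀ β, Pos β → pr (sim j) β = -1 → β ≠ sim i → S.Dec j β)
    {n E : ℕ} (hn : ∀ j, S.M.τ.ν j = j → #{a | pr (sim j) a = 1} = 2 * n ∧ (j = i ∨ pr (sim i) (sim j) = -1)) {θ : Rt D} (eθ : S.M.τ.ρ θ = θ)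
    (hθ : ∀ j, 0 ≤ wt θ j) (h1 : wt θ i = 1) (hne : ¬∀ s, S.ρ (S.y θ s) = 1) (hQ : ∀ i, Nat.card (S.M.τ.X1 (S.M.τ.Op i)) = S.q ^ lg (wJ (orb S.M.τ.ν i)))
    (hE : poin1 S.M.τ.ρ Set.univ S.q = E * poin1 S.M.τ.ρ {j | wt θ j = 0} S.q) :
    (S.q ^ 2 - 1) * (S.q ^ n * 2) ≤ S.q * finrank ℂ V ∨
      (S.q - 1) * ∑ α : Rt D with Pos α, (if S.M.τ.ρ α = α then S.q ^ (#{a | pr α a = 1 ∧ 0 < ht a ∧ ht a < ht α} / 2) else 0) ≤ finrank ℂ V ∧
        finrank ℂ V ∣ E * (S.q - 1) * S.q ^ (n + 1) := by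
  have o : S.Ok 1 := ⟨one_ne_zero, map_one _⟩
  have ei := sim_fix hi
  rw [← pr_sim_left] at h1
  have a0 : ∀ c, S.Ok c → finrank ℂ (S.Wt θ c) = finrank ℂ (S.Wt (sim i) 1) := fun c hc => (m_adj ei eθ h1 o hc).symm
  have a1 : ∀ j, S.M.τ.ν j = j → ∀ c, S.Ok c → ∀ Λ, S.Lg (sim j) Λ → finrank ℂ (S.Wt (sim i) 1) = S.q ^ n * finrank ℂ ↥(S.Wt (sim j) c ⊓ S.Fx Λ) :=
    fun j ej c c0 Λ h => by
      rw [← show #Λ = n by have := h.1.card; have := (hn j ej).1; omega, ← fr_eq (sim_fix ej) c0 h.iso]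
      rcases (hn j ej).2 with rfl | e
      · rw [m_adj ei eθ h1 c0 o, a0 1 o]
      have e1 := rt_neg1 e
      have e2 : S.M.τ.ρ (Chev.refl (sim i) (sim j)) = Chev.refl (sim i) (sim j) := rt_injective (by rw [S.h.rt_add e1, ei, sim_fix ej, e1])
      rw [m_adj ei e2 (by rw [pr_sum e1, e]; simp) o o, m_adj (sim_fix ej) e2 (by rw [pr_sum e1, S.hl, e]; simp) c0 o]
  have a2 := a1 i hi 1 o _ (lg0 hi)
  have a3 : S.q ≠ 0 := (S.hq ▸ card_pos.2 ⟨0, by simp⟩ : 0 < S.q).ne'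
  generalize finrank ℂ ↥(S.Wt (sim i) 1 ⊓ S.Fx (L0 i)) = d at a2
  rcases (by omega : d = 0 ∨ d = 1 ∨ 2 ≤ d) with rfl | rfl | h
  · have := Submodule.eq_top_of_finrank_eq (S := S.Wt θ 0) (by simp [dim_eq eθ a0, a2])
    exact (hne fun t => LinearMap.ext fun v => mem_Wt0.1 (this.ge trivial) t).elim
  · refine Or.inr ⟨le_add_self.trans (filt hj (fun j ej c c0 Λ h => by simpa [a2, a3] using (a1 j ej c c0 Λ h).symm) hi hd _ fun β hβ => ?_), ?_⟩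
    · simp only [mem_filter, mem_univ, true_and, pos_iff_ht] at hβ ⊢
      exact ⟨hβ, fun _ => hβ.trans⟩
    obtain ⟨H, b1, k, b2⟩ := exists_cent hq eθ (z := S.y θ s) (by rw [S.e_fix eθ, hs])
    refine class_dvd hχ S.ρ.char_one (by rw [chi_eq eθ a0 hs', a2, mul_one, pow_succ']) b1 (i := k) ?_
    rw [← Subgroup.card_map_of_injective S.M.inj, Subgroup.map_comap_eq, S.M.rng, card_Nr1 S.M.ok S.hl hθ hQ] at b2
    rw [← Subgroup.card_top, ← Subgroup.card_map_of_injective S.M.inj, ← MonoidHom.range_eq_map, S.M.rng, S.M.ok.card_G1, mul_assoc E, ← b2,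
      finsum_congr fun w : W1 S.M.τ.ρ => (pow_one _).symm.trans (S.M.ok.card_X1 (d := 1) (Q := S.q) (by simpa using hQ) w.2), ← poin1_univ, hE]
    ring
  · exact Or.inl ((Nat.mul_le_mul_left _ ((Nat.mul_le_mul_left _ h).trans a2.ge)).trans (low ei eθ h1))

end St

theorem arith {q D : ℕ} (hq : IsPrimePow q) (h1 : q * ((q ^ 6 - q ^ 3 + 1) * (q ^ 4 + 1)) ≤ D + 2)
    (hD : D ∣ (q ^ 12 - 1) * ((q ^ 6 - q ^ 3 + 1) * (q ^ 4 + 1)) * q ^ 11) : q * ((q ^ 6 - q ^ 3 + 1) * (q ^ 4 + 1)) ≤ D := not_lt.1 fun hlt => by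
  obtain ⟨j, e⟩ := Nat.exists_eq_add_of_lt hlt
  have j1 : j ≤ 1 := by omega
  rcases hq.two_le.eq_or_lt with rfl | h3
  · obtain rfl : D = 1938 - (j + 1) := by omega
    interval_cases j <;> revert hD <;> decide
  generalize hB : (q ^ 6 - q ^ 3 + 1) * (q ^ 4 + 1) = B at *
  obtain ⟨p, a, hp, -, rfl⟩ := (isPrimePow_nat_iff q).1 hq
  have D0 : D ≠ 0 := by have := Nat.mul_le_mul_left (p ^ a) (show 1 ≤ B from hB ▸ Nat.one_le_iff_ne_zero.2 (by positivity)); omega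
  obtain ⟨s, D', a1, rfl⟩ := Nat.exists_eq_pow_mul_and_not_dvd D0 p hp.ne_one
  have a2 : p ^ s ∣ j + 1 := by
    have k : ∀ n ≤ a, n ≤ s → p ^ n ∣ j + 1 := fun n h1 h2 => (Nat.dvd_add_right ((pow_dvd_pow p h2).mul_right D')).1
      (add_assoc (p ^ s * D') j 1 ▸ e ▸ (pow_dvd_pow p h1).mul_right B)
    exact k s (not_lt.1 fun e => (Nat.le_of_dvd j.succ_pos (k a le_rfl e.le)).not_gt (by omega)) le_rfl
  have a3 : D' ∣ ((p ^ a) ^ 12 - 1) * (j + 1) := by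
    refine (((hp.coprime_iff_not_dvd.2 a1).symm.pow_right a).pow_right 11).dvd_of_dvd_mul_right
      ((Nat.dvd_add_right (((dvd_mul_left D' (p ^ s)).mul_left ((p ^ a) ^ 12 - 1)).mul_right ((p ^ a) ^ 11))).1 ?_)
    rw [← add_mul, ← mul_add, ← add_assoc, ← e]
    exact ((Dvd.intro_left _ rfl).trans hD).trans ⟨p ^ a, by ring⟩
  have a4 := mul_dvd_mul a2 a3
  generalize p ^ s * D' = D at *
  generalize p ^ a = q at *
  subst hB
  rw [← Int.natCast_dvd_natCast] at a4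
  zify [Nat.one_le_pow 12 q (by omega), Nat.pow_le_pow_right (show 0 < q by omega) (show 3 ≤ 6 by omega)] at e a4
  have a5 := dvd_sub a4 (dvd_mul_right (D : ℤ) ((j + 1) * (j + 1) * q))
  have a6 : (3 : ℤ) ≤ q := by exact_mod_cast h3
  rw [add_assoc, ← sub_eq_iff_eq_add] at e
  generalize (D : ℤ) = D at *
  generalize (q : ℤ) = q at *
  subst e
  obtain ⟨b, hb, rfl⟩ := le_iff_exists_nonneg_add.1 a6
  refine (Int.le_of_dvd ?_ a5).not_gt (sub_pos.1 ?_) <;> clear a2 a3 a4 a5 <;> interval_cases j <;> push_cast <;> ring_nf <;> positivity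

theorem c1 : ∀ r : Rt chevE6, φE6 r = r → ηE6 r = 1 := by decide +kernel

theorem c2 : ∀ j : Nd chevE6, ιE6 j = j → ∀ β : Rt chevE6, Pos β → tabE6.wt β j = 0 → ∃ a : Rt chevE6, prT tabE6 β a = 1 ∧ tabE6.wt a j = 0 ∧
    0 ≤ prT tabE6 (φE6 β) a ∧ ∃ b : Rt chevE6, (∀ i : Nd chevE6, tabE6.co β i = tabE6.co a i + tabE6.co b i) ∧ 0 ≤ prT tabE6 (φE6 β) b ∧
    (φE6 a = a ∧ φE6 b = b ∨ 0 ≤ prT tabE6 a (φE6 b)) := by decide +kernel

theorem c3 : ∀ j : Nd chevE6, ιE6 j = j → ∀ β : Rt chevE6, Pos β → tabE6.wt β j = -1 → β ≠ sim (nE6 1) → ∃ a : Rt chevE6, prT tabE6 β a = 1 ∧ Pos a ∧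
    ∃ b : Rt chevE6, (∀ i : Nd chevE6, tabE6.co β i = tabE6.co a i + tabE6.co b i) ∧ (φE6 a = a ∧ φE6 b = b ∨ 0 ≤ prT tabE6 a (φE6 b)) ∧
    (Pos b ∨ sumLt 6 (tabE6.co b) = -1 ∧ tabE6.wt b j = 0) := by decide +kernel

theorem c4 : ∀ j : Nd chevE6, ιE6 j = j → ∀ β : Rt chevE6, φE6 β = β → tabE6.wt β j = -1 → 1 ≤ tabE6.co β j → ∃ a : Rt chevE6, φE6 a = a ∧ Pos a ∧
    ∃ b : Rt chevE6, (∀ i : Nd chevE6, tabE6.co β i = tabE6.co a i + tabE6.co b i) ∧ Pos b := by decide +kernel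

theorem c5 : ∀ j : Nd chevE6, ιE6 j = j → #{a : Rt chevE6 | tabE6.wt a j = 1} = 2 * 10 ∧ (j = nE6 1 ∨ tabE6.wt (sim j).val (nE6 1) = -1) := by decide +kernel

theorem c6 : coefs 72 (fun r => if 36 ≤ r ∧ φE6 r = r then #{a : Rt chevE6 | prT tabE6 r a = 1 ∧ 0 < sumLt 6 (tabE6.co a) ∧
    sumLt 6 (tabE6.co a) < sumLt 6 (tabE6.co r)} / 2 + 1 else 0) = [2, 1, 1, 1, 2, 1, 1, 0, 1, 1, 1] := by decide +kernel

theorem main' {q : ℕ} (hq : IsPrimePow q) (hK : Fintype.card K = q ^ 2) (hs : IsSimpleGroup (twistedE6 K q)) {k : ℕ}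
    {ρ : Representation ℂ (twistedE6 K q) (Fin k → ℂ)} (hρ : ρ.IsIrreducible) (hk : 2 ≤ k) :
    (q ^ 2 - 1) * (q ^ 10 * 2) ≤ q * k ∨ (q - 1) * evalL [2, 1, 1, 1, 2, 1, 1, 0, 1, 1, 1] q ≤ k ∧
      k ∣ evalL [1, 1, 1, 0, 1, 1, 2, 1, 1, 1, 2, 2, 1, 1, 1, 2, 1, 1, 0, 1, 1, 1] q * (q - 1) * q ^ 11 := by
  obtain ⟨α, h1, hα, h2, h3⟩ := exists_tE6 hq hK
  have h := E6.s2 h1 hα h2 h3
  obtain ⟨s, e⟩ := h.exists_tr
  obtain ⟨ψ, hψ⟩ := CA.Wt.exists_addChar K one_ne_zero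
  let ψ' := ψ.compAddMonoidHom (AddMonoidHom.id K + α.toAddMonoidHom)
  have hs' : ψ' s ≠ 1 := by simpa [ψ', e]
  have eh : ∀ r : Rt chevE6, sumLt 6 (tabE6.co r) = ht r := fun r => by rw [sumLt_eq]; exact sum_congr rfl fun i _ => E6.co_eq r i
  have ew : ∀ (r : Rt chevE6) (j : Nd chevE6), tabE6.wt r j = pr (sim j) r := fun r j => by rw [pr_sim_left, wt_eq_tab tab_E6]
  have er : ∀ {β a b : Rt chevE6}, (∀ i : Nd chevE6, tabE6.co β i = tabE6.co a i + tabE6.co b i) → rt β = rt a + rt b := fun h =>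
    funext fun i => by simpa only [E6.co_eq, Pi.add_apply] using h i
  let S : St (adjG chevE6 K) (twistedE6 K q) (Fin k → ℂ) := ⟨_, α, h, fun r => E6.prT_eq r _ ▸ (E6.c1 r).1,
    fun r e => (TE6.f_eq r 1).trans (by simp [c1 r (congrArg Fin.val e)]), ρ, .of ψ' AddMonoidHom.mul (fun a ha => ⟨s / a, by simpa [ha]⟩) rfl, ψ', fun _ _ => rfl,
    fun s => by simp [ψ', hα, add_comm], q, by
      rw [← card_fix (K := K) (d := 2) (by omega) h3, Nat.card_eq_fintype_card, Fintype.card_subtype]; simp [h1], hK⟩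
  have eφ : ∀ r, φE6 r.val = (S.M.τ.ρ r).val := fun _ => rfl
  obtain ⟨θ, rθ⟩ : ∃ θ : Rt chevE6, θ.val = 71 := ⟨⟨71, by decide +kernel⟩, rfl⟩
  have eθ : S.M.τ.ρ θ = θ := Fin.ext (by rw [← eφ, rθ]; decide +kernel)
  have := St.main (S := S) h1 ⟨k, ρ, hρ, rfl⟩ e hs' (i := nE6 1) (fun j ej => ⟨ej, fun β a1 a2 => ?_, fun β a1 a2 a3 => ?_⟩) rfl (fun j ej β a1 a2 a3 => ?_)
    (n := 10) (fun j ej => by simpa only [ew] using c5 j ej) eθ (by simp only [wt_eq_tab tab_E6, rθ]; decide +kernel) (by rw [wt_eq_tab tab_E6, rθ]; decide +kernel)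
    (fun e' => ?_) (TE6.card_Op h1 hα h2 h3) (E := evalL [1, 1, 1, 0, 1, 1, 2, 1, 1, 1, 2, 2, 1, 1, 1, 2, 1, 1, 0, 1, 1, 1] q) ?_
  · rw [← congrArg (evalL · q) c6, evalL_coefs]
    convert this using 4
    · simp
    · rw [sum_filter]
      refine sum_congr rfl fun r : Rt chevE6 => fun _ => ?_
      simp only [eh, E6.prT_eq, eφ, Fin.val_inj, show 36 ≤ r.val ↔ Pos r from Iff.rfl]
      by_cases a : Pos r <;> by_cases b : S.M.τ.ρ r = r <;> simp [a, b, S]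
    · simp
    · simp
  · obtain ⟨a, -, b1, b2, b, b3, b4, b5⟩ := c2 j ej β a1 (ew β j ▸ a2)
    simp only [eφ, E6.prT_eq, Fin.val_inj, ew] at b1 b2 b4 b5
    exact ⟨a, b, ⟨er b3, b5⟩, b1, b2, b4⟩
  · obtain ⟨a, b1, b2, b, b3, b4⟩ := c4 j ej β (congrArg Fin.val a1) (ew β j ▸ a2) (E6.co_eq β j ▸ a3)
    exact ⟨a, b, Fin.ext b1, b2, b4, er b3⟩
  · obtain ⟨a, -, b1, b, b2, b3, b4⟩ := c3 j ej β a1 (ew β j ▸ a2) a3
    simp only [eφ, E6.prT_eq, Fin.val_inj, ew, eh] at b3 b4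
    exact ⟨a, b, ⟨er b2, b3⟩, b1, b4⟩
  · have := (IsSimpleGroup.eq_bot_or_eq_top_of_normal _ inferInstance).resolve_right (CA.DegLS.ker_ne (.refl _) hρ hk)
    have a := this.le ((CChar.CharKer.mem_charKer (CChar.CharRep.isCharacter_character ρ)).2 ((congrArg (LinearMap.trace ℂ _) (e' s)).trans (by simp)))
    exact one_ne_zero (e.symm.trans (Sys0.x_eq_one _ ((S.e_fix eθ s).symm.trans (by rw [show S.y θ s = 1 from a, map_one]))))
  · rw [← show JM chevE6 63 = Set.univ from JM_univ]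
    refine ((tE6 α).dsym.poin1_of_chk tab_E6 TE6.ρ_val (by decide +kernel : ∀ j : Nd chevE6, Nat.testBit 63 j = true → Nat.testBit 63 (ιE6 j) = true)
      pc0_E6 (by decide +kernel) (by decide +kernel) q).trans (congrArg (_ * poin1 _ · _) (Set.ext ?_))
    simp only [wt_eq_tab tab_E6, JM, Set.mem_ofPred_eq, rθ]
    decide +kernel

end CA.DegF
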