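/-
Character degrees of `G₂(q)`: weight spaces.
-/
import Cfsg.Agent.Lib.Lie.DegE3

set_option autoImplicit false
set_option linter.unusedSectionVars false

namespace CA.DegG

open Cfsg CA.Wt CA.DegO CA.DegT CA.DegE Finset Module Cfsg.Lie CA.Chev CA.Chev.Sys0 CA.TwM
open scoped commutatorElement Classical

variable {D : ChevalleyDatum} [Good D]

variable (D) in
/-- the setting -/
structure St (K G V : Type*) [Field K] [Group G] [AddCommGroup V] [Module ℂ V] where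
  A : Sys D K G
  ρ : Representation ℂ G V
  P : Par K K
  ψ : AddChar K ℂ
  hP : ∀ c s, P.e c s = ψ (c * s)

variable {K : Type*} [Field K] [Fintype K] {G : Type*} [Group G] {V : Type*} [AddCommGroup V] [Module ℂ V] [FiniteDimensional ℂ V]

/-- dimensions -/
noncomputable def fr (W : Submodule ℂ V) : ℕ := finrank ℂ W

theorem fr_mono {W W' : Submodule ℂ V} (h : W ≤ W') : fr W ≤ fr W' := Submodule.finrank_mono h
theorem exists_ne {W : Submodule ℂ V} (h : fr W ≠ 0) : ∃ v ∈ W, v ≠ 0 := W.exists_mem_ne_zero_of_ne_bot (mt Submodule.finrank_eq_zero.2 h)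
theorem fr_pos {W : Submodule ℂ V} {v : V} (hv : v ∈ W) (h : v ≠ 0) : 1 ≤ fr W :=
  Nat.pos_of_ne_zero fun e => h ((Submodule.mem_bot ℂ).1 (Submodule.finrank_eq_zero.1 e ▸ hv))
theorem eq_smul {W : Submodule ℂ V} (h : fr W ≤ 1) {v w : V} (hv : v ∈ W) (v0 : v ≠ 0) (hw : w ∈ W) : ∃ l : ℂ, w = l • v :=
  ((finrank_eq_one_iff_of_nonzero' (⟨v, hv⟩ : W) (by simpa)).1 (h.antisymm (fr_pos hv v0)) ⟨w, hw⟩).imp fun _ e => congrArg Subtype.val e.symm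

theorem sum_ne {f : K → ℕ} {k : ℕ} (h : ∀ d ≠ 0, f d = k) : ∑ d, f d = f 0 + (Fintype.card K - 1) * k := by
  rw [← add_sum_erase _ _ (mem_univ 0), sum_congr rfl fun d hd => h d (ne_of_mem_erase hd)]; simp

theorem sum_ge {f : K → ℕ} {k : ℕ} (h : ∀ d ≠ 0, k ≤ f d) : f 0 + (Fintype.card K - 1) * k ≤ ∑ d, f d := by
  rw [← add_sum_erase _ _ (mem_univ 0)]
  simpa using card_nsmul_le_sum (univ.erase 0) f k fun d hd => h d (ne_of_mem_erase hd)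

namespace St
variable (S : St D K G V)

/-- root subgroups -/
def Z (r : Rt D) : AddChar K G := ⟨S.A.x r, S.A.x_zero r, S.A.add r⟩
/-- weight spaces -/
def Wt (r : Rt D) (c : K) : Submodule ℂ V := Ws S.ρ (S.Z r) (S.P.e c)
/-- projectors -/
noncomputable def Pj (r : Rt D) (c : K) : End ℂ V := pj S.ρ (S.Z r) (S.P.e c)
/-- stability -/
def Stb (W : Submodule ℂ V) (r : Rt D) : Prop := ∀ t, ∀ v ∈ W, S.ρ (S.A.x r t) v ∈ W
/-- commuting root subgroups -/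
def Cm (r s : Rt D) : Prop := ∀ t u, Commute (S.A.x r t) (S.A.x s u)
/-- shears -/
def Sh (z w β : Rt D) : Prop := S.Cm β z ∧ ∃ C : K, C ≠ 0 ∧ ∀ c d t v, v ∈ S.Wt z c → v ∈ S.Wt w d → S.ρ (S.A.x β t) v ∈ S.Wt w (d + C * c * t)
/-- the dual setting -/
def dual : St D K G (Dual ℂ V) := ⟨S.A, S.ρ.dual, S.P, S.ψ, S.hP⟩

variable {S}
theorem mem_Wt {r : Rt D} {c : K} {v : V} : v ∈ S.Wt r c ↔ ∀ t, S.ρ (S.A.x r t) v = S.ψ (c * t) • v :=
  forall_congr' fun t => by rw [← S.hP]; rfl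
theorem mem_Wt0 {r : Rt D} {v : V} : v ∈ S.Wt r 0 ↔ ∀ t, S.ρ (S.A.x r t) v = v := by simp [mem_Wt]
theorem Wt_ne {r : Rt D} {c d : K} {v : V} (h : v ∈ S.Wt r c) (h' : v ∈ S.Wt r d) (v0 : v ≠ 0) : c = d :=
  S.P.inj (DFunLike.ext _ _ fun s => smul_left_injective ℂ v0 ((h s).symm.trans (h' s)))
theorem Pj_mem (r : Rt D) (c : K) (v : V) : S.Pj r c v ∈ S.Wt r c := pj_mem _ _ _ _
theorem Stb.pj {W : Submodule ℂ V} {a : Rt D} (h : S.Stb W a) {v : V} (hv : v ∈ W) (c : K) : S.Pj a c v ∈ W := by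
  simp only [Pj, DegO.pj, LinearMap.smul_apply, LinearMap.sum_apply]
  exact W.smul_mem _ (W.sum_mem fun t _ => W.smul_mem _ (h t v hv))
theorem Stb.inf {W W' : Submodule ℂ V} {r : Rt D} (h : S.Stb W r) (h' : S.Stb W' r) : S.Stb (W ⊓ W') r := fun t v hv => ⟨h t v hv.1, h' t v hv.2⟩
theorem Stb.sum {W : Submodule ℂ V} {r : Rt D} (h : S.Stb W r) : fr W = ∑ d, fr (W ⊓ S.Wt r d) := (sum_Ws S.P (ρ := S.ρ) (x := S.Z r) h).symm
theorem Cm.symm {r s : Rt D} (h : S.Cm r s) : S.Cm s r := fun t u => (h u t).symm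
theorem Cm.stb {r s : Rt D} (h : S.Cm r s) (c : K) : S.Stb (S.Wt s c) r := fun t _ hv => st_comm (x := S.Z s) (h t) hv
theorem cm_self (r : Rt D) : S.Cm r r := fun t u => by rw [Commute, SemiconjBy, ← S.A.add, ← S.A.add, add_comm]
theorem Sh.stb {z w β : Rt D} (h : S.Sh z w β) (d : K) : S.Stb (S.Wt z 0 ⊓ S.Wt w d) β := fun t v hv =>
  ⟨h.1.stb 0 t v hv.1, by obtain ⟨C, -, h⟩ := h.2; simpa using h 0 d t v hv.1 hv.2⟩

theorem mv {g : G} {s : Rt D} {z : K → G} {c d : K} {v : V} (e : ∀ u, S.A.x s u * g = g * S.A.x s u * z u) (hz : ∀ u, S.ρ (z u) v = S.ψ (c * u) • v)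
    (hs : v ∈ S.Wt s d) : S.ρ g v ∈ S.Wt s (d + c) := mem_Wt.2 fun u => by
  rw [← End.mul_apply, ← map_mul, e, map_mul, map_mul, End.mul_apply, End.mul_apply, hz, map_smul, mem_Wt.1 hs, map_smul, map_smul, smul_smul,
    ← AddChar.map_add_eq_mul, add_mul, add_comm]

variable (S) in
theorem comm_p {p : ℤ} (hp : (p : K) = 0) {r s : Rt D} {L : List (Rt D × ℤ × ℕ × ℕ)} (h : s ≠ r ∧ s ≠ ng r ∧ (cT r s).filter (¬p ∣ ·.2.1) = L) (t u : K) :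
    S.A.x s u * S.A.x r t = S.A.x r t * S.A.x s u * (L.map fun c => S.A.x c.1 (c.2.1 * (-t) ^ c.2.2.1 * u ^ c.2.2.2)).prod := by
  rw [S.A.comm h.1 h.2.1, cw, ← h.2.2]
  congr 1
  induction cT r s with
  | nil => rfl
  | cons a L ih =>
    by_cases e : p ∣ a.2.1
    · obtain ⟨m, hm⟩ := e
      simp [ih, hm, hp]
    · simp [ih, e]

variable (S) in
theorem cm {p : ℤ} (hp : (p : K) = 0) {r s : Rt D} (h : s ≠ r ∧ s ≠ ng r ∧ (cT r s).filter (¬p ∣ ·.2.1) = [] := by decide +kernel) : S.Cm r s := fun t u => by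
  simpa [Commute, SemiconjBy] using (S.comm_p hp h t u).symm

variable (S) in
theorem sh {p : ℤ} (hp : (p : K) = 0) {z w β : Rt D} (C : ℤ) (hC : (C : K) ≠ 0) (h : w ≠ β ∧ w ≠ ng β ∧ (cT β w).filter (¬p ∣ ·.2.1) = [(z, C, 1, 1)] := by decide +kernel)
    (h' : z ≠ β ∧ z ≠ ng β ∧ (cT β z).filter (¬p ∣ ·.2.1) = [] := by decide +kernel) : S.Sh z w β :=
  ⟨S.cm hp h', -C, neg_ne_zero.2 hC, fun c d t v h1 h2 => mv (S.comm_p hp h t) (fun u => by simp [mem_Wt.1 h1]; ring_nf) h2⟩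

theorem tl {W : Submodule ℂ V} {s : Rt D} {g : K → G} {φ : K → K} (hφ : Function.Surjective φ) (hs : S.Stb W s)
    (h : ∀ t d, ∀ v ∈ W, v ∈ S.Wt s d → S.ρ (g t) v ∈ W ⊓ S.Wt s (d + φ t)) (d : K) : fr W = Fintype.card K * fr (W ⊓ S.Wt s d) := by
  have k : ∀ d d', fr (W ⊓ S.Wt s d) ≤ fr (W ⊓ S.Wt s d') := fun d d' => by
    obtain ⟨t, ht⟩ := hφ (d' - d)
    exact fr_le (ρ := S.ρ) (g t) fun v hv => by simpa [ht] using h t d v hv.1 hv.2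
  rw [hs.sum, sum_congr rfl fun d' _ => (k d' d).antisymm (k d d')]; simp

theorem Sh.tl {z w β : Rt D} (h : S.Sh z w β) {W : Submodule ℂ V} {c : K} (c0 : c ≠ 0) (hW : W ≤ S.Wt z c) (hβ : S.Stb W β) (hw : S.Stb W w) (d : K) :
    fr W = Fintype.card K * fr (W ⊓ S.Wt w d) := by
  obtain ⟨C, C0, h⟩ := h.2
  exact St.tl (mul_left_surjective₀ (mul_ne_zero C0 c0)) hw (fun t d v h1 h2 => ⟨hβ t v h1, h c d t v (hW h1) h2⟩) d

theorem tw {z w β β' : Rt D} (h : S.Sh z w β) (h' : S.Sh w z β') (hc : S.Cm z w) {W : Submodule ℂ V} (h1 : S.Stb W β) (h2 : S.Stb W β') (h3 : S.Stb W z) (h4 : S.Stb W w) :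
    ∃ k, (∀ c d, c ≠ 0 ∨ d ≠ 0 → fr (W ⊓ S.Wt z c ⊓ S.Wt w d) = k) ∧ fr W = fr (W ⊓ S.Wt z 0 ⊓ S.Wt w 0) + (Fintype.card K ^ 2 - 1) * k := by
  have q0 := Fintype.card_pos (α := K)
  have a1 := fun c c0 => h.tl (c := c) c0 inf_le_right (h1.inf (h.1.stb c)) (h4.inf (hc.symm.stb c))
  have a2 := fun c c0 => h'.tl (c := c) c0 inf_le_right (h2.inf (h'.1.stb c)) (h3.inf (hc.stb c))
  simp only [inf_right_comm W (S.Wt w _)] at a2
  have a3 : ∀ c d, c ≠ 0 ∨ d ≠ 0 → fr (W ⊓ S.Wt z c ⊓ S.Wt w d) = fr (W ⊓ S.Wt z 1 ⊓ S.Wt w 1) := fun c d e => by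
    have b1 := fun c c0 d => Nat.eq_of_mul_eq_mul_left q0 ((a1 c c0 d).symm.trans (a1 c c0 1))
    have b2 := fun c c0 d => Nat.eq_of_mul_eq_mul_left q0 ((a2 c c0 d).symm.trans (a2 c c0 1))
    exact e.elim (fun e => (b1 c e d).trans (b2 1 one_ne_zero c)) fun e => (b2 d e c).trans (b1 1 one_ne_zero d)
  refine ⟨_, a3, ?_⟩
  rw [h3.sum, sum_ne fun c c0 => (a1 c c0 1).trans (by rw [a3 c 1 (.inl c0)]), (h4.inf (hc.symm.stb 0)).sum, sum_ne fun d d0 => a3 0 d (.inr d0)]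
  obtain ⟨n, hn⟩ := Nat.exists_eq_add_of_le' q0
  rw [hn, show (n + 1) ^ 2 - 1 = n + n * (n + 1) from Nat.sub_eq_of_eq_add (by ring), Nat.add_sub_cancel]; ring

theorem tr_Wt {g : G} {r s : Rt D} {e : K} (e0 : e ≠ 0) (he : ∀ u, g * S.A.x r u * g⁻¹ = S.A.x s (e * u)) {c : K} {v : V} (hv : v ∈ S.Wt r c) :
    S.ρ g v ∈ S.Wt s (c / e) := mem_Wt.2 fun t => by
  have := he (e⁻¹ * t)
  rw [mul_inv_cancel_left₀ e0] at this
  rw [← this, ← End.mul_apply, ← map_mul, inv_mul_cancel_right, map_mul, End.mul_apply, mem_Wt.1 hv, map_smul, div_eq_mul_inv, mul_assoc]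

theorem rf {a r s : Rt D} (h : wt s = wt r - pr a r • wt a) : refl a r = s := wt_injective ((wt_refl a r).trans h.symm)

variable (S) in
theorem tr_n (a r s : Rt D) (t : Kˣ) (h : wt s = wt r - pr a r • wt a := by decide +kernel) : ∃ e ≠ (0 : K), ∀ c v, v ∈ S.Wt r c → S.ρ (S.A.n a t) v ∈ S.Wt s (c / e) := by
  obtain ⟨e, he⟩ := (S.A.act_n a t).conj_x r
  exact ⟨e, e.ne_zero, fun _ _ hv => tr_Wt e.ne_zero (rf h ▸ he) hv⟩

theorem tr_n0 (a : Rt D) {r : Rt D} (s : Rt D) (t : Kˣ) {v : V} (hv : v ∈ S.Wt r 0) (h : wt s = wt r - pr a r • wt a := by decide +kernel) : S.ρ (S.A.n a t) v ∈ S.Wt s 0 := by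
  obtain ⟨e, -, he⟩ := S.tr_n a r s t h
  simpa using he 0 v hv

theorem tr_h (a : Rt D) {r : Rt D} (μ : Kˣ) (n : ℤ) {c : K} {v : V} (hv : v ∈ S.Wt r c) (h : pr a r = n := by decide +kernel) : S.ρ (S.A.h a μ) v ∈ S.Wt r (c / (μ : K) ^ n) :=
  tr_Wt (zpow_ne_zero _ μ.ne_zero) (h ▸ S.A.h_conj a r μ) hv

theorem tr_h0 (a : Rt D) {r : Rt D} (μ : Kˣ) {v : V} (hv : v ∈ S.Wt r 0) : S.ρ (S.A.h a μ) v ∈ S.Wt r 0 := by simpa using tr_h a μ _ hv rfl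

theorem line_fix {L : Submodule ℂ V} (h : fr L = 1) {a r : Rt D} (hr : S.Stb L r) {μ : Kˣ} (hμ : (μ : K) ^ pr a r ≠ 1) (ha : ∀ v ∈ L, S.ρ (S.A.h a μ) v ∈ L) :
    L ≤ S.Wt r 0 := fun v hv => mem_Wt0.2 fun t => by
  have := comm_fix h ha (hr (((μ : K) ^ pr a r - 1)⁻¹ * t)) hv
  rwa [commutatorElement_def, S.A.h_conj, ← x_neg, ← S.A.add, ← sub_eq_add_neg, ← sub_one_mul, mul_inv_cancel_left₀ (sub_ne_zero.2 hμ)] at this

theorem dual_x {r : Rt D} {c : K} {l : Dual ℂ V} (h : l ∈ S.dual.Wt r (-c)) (t : K) (v : V) : l (S.ρ (S.A.x r t) v) = S.ψ (c * t) * l v := by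
  simpa [dual, Dual.transpose_apply, x_neg] using LinearMap.congr_fun (mem_Wt.1 h (-t)) v

theorem dual_x0 {r : Rt D} {l : Dual ℂ V} (h : l ∈ S.dual.Wt r 0) (t : K) (v : V) : l (S.ρ (S.A.x r t) v) = l v := by
  simpa using dual_x (c := 0) (by simpa) t v

theorem pj_val {r : Rt D} {l : Dual ℂ V} {v : V} {κ : ℂ} (h : ∀ t ≠ 0, l (S.ρ (S.A.x r t) v) = κ) (d : K) :
    Fintype.card K * l (S.Pj r d v) = l v - κ + if d = 0 then Fintype.card K * κ else 0 := by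
  have a1 : ∑ t, S.P.e d (-t) = if d = 0 then (Fintype.card K : ℂ) else 0 := by
    rw [← neg_eq_zero, ← S.P.sum]; exact sum_congr rfl fun t _ => by rw [S.hP, S.hP]; ring_nf
  have a2 : ∀ t, S.P.e d (-t) * l (S.ρ (S.Z r t) v) = S.P.e d (-t) * κ + if t = 0 then l v - κ else 0 := fun t => by
    split_ifs with e
    · simp [e]
    · rw [add_zero, ← h t e]; rfl
  simp [Pj, pj, LinearMap.sum_apply, a2, sum_add_distrib, ← sum_mul, a1, add_comm]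

theorem dual_pj {r : Rt D} {c : K} {l : Dual ℂ V} (h : l ∈ S.dual.Wt r (-c)) (v : V) : l (S.Pj r c v) = l v := by
  simp [Pj, pj, LinearMap.sum_apply, Z, dual_x h, S.hP, ← mul_assoc, ← AddChar.map_add_eq_mul]

theorem pj_dual {r : Rt D} {c : K} {v : V} (h : v ∈ S.Wt r c) (l : Dual ℂ V) : S.dual.Pj r (-c) l v = l v := by
  simp [Pj, pj, LinearMap.sum_apply, Z, dual, ← x_neg, Dual.transpose_apply, mem_Wt.1 h, S.hP, ← mul_assoc, ← AddChar.map_add_eq_mul]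

theorem dual_ne {r : Rt D} {c : K} {l : Dual ℂ V} (h : l ∈ S.dual.Wt r (-c)) (c0 : c ≠ 0) {v : V} (hv : v ∈ S.Wt r 0) : l v = 0 := by_contra fun e =>
  c0 (S.P.inj (DFunLike.ext _ _ fun t => by simpa [mem_Wt0.1 hv, e, S.hP, eq_comm] using dual_x h t v))

theorem chi_eq (r : Rt D) {m : ℕ} (h : ∀ c ≠ 0, fr (S.Wt r c) = m) : S.ρ.character (S.A.x r 1) = finrank ℂ V - (Fintype.card K * m : ℕ) := by
  have a1 := S.P.sum (1 : K)
  have a2 : ∀ y, CA.Wt.wt S.ρ.character (S.Z r) (S.P.e y) (S.A.x r 1) = S.P.e y 1 * fr (S.Wt r y) := fun y => by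
    rw [fr, Wt, finrank_Ws (S.A.x_injective r), ← CA.Wt.wt_mul, one_mul]; rfl
  have a3 := Stb.sum (S := S) (W := ⊤) (r := r) fun _ _ _ => trivial
  simp only [top_inf_eq] at a3
  rw [if_neg one_ne_zero, ← add_sum_erase _ _ (mem_univ 0), S.P.zero, AddChar.one_apply, add_eq_zero_iff_neg_eq] at a1
  rw [← CA.Wt.sum_wt S.P (χ := S.ρ.character) (x := S.Z r), ← add_sum_erase _ _ (mem_univ 0), ← finrank_top, ← fr, a3, sum_ne h, a2,
    sum_congr rfl fun c hc => (a2 c).trans (by rw [h c (ne_of_mem_erase hc)]), ← sum_mul, ← a1, S.P.zero]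
  simp [Nat.cast_sub Fintype.card_pos]; ring

end St

end CA.DegG
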