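/-
Character degrees of `G₂(q)`: generic weights of the long root subgroup `SL₃(q)`.
-/
import Cfsg.Agent.Lib.Lie.DegG1

set_option autoImplicit false
set_option linter.unusedSectionVars false

namespace CA.DegG

open Cfsg CA.Wt CA.DegO CA.DegT CA.DegE Finset Module Cfsg.Lie CA.Chev CA.Chev.Sys0 CA.TwM
open scoped commutatorElement Classical

/-- the roots -/
def R (k : Fin 12) : Rt chevG2 := k

variable {K : Type*} [Field K] [Fintype K] {G : Type*} [Group G] {V : Type*} [AddCommGroup V] [Module ℂ V] [FiniteDimensional ℂ V]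

theorem z0 : ((0 : ℤ) : K) = 0 := Int.cast_zero
theorem n1 : ((1 : ℤ) : K) ≠ 0 := by simp
theorem n1' : ((-1 : ℤ) : K) ≠ 0 := by simp

namespace St
variable (S : St chevG2 K G V)

/-- fixed points of the highest long roots -/
def W : Submodule ℂ V := S.Wt (R 11) 0 ⊓ S.Wt (R 10) 0
/-- fixed points of a maximal unipotent subgroup of `SL₃` -/
def E : Submodule ℂ V := S.W ⊓ S.Wt (R 5) 0

theorem sh6 : S.Sh (R 11) (R 10) (R 6) := S.sh z0 1 n1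
theorem sh5 : S.Sh (R 10) (R 11) (R 5) := S.sh z0 1 n1
theorem st6 : S.Stb S.W (R 6) := S.sh6.stb 0
theorem st5 : S.Stb S.W (R 5) := by rw [W, inf_comm]; exact S.sh5.stb 0
theorem toW (y : V) : S.Pj (R 11) 0 (S.Pj (R 10) 0 y) ∈ S.W := ⟨Pj_mem _ _ _, ((S.cm z0).stb 0).pj (Pj_mem _ _ _) 0⟩

variable {S}
theorem toE {y : V} (hy : y ∈ S.Wt (R 5) 0) : S.Pj (R 11) 0 (S.Pj (R 10) 0 y) ∈ S.E :=
  ⟨S.toW y, (((S.sh z0 (-1) n1').stb 0).pj ⟨Pj_mem (R 10) 0 y, ((S.cm z0).stb 0).pj hy 0⟩ 0).2⟩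

theorem pj0 {r : Rt chevG2} {l : Dual ℂ V} (h : l ∈ S.dual.Wt r 0) (v : V) : l (S.Pj r 0 v) = l v := dual_pj (by simpa) v
theorem dualW {l : Dual ℂ V} (h : l ∈ S.dual.W) (y : V) : l (S.Pj (R 11) 0 (S.Pj (R 10) 0 y)) = l y := by rw [pj0 h.1, pj0 h.2]

theorem exists_dual {r : Rt chevG2} (hr : S.dual.Stb S.dual.W r) {c : K} {w : V} (hw : w ∈ S.W ⊓ S.Wt r c) (w0 : w ≠ 0) :
    ∃ l ∈ S.dual.W ⊓ S.dual.Wt r (-c), l w = 1 := by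
  obtain ⟨m, hm⟩ := Projective.exists_dual_eq_one ℂ w0
  refine ⟨S.dual.Pj r (-c) _, ⟨hr.pj (S.dual.toW m) _, Pj_mem _ _ _⟩, ?_⟩
  rw [pj_dual hw.2, ← neg_zero, pj_dual hw.1.1, pj_dual hw.1.2, hm]

theorem red {r s : Rt chevG2} {l : Dual ℂ V} (hl : l ∈ S.dual.Wt r 0) {v : V} (hv : v ∈ S.Wt r 0) {t : K} (t0 : t ≠ 0) (h : s = ng r := by decide +kernel) :
    l (S.ρ (S.A.x s t) v) = l (S.ρ (S.A.n r (-(Units.mk0 t t0)⁻¹)) v) := by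
  rw [h, show S.A.x (ng r) t = _ from S.A.x_ng_eq r (.mk0 t t0), map_mul, map_mul, End.mul_apply, End.mul_apply, mem_Wt0.1 hv, dual_x0 hl]

theorem comp_mem {g : G} {r s : Rt chevG2} {e : K} (he : ∀ u, g * S.A.x r u * g⁻¹ = S.A.x s (e * u)) {l : Dual ℂ V} (hl : l ∈ S.dual.Wt s 0) :
    l ∘ₗ S.ρ g ∈ S.dual.Wt r 0 := mem_Wt0.2 fun t => LinearMap.ext fun v => by
  change l (S.ρ g (S.ρ (S.A.x r t)⁻¹ v)) = l (S.ρ g v)
  rw [← dual_x0 hl (e * t), ← he]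
  simp only [← End.mul_apply, ← map_mul]; congr 3; group

section
variable (hE : fr S.E ≤ 1) {v : V} (hv : v ∈ S.E) {π : Dual ℂ V} (hπ : π ∈ S.dual.E) (h1 : π v = 1)
include hE hv hπ h1

theorem eqv {z : V} (hz : z ∈ S.E) : z = π z • v := by
  obtain ⟨a, rfl⟩ := eq_smul hE hv (by rintro rfl; simp at h1) hz
  simp [h1]

theorem uniq {m : Dual ℂ V} (hm : m ∈ S.dual.E) (y : V) : m y = m v * π y := by
  have := congrArg m (eqv hE hv hπ h1 ⟨S.st5.pj (S.toW y) 0, Pj_mem (R 5) 0 _⟩)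
  rwa [map_smul, pj0 hm.2, pj0 hπ.2, dualW hm.1, dualW hπ.1, smul_eq_mul, mul_comm] at this

theorem inv {g : G} (g1 : S.ρ g v ∈ S.E) (g2 : S.dual.ρ g π ∈ S.dual.E) (x : G) : π (S.ρ x v) = π (S.ρ (g * x * g⁻¹) v) := by
  have a : ∀ y, π (S.ρ g⁻¹ y) = π (S.ρ g⁻¹ v) * π y := uniq hE hv hπ h1 g2
  have b := eqv hE hv hπ h1 g1
  have c := a (S.ρ (g * x * g⁻¹) (S.ρ g v))
  have d := a (S.ρ g v)
  conv_rhs at c => rw [b, map_smul, map_smul, smul_eq_mul, ← mul_assoc, ← d]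
  simpa only [← End.mul_apply, ← map_mul, mul_assoc, inv_mul_cancel_left, inv_mul_cancel, mul_one, map_one, End.one_apply, h1, one_mul] using c

theorem beta : ∃ β : ℂ, (∀ t ≠ 0, π (S.ρ (S.A.x (R 6) t) v) = β) ∧ (∀ t ≠ 0, π (S.ρ (S.A.x (R 0) t) v) = β) ∧ β * (1 - β) ≠ 1 := by
  have a1 : ∀ t ≠ 0, π (S.ρ (S.A.x (R 6) t) v) = π (S.ρ (S.A.x (R 6) 1) v) := fun t t0 => by
    rw [inv hE hv hπ h1 (g := S.A.h (R 10) (.mk0 t t0)) ⟨⟨tr_h0 _ _ hv.1.1, tr_h0 _ _ hv.1.2⟩, tr_h0 _ _ hv.2⟩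
      ⟨⟨tr_h0 (S := S.dual) _ _ hπ.1.1, tr_h0 (S := S.dual) _ _ hπ.1.2⟩, tr_h0 (S := S.dual) _ _ hπ.2⟩, S.A.h_conj, show pr (R 10) (R 6) = -1 by decide +kernel]
    simp [t0]
  refine ⟨_, a1, fun t t0 => ?_, fun e => ?_⟩
  · obtain ⟨c, hc⟩ := (S.A.act_n (R 8) 1).conj_x (R 0)
    rw [inv hE hv hπ h1 (g := S.A.n (R 8) 1) ⟨⟨tr_n0 _ _ _ hv.2, tr_n0 _ _ _ hv.1.2⟩, tr_n0 _ _ _ hv.1.1⟩
      ⟨⟨tr_n0 (S := S.dual) _ _ _ hπ.2, tr_n0 (S := S.dual) _ _ _ hπ.1.2⟩, tr_n0 (S := S.dual) _ _ _ hπ.1.1⟩, hc, rf (s := R 6) (by decide +kernel), a1 _ (by simp [t0])]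
  have a2 := pj_val a1 0
  have a3 : S.Pj (R 6) 0 v ∈ S.W := S.st6.pj hv.1 0
  have a4 := eqv hE hv hπ h1 (z := S.ρ (S.A.n (R 5) 1) (S.Pj (R 6) 0 v)) ⟨⟨tr_n0 _ _ _ a3.2, tr_n0 _ _ _ a3.1⟩, tr_n0 _ _ _ (Pj_mem _ _ _)⟩
  have a5 : ∀ u : Kˣ, π (S.ρ (S.A.n (R 5) u) v) = π (S.ρ (S.A.x (R 6) 1) v) := fun u => by
    rw [← a1 _ (-u⁻¹).ne_zero, red hπ.2 hv.2 (-u⁻¹).ne_zero, Units.mk0_val]; simp
  obtain ⟨c, hc⟩ := (S.A.act_n (R 5) 1).conj_x (R 6)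
  have a6 := pj0 (comp_mem (rf (a := R 5) (r := R 6) (s := R 5) (by decide +kernel) ▸ hc) hπ.2) v
  simp only [LinearMap.comp_apply] at a6
  have a7 := congrArg (fun y => π (S.ρ (S.A.n (R 5) (-1)) y)) a4
  simp only [map_smul, a6, a5] at a7
  rw [S.A.n_neg, S.ρ.inv_self_apply] at a7
  rw [a7, h1, if_pos rfl, smul_eq_mul] at a2
  generalize π (S.ρ (S.A.x (R 6) 1) v) = β at *
  have a8 : β = Fintype.card K + 1 := by linear_combination a2 + (Fintype.card K : ℂ) * e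
  rw [a8] at e
  have : ((Fintype.card K + 1) * Fintype.card K + 1 : ℕ) = (0 : ℂ) := by push_cast; linear_combination -e
  exact absurd (Nat.cast_eq_zero.1 this) (by omega)
end

theorem gen {c : K} (c0 : c ≠ 0) (hL : fr (S.W ⊓ S.Wt (R 6) c) = 1) (hE : fr S.E ≤ 1) {d : K} (d0 : d ≠ 0) :
    1 ≤ fr (S.Wt (R 1) 0 ⊓ S.Wt (R 6) c ⊓ S.Wt (R 0) d) := by
  have q0 : (Fintype.card K : ℂ) ≠ 0 := by simp
  obtain ⟨w, hw, w0⟩ := exists_ne (hL.trans_ne one_ne_zero)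
  obtain ⟨l, hl, h1⟩ := exists_dual S.dual.st6 hw w0
  obtain ⟨κ, k1, k2⟩ : ∃ κ : ℂ, (∀ t ≠ 0, l (S.ρ (S.A.x (R 0) t) w) = κ) ∧ Fintype.card K * κ ≠ 1 := by
    have a1 : ∀ u, S.Pj (R 11) 0 (S.Pj (R 10) 0 (S.ρ (S.A.n (R 11) u) w)) ∈ S.E := fun u => toE (tr_n0 _ _ _ hw.1.2)
    by_cases e : fr S.E = 0
    · exact ⟨0, fun t t0 => by rw [red hl.1.1 hw.1.1 t0, ← dualW hl.1, (Submodule.eq_bot_iff _).1 (Submodule.finrank_eq_zero.1 e) _ (a1 _), map_zero], by simp⟩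
    obtain ⟨v, hv, v0⟩ := exists_ne e
    obtain ⟨π, hπ, h2⟩ := exists_dual S.dual.st5 hv v0
    rw [neg_zero] at hπ
    obtain ⟨β, b1, b2, b3⟩ := beta hE hv hπ h2
    have a2 := pj_val b1 c
    obtain ⟨m, hm⟩ := eq_smul hL.le hw w0 ⟨S.st6.pj hv.1 c, Pj_mem _ _ _⟩
    have a3 := dual_pj hl.2 v
    rw [hm, map_smul, h1, smul_eq_mul, mul_one] at a3
    rw [hm, map_smul, h2, if_neg c0, a3, smul_eq_mul, add_zero] at a2
    refine ⟨β * (l v * π w), fun t t0 => ?_, fun e => b3 (by linear_combination e - β * a2)⟩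
    obtain ⟨e, he⟩ := (S.A.act_n (R 11) (-(Units.mk0 t t0)⁻¹)).conj_x (R 5)
    have a4 := pj0 (comp_mem (rf (a := R 11) (r := R 5) (s := R 10) (by decide +kernel) ▸ he) hπ.1.2) w
    rw [eqv hE hv hπ h2 ⟨S.st5.pj hw.1 0, Pj_mem _ _ _⟩, pj0 hπ.2, map_smul, LinearMap.comp_apply, LinearMap.comp_apply, ← red hπ.1.1 hv.1.1 t0 (s := R 0), b2 t t0] at a4
    rw [red hl.1.1 hw.1.1 t0, ← dualW hl.1, eqv hE hv hπ h2 (a1 _), dualW hπ.1, ← a4, map_smul]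
    simp only [smul_eq_mul]; ring
  have a1 := pj_val (S := S) (r := R 1) (l := l) (v := w) (κ := 0) (fun t t0 => by rw [red hl.1.2 hw.1.2 t0]; exact dual_ne hl.2 c0 (tr_n0 _ _ _ hw.1.1)) 0
  have a2 := pj_val (S := S) (r := R 0) (l := l) (v := S.Pj (R 1) 0 w) (κ := κ) (fun t t0 => by
    have := pj_val (S := S) (r := R 1) (l := l ∘ₗ S.ρ (S.A.x (R 0) t)) (v := w) (κ := κ) (fun s _ => by
      have := congrArg (fun g => l (S.ρ g w)) (S.comm_p z0 (r := R 6) (s := R 0) (L := [(R 1, -1, 1, 1)]) (by decide +kernel) (s / t) t)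
      simp only [map_mul, End.mul_apply, mem_Wt.1 hw.2, dual_x hl.2, map_smul, k1 t t0] at this
      simpa [t0, eq_comm (a := κ), (AddChar.val_isUnit _ _).ne_zero] using this) 0
    simpa [k1 t t0] using this) d
  refine fr_pos ⟨((S.sh z0 (z := R 1) (β := R 0) 1 n1).stb c).pj ⟨Pj_mem _ _ _, ((S.cm z0).stb c).pj hw.2 0⟩ d, Pj_mem _ _ _⟩ fun e => k2 ?_
  rw [e, map_zero, if_neg d0] at a2
  rw [h1, if_pos rfl] at a1
  linear_combination (Fintype.card K : ℂ) * a2 + a1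

end St

end CA.DegG
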