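/-
Character degrees of `G₂(q)`: characteristic not three.
-/
import Cfsg.Agent.Lib.Lie.DegG2

set_option autoImplicit false
set_option linter.unusedSectionVars false

namespace CA.DegG

open Cfsg CA.Wt CA.DegO CA.DegT CA.DegE Finset Module Cfsg.Lie CA.Chev CA.Chev.Sys0 CA.TwM
open scoped commutatorElement Classical

variable {K : Type*} [Field K] [Fintype K] {G : Type*} [Group G] {V : Type*} [AddCommGroup V] [Module ℂ V] [FiniteDimensional ℂ V]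

theorem exists_pow {n : ℕ} (n0 : n ≠ 0) (h : n + 1 < Fintype.card K) : ∃ μ : Kˣ, (μ : K) ^ n ≠ 1 := by
  obtain ⟨μ, hμ⟩ := IsCyclic.exists_ofOrder_eq_natCard (α := Kˣ)
  refine ⟨μ, fun e => ?_⟩
  have := Nat.le_of_dvd (by omega) (orderOf_dvd_of_pow_eq_one (Units.ext (by simpa using e) : μ ^ n = 1))
  rw [hμ, Nat.card_units, Nat.card_eq_fintype_card] at this
  omega

namespace St
variable {S : St chevG2 K G V}

theorem main3 (h3 : ((3 : ℤ) : K) ≠ 0) (hne : S.Wt (R 11) 0 ≠ ⊤) (h4 : 4 < Fintype.card K) :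
    Fintype.card K ^ 3 - 1 ≤ finrank ℂ V ∧ (Fintype.card K % 3 = 1 → Fintype.card K ^ 3 + 1 ≤ finrank ℂ V) := by
  obtain ⟨k, hk, hD⟩ := tw S.sh6 S.sh5 (S.cm z0) (W := ⊤) (fun _ _ _ => trivial) (fun _ _ _ => trivial) (fun _ _ _ => trivial) fun _ _ _ => trivial
  simp only [top_inf_eq] at hk hD
  rw [fr, finrank_top, ← W] at hD
  have a1 : ∀ c ≠ 0, ∀ s, k = Fintype.card K * fr (S.Wt (R 11) 0 ⊓ S.Wt (R 10) c ⊓ S.Wt (R 9) s) := fun c c0 s => (hk 0 c (.inr c0)).symm.trans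
    ((S.sh z0 (β := R 7) 3 h3).tl c0 inf_le_right (((S.cm z0).stb 0).inf ((S.cm z0).stb c)) (((S.cm z0).stb 0).inf ((S.cm z0).stb c)) s)
  obtain ⟨n, hn⟩ : ∃ n, Fintype.card K = n + 5 := Nat.exists_eq_add_of_le' h4
  have e2 : (n + 5) ^ 2 - 1 = n ^ 2 + 10 * n + 24 := Nat.sub_eq_of_eq_add (by ring)
  have a0 := a1 1 one_ne_zero 0
  generalize fr (S.Wt (R 11) 0 ⊓ S.Wt (R 10) 1 ⊓ S.Wt (R 9) 0) = d at a0
  rcases (by omega : d = 0 ∨ d = 1 ∨ 2 ≤ d) with rfl | rfl | h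
  · refine (hne (Submodule.eq_top_of_finrank_eq ((Submodule.finrank_le _).antisymm ?_))).elim
    rw [hD, a0, mul_zero, mul_zero, add_zero]
    exact fr_mono inf_le_left
  swap
  · have : Fintype.card K ^ 3 + 1 ≤ finrank ℂ V := by rw [hD, a0, hn, e2]; nlinarith [Nat.mul_le_mul_left ((n ^ 2 + 10 * n + 24) * (n + 5)) h]
    exact ⟨by omega, fun _ => this⟩
  replace a1 : ∀ c ≠ 0, fr (S.Wt (R 11) 0 ⊓ S.Wt (R 10) c ⊓ S.Wt (R 9) 0) = 1 := fun c c0 => Nat.eq_of_mul_eq_mul_left (by omega) ((a1 c c0 0).symm.trans a0)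
  have s1 : ∀ c, S.Stb (S.Wt (R 11) 0 ⊓ S.Wt (R 10) c ⊓ S.Wt (R 9) 0) (R 6) := fun c => (S.sh6.stb c).inf ((S.cm z0).stb 0)
  obtain ⟨μ, hμ⟩ := exists_pow three_ne_zero h4
  have a2 : ∀ c ≠ 0, S.Wt (R 11) 0 ⊓ S.Wt (R 10) c ⊓ S.Wt (R 9) 0 ≤ S.Wt (R 6) 0 := fun c c0 => line_fix (a1 c c0) (a := R 8) (s1 c)
    (by rwa [show pr (R 8) (R 6) = (3 : ℕ) by decide +kernel, zpow_natCast]) fun v hv => ⟨⟨tr_h0 _ _ hv.1.1, by simpa using tr_h (R 8) μ 0 hv.1.2⟩, tr_h0 _ _ hv.2⟩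
  have a3 : ∀ c ≠ 0, 1 ≤ fr (S.W ⊓ S.Wt (R 6) c) := fun c c0 => by
    obtain ⟨e, e0, he⟩ := S.tr_n (R 7) (R 10) (R 6) 1
    exact (a1 _ (mul_ne_zero c0 e0)).ge.trans (fr_le (ρ := S.ρ) (S.A.n (R 7) 1) fun v hv =>
      ⟨⟨tr_n0 _ _ _ hv.1.1, tr_n0 _ _ _ (a2 _ (mul_ne_zero c0 e0) hv)⟩, by simpa [e0] using he _ v hv.1.2⟩)
  have a4 := sum_ge a3
  rw [← S.st6.sum] at a4
  rw [a0, hn, e2] at hD
  refine ⟨by rw [hn] at a4 ⊢; rw [tsub_le_iff_right, hD]; simp only [Nat.add_one_sub_one] at a4; nlinarith, fun hq => not_lt.1 fun hlt => ?_⟩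
  have a5 : fr S.W ≤ n + 5 := by rw [hn, hD] at hlt; nlinarith
  obtain ⟨c, c0, hc⟩ : ∃ c ≠ 0, fr (S.W ⊓ S.Wt (R 6) c) = 1 := by
    by_contra! e
    have := sum_ge fun c c0 => (a3 c c0).lt_of_ne' (e c c0)
    rw [← S.st6.sum] at this
    omega
  have a6 : fr S.E ≤ 1 := (fr_le (ρ := S.ρ) (S.A.n (R 6) 1) (W := S.E) (W' := S.W ⊓ S.Wt (R 6) 0) fun v hv =>
    ⟨⟨tr_n0 _ _ _ hv.1.2, tr_n0 _ _ _ hv.1.1⟩, tr_n0 _ _ _ hv.2⟩).trans (by change fr _ ≤ 1; omega)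
  obtain ⟨e1, h1, k1⟩ := S.tr_n (R 9) (R 6) (R 6) 1
  obtain ⟨e2, h2, k2⟩ := S.tr_n (R 9) (R 0) (R 10) 1
  obtain ⟨e3, h3, k3⟩ := S.tr_n (R 7) (R 6) (R 10) 1
  obtain ⟨e4, h4, k4⟩ := S.tr_n (R 7) (R 10) (R 6) 1
  have c1 : c / e1 / e3 ≠ 0 := by simp [*]
  have a7 : ∀ d, 1 ≤ fr (S.Wt (R 11) 0 ⊓ S.Wt (R 10) (c / e1 / e3) ⊓ S.Wt (R 6) d) := fun d => by
    by_cases d0 : d = 0
    · exact (a1 _ c1).ge.trans (fr_mono fun v hv => ⟨hv.1, d0 ▸ a2 _ c1 hv⟩)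
    refine (gen c0 hc a6 (d := d * e4 * e2) (by simp [*])).trans (fr_le (ρ := S.ρ) (S.A.n (R 7) 1 * S.A.n (R 9) 1) fun v hv => ?_)
    rw [map_mul, End.mul_apply]
    exact ⟨⟨tr_n0 _ _ _ (tr_n0 _ (R 11) _ hv.1.1), k3 _ _ (k1 _ _ hv.1.2)⟩, by simpa [h2, h4] using k4 _ _ (k2 _ _ hv.2)⟩
  have a8 := (S.sh6.stb (c / e1 / e3)).sum
  rw [hk 0 _ (.inr c1), a0, mul_one] at a8
  have a9 := (sum_eq_sum_iff_of_le fun d (_ : d ∈ univ) => a7 d).1 (by simpa using a8)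
  have := Fact.mk Nat.prime_three
  obtain ⟨ω, hω⟩ := exists_prime_orderOf_dvd_card' (G := Kˣ) 3 (by rw [Nat.card_units, Nat.card_eq_fintype_card]; omega)
  have w3 : (ω : K) ^ (3 : ℤ) = 1 := by rw [zpow_ofNat, ← Units.val_pow_eq_pow_val, ← hω, pow_orderOf_eq_one, Units.val_one]
  have := sum_le_sum fun d (hd : d ∈ univ) => fr_mono (W := S.Wt (R 11) 0 ⊓ S.Wt (R 10) (c / e1 / e3) ⊓ S.Wt (R 6) d)
    (W' := S.Wt (R 11) 0 ⊓ S.Wt (R 10) (c / e1 / e3) ⊓ S.Wt (R 9) 0 ⊓ S.Wt (R 6) d) fun v hv =>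
    ⟨⟨hv.1, line_fix (a9 d hd).symm (a := R 8) (μ := ω) ((((S.cm z0).stb 0).inf ((S.cm z0).stb _)).inf ((S.cm z0).stb d))
      (by rw [show pr (R 8) (R 9) = 1 by decide +kernel, zpow_one, Ne, Units.val_eq_one]; rintro rfl; simp at hω)
      (fun v hv => ⟨⟨tr_h0 _ _ hv.1.1, by simpa using tr_h (R 8) ω 0 hv.1.2⟩, by simpa [w3] using tr_h (R 8) ω 3 hv.2⟩) hv⟩, hv.2⟩
  rw [← a8, ← (s1 _).sum, a1 _ c1] at this
  omega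

end St

end CA.DegG
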