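/-
Character degrees of `G₂(q)`: characteristic three.
-/
import Cfsg.Agent.Lib.Lie.DegG3

set_option autoImplicit false
set_option linter.unusedSectionVars false

namespace CA.DegG

open Cfsg CA.Wt CA.DegO CA.DegT CA.DegE Finset Module Cfsg.Lie CA.Chev CA.Chev.Sys0 CA.TwM
open scoped commutatorElement Classical

variable {K : Type*} [Field K] [Fintype K] {G : Type*} [Group G] {V : Type*} [AddCommGroup V] [Module ℂ V] [FiniteDimensional ℂ V]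

theorem card_Nr {D : ChevalleyDatum} [Good D] (A : Sys D K G) (hG : A.G = ⊤) {θ : Rt D} (hl : ∀ r, Pos r → ∀ t u, Commute (A.x r t) (A.x θ u)) (hθ : ∀ j, 0 ≤ wt θ j) :
    Nat.card (Nr A θ) = Nat.card A.B * poin {j | wt θ j = 0} (Nat.card K) := by
  have : Fintype (WJ {j | wt θ j = 0}) := Fintype.ofFinite _
  choose m hm hw using fun w : WJ {j | wt θ j = 0} => A.exists_N (WJ_le _ w.2)
  have hc : ∀ w : WJ {j | wt θ j = 0}, Nat.card (A.X (invs w.1)) = Nat.card K ^ lg w.1 := fun w => by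
    rw [A.card_X (Sys.nil_invs (W_le_RA (WJ_le _ w.2))), Set.ncard_coe_finset, lg]
  have : ∀ w : WJ {j | wt θ j = 0}, Finite (A.X (invs w.1)) := fun w =>
    Nat.finite_of_card_ne_zero (by rw [hc]; exact pow_ne_zero _ Nat.card_pos.ne')
  have hB : A.B ≤ Nr A θ := sup_le (A.X_le.2 fun r hr t => ⟨1, fun u => by simpa using (hl r hr t u).mul_inv_cancel⟩)
    (A.H_le.2 fun r t => ⟨t ^ pr r θ, fun u => by simpa using A.h_conj r θ t u⟩)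
  have hU : ∀ w : Equiv.Perm (Rt D), A.X (invs w) ≤ A.B := fun w => (A.X_mono fun r hr => (mem_invs.1 hr).1).trans A.U_le_B
  rw [poin, finsum_eq_sum_of_fintype, ← Finset.sum_congr rfl fun w _ => hc w, ← Nat.card_sigma, ← Nat.card_prod]
  refine (Nat.card_congr (Equiv.ofBijective
    (fun p : A.B × (Σ w : WJ {j | wt θ j = 0}, A.X (invs w.1)) => (⟨p.1 * m p.2.1 * p.2.2,
      mul_mem (mul_mem (hB p.1.2) (show ∃ _, _ by simpa only [fix_of_mem_WJ (fun _ h => h) p.2.1.2] using (hw p.2.1).conj_x θ)) (hB (hU _ p.2.2.2))⟩ : Nr A θ)) ⟨?_, ?_⟩)).symm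
  · rintro ⟨b, w, u⟩ ⟨b', w', u'⟩ e
    have e : (b : G) * m w * u = b' * m w' * u' := congrArg Subtype.val e
    obtain rfl : w = w' := Subtype.ext (A.bruhat_unique (mul_mem (inv_mem b'.2) b.2)
      (mul_mem (hU _ u.2) (inv_mem (hU _ u'.2))) (hm w) (hw w) (hw w') (by
        calc m w' = (b' : G)⁻¹ * (b' * m w' * u') * (u' : G)⁻¹ := by group
          _ = _ := by rw [← e]; group))
    obtain ⟨h1, h2⟩ := A.canon_unique b.2 b'.2 (hw w) u.2 u'.2 e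
    rw [Subtype.ext h1, Subtype.ext h2]
  · rintro ⟨g, hg⟩
    obtain ⟨b, hb, m', hm', w, hw', u, hu, rfl⟩ := A.bruhat_canon (hG.ge (Subgroup.mem_top g))
    obtain ⟨c, hc⟩ := (mul_mem_cancel_left (hB hb)).1 ((mul_mem_cancel_right (hB (hU _ hu))).1 hg)
    obtain ⟨d, hd⟩ := hw'.conj_x θ
    have e : w ∈ WJ {j | wt θ j = 0} := by
      simpa using mem_WJ_of_fix (J := Set.univ) (fun j _ => hθ j) (WJ_univ.ge hw'.1) (A.x_eq_x (by simp) ((hd 1).symm.trans (hc 1))).1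
    have := A.mem_H_of_act_eq (inv_mem hm') (inv_mem (hm ⟨w, e⟩)) hw'.inv (hw ⟨w, e⟩).inv
    exact ⟨(⟨_, mul_mem hb (A.H_le_B this)⟩, ⟨⟨w, e⟩, ⟨u, hu⟩⟩), Subtype.ext (by simp [mul_assoc])⟩

namespace St
variable (S : St chevG2 K G V)

/-- weight spaces of an abelian normal subgroup -/
def Y (s c d r : K) : Submodule ℂ V := S.Wt (R 9) s ⊓ S.Wt (R 11) c ⊓ S.Wt (R 10) d ⊓ S.Wt (R 8) r

theorem stY6 (s d r : K) : S.Stb (S.Y s 0 d r) (R 6) := fun t v hv =>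
  ⟨⟨⟨(S.cm z0).stb s t v hv.1.1.1, (S.cm z0).stb 0 t v hv.1.1.2⟩, (S.sh6.stb d t v ⟨hv.1.1.2, hv.1.2⟩).2⟩, (S.cm z0).stb r t v hv.2⟩

theorem rel76 (t u : K) : S.A.x (R 6) u * S.A.x (R 7) t =
    S.A.x (R 7) t * S.A.x (R 6) u * (S.A.x (R 8) (t * u) * S.A.x (R 9) (t ^ 2 * u) * S.A.x (R 10) (-t ^ 3 * u) * S.A.x (R 11) (-t ^ 3 * u ^ 2)) := by
  simpa [mul_assoc, Odd.neg_pow (by decide : Odd 3)] using S.comm_p z0 (r := R 7) (s := R 6) (L := [(R 8, -1, 1, 1), (R 9, 1, 2, 1), (R 10, 1, 3, 1), (R 11, 1, 3, 2)]) (by decide +kernel) t u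

variable {S}
theorem mv7 {d r β : K} {v : V} (hv : v ∈ S.Y 0 0 d r) (h : v ∈ S.Wt (R 6) β) (t : K) : S.ρ (S.A.x (R 7) t) v ∈ S.Wt (R 6) (β + (r * t - d * t ^ 3)) :=
  mv (S.rel76 t) (fun u => by
    simp only [map_mul, End.mul_apply, mem_Wt0.1 hv.1.1.2, mem_Wt.1 hv.1.2, mem_Wt0.1 hv.1.1.1, mem_Wt.1 hv.2, map_smul, smul_smul, ← AddChar.map_add_eq_mul]; ring_nf) h

theorem mv6 {r β : K} {v : V} (hv : v ∈ S.Y 0 0 0 r) (h : v ∈ S.Wt (R 7) β) (t : K) : S.ρ (S.A.x (R 6) t) v ∈ S.Wt (R 7) (β + -r * t) :=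
  mv (S.comm_p z0 (L := [(R 8, 1, 1, 1), (R 9, 1, 1, 2), (R 10, -1, 1, 3), (R 11, -2, 2, 3)]) (by decide +kernel) t) (fun u => by
    simp [mem_Wt0.1 hv.1.1.2, mem_Wt0.1 hv.1.2, mem_Wt0.1 hv.1.1.1, mem_Wt.1 hv.2, mul_assoc]) h

variable (hp : ((3 : ℤ) : K) = 0)
include hp

theorem n2 : ((-2 : ℤ) : K) ≠ 0 := fun e => one_ne_zero (α := K) (by push_cast at hp e; linear_combination hp + e)
theorem cube : Function.Surjective fun t : K => t ^ 3 := Finite.surjective_of_injective fun t s (h : t ^ 3 = s ^ 3) =>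
  sub_eq_zero.1 ((pow_eq_zero_iff three_ne_zero).1 (by push_cast at hp; linear_combination h + (t * s ^ 2 - t ^ 2 * s) * hp))

variable (S) in
theorem sh7 : S.Sh (R 9) (R 8) (R 7) := S.sh hp (-2) (n2 hp)
variable (S) in
theorem stY7 (c d r : K) : S.Stb (S.Y 0 c d r) (R 7) := fun t v hv =>
  ⟨⟨⟨(S.cm hp).stb 0 t v hv.1.1.1, (S.cm z0).stb c t v hv.1.1.2⟩, (S.cm z0).stb d t v hv.1.2⟩, ((S.sh7 hp).stb r t v ⟨hv.1.1.1, hv.2⟩).2⟩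

theorem lemA (h3 : 3 < Fintype.card K) (h : ∀ c ≠ 0, S.Wt (R 11) c ≤ S.Wt (R 9) 0 ⊓ S.Wt (R 8) 0) : ∃ d, fr (S.Wt (R 9) 0 ⊓ S.Wt (R 11) 1 ⊓ S.Wt (R 10) d) = 0 := by
  have a1 : ∀ d ≠ 0, S.Wt (R 10) d ≤ S.Wt (R 7) 0 := fun d d0 v hv => by
    obtain ⟨e, e0, he⟩ := S.tr_n (R 6) (R 10) (R 11) 1
    simpa [S.A.n_neg] using tr_n0 (R 6) (R 7) (-1) (h _ (div_ne_zero d0 e0) (he d v hv)).2
  obtain ⟨-, C, -, hC⟩ := S.sh6
  obtain ⟨d, -, hd⟩ := exists_mem_notMem_of_card_lt_card (s := {0, -C, -1}) (t := univ) (card_le_three.trans_lt h3)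
  simp only [mem_insert, mem_singleton, not_or, ← add_eq_zero_iff_eq_neg] at hd
  refine ⟨d, by_contra fun e => hd.2.2 ?_⟩
  obtain ⟨v, hv, v0⟩ := exists_ne e
  refine neg_eq_zero.1 (S.P.inj (DFunLike.ext _ _ fun s => ?_))
  obtain ⟨t, rfl⟩ := cube hp s
  have := congrArg (fun g => S.ρ (S.A.x (R 6) (-1)) (S.ρ g v)) (S.rel76 t 1)
  simp only [map_mul, End.mul_apply, mem_Wt.1 hv.1.2, mem_Wt.1 hv.2, mem_Wt0.1 hv.1.1, mem_Wt0.1 (h 1 one_ne_zero hv.1.2).2, mem_Wt0.1 (a1 d hd.1 hv.2), map_smul,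
    mem_Wt0.1 (a1 _ (by simpa using hd.2.1) (hC 1 d 1 v hv.1.2 hv.2)), x_neg, S.ρ.inv_self_apply, smul_smul, ← AddChar.map_add_eq_mul] at this
  rw [S.P.zero, S.hP, AddChar.one_apply]
  exact smul_left_injective ℂ v0 (by simp only [one_smul]; rw [eq_comm]; convert this using 3; ring)

theorem lemB (h3 : 3 < Fintype.card K) {d r : K} (d0 : d ≠ 0) (r0 : r ≠ 0) (h : fr (S.Y 0 0 d r) ≠ 0) : 3 * (Fintype.card K - 1) ≤ 2 * ∑ r, fr (S.Y 0 0 d r) := by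
  have a1 : 3 ≤ fr (S.Y 0 0 d r) := by
    rw [(S.stY6 0 d r).sum] at h ⊢
    obtain ⟨β, -, hβ⟩ := exists_ne_zero_of_sum_ne_zero h
    have k : ∀ t, 1 ≤ fr (S.Y 0 0 d r ⊓ S.Wt (R 6) (β + (r * t - d * t ^ 3))) := fun t =>
      (Nat.pos_of_ne_zero hβ).trans_le (fr_le (ρ := S.ρ) (S.A.x (R 7) t) fun v hv => ⟨S.stY7 hp 0 d r t v hv.1, mv7 hv.1 hv.2 t⟩)
    obtain ⟨t, ht⟩ : ∃ t, r * t - d * t ^ 3 ≠ 0 := by
      obtain ⟨μ, hμ⟩ := exists_pow two_ne_zero h3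
      by_contra! e
      exact hμ (mul_left_cancel₀ (mul_ne_zero d0 μ.ne_zero) (by linear_combination (μ : K) * e 1 - e μ))
    have k2 := k (-t)
    rw [show r * -t - d * (-t) ^ 3 = -(r * t - d * t ^ 3) by ring] at k2
    have k1 := k t
    generalize r * t - d * t ^ 3 = y at *
    refine le_trans ?_ (sum_le_sum_of_subset (subset_univ {β, β + y, β + -y}))
    have : y ≠ -y := fun e => ht (mul_left_cancel₀ (n2 hp) (by push_cast; linear_combination -e))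
    rw [sum_insert (by simp [ht]), sum_pair (by simpa)]
    omega
  have a2 := card_le_mul_card_image (f := fun μ : Kˣ => r / (μ : K) ^ (2 : ℤ)) univ 2 fun a ha => by
    obtain ⟨ν, -, rfl⟩ := mem_image.1 ha
    refine (card_le_card fun μ hμ => ?_).trans (card_le_two (a := ν) (b := -ν))
    simpa [r0, Units.ext_iff, zpow_ofNat, sq_eq_sq_iff_eq_or_eq_neg, div_eq_mul_inv] using hμ
  have a3 := (card_nsmul_le_sum _ (fun r => fr (S.Y 0 0 d r)) 3 fun a ha => by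
    obtain ⟨ν, -, rfl⟩ := mem_image.1 ha
    exact a1.trans (fr_le (ρ := S.ρ) (S.A.h (R 8) ν) fun v hv => ⟨⟨⟨tr_h0 _ _ hv.1.1.1, tr_h0 _ _ hv.1.1.2⟩, by simpa using tr_h (R 8) ν 0 hv.1.2⟩,
      tr_h (R 8) ν 2 hv.2⟩)).trans (sum_le_sum_of_subset (subset_univ (univ.image fun μ : Kˣ => r / (μ : K) ^ (2 : ℤ))))
  rw [card_univ, Fintype.card_units] at a2
  rw [smul_eq_mul] at a3
  omega

theorem tl6 {d : K} (d0 : d ≠ 0) : fr (S.Y 0 0 d 0) = Fintype.card K * fr (S.Y 0 0 d 0 ⊓ S.Wt (R 6) 0) :=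
  tl (φ := fun t => 0 * t - d * t ^ 3) (fun y => (cube hp (-y / d)).imp fun t (e : _ = _) => by simp [e, mul_div_cancel₀, d0]) (S.stY6 0 d 0)
    (fun t _ v hv h => ⟨S.stY7 hp 0 d 0 t v hv, mv7 hv h t⟩) 0

theorem tl7 {r : K} (r0 : r ≠ 0) : fr (S.Y 0 0 0 r) = Fintype.card K * fr (S.Y 0 0 0 r ⊓ S.Wt (R 7) 0) :=
  tl (mul_left_surjective₀ (neg_ne_zero.2 r0)) (S.stY7 hp 0 0 r) (fun t _ v hv h => ⟨S.stY6 0 0 r t v hv, mv6 hv h t⟩) 0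

theorem lemC (h3 : 3 < Fintype.card K) (h1 : ∀ d ≠ 0, fr (S.Y 0 0 d 0) ≠ 0) (h2 : ∀ r ≠ 0, fr (S.Y 0 0 0 r) ≠ 0) : 2 * (Fintype.card K - 1) ≤ fr (S.Y 0 0 0 0) := by
  have a1 : ∀ c ≠ 0, 1 ≤ fr (S.Y 0 0 0 0 ⊓ S.Wt (R 6) c) := fun c c0 => by
    obtain ⟨e, e0, he⟩ := S.tr_n (R 7) (R 10) (R 6) 1
    have := h1 _ (mul_ne_zero c0 e0)
    rw [tl6 hp (mul_ne_zero c0 e0)] at this
    exact (Nat.pos_of_ne_zero (right_ne_zero_of_mul this)).trans_le (fr_le (ρ := S.ρ) (S.A.n (R 7) 1) fun v hv =>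
      ⟨⟨⟨⟨tr_n0 _ _ _ hv.1.2, tr_n0 _ _ _ hv.1.1.1.2⟩, tr_n0 _ _ _ hv.2⟩, tr_n0 _ _ _ hv.1.1.1.1⟩, by simpa [e0] using he _ v hv.1.1.2⟩)
  have a2 : ∀ c ≠ 0, 1 ≤ fr (S.Y 0 0 0 0 ⊓ S.Wt (R 7) c) := fun c c0 => by
    obtain ⟨e, e0, he⟩ := S.tr_n (R 6) (R 8) (R 7) 1
    have := h2 _ (mul_ne_zero c0 e0)
    rw [tl7 hp (mul_ne_zero c0 e0)] at this
    exact (Nat.pos_of_ne_zero (right_ne_zero_of_mul this)).trans_le (fr_le (ρ := S.ρ) (S.A.n (R 6) 1) fun v hv =>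
      ⟨⟨⟨⟨tr_n0 _ _ _ hv.1.1.1.1, tr_n0 _ _ _ hv.1.1.2⟩, tr_n0 _ _ _ hv.1.1.1.2⟩, tr_n0 _ _ _ hv.2⟩, by simpa [e0] using he _ v hv.1.2⟩)
  have a3 : ∀ c, S.Stb (S.Y 0 0 0 0 ⊓ S.Wt (R 7) c) (R 6) := fun c t v hv => ⟨S.stY6 0 0 0 t v hv.1, by simpa using mv6 hv.1 hv.2 t⟩
  have a4 : ∀ c, S.Stb (S.Y 0 0 0 0 ⊓ S.Wt (R 6) c) (R 7) := fun c t v hv => ⟨S.stY7 hp 0 0 0 t v hv.1, by simpa using mv7 hv.1 hv.2 t⟩
  rw [(S.stY7 hp 0 0 0).sum]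
  by_cases e : ∀ c ≠ 0, ∀ d ≠ 0, fr (S.Y 0 0 0 0 ⊓ S.Wt (R 7) c ⊓ S.Wt (R 6) d) = 0
  · have b1 := sum_ge (k := 1) (f := fun d => fr (S.Y 0 0 0 0 ⊓ S.Wt (R 7) 0 ⊓ S.Wt (R 6) d)) fun d d0 => by
      simpa [(a4 d).sum, inf_right_comm _ (S.Wt (R 6) d), sum_ne fun c c0 => e c c0 d d0] using a1 d d0
    have b2 := sum_ge a2
    rw [← (a3 0).sum] at b1
    omega
  push Not at e
  obtain ⟨c, c0, d, d0, e⟩ := e
  have b2 := sum_ge (k := Fintype.card K - 1) (f := fun c => fr (S.Y 0 0 0 0 ⊓ S.Wt (R 7) c)) fun c' c1 => by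
    have := sum_ge (k := 1) (f := fun d => fr (S.Y 0 0 0 0 ⊓ S.Wt (R 7) c' ⊓ S.Wt (R 6) d)) fun d' d1 => (Nat.pos_of_ne_zero e).trans_le
      (fr_le (ρ := S.ρ) (S.A.h (R 9) (.mk0 _ (div_ne_zero c0 c1)) * S.A.h (R 11) (.mk0 _ (div_ne_zero d0 d1))) fun v hv => by
        rw [map_mul, End.mul_apply]
        exact ⟨⟨⟨⟨⟨tr_h0 _ _ (tr_h0 _ _ hv.1.1.1.1.1), tr_h0 _ _ (tr_h0 _ _ hv.1.1.1.1.2)⟩, tr_h0 _ _ (tr_h0 _ _ hv.1.1.1.2)⟩, tr_h0 _ _ (tr_h0 _ _ hv.1.1.2)⟩,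
          by simpa [c0, div_div_cancel₀] using tr_h (R 9) (.mk0 _ (div_ne_zero c0 c1)) 1 (tr_h (R 11) _ 0 hv.1.2)⟩,
          by simpa [d0, div_div_cancel₀] using tr_h (R 9) _ 0 (tr_h (R 11) (.mk0 _ (div_ne_zero d0 d1)) 1 hv.2)⟩)
    rw [← (a3 c').sum] at this
    omega
  exact (Nat.mul_le_mul_right _ (by omega)).trans (le_add_self.trans b2)

theorem main9 (hne : S.Wt (R 11) 0 ≠ ⊤) (h9 : 9 ≤ Fintype.card K) : Fintype.card K ^ 4 + Fintype.card K ^ 2 + 1 ≤ finrank ℂ V ∨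
    Fintype.card K ^ 4 + Fintype.card K ^ 2 ≤ finrank ℂ V + 2 ∧ ∀ s ≠ 0, fr (S.Wt (R 9) s) = Fintype.card K ^ 3 := by
  have q0 : 0 < Fintype.card K := by omega
  choose F F1 F2 using fun s => tw S.sh6 S.sh5 (S.cm z0) (W := S.Wt (R 9) s) ((S.cm z0).stb s) ((S.cm z0).stb s) ((S.cm z0).stb s) ((S.cm z0).stb s)
  choose H H1 H2 using fun c => tw (S.sh7 hp) (S.sh hp (β := R 4) (-2) (n2 hp)) (S.cm hp) (W := S.Wt (R 11) c) ((S.cm z0).stb c) ((S.cm z0).stb c) ((S.cm z0).stb c)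
    ((S.cm hp).stb c)
  have s1 : ∀ s c d, S.Stb (S.Wt (R 9) s ⊓ S.Wt (R 11) c ⊓ S.Wt (R 10) d) (R 8) := fun s c d => (((S.cm hp).stb s).inf ((S.cm z0).stb c)).inf ((S.cm z0).stb d)
  have s2 : ∀ s c r, S.Stb (S.Wt (R 11) c ⊓ S.Wt (R 9) s ⊓ S.Wt (R 8) r) (R 10) := fun s c r => (((S.cm z0).stb c).inf ((S.cm z0).stb s)).inf ((S.cm z0).stb r)
  have e : ∀ s c d r, S.Wt (R 11) c ⊓ S.Wt (R 9) s ⊓ S.Wt (R 8) r ⊓ S.Wt (R 10) d = S.Y s c d r := fun _ _ _ _ => by rw [Y]; ac_rfl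
  have f1 : ∀ s c d, fr _ = ∑ r, fr (S.Y s c d r) := fun s c d => (s1 s c d).sum
  have g1 : ∀ s c r, fr _ = ∑ d, fr (S.Y s c d r) := fun s c r => (s2 s c r).sum.trans (sum_congr rfl fun d _ => by rw [e])
  have f2 : ∀ s ≠ 0, ∀ c d r, fr _ = Fintype.card K * fr (S.Y s c d r) := fun s s0 c d r => (S.sh7 hp).tl s0 (inf_le_left.trans inf_le_left)
    ((((S.cm hp).stb s).inf ((S.cm z0).stb c)).inf ((S.cm z0).stb d)) (s1 s c d) r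
  have g2 : ∀ c ≠ 0, ∀ s d r, fr _ = Fintype.card K * fr (S.Y s c d r) := fun c c0 s d r => e s c d r ▸ S.sh6.tl c0 (inf_le_left.trans inf_le_left)
    ((((S.cm z0).stb c).inf ((S.cm z0).stb s)).inf ((S.cm z0).stb r)) (s2 s c r) d
  have o := one_ne_zero (α := K)
  have a1 : ∀ s ≠ 0, F s = Fintype.card K * fr (S.Y 1 1 0 0) := fun s s0 => by
    rw [← F1 s 1 0 (.inl o), f2 s s0 1 0 0, ← g2 1 o, H1 1 s 0 (.inl s0), ← H1 1 1 0 (.inl o), g2 1 o 1 0]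
  have a2 : ∀ c ≠ 0, H c = Fintype.card K * fr (S.Y 1 1 0 0) := fun c c0 => by
    rw [← H1 c 1 0 (.inl o), g2 c c0 1 0 0, ← f2 1 o, F1 1 c 0 (.inl c0), a1 1 o]
  have a3 : F 0 = fr (S.Y 0 1 0 0) + (Fintype.card K - 1) * fr (S.Y 1 1 0 0) := by
    rw [← F1 0 1 0 (.inl o), f1, sum_ne fun r r0 => Nat.eq_of_mul_eq_mul_left q0 (by rw [← g2 1 o, H1 1 0 r (.inr r0), a2 1 o])]
  have a4 : ∀ s ≠ 0, H 0 = fr (S.Y s 0 0 0) + (Fintype.card K - 1) * fr (S.Y 1 1 0 0) := fun s s0 => by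
    rw [← H1 0 s 0 (.inl s0), g1, sum_ne fun d d0 => Nat.eq_of_mul_eq_mul_left q0 (by rw [← f2 s s0, F1 s 0 d (.inr d0), a1 s s0])]
  have a5 : ∀ s ≠ 0, fr (S.Wt (R 9) s) = Fintype.card K * fr (S.Y 1 0 0 0) + (Fintype.card K ^ 2 - 1) * (Fintype.card K * fr (S.Y 1 1 0 0)) := fun s s0 => by
    rw [F2, f2 s s0 0 0 0, a1 s s0, add_right_cancel ((a4 s s0).symm.trans (a4 1 o))]
  have a6 := Stb.sum (S := S) (W := ⊤) (r := R 9) fun _ _ _ => trivial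
  simp only [top_inf_eq] at a6
  rw [sum_ne a5, F2, f1, fr, finrank_top] at a6
  obtain ⟨n, hn⟩ := Nat.exists_eq_add_of_le' h9
  have e2 : (n + 9) ^ 2 - 1 = n ^ 2 + 18 * n + 80 := Nat.sub_eq_of_eq_add (by ring)
  have e1 : n + 9 - 1 = n + 8 := rfl
  generalize fr (S.Y 1 1 0 0) = k at *
  rcases (by omega : k = 0 ∨ k = 1 ∨ 2 ≤ k) with rfl | rfl | h
  · obtain ⟨d, hd⟩ := lemA (S := S) hp (by omega) fun c c0 => by
      have := H2 c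
      rw [a2 c c0, mul_zero, mul_zero, add_zero, inf_assoc] at this
      exact inf_eq_left.1 (Submodule.eq_of_le_of_finrank_eq inf_le_left this.symm)
    rw [F1 0 1 d (.inl o)] at hd
    refine (hne (Submodule.eq_top_of_finrank_eq ((Submodule.finrank_le _).antisymm ?_))).elim
    have b := ((S.cm z0 (r := R 9) (s := R 11)).stb 0).sum
    have b' := Stb.sum (S := S) (W := ⊤) (r := R 9) fun _ _ _ => trivial
    rw [← finrank_top, ← fr, ← fr, b, b']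
    refine sum_le_sum fun s _ => ?_
    rw [top_inf_eq, F2, show F s = 0 from if e : s = 0 then e ▸ hd else a1 s e, mul_zero, add_zero]
    exact fr_mono fun v hv => ⟨hv.1.2, hv.1.1⟩
  swap
  · rw [a6, a3, hn, e2, e1]
    obtain ⟨k, rfl⟩ := Nat.exists_eq_add_of_le' h
    exact .inl (by zify; rw [← sub_nonneg]; ring_nf; positivity)
  by_cases w : ∀ d ≠ 0, ∀ r ≠ 0, fr (S.Y 0 0 d r) = 0
  swap
  · push Not at w
    obtain ⟨d, d0, r, r0, w⟩ := w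
    have := lemB hp (by omega) d0 r0 w
    rw [← f1, F1 0 0 d (.inr d0), a3, hn, e1] at this
    obtain ⟨k, hk⟩ := Nat.exists_eq_add_of_le' (show 4 ≤ fr (S.Y 0 1 0 0) by omega)
    rw [a6, a3, hn, e2, e1, hk]
    exact .inl (by zify; rw [← sub_nonneg]; ring_nf; positivity)
  have b1 : ∀ d ≠ 0, fr (S.Y 0 0 d 0) = F 0 := fun d d0 => by simp [← F1 0 0 d (.inr d0), f1, sum_ne (w d d0)]
  have b2 : ∀ r ≠ 0, fr (S.Y 0 0 0 r) = H 0 := fun r r0 => by simp [← H1 0 0 r (.inr r0), g1, sum_ne fun d d0 => w d d0 r r0]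
  have b3 := lemC hp (by omega) (fun d d0 => by rw [b1 d d0]; omega) fun r r0 => by rw [b2 r r0, a4 1 o]; omega
  have b4 := Nat.le_of_dvd (by omega) (b1 1 o ▸ Dvd.intro _ (tl6 (S := S) hp o).symm)
  have b5 := Nat.le_of_dvd (by rw [a4 1 o]; omega) (b2 1 o ▸ Dvd.intro _ (tl7 (S := S) hp o).symm)
  rw [sum_ne b2] at a6
  have b6 := a4 1 o
  generalize fr (S.Y 1 0 0 0) = j at *
  obtain ⟨x, h3⟩ := Nat.exists_eq_add_of_le' b3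
  obtain ⟨y, h4⟩ := Nat.exists_eq_add_of_le' b4
  obtain ⟨z, h5⟩ := Nat.exists_eq_add_of_le' b5
  rw [hn, e2] at a5
  rw [a6, h3, h4, h5, hn, e2, e1]
  rcases (by omega : j = 1 ∨ 2 ≤ j) with rfl | h
  · exact .inr ⟨by zify; rw [← sub_nonneg]; ring_nf; positivity, fun s s0 => by rw [a5 s s0]; ring⟩
  · obtain ⟨j, rfl⟩ := Nat.exists_eq_add_of_le' h
    exact .inl (by zify; rw [← sub_nonneg]; ring_nf; positivity)

theorem dvd9 [Finite G] (hG : S.A.G = ⊤) (hχ : IsIrrCharacter G S.ρ.character) (h : ∀ s ≠ 0, fr (S.Wt (R 9) s) = Fintype.card K ^ 3) :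
    finrank ℂ V ∣ (Fintype.card K ^ 6 - 1) * Fintype.card K ^ 4 := by
  obtain ⟨H, h1, i, h2⟩ := exists_cent S.A (R 9)
  have a1 := poin_of_chk tab_G2 pc0_G2 (Nat.card K)
  rw [show JM chevG2 3 = Set.univ from JM_univ, show JM chevG2 2 = {j | wt (R 9) j = 0} from Set.ext (by simp only [JM, Set.mem_ofPred_eq]; decide +kernel)] at a1
  refine class_dvd hχ S.ρ.char_one (by rw [chi_eq _ h, ← pow_succ']) h1 (i := i) ?_
  rw [← Subgroup.card_top, ← hG, S.A.card_G, ← poin_univ, a1, mul_left_comm, ← card_Nr S.A hG (fun r hr => ?_) (by decide +kernel), mul_assoc, h2, ← mul_assoc,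
    Nat.card_eq_fintype_card]
  · congr 1
    have q1 : 1 ≤ Fintype.card K := Fintype.card_pos
    simp only [evalL, List.foldr]; zify [q1, Nat.one_le_pow 6 _ q1]; ring
  · rcases (by decide +kernel : ∀ r : Rt chevG2, 6 ≤ r.val → r = R 9 ∨ R 9 ≠ r ∧ R 9 ≠ ng r ∧ (cT r (R 9)).filter (¬(3 : ℤ) ∣ ·.2.1) = []) r hr with rfl | e
    exacts [cm_self _, S.cm hp e]

end St

theorem arith9 {q D : ℕ} (h9 : 9 ≤ q) (h : q ^ 4 + q ^ 2 ≤ D + 2) (hD : D ∣ (q ^ 6 - 1) * q ^ 4) : q ^ 4 + q ^ 2 + 1 ≤ D := by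
  have a1 : 81 ≤ q ^ 2 := by nlinarith
  rw [show q ^ 6 = (q ^ 2) ^ 3 by ring, show q ^ 4 = (q ^ 2) ^ 2 by ring] at *
  generalize q ^ 2 = Q at *
  rw [← Int.natCast_dvd_natCast] at hD
  zify [Nat.one_le_pow 3 Q (by omega)] at *
  generalize (Q : ℤ) = Q at *
  by_contra hlt
  rcases (by omega : (D : ℤ) = Q ^ 2 + Q - 2 ∨ (D : ℤ) = Q ^ 2 + Q - 1 ∨ (D : ℤ) = Q ^ 2 + Q) with e | e | e <;> rw [e] at hD
  · rw [show Q ^ 2 + Q - 2 = (Q - 1) * (Q + 2) by ring, show (Q ^ 3 - 1) * Q ^ 2 = (Q - 1) * ((Q + 2) * (Q ^ 3 - Q ^ 2 + 3 * Q - 6) + 12) by ring,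
      mul_dvd_mul_iff_left (by omega), dvd_add_right (dvd_mul_right _ _)] at hD
    have := Int.le_of_dvd (by omega) hD
    omega
  · rw [show (Q ^ 3 - 1) * Q ^ 2 = (Q ^ 2 + Q - 1) * (Q ^ 3 - Q ^ 2 + 2 * Q - 4) + (6 * Q - 4) by ring, dvd_add_right (dvd_mul_right _ _)] at hD
    nlinarith [Int.le_of_dvd (by omega) hD]
  · rw [show Q ^ 2 + Q = Q * (Q + 1) by ring, show (Q ^ 3 - 1) * Q ^ 2 = Q * ((Q + 1) * (Q ^ 3 - Q ^ 2 + Q - 2) + 2) by ring,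
      mul_dvd_mul_iff_left (by omega), dvd_add_right (dvd_mul_right _ _)] at hD
    have := Int.le_of_dvd (by omega) hD
    omega

end CA.DegG
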