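/-
The theorem of Burgoyne, Griess and Lyons for ²E₆(q) and ³D₄(q).
-/
import Cfsg.Agent.Lib.Lie.H12BG6
import Cfsg.Agent.Lib.Lie.ChevTwE6

set_option autoImplicit false

namespace CA.H12BG7

open Equiv Cfsg.Lie CA.Chev CA.Chev.Twist CA.H12BG1 CA.H12BG2 CA.H12BG3 CA.H12BG4 CA.H12BG5 CA.H12BG6

variable {K : Type*} [Field K] {α : K →+* K} (p : ℕ) [hp : Fact p.Prime] [CharP K p]

/-- orbits of nodes -/
def LE (i : Nd chevE6) : List (Nd chevE6) := if ιE6 i = i then [i] else [i, ιE6 i]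
/-- orbits of nodes -/
def LD (i : Nd chevD4) : List (Nd chevD4) := if ιD4a i = i then [i] else [i, ιD4a i, ιD4a (ιD4a i)]

theorem lin_E6 : Lin (tE6 α) := fun r i => by
  rw [rt_of_pre pre_E6, rt_of_pre pre_E6, TE6.ρ_val]
  exact (by decide +kernel : ∀ (r : Rt chevE6) (i : Nd chevE6), aE6 (φE6 r) (ιE6 i) = aE6 r i) r i

theorem lin_D4 : Lin (tD4 α) := fun r i => by
  rw [rt_of_pre pre_D4, rt_of_pre pre_D4, TD4.ρ_val]
  exact (by decide +kernel : ∀ (r : Rt chevD4) (i : Nd chevD4), aD4 (φD4a r) (ιD4a i) = aD4 r i) r i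

theorem tp_E6 : tp chevE6 = mkR _ 71 := by decide +kernel
theorem tp_D4 : tp chevD4 = mkR _ 23 := by decide +kernel

theorem facts_E6 (α : K →+* K) : let ρ := (tE6 α).ρ
    (ρ (mkR chevE6 69) = mkR chevE6 69 ∧ ηE6 (mkR chevE6 69) = 1) ∧ pr (mkR chevE6 69) (mkR chevE6 66) = 1 ∧ ρ (mkR chevE6 55) = mkR chevE6 67 ∧ ρ (mkR chevE6 67) = mkR chevE6 55 ∧
    ht (mkR chevE6 66) = ht (mkR chevE6 67) + 1 ∧ (∃ i, rt (mkR chevE6 66) i < rt (mkR chevE6 67) i) ∧ ht (mkR chevE6 57) = ht (sim (mkN chevE6 5)) + 1 ∧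
    (∃ i, rt (mkR chevE6 57) i < rt (sim (mkN chevE6 5)) i) ∧ wd ([mkN chevE6 2].flatMap LE) (mkR chevE6 57) = sim (mkN chevE6 0) ∧
    (∀ r ∈ Tg (mkR chevE6 57), wd ([mkN chevE6 2].flatMap LE) r ∈ Tg (sim (mkN chevE6 0))) ∧ (∀ r, ht (mkR chevE6 66) < ht r → ρ r = r ∧ ηE6 r = 1) ∧
    (∀ r, ht r = ht (mkR chevE6 66) → r = mkR chevE6 66 ∨ r = ρ (mkR chevE6 66) ∨ r = ρ (ρ (mkR chevE6 66))) ∧
    (∀ a, ιE6 (TE6.rep a) ≠ TE6.rep a → ∃ ws ∈ [[2, 0, 2, 3, 2, 1, 3, 2].map nE6, [0, 2, 3, 2, 0, 2, 1, 3].map nE6],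
      wd (ws.flatMap LE) (sim (TE6.rep a)) = mkR chevE6 66 ∧ wd (ws.flatMap LE) (sim (ιE6 (TE6.rep a))) ∈ Tg (mkR chevE6 66)) ∧
    (∀ a, ιE6 (TE6.rep a) ≠ TE6.rep a → ∃ ws ∈ [[2, 0, 2, 3, 2, 1, 3, 2, 0].map nE6, [0, 2, 3, 2, 0, 2, 1, 3, 2].map nE6],
      wd (ws.flatMap LE) (ng (sim (TE6.rep a))) = mkR chevE6 66 ∧ wd (ws.flatMap LE) (ng (sim (ιE6 (TE6.rep a)))) ∈ Tg (mkR chevE6 66)) ∧
    (∀ r, 2 ≤ ht r → ∃ i, ht (wd (LE i) r) < ht r) ∧ (ρ (mkR chevE6 71) = mkR chevE6 71 ∧ ηE6 (mkR chevE6 71) = 1) ∧ pr (mkR chevE6 71) (sim (mkN chevE6 1)) = 1 := by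
  simp only [Tg, Set.mem_ofPred_eq, ht_of_pre pre_E6, rt_of_pre pre_E6, Pos, ne_eq,
    Fin.ext_iff (n := ChevalleyDatum.nroots _), wd_val tab_E6, TE6.ρ_val, pr_eq_tab tab_E6]
  refine ⟨?_, ?_, ?_, ?_, ?_, ?_, ?_, ?_, ?_, ?_, ?_, ?_, ?_, ?_, ?_, ?_, ?_⟩ <;> decide +kernel

include p in
theorem main_E6 (hα : ∀ t, α (α t) = t) {φ : chevE6.group K →* chevE6.group K} {M : Subgroup (chevE6.group K)} [Finite M]
    (h : Ov (tE6 α) α φ (fun r => ηE6 r) M) : (∀ g ∈ M, φ g = g) ∨ (tE6 α).G1 ≤ M := by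
  obtain ⟨f1, f2, f3, f4, f5, f6, f7, f8, f9, f10, f11, f12, f13, f14, f15, f16, f17⟩ := facts_E6 α
  have hL : ∀ i, NodeD (tE6 α) φ i (LE i) := fun i => by
    unfold LE
    split_ifs with e
    exacts [h.node1 e, h.node2 (TE6.ty2 hα e)]
  have hγ : Pos (mkR chevE6 66) := by decide +kernel
  have c0 : CC (adjG chevE6 K) M (mkN _ 0) ≤ BB (adjG chevE6 K) M hγ := by
    rintro _ ⟨s, s1, s2, rfl⟩
    have p1 : Pos (mkR chevE6 55) := by decide +kernel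
    have p2 : Pos (mkR chevE6 67) := by decide +kernel
    have y1 : (adjG chevE6 K).x (mkR _ 55) 1 * (adjG chevE6 K).x (mkR _ 67) (-1) ∈ M :=
      h.ge _ ((tE6 α).mem_G1_of_U (mul_mem (Sys0.x_mem _ p1 _) (Sys0.x_mem _ p2 _)) (by
        rw [mem_F, map_mul, σ_x, σ_x, h.f, h.f, f3, f4, show ηE6 (mkR chevE6 55).val = -1 by decide +kernel,
          show ηE6 (mkR chevE6 67).val = -1 by decide +kernel]
        simpa using ((Sys0.orth_of_chk _ tab_E6 (p := 0) (by simp) (r := mkR _ 67) (s := mkR _ 55)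
          (by decide +kernel)).xx _ _).eq)) (by simp [h.hφ])
    have := (ld_one (γ := mkR _ 66) (i := mkN _ 0) (C := -1) p1 (cT_of_tab tab_E6 (by decide +kernel)) s2 1).cm_mul hγ
      (ld_zero hγ p2 f5 f6 s2 (-1)) (Sys0.x_mem _ p1 _)
    exact neg_mem_iff.1 ⟨_, cm_mem s1 y1, this.1, by simpa using this.2⟩
  have c2 : CC (adjG chevE6 K) M (mkN _ 2) ≤ BB (adjG chevE6 K) M hγ := by
    rintro _ ⟨s, s1, s2, rfl⟩
    have p1 : Pos (mkR chevE6 57) := by decide +kernel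
    have y1 : (adjG chevE6 K).x (sim (mkN _ 0)) 1 * (adjG chevE6 K).x (sim (mkN _ 5)) (α 1) ∈ M := h.ge _
      ((tE6 α).X1_Op_le _ (((TE6.ty2 hα (i := mkN _ 0) (by decide +kernel)).mem_Op h.hc).2 ⟨1, rfl⟩)) (by simp [h.hφ])
    have := (ld_one (γ := mkR _ 57) (i := mkN _ 2) (C := 1) (pos_sim (mkN _ 0)) (cT_of_tab tab_E6 (by decide +kernel))
      s2 1).cm_mul p1 (ld_zero p1 (pos_sim (mkN _ 5)) f7 f8 s2 (α 1)) (Sys0.x_mem _ (pos_sim _) _)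
    exact c0 (BB_sim.1 (BB_word p1 (pos_sim _) (h.nw_mem hL [mkN _ 2]) f9 f10
      ⟨_, cm_mem s1 y1, this.1, by simpa using this.2⟩))
  by_cases hn : ∃ t ∈ BB (adjG chevE6 K) M hγ, α t ≠ t
  · obtain ⟨t, ht, hn⟩ := hn
    have top := top2 (h.BB_mul hγ f1 f2) (c0 (h.one_mem_CC hL _)) ht hn hα
    refine Or.inr (h.G1_le (ok_of_node (TE6.node hα)) TE6.rep_spec fun a ha => ⟨fun g hg => ?_, fun g hg => ?_⟩)
    · obtain ⟨u, rfl⟩ := ((TE6.ty2 hα ha).mem_Op h.hc).1 hg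
      obtain ⟨ws, -, e1, e2⟩ := f13 a ha
      exact h.mem_of_word hγ f11 f12 (h.nw_mem hL ws) e1 (S := {sim (ιE6 (TE6.rep a))}) (fun _ e => e ▸ e2) (top u)
        (Sys0.x_mem _ (Set.mem_singleton _) _) hg.2
    · obtain ⟨u, rfl⟩ := ((TE6.ty2 hα ha).mem_On h.hc).1 hg
      obtain ⟨ws, -, e1, e2⟩ := f14 a ha
      exact h.mem_of_word hγ f11 f12 (h.nw_mem hL ws) e1 (S := {ng (sim (ιE6 (TE6.rep a)))}) (fun _ e => e ▸ e2) (top u)
        (Sys0.x_mem _ (Set.mem_singleton _) _) hg.2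
  push Not at hn
  refine Or.inl (h.fix_of hL p adjG_θ_injective (fun i => wJ_eq_wd tab_E6 (hL i).mem (by revert i; decide +kernel))
    f15 (tp_E6 ▸ f16) (m := mkN _ 1) rfl (tp_E6 ▸ f17) (i0 := mkN _ 0) (show ιE6 _ ≠ _ by decide +kernel) ?_)
  rintro i _ ⟨s, s1, s2, rfl⟩
  have e := fun i => h.co_ι i s2 (h.fix s1)
  rcases (by decide +kernel : ∀ i : Nd chevE6, ιE6 i = i ∨ i = mkN _ 0 ∨ i = mkN _ 2 ∨ i = ιE6 (mkN _ 0) ∨
    i = ιE6 (mkN _ 2)) i with e1 | rfl | rfl | rfl | rfl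
  · exact (e i).symm.trans (congrArg (fun j => cf _ (sim j) s) e1)
  · exact hn _ (c0 ⟨s, s1, s2, rfl⟩)
  · exact hn _ (c2 ⟨s, s1, s2, rfl⟩)
  · exact (congrArg α (e _)).trans ((congrArg α (hn _ (c0 ⟨s, s1, s2, rfl⟩))).trans (e _).symm)
  · exact (congrArg α (e _)).trans ((congrArg α (hn _ (c2 ⟨s, s1, s2, rfl⟩))).trans (e _).symm)

theorem facts_D4 (α : K →+* K) : let ρ := (tD4 α).ρ
    (ρ (mkR chevD4 22) = mkR chevD4 22 ∧ ηD4a (mkR chevD4 22) = 1) ∧ pr (mkR chevD4 22) (mkR chevD4 17) = 1 ∧ (ρ (mkR chevD4 19) = mkR chevD4 16 ∧ ρ (mkR chevD4 16) = mkR chevD4 15 ∧ ρ (mkR chevD4 15) = mkR chevD4 19) ∧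
    ht (mkR chevD4 17) = ht (mkR chevD4 19) + 1 ∧ (∃ i, rt (mkR chevD4 17) i < rt (mkR chevD4 19) i) ∧ (∀ r, ht (mkR chevD4 17) < ht r → ρ r = r ∧ ηD4a r = 1) ∧
    (∀ r, ht r = ht (mkR chevD4 17) → r = mkR chevD4 17 ∨ r = ρ (mkR chevD4 17) ∨ r = ρ (ρ (mkR chevD4 17))) ∧
    (wd ([mkN chevD4 0, mkN chevD4 1].flatMap LD) (sim (mkN chevD4 0)) = mkR chevD4 17 ∧ ∀ r ∈ ({sim (mkN chevD4 2), sim (mkN chevD4 3)} : Set _),
      wd ([mkN chevD4 0, mkN chevD4 1].flatMap LD) r ∈ Tg (mkR chevD4 17)) ∧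
    (wd ([mkN chevD4 0, mkN chevD4 1, mkN chevD4 0].flatMap LD) (ng (sim (mkN chevD4 0))) = mkR chevD4 17 ∧ ∀ r ∈ ({ng (sim (mkN chevD4 2)), ng (sim (mkN chevD4 3))} : Set _),
      wd ([mkN chevD4 0, mkN chevD4 1, mkN chevD4 0].flatMap LD) r ∈ Tg (mkR chevD4 17)) ∧
    (wd ([mkN chevD4 0].flatMap LD) (mkR chevD4 19) = mkR chevD4 17 ∧ ∀ r ∈ ({mkR chevD4 16, mkR chevD4 15} : Set _), wd ([mkN chevD4 0].flatMap LD) r ∈ Tg (mkR chevD4 17)) ∧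
    (∀ r, 2 ≤ ht r → ∃ i, ht (wd (LD i) r) < ht r) ∧ (ρ (mkR chevD4 23) = mkR chevD4 23 ∧ ηD4a (mkR chevD4 23) = 1) ∧ pr (mkR chevD4 23) (sim (mkN chevD4 1)) = 1 ∧
    (ρ (mkR chevD4 14) = mkR chevD4 14 ∧ ηD4a (mkR chevD4 14) = 1) ∧ mkR chevD4 20 ∈ Tg (mkR chevD4 17) ∧ mkR chevD4 21 ∈ Tg (mkR chevD4 17) ∧ mkR chevD4 22 ∈ Tg (mkR chevD4 17) ∧ mkR chevD4 23 ∈ Tg (mkR chevD4 17) := by
  simp only [Tg, Set.mem_ofPred_eq, ht_of_pre pre_D4, rt_of_pre pre_D4, Pos, ne_eq, Set.mem_insert_iff,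
    Set.mem_singleton_iff,
    Fin.ext_iff (n := ChevalleyDatum.nroots _), wd_val tab_D4, TD4.ρ_val, pr_eq_tab tab_D4]
  refine ⟨?_, ?_, ?_, ?_, ?_, ?_, ?_, ?_, ?_, ?_, ?_, ?_, ?_, ?_, ?_⟩ <;> decide +kernel

include p in
theorem main_D4 (hα : ∀ t, α (α (α t)) = t) {φ : chevD4.group K →* chevD4.group K} {M : Subgroup (chevD4.group K)}
    [Finite M] (h : Ov (tD4 α) α φ (fun r => ηD4a r) M) : (∀ g ∈ M, φ g = g) ∨ (tD4 α).G1 ≤ M := by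
  obtain ⟨f1, f2, ⟨f3, f4, f5⟩, f6, f7, f8, f9, f10, f11, f12, f13, f14, f15, f16, f17, f18, f19, f20⟩ := facts_D4 α
  have hL : ∀ i, NodeD (tD4 α) φ i (LD i) := fun i => by
    unfold LD
    split_ifs with e
    exacts [h.node1 e, h.node3 (TD4.ty3 hα e)]
  have hγ : Pos (mkR chevD4 17) := by decide +kernel
  have hB := h.BB_mul hγ f1 f2
  have T3 := TD4.ty3' hα
  have m2 : ∀ {r s : Rt chevD4} (t u : K), (adjG chevD4 K).x r t * (adjG chevD4 K).x s u ∈ (adjG chevD4 K).X {r, s} :=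
    fun t u => mul_mem (Sys0.x_mem _ (by simp) _) (Sys0.x_mem _ (by simp) _)
  have o1 : ∀ t, (adjG chevD4 K).x (sim (nD4 0)) t * ((adjG chevD4 K).x (sim (nD4 2)) (α t) *
      (adjG chevD4 K).x (sim (nD4 3)) (α (α t))) ∈ (tD4 α).X1 ((tD4 α).Op (nD4 0)) := fun t =>
    (T3.mem_Op h.hc).2 ⟨t, (mul_assoc _ _ _).symm⟩
  have b1 : (1 : K) ∈ BB (adjG chevD4 K) M hγ := BB_of_word hγ (h.nw_mem hL _) f10.1 f10.2 (m2 _ _)
    (h.ge _ ((tD4 α).X1_Op_le _ (o1 1)) (by simp [h.hφ]))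
  have p1 : Pos (mkR chevD4 19) := by decide +kernel
  have p2 : Pos (mkR chevD4 16) := by decide +kernel
  have p3 : Pos (mkR chevD4 15) := by decide +kernel
  have o2 : ∀ u, (adjG chevD4 K).x (mkR _ 19) u * ((adjG chevD4 K).x (mkR _ 16) (-α u) *
      (adjG chevD4 K).x (mkR _ 15) (-α (α u))) ∈ (tD4 α).F := fun u => by
    rw [mem_F, map_mul, map_mul, σ_x, σ_x, σ_x, h.f, h.f, h.f, f3, f4, f5,
      show ηD4a (mkR chevD4 19).val = -1 by decide +kernel, show ηD4a (mkR chevD4 16).val = 1 by decide +kernel,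
      show ηD4a (mkR chevD4 15).val = -1 by decide +kernel, ← mul_assoc]
    simpa [hα] using (((Sys0.orth_of_chk _ tab_D4 (p := 0) (by simp) (r := mkR _ 16) (s := mkR _ 19)
      (by decide +kernel)).xx _ _).mul_left ((Sys0.orth_of_chk _ tab_D4 (p := 0) (by simp) (r := mkR _ 15) (s := mkR _ 19)
      (by decide +kernel)).xx _ _)).eq
  have c0 : CC (adjG chevD4 K) M (nD4 0) ≤ BB (adjG chevD4 K) M hγ := by
    rintro _ ⟨s, s1, s2, rfl⟩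
    have y1 := h.ge _ ((tD4 α).mem_G1_of_U (mul_mem (Sys0.x_mem _ p1 _) (mul_mem (Sys0.x_mem _ p2 _) (Sys0.x_mem _ p3 _)))
      (o2 1)) (by simp [h.hφ])
    have := (ld_zero hγ p1 f6 f7 s2 1).cm_mul hγ ((ld_one (γ := mkR _ 17) (i := nD4 3) (C := 1) p2
      (cT_of_tab tab_D4 (by decide +kernel)) s2 (-α 1)).cm_mul hγ (ld_one (γ := mkR _ 17) (i := nD4 2) (C := 1) p3
      (cT_of_tab tab_D4 (by decide +kernel)) s2 (-α (α 1))) (Sys0.x_mem _ p2 _)) (Sys0.x_mem _ p1 _)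
    have e2 : cf _ (sim (nD4 2)) s = _ := h.co_ι (nD4 0) s2 (h.fix s1)
    have e3 : cf _ (sim (nD4 3)) s = _ := h.co_ι (nD4 2) s2 (h.fix s1)
    rw [e3, e2] at this
    generalize cf (adjG chevD4 K) (sim (nD4 0)) s = a at this ⊢
    convert add_mem (hB (a + α a + α (α a)) (by simp only [map_add, hα]; ring) 1 b1) ⟨_, cm_mem s1 y1, this.1, this.2⟩ using 1
    simp
  by_cases hn : ∃ t ∈ BB (adjG chevD4 K) M hγ, α t ≠ t
  · obtain ⟨t, ht, hn⟩ := hn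
    have k1 := h.mem_of_word hγ f8 f9 (h.nw_mem hL _) f10.1 f10.2 ht (m2 _ _) (o1 t).2
    have k2 := h.mem_of_word hγ f8 f9 (h.nw_mem hL _) f12.1 f12.2 (neg_mem ht) (m2 _ _) (o2 (-t))
    have k3 := wN_eq_of_colChk (adjG chevD4 K).toSys0 (p := 0) (by simp) [t, α t, α (α t)] tab_D4 (κ := κ0 tabD4) (n := 30)
      (w := [(18, .v 0), (13, .v 1), (12, .v 2), (14, .c 1)])
      (w' := [(19, -.v 0), (16, .v 1), (15, .v 2), (17, .v 1 * .v 2), (20, -(.v 0 * .v 2)), (21, -(.v 0 * .v 1)),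
        (22, -(.v 0 * .v 1 * .v 2)), (23, .c (-2) * .v 0 * .v 1 * .v 2), (14, .c 1), (18, .v 0), (13, .v 1), (12, .v 2)])
      (by decide +kernel)
    have x1 := fun k (h : k < 24) => xN_eq (adjG chevD4 K).x (k := k) (mkR chevD4 k h) rfl
    simp only [List.map_cons, List.map_nil, Ex.ev, List.getD_cons_zero, List.getD_cons_succ, wN_cons, wN_nil, mul_one,
      xN_eq _ (k := 18) (sim (mkN chevD4 0)) (by decide +kernel), xN_eq _ (k := 13) (sim (mkN chevD4 2)) (by decide +kernel),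
      xN_eq _ (k := 12) (sim (mkN chevD4 3)) (by decide +kernel), x1 14 (by decide), x1 15 (by decide), x1 16 (by decide),
      x1 17 (by decide), x1 19 (by decide), x1 20 (by decide), x1 21 (by decide), x1 22 (by decide), x1 23 (by decide),
      Int.cast_one] at k3
    have k4 := mul_mem (inv_mem k2) (cm_mem k1 (h.x_mem f16 (map_one α)))
    have k5 := cf_mul_T hγ (α t * α (α t)) (mul_mem (Sys0.x_mem _ f17 (-(t * α (α t)))) (mul_mem (Sys0.x_mem _ f18 (-(t * α t)))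
      (mul_mem (Sys0.x_mem _ f19 (-(t * α t * α (α t)))) (Sys0.x_mem (adjG chevD4 K).toSys0 f20
        (((-2 : ℤ) : K) * t * α t * α (α t))))))
    have top := top3 hB b1 ht hn hα ⟨_, by
      convert k4 using 1
      rw [cm, mul_assoc (Sys0.x _ _ t), mul_assoc (Sys0.x _ _ (α t)), k3, map_neg, map_neg, neg_neg, neg_neg]; group, k5⟩
    refine Or.inr (h.G1_le (ok_of_node (TD4.node hα)) TD4.rep_spec fun a ha => ?_)
    rw [(by decide +kernel : ∀ a, ιD4a (TD4.rep a) ≠ TD4.rep a → TD4.rep a = nD4 0) a ha]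
    refine ⟨fun g hg => ?_, fun g hg => ?_⟩
    · obtain ⟨u, rfl⟩ := (T3.mem_Op h.hc).1 hg
      rw [mul_assoc] at hg ⊢
      exact h.mem_of_word hγ f8 f9 (h.nw_mem hL _) f10.1 f10.2 (top u) (m2 _ _) hg.2
    · obtain ⟨u, rfl⟩ := (T3.mem_On h.hc).1 hg
      rw [mul_assoc] at hg ⊢
      exact h.mem_of_word hγ f8 f9 (h.nw_mem hL _) f11.1 f11.2 (top u) (m2 _ _) hg.2
  push Not at hn
  refine Or.inl (h.fix_of hL p adjG_θ_injective (fun i => wJ_eq_wd tab_D4 (hL i).mem (by revert i; decide +kernel))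
    f13 (tp_D4 ▸ f14) (m := mkN _ 1) rfl (tp_D4 ▸ f15) (i0 := mkN _ 0) (show ιD4a _ ≠ _ by decide +kernel) ?_)
  rintro i _ ⟨s, s1, s2, rfl⟩
  have e := fun i => h.co_ι i s2 (h.fix s1)
  have e0 := hn _ (c0 ⟨s, s1, s2, rfl⟩)
  have e2 := (congrArg α (e _)).trans ((congrArg α e0).trans (e _).symm)
  rcases (by decide +kernel : ∀ i : Nd chevD4, ιD4a i = i ∨ i = nD4 0 ∨ i = ιD4a (nD4 0) ∨ i = ιD4a (ιD4a (nD4 0))) i
    with e1 | rfl | rfl | rfl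
  · exact (e i).symm.trans (congrArg (fun j => cf _ (sim j) s) e1)
  exacts [e0, e2, (congrArg α (e _)).trans ((congrArg α e2).trans (e _).symm)]

end CA.H12BG7
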