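/-
Centralisers of involutions of Chevalley groups in characteristic two generated by root subgroups.
-/
import Cfsg.Agent.Lib.Lie.H12Inv3

set_option autoImplicit false

namespace CA.H12Cent

open Matrix Equiv Cfsg.Lie Cfsg.Lie.ChevalleyDatum CA.Chev CA.H12Inv CA.H12Inv2 CA.H12Sup CA.H12Inv3

variable {D : ChevalleyDatum} [Good D] {K : Type*} [Field K] [CharP K 2] {Γ : Type*} [Group Γ]

/-- the generating roots `G` and the excluded positive roots `Ex` -/
noncomputable def genChk (T : Tab) (Ly G Ex : List ℕ) (μ : List (ℕ × ℤ)) : Bool :=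
  Ly.all (fun r => decide (r < T.n)) && G.all (fun r => Ly.all fun s => r == s || cmm T 2 r s) &&
    allLt T.n (fun r => decide (r < T.n / 2) || G.elem r ||
      (Ex.elem r && !(allLt T.l fun i => isZ (vW T μ i) || isZ (T.co r i)))) &&
    allLt T.l (fun i => !(isZ (vW T μ i)) || G.elem (T.neg (T.simple i))) &&
    decide Ex.Nodup && Ex.all fun r => decide (r < T.n) && decide (T.n / 2 ≤ r)

theorem cent_eq (A : Sys D K Γ) (hθ : Function.Injective A.θ) {T : Tab} (hT : tab D = T)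
    {Ly Y F Z G Ex : List ℕ} {B : ℤ} {μ : List (ℕ × ℤ)} {E : ℕ → List (ℕ × ℤ)}
    (h : (supChk T Ly Y F B && centChk T Ly (Ly ++ Y) Z μ E && genChk T Ly G Ex μ) = true)
    (hx : ∀ t : ℕ → K, wN A.x (Ex.map fun k => (k, t k)) * ev A Ly = ev A Ly * wN A.x (Ex.map fun k => (k, t k)) →
      ∀ k ∈ Ex, t k = 0) : A.G ⊓ Subgroup.centralizer {ev A Ly} = A.X (RL D G) := by
  simp only [genChk, Bool.and_eq_true, List.all_eq_true, decide_eq_true_eq, allLt_iff, Bool.or_eq_true,
    List.elem_eq_mem, beq_iff_eq, Bool.not_eq_true', ← Bool.not_eq_true, isZ_iff] at h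
  obtain ⟨⟨h1, h2⟩, ⟨⟨⟨⟨g1, g2⟩, g3⟩, g4⟩, g5⟩, g6⟩ := h
  have hC : A.X (RL D G) ≤ Subgroup.centralizer {ev A Ly} := A.X_le.2 fun r hr t => by
    subst hT
    lift Ly to List (Rt D) using g1
    rw [Subgroup.mem_centralizer_singleton_iff, ev_eq_P]
    refine (P_commute A fun s hs u => ?_).eq
    rcases g2 r hr s (List.mem_map_of_mem hs) with e | e
    · rw [Fin.ext e]; exact A.x_comm _ _ _
    · simpa only [xN_val] using commute_of_cmm A.add A.comm two_eq e t u
  refine le_antisymm (cent_le A hθ hT h1 h2 hC (fun r hr hr' t => A.x_mem ?_ t) (fun i hi t => A.x_mem ?_ t)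
    fun u hu e => ?_) (le_inf (A.X_le_G _) hC)
  · have hr'' := (mem_Phi_tab hT).1 hr'
    subst hT
    refine ((g3 r r.2).resolve_right fun h => h.2 fun i hi => ?_).resolve_left (not_lt.2 hr)
    exact (em _).imp_right (hr'' ⟨i, hi⟩)
  · subst hT
    exact (g4 i i.2).resolve_left (not_not.2 hi)
  subst hT
  lift Ex to List (Rt D) using fun r hr => (g6 r hr).1
  obtain ⟨M, m1, m2⟩ := Sys0.exists_list {r : Rt D | Pos r ∧ r ∉ Ex}
  obtain ⟨t, rfl⟩ := A.exists_P nil_pos (L := Ex ++ M) (List.nodup_append.2 ⟨g5.of_map _, m1, fun a ha b hb e =>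
    ((m2 b).1 hb).2 (e ▸ ha)⟩) (fun r => by
      rw [List.mem_append, m2]
      exact ⟨fun h => h.elim (fun h => (g6 r (List.mem_map_of_mem h)).2) fun h => h.1,
        fun h => (em _).imp_right fun h' => ⟨h, h'⟩⟩) hu
  have hM : A.P M t ∈ A.X (RL D G) := A.P_mem fun r hr hr' => (hr' (((g3 r r.2).resolve_right fun h =>
    ((m2 r).1 hr).2 ((List.mem_map_of_injective Fin.val_injective).1 h.1)).resolve_left
      (not_lt.2 ((m2 r).1 hr).1))).elim
  have e1 : A.P Ex t = wN A.x ((Ex.map Fin.val).map fun k => (k, if h : k < D.nroots then t ⟨k, h⟩ else 0)) := by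
    simp [← Sys0.wN_eq_P, Function.comp_def]
  have := hx _ (e1 ▸ Subgroup.mem_centralizer_singleton_iff.1 (((Subgroup.centralizer _).mul_mem_cancel_right
    (hC hM)).1 (A.P_append Ex M t ▸ Subgroup.mem_centralizer_singleton_iff.2 e)))
  rw [A.P_append]
  exact mul_mem (A.P_mem fun r hr _ => by simpa using this r (List.mem_map_of_mem hr)) hM

theorem eq_one_of_comm {G : Type*} [Group G] {a y z : G} (h : a * y = y * a) (e : y * a = a * y * z) : z = 1 := by
  rwa [← h, left_eq_mul] at e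

theorem nil_of_sup (A : Sys D K Γ) {T : Tab} (hT : tab D = T) {Ly Y F : List ℕ} {B : ℤ}
    (h : supChk T Ly Y F B = true) : Nil (RL D Y) := by
  obtain ⟨Ly, Y, rfl, rfl, h0⟩ := sup_of_chk A hT h
  exact h0.nil fun s hs => List.mem_append_right _ ((List.mem_map_of_injective Fin.val_injective).1 hs)

theorem cent_v (A : Sys chevF4 K Γ) (hθ : Function.Injective A.θ) : A.G ⊓ Subgroup.centralizer {ev A [39, 45]} =
    A.X (RL chevF4 ([33, 14, 24, 23] ++ (List.range' 24 24).filter (· ∉ [27, 25, 34, 26]))) := by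
  refine cent_eq A hθ tab_F4 (Y := [40, 44, 46, 47]) (F := [39, 45]) (B := 3) (Z := [0]) (μ := [(39, 3), (45, 2)])
    (E := fun i => if i = 1 then [(39, 1), (45, 1)] else [(39, 2), (45, 1)]) (Ex := [34, 27, 26, 25])
    (by decide +kernel) fun t e => ?_
  have := wN_eq_of_colChk A.toSys0 (two_eq (K := K)) [t 34, t 27, t 26, t 25] tab_F4 (κ := κ0 tabF4) (n := 99)
    (w := [(39, .c 1), (45, .c 1)] ++ [(34, .v 0), (27, .v 1), (26, .v 2), (25, .v 3)])
    (w' := [(34, .v 0), (27, .v 1), (26, .v 2), (25, .v 3)] ++ [(39, .c 1), (45, .c 1)] ++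
      [(40, .v 1), (44, .v 0), (46, .v 3), (47, .v 2)]) (by decide +kernel)
  simp only [List.map_append, wN_append, List.map_cons, List.map_nil, Ex.ev, Int.cast_one, List.getD_cons_zero,
    List.getD_cons_succ] at this
  have h0 := A.wN_inj (nil_of_sup A tab_F4 (Ly := [39, 45]) (Y := [40, 44, 46, 47]) (F := [39, 45]) (B := 3)
    (by decide +kernel)) (by decide) (w' := [(40, 0), (44, 0), (46, 0), (47, 0)]) rfl rfl
    ((eq_one_of_comm e this).trans (by simp [wN_cons, xN_zero]))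
  simp at h0
  simp [h0]

theorem cent_t (A : Sys chevG2 K Γ) (hθ : Function.Injective A.θ) : A.G ⊓ Subgroup.centralizer {ev A [9]} =
    A.X (RL chevG2 [9, 10, 11, 6, 5]) := by
  refine cent_eq A hθ tab_G2 (Y := [10, 11]) (F := [9]) (B := 3) (Z := [0]) (μ := [(9, 1)])
    (E := fun _ => [(9, 1)]) (Ex := [7, 8]) (by decide +kernel) fun t e => ?_
  have := wN_eq_of_colChk A.toSys0 (two_eq (K := K)) [t 7, t 8] tab_G2 (κ := κ0 tabG2) (n := 99)
    (w := [(9, .c 1)] ++ [(7, .v 0), (8, .v 1)]) (w' := [(7, .v 0), (8, .v 1)] ++ [(9, .c 1)] ++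
      [(10, .v 0), (11, .v 1)]) (by decide +kernel)
  simp only [List.map_append, wN_append, List.map_cons, List.map_nil, Ex.ev, Int.cast_one, List.getD_cons_zero,
    List.getD_cons_succ] at this
  have h0 := A.wN_inj (nil_of_sup A tab_G2 (Ly := [9]) (Y := [10, 11]) (F := [9]) (B := 3)
    (by decide +kernel)) (by decide) (w' := [(10, 0), (11, 0)]) rfl rfl
    ((eq_one_of_comm e this).trans (by simp [wN_cons, xN_zero]))
  simp at h0
  simp [h0]

theorem cent_U (A : Sys D K Γ) (hθ : Function.Injective A.θ) {T : Tab} (hT : tab D = T)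
    {Ly F G : List ℕ} {B : ℤ} {μ : List (ℕ × ℤ)} {E : ℕ → List (ℕ × ℤ)}
    (h : (supChk T Ly [] F B && centChk T Ly (Ly ++ []) [] μ E &&
      genChk T Ly (List.range' (T.n / 2) (T.n / 2) ++ G) [] μ) = true) (h2 : T.n / 2 + T.n / 2 = T.n) :
    A.G ⊓ Subgroup.centralizer {ev A Ly} = A.U ⊔ A.X (RL D G) := by
  rw [cent_eq A hθ hT h (by simp), Sys0.U, ← A.X_union]
  congr 1
  ext r
  subst hT
  have := r.2
  simp only [RL, List.mem_append, List.mem_range'_1, h2, Set.mem_union, Set.mem_ofPred_eq]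
  exact or_congr_left (and_iff_left r.2)

omit [CharP K 2] in
theorem eq_ev {g : GL D.Idx K} (L : List ℕ) (h : (g : Matrix D.Idx D.Idx K) = (L.map fun r => D.x K r 1).prod) :
    g = ev (adj D K) L := Units.ext (h.trans (ev_val L).symm)

omit [CharP K 2] in
theorem root_eq {r : ℕ} (h : r < D.nroots) : D.rootSubgroup K r = (adj D K).X (RL D [r]) := by
  rw [show D.rootSubgroup K r = _ from rootSubgroup_eq ⟨r, h⟩]
  congr 1
  ext s
  simp [RL, Fin.ext_iff]

omit [CharP K 2] in
theorem X_app (A : Sys D K Γ) (L M : List ℕ) : A.X (RL D L) ⊔ A.X (RL D M) = A.X (RL D (L ++ M)) := by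
  rw [← A.X_union]
  congr 1
  ext s
  simp [RL]

end CA.H12Cent
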