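/-
The classes of involutions of the Chevalley group of type G2 in characteristic two.
-/
import Cfsg.Agent.Lib.Lie.H12Inv3

set_option autoImplicit false

namespace CA.H12InvG2

open Cfsg.Lie CA.Chev CA.H12Inv2 CA.H12Sup CA.H12Inv3

noncomputable def rfG2 (i : ℕ) : ℕ → ℕ := nb (getN [0xb060809040a010702030500, 0xa0b09070805060304020001] i)
noncomputable def w0G2 : ℕ → ℕ := nb 0x102030405060708090a0b
def l0G2 : List ℕ := [0, 1, 0, 1, 0, 1]
def rsG2 : List (List ℕ × List ℕ × List ℕ × ℤ) := [([11], [], [11], 2),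
  ([9], [10, 11], [9], 3)]
def clG2 : List (List ℕ × List St × List ℕ) := [([], [], []),
  ([5], [.N [1, 0]], [11]),
  ([4], [.N [0, 1]], [9]),
  ([0, 4], [.U [8] [7, 10], .N [0, 1], .U [8] [9]], [9])]
def datG2 : List (List ℕ × List ℕ × ℕ) := [([], [], 3),
  ([0], [0, 1, 0], 1),
  ([1], [1, 0], 2),
  ([0, 1, 0, 1, 0, 1], [0, 1, 0], 0)]

def zG2 (L : List ℕ) : List ℕ := if L = [9] then [0] else []

theorem h_rf : rfChk tabG2 rfG2 = true := by decide +kernel
theorem h_w0 : w0Chk tabG2 rfG2 l0G2 w0G2 = true := by decide +kernel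
theorem h_rs : repChk tabG2 id rsG2 zG2 = true := by decide +kernel
theorem h_cl : clG2.all (clsChk tabG2 rfG2 id (O1 tabG2.l) (rsG2.map Prod.fst)) = true := by decide +kernel
theorem h_dat : allI (jChk tabG2 rfG2 (O1 tabG2.l) id (fun j i => j == i) w0G2 clG2.length
    fun c => bW tabG2 ((clG2.map Prod.fst).getD c [])) datG2 0 = true := by decide +kernel

theorem reps {K Γ : Type*} [Field K] [Finite K] [CharP K 2] [Group Γ] (A : Sys chevG2 K Γ)
    (hθ : Function.Injective A.θ) : Reps (idTw A) (rsG2.map Prod.fst) :=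
  have C := ctx_id A hθ tab_G2 h_rf
  reps_of_chk C h_rs (fun _ => rfl) (hob_id A) h_w0 (cls_of_all C h_cl) (by decide +kernel) h_dat

end CA.H12InvG2
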