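/-
The Tits group has no doubly transitive action.
-/
import Cfsg.Agent.Lib.Lie.H12Tits

set_option autoImplicit false

namespace CA.H12Tits2

open MulAction
open scoped Pointwise

section
variable {G Ω : Type*} [Group G] [MulAction G Ω]

/-- the number of common fixed points -/
noncomputable def cf (Ω : Type*) [MulAction G Ω] (y g : G) : ℕ := (fixedBy Ω y ∩ fixedBy Ω g).ncard

theorem cf_conj {y q : G} (h : Commute y q) (g : G) : cf Ω y (q * g * q⁻¹) = cf Ω y g := by
  rw [cf, cf, ← Set.ncard_smul_set q (fixedBy Ω y ∩ fixedBy Ω g), Set.smul_set_inter, smul_fixedBy, smul_fixedBy,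
    h.symm.mul_inv_cancel]

variable [Finite Ω]

theorem burn {A : Type*} [Group A] [Fintype A] (φ : A →* G) {y : G} (hy : ∀ a, Commute y (φ a)) :
    Fintype.card A ∣ ∑ a, cf Ω y (φ a) := by
  classical
  let _ : MulAction A (fixedBy Ω y) :=
    { smul := fun a w => ⟨φ a • w.1, by rw [mem_fixedBy, ← mul_smul, (hy a).eq, mul_smul, w.2]⟩
      one_smul := fun w => Subtype.ext (by change φ 1 • w.1 = _; rw [map_one, one_smul])
      mul_smul := fun a b w => Subtype.ext (by change φ (a * b) • w.1 = φ a • φ b • w.1; rw [map_mul, mul_smul]) }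
  have := Fintype.ofFinite (fixedBy Ω y)
  have := Fintype.ofFinite (orbitRel.Quotient A (fixedBy Ω y))
  have h := sum_card_fixedBy_eq_card_orbits_mul_card_group A (fixedBy Ω y)
  refine (Finset.sum_congr rfl fun a _ => ?_ : _ = ∑ a, cf Ω y (φ a)) ▸ (Dvd.intro_left _ h.symm)
  rw [Fintype.card_eq_nat_card, Nat.card_coe_set_eq, cf, ← Set.ncard_image_of_injective _ Subtype.val_injective]
  congr 1
  ext w
  exact ⟨fun ⟨a, h1, h2⟩ => h2 ▸ ⟨a.2, congrArg Subtype.val h1⟩, fun h => ⟨⟨w, h.1⟩, Subtype.ext h.2, rfl⟩⟩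

omit [Finite Ω] in
/-- the homomorphism given by an involution -/
def ψ (v : G) (h : v * v = 1) : ℤˣ →* G where
  toFun u := if u = 1 then 1 else v
  map_one' := if_pos rfl
  map_mul' a b := by
    rcases Int.units_eq_one_or a with rfl | rfl <;> rcases Int.units_eq_one_or b with rfl | rfl <;> simp [h]

theorem ψ_neg (v : G) (h : v * v = 1) : ψ v h (-1) = v := by
  change (if (-1 : ℤˣ) = 1 then 1 else v) = v
  exact if_neg (by decide)

theorem ψ_comm {v y : G} (h : v * v = 1) (hy : Commute y v) (u : ℤˣ) : Commute y (ψ v h u) := by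
  rcases Int.units_eq_one_or u with rfl | rfl
  · rw [map_one]; exact Commute.one_right _
  · rwa [ψ_neg]

theorem pow_dvd {k : ℕ} {v q : Fin k → G} {z y : G} (hz : z * z = 1) (hv : ∀ i, v i * v i = 1)
    (hvv : ∀ i j, Commute (v i) (v j)) (hvz : ∀ i, Commute z (v i))
    (hq : ∀ i j, q i * v j * (q i)⁻¹ = v j * if j = i then z else 1) (hy : Commute y z) (hyv : ∀ i, Commute y (v i))
    (hyq : ∀ i, Commute y (q i)) : (2 : ℤ) ^ (k + 1) ∣ cf Ω y 1 - cf Ω y z := by
  have c1 : Pairwise fun i j => ∀ a b, Commute (ψ (v i) (hv i) a) (ψ (v j) (hv j) b) := fun i j _ a b =>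
    ψ_comm _ (ψ_comm _ (hvv j i) a).symm b
  let φ := MonoidHom.noncommPiCoprod (fun i => ψ (v i) (hv i)) c1
  have c2 : ∀ {y : G}, (∀ i, Commute y (v i)) → ∀ a, Commute y (φ a) := fun h a =>
    MonoidHom.commute_noncommPiCoprod _ (fun i => ψ_comm _ (h i)) a
  have c3 : ∀ a b, Commute (φ a) (ψ z hz b) := fun a b => ψ_comm _ (c2 hvz a).symm b
  have h1 := burn (Ω := Ω) φ (c2 hyv)
  have h2 := burn (Ω := Ω) (φ.noncommCoprod (ψ z hz) c3) (y := y) fun a => (c2 hyv _).mul_right (ψ_comm _ hy _)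
  have h3 : ∀ a : Fin k → ℤˣ, a ≠ 1 → cf Ω y (φ a * z) = cf Ω y (φ a) := fun a ha => by
    obtain ⟨i, hi⟩ := Function.ne_iff.1 ha
    have : (MulAut.conj (q i)).toMonoidHom.comp φ = (φ.noncommCoprod (ψ z hz) c3).comp
        ((MonoidHom.id _).prod (Pi.evalMonoidHom _ i)) := MonoidHom.pi_ext fun j u => by
      rcases Int.units_eq_one_or u with rfl | rfl
      · simp
      · by_cases e : j = i
        · subst e; simp [φ, MonoidHom.noncommPiCoprod_mulSingle, ψ_neg, hq]
        · simp [φ, MonoidHom.noncommPiCoprod_mulSingle, ψ_neg, hq, e]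
    have := DFunLike.congr_fun this a
    rw [← cf_conj (hyq i) (φ a)]
    congr 1
    simpa [(Int.units_eq_one_or (a i)).resolve_left hi, ψ_neg] using this.symm
  rw [Fintype.sum_prod_type_right, ← Finset.sum_subset (Finset.subset_univ {1, -1}) (by
    intro u _ h; rcases Int.units_eq_one_or u with rfl | rfl <;> simp at h), Finset.sum_pair (by decide)] at h2
  simp only [MonoidHom.noncommCoprod_apply, map_one, mul_one, ψ_neg, Fintype.card_prod, Fintype.card_pi,
    Fintype.card_units_int, Finset.prod_const, Finset.card_univ, Fintype.card_fin] at h1 h2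
  rw [← Finset.add_sum_erase _ (fun a => cf Ω y (φ a * z)) (Finset.mem_univ 1),
    Finset.sum_congr rfl fun a ha => h3 a (Finset.ne_of_mem_erase ha)] at h2
  rw [← Finset.add_sum_erase _ _ (Finset.mem_univ 1)] at h1 h2
  simp only [map_one, one_mul] at h1 h2
  have h4 := dvd_sub (mul_dvd_mul (Int.natCast_dvd_natCast.2 h1) (dvd_refl 2)) (Int.natCast_dvd_natCast.2 h2)
  push_cast at h4
  rw [pow_succ]
  exact h4.trans (dvd_of_eq (by ring))

end

theorem relIndex_dvd {G : Type*} [Group G] [Finite G] (H N : Subgroup G) [N.Normal] : H.relIndex N ∣ H.index := by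
  have h1 := Subgroup.relIndex_mul_relIndex (H ⊓ N) N (H ⊔ N) inf_le_right le_sup_right
  have h2 := Subgroup.relIndex_mul_relIndex (H ⊓ N) H (H ⊔ N) inf_le_left le_sup_left
  rw [Subgroup.inf_relIndex_right, Subgroup.relIndex_sup_right] at h1
  rw [Subgroup.inf_relIndex_left, ← h1, mul_comm] at h2
  rw [← Nat.eq_of_mul_eq_mul_right (Nat.pos_of_ne_zero Subgroup.index_ne_zero_of_finite) h2]
  exact Subgroup.relIndex_dvd_index_of_le le_sup_left

theorem arith : ∀ n < 6000, 32 ≤ n → n * (n - 1) ∣ 35942400 → n = 40 ∨ n = 65 := by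
  have : ∀ a < 60, ∀ b < 100, 32 ≤ 100 * a + b → (100 * a + b) * (100 * a + b - 1) ∣ 35942400 →
      100 * a + b = 40 ∨ 100 * a + b = 65 := by decide +kernel
  intro n hn
  have h := this (n / 100) (by omega) (n % 100) (by omega)
  rwa [Nat.div_add_mod] at h

theorem no2 {T Ω : Type*} [Group T] [Finite T] [MulAction T Ω] [Fintype Ω] [FaithfulSMul T Ω]
    (h2 : IsMultiplyPretransitive T Ω 2) (hΩ : 3 ≤ Fintype.card Ω) (hT : Nat.card T ∣ 35942400)
    {z : T} {v q : Fin 4 → T} (h1 : z ≠ 1) (hz : z * z = 1) (hv : ∀ i, v i * v i = 1)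
    (hvv : ∀ i j, Commute (v i) (v j)) (hvz : ∀ i, Commute z (v i))
    (hq : ∀ i j, q i * v j * (q i)⁻¹ = v j * if j = i then z else 1) {S : Subgroup T} (hS : IsPGroup 2 S)
    (hodd : Odd S.index) (hSz : S ≤ Subgroup.centralizer {z})
    (hgen : Subgroup.centralizer {z} ⊔ Subgroup.centralizer {v 0} = ⊤) (hc : IsConj z (v 0)) : False := by
  classical
  have : Fact (Nat.Prime 2) := ⟨Nat.prime_two⟩
  have hi : ∀ x : Fin 2 ↪ Ω, (stabilizer T x).index = Fintype.card Ω * (Fintype.card Ω - 1) := fun x => by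
    rw [index_stabilizer_of_transitive, Nat.card_eq_fintype_card, Fintype.card_embedding_eq, Fintype.card_fin,
      Nat.descFactorial_succ, Nat.descFactorial_one, mul_comm]
  obtain ⟨x0⟩ : Nonempty (Fin 2 ↪ Ω) := Function.Embedding.nonempty_of_card_le (by simp; omega)
  have d1 := (hi x0 ▸ (stabilizer T x0).index_dvd_card).trans hT
  have d2 := pow_dvd (Ω := Ω) hz hv hvv hvz hq (Commute.one_left _) (fun _ => Commute.one_left _)
    fun _ => Commute.one_left _
  have d3 := pow_dvd (Ω := Ω) (v := fun i => v i.succ) (q := fun i => q i.succ) (y := v 0) hz (fun _ => hv _)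
    (fun _ _ => hvv _ _) (fun _ => hvz _) (fun i j => by simp [hq]) (hvz 0).symm (fun _ => hvv _ _) fun i => by
      have := hq i.succ 0
      rw [if_neg (Fin.succ_ne_zero i).symm, mul_one, mul_inv_eq_iff_eq_mul] at this
      exact this.symm
  simp only [cf, fixedBy_one_eq_univ, Set.inter_self, Set.univ_inter, Set.inter_univ, Set.ncard_univ,
    Nat.card_eq_fintype_card] at d2 d3
  have e1 : (fixedBy Ω (v 0)).ncard = (fixedBy Ω z).ncard := by
    obtain ⟨c, hc⟩ := isConj_iff.1 hc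
    rw [← hc, ← smul_fixedBy, Set.ncard_smul_set]
  have l1 : fixedBy Ω z ≠ Set.univ := fun h => h1 (fixedBy_eq_univ_iff_eq_one.1 h)
  have l2 : (fixedBy Ω z).ncard < Fintype.card Ω := by
    rw [← Nat.card_eq_fintype_card, ← Set.ncard_univ]
    exact Set.ncard_lt_ncard (Set.ssubset_univ_iff.2 l1)
  have l3 := Set.ncard_inter_le_ncard_left (fixedBy Ω (v 0)) (fixedBy Ω z)
  have hn : Fintype.card Ω = 40 ∨ Fintype.card Ω = 65 :=
    arith _ (by
      have := Nat.le_of_dvd (by norm_num) d1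
      obtain ⟨m, hm⟩ : ∃ m, Fintype.card Ω = m + 1 := ⟨Fintype.card Ω - 1, by omega⟩
      rw [hm, Nat.add_sub_cancel] at this
      rw [hm]; nlinarith) (by omega) d1
  have l4 : (fixedBy Ω z).ncard ≠ 33 := fun h => by
    have hn : Fintype.card Ω = 65 := by omega
    obtain ⟨α, hα⟩ := hS.nonempty_fixed_point_of_prime_not_dvd_card Ω (by rw [Nat.card_eq_fintype_card, hn]; decide)
    obtain ⟨β, hβ, hne⟩ := Set.exists_ne_of_one_lt_ncard (s := fixedBy Ω z) (by omega) α
    let x : Fin 2 ↪ Ω := ⟨![α, β], by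
      intro i j; fin_cases i <;> fin_cases j <;> simp [hne, hne.symm]⟩
    have a1 : S ⊓ stabilizer T β ≤ stabilizer T x := fun g hg => Function.Embedding.ext fun i => by
      fin_cases i
      exacts [hα ⟨g, hg.1⟩, hg.2]
    have a2 := Subgroup.index_dvd_of_le a1
    rw [hi, hn, ← Subgroup.relIndex_mul_index inf_le_left, Subgroup.inf_relIndex_left] at a2
    have a3 : (stabilizer T β).relIndex S = (orbit S β).ncard := index_stabilizer S β
    have a4 : (orbit S β).ncard ≤ 33 := h ▸ Set.ncard_le_ncard (by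
      rintro _ ⟨g, rfl⟩
      change z • g.1 • β = g.1 • β
      rw [← mul_smul, ← Subgroup.mem_centralizer_singleton_iff.1 (hSz g.2), mul_smul, hβ])
    have a5 : 2 ^ 6 ∣ (stabilizer T β).relIndex S :=
      ((Nat.Coprime.pow_left 6 hodd.coprime_two_left).dvd_mul_right).1 ((by norm_num : 2 ^ 6 ∣ 65 * (65 - 1)).trans a2)
    have a6 : (stabilizer T β).relIndex S ≠ 0 := Subgroup.index_ne_zero_of_finite
    have := Nat.le_of_dvd (Nat.pos_of_ne_zero a6) a5
    omega
  have e2 : fixedBy Ω (v 0) = fixedBy Ω z := by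
    have : (fixedBy Ω (v 0) ∩ fixedBy Ω z).ncard = (fixedBy Ω z).ncard := by omega
    exact (Set.eq_of_subset_of_ncard_le Set.inter_subset_left (e1.trans this.symm).le).symm.trans
      (Set.eq_of_subset_of_ncard_le Set.inter_subset_right this.ge)
  have e3 : ∀ g : T, g • fixedBy Ω z = fixedBy Ω z := fun g => by
    have : Subgroup.centralizer {z} ⊔ Subgroup.centralizer {v 0} ≤ stabilizer T (fixedBy Ω z) :=
      sup_le (fun g hg => fixedBy_mem_fixedBy_of_commute (Subgroup.mem_centralizer_singleton_iff.1 hg).symm)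
        fun g hg => e2 ▸ fixedBy_mem_fixedBy_of_commute (Subgroup.mem_centralizer_singleton_iff.1 hg).symm
    exact this (hgen ▸ Subgroup.mem_top g)
  obtain ⟨a, ha⟩ : (fixedBy Ω z).Nonempty := Set.nonempty_of_ncard_ne_zero (by omega)
  have := isPretransitive_of_is_two_pretransitive (G := T) (α := Ω)
  refine l1 (Set.eq_univ_of_forall fun b => ?_)
  obtain ⟨g, rfl⟩ := exists_smul_eq T a b
  exact e3 g ▸ Set.smul_mem_smul_set ha

open Cfsg.Lie CA.Chev CA.H12Inv2 CA.H12Inv3 CA.H12InvF4 CA.H12InvTw CA.H12Tits Subgroup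
open scoped commutatorElement

local notation "𝔸" => adjG chevF4 (ZMod 2)
local notation "τ₂" => tF4 (RingHom.id (ZMod 2))
local notation "ℕ₂" => ⁅Twist.G1 τ₂, Twist.G1 τ₂⁆

theorem X_cent {S : Set (Rt chevF4)} {a b : ℕ}
    (h : ∀ r ∈ S, (r.val = a ∨ cmm tabF4 2 r a = true) ∧ (r.val = b ∨ cmm tabF4 2 r b = true)) :
    (𝔸).X S ≤ centralizer {ev 𝔸 [a, b]} := (𝔸).X_le.2 fun r hr t => by
  have k : ∀ a, r.val = a ∨ cmm tabF4 2 r a = true → Commute ((𝔸).x r t) (xN (𝔸).x a 1) := by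
    rintro _ (rfl | h)
    · rw [xN_val]; exact (𝔸).x_comm _ _ _
    · rw [← xN_val (𝔸).x]; exact commute_of_cmm (𝔸).add (𝔸).comm two_eq (tab_F4 ▸ h) t 1
  rw [mem_centralizer_singleton_iff, ev_cons, ev_cons, ev_nil, mul_one]
  exact ((k a (h r hr).1).mul_right (k b (h r hr).2)).eq

theorem U_cent : (𝔸).U ≤ centralizer {ev 𝔸 [47, 44]} := X_cent (by
  simp only [Set.mem_ofPred_eq, Pos]; decide +kernel)

theorem comm_ev {u L : List ℕ} (h : col1 tabF4 (u ++ L) (L ++ u) = true) : Commute (ev 𝔸 u) (ev 𝔸 L) := by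
  rw [Commute, SemiconjBy, ← ev_append, ← ev_append, ev_of_col1 𝔸 tab_F4 h]

theorem mul_of_sup {G : Type*} [Group G] {H N : Subgroup G} (h : H ≤ normalizer N) {g : G} (hg : g ∈ H ⊔ N) :
    ∃ a ∈ H, ∃ b ∈ N, a * b = g := by
  rwa [← SetLike.mem_coe, coe_mul_of_left_le_normalizer_right _ _ h] at hg

theorem gen : ℕ₂ ≤ (centralizer {ev 𝔸 [47, 44]} ⊓ ℕ₂) ⊔ (centralizer {ev 𝔸 [40, 46]} ⊓ ℕ₂) := by
  set M := (centralizer {ev 𝔸 [47, 44]} ⊓ ℕ₂) ⊔ (centralizer {ev 𝔸 [40, 46]} ⊓ ℕ₂)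
  let C := (τ₂).G1 ⊓ (centralizer {ev 𝔸 [47, 44]} ⊓ centralizer {ev 𝔸 [40, 46]})
  have hN : ℕ₂ ≤ (τ₂).G1 := commutator_le_self _
  have h1 : (τ₂).G1 ≤ C ⊔ ℕ₂ := G1_le le_sup_right (sup_le inf_le_left hN)
    ((ch [.N [1, 0], .U [] [35, 31, 40]] _ [35, 31, 40] le_sup_right (by decide +kernel)).2 (mem_sup_left
      ⟨mG (by decide +kernel), mem_centralizer_singleton_iff.2 (comm_ev (by decide +kernel)),
        mem_centralizer_singleton_iff.2 (comm_ev (by decide +kernel))⟩))
  have h2 : ∀ K : Subgroup (chevF4.group (ZMod 2)), C ≤ K → K ⊓ ℕ₂ ≤ M → K ⊓ (τ₂).G1 ≤ C ⊔ M := fun K k1 k2 g hg => by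
    obtain ⟨c, hc, n, hn, rfl⟩ := mul_of_sup (le_normalizer_iff_commutator_le_right.2
      (commutator_mono inf_le_left hN)) (h1 hg.2)
    exact mul_mem (mem_sup_left hc) (mem_sup_right (k2 ⟨(K.mul_mem_cancel_left (k1 hc)).1 hg.1, hn⟩))
  have h3 := h2 _ (inf_le_right.trans inf_le_left) le_sup_left
  have h4 := h2 _ (inf_le_right.trans inf_le_right) le_sup_right
  have h5 : (τ₂).G1 ≤ C ⊔ M := (TF4.ok hθ2).G1_le
    (fun i g hg => h3 ⟨U_cent ((𝔸).X_mono (fun _ h => h.1) hg.1), (τ₂).X1_Op_le i hg⟩) fun i g hg => by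
      have hg' := (τ₂).X1_On_le i hg
      have k : g ∈ (τ₂).X1 ((τ₂).On (nF4 1)) → g ∈ C ⊔ M := fun hg => h3 ⟨X_cent (S := RL chevF4 [20, 22, 19, 17])
        (by simp only [RL, Set.mem_ofPred_eq]; decide +kernel) (TF4.On1_eq (θ := RingHom.id (ZMod 2)) ▸ hg.1), hg'⟩
      rcases TF4.nodes i with h | rfl | rfl
      · refine h4 ⟨X_cent (S := (τ₂).On i) ?_ hg.1, hg'⟩
        simp only [Twist.On, (TF4.ty2 hθ2 h).orb_eq, mem_Phi_tab tab_F4, Set.mem_ofPred_eq, Pos, Set.mem_insert_iff,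
          Set.mem_singleton_iff]
        rcases h with rfl | rfl <;> decide +kernel
      · exact k hg
      · exact k (by rwa [Twist.On_congr TF4.mem_orb2] at hg)
  have h6 : ∀ K : Subgroup (chevF4.group (ZMod 2)), C ≤ K → C ≤ normalizer (K ⊓ ℕ₂ : Subgroup _) := fun K k =>
    le_normalizer_iff_commutator_le_right.2 (le_inf ((commutator_mono k inf_le_left).trans (commutator_le_self _))
      (commutator_mono inf_le_left (inf_le_right.trans hN)))
  intro n hn
  obtain ⟨c, hc, m, hm, rfl⟩ := mul_of_sup ((le_inf (h6 _ (inf_le_right.trans inf_le_left))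
    (h6 _ (inf_le_right.trans inf_le_right))).trans (normalizer_inf_normalizer_le_normalizer_sup _ _)) (h5 (hN hn))
  exact mul_mem (mem_sup_left ⟨hc.2.1, (Subgroup.mul_mem_cancel_right _ ((sup_le inf_le_right inf_le_right : M ≤ ℕ₂)
    hm)).1 hn⟩) hm

theorem inv_mem {L : List ℕ} (h : (inG tabF4 φF4 L && col1 tabF4 (L ++ L) []) = true) : ev 𝔸 L ∈ ℕ₂ := by
  rw [Bool.and_eq_true] at h
  rcases (repsF4 hθ2).all _ (mG h.1) (by rw [← ev_append, ev_of_col1 𝔸 tab_F4 h.2, ev_nil]) with h | ⟨L, hL, h⟩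
  · rw [h]; exact one_mem _
  · exact (R_mem h ((repsF4 hθ2).inv L hL).1 le_rfl).2 (rep_mem hL)

/-- the words -/
def vL : Fin 4 → List ℕ := ![[40, 46], [39, 45], [38, 43], [36, 42]]
/-- the words -/
def qL : Fin 4 → List ℕ × List ℕ := ![([24, 33], []),
  ([24, 29, 31, 32, 33, 35, 37, 41], [24, 26, 31, 32, 33, 34, 35, 37]),
  ([24, 26, 31, 32, 33, 34, 35, 37], [24, 26, 29, 32, 33, 34, 37, 41]), ([32, 37], [])]

theorem conj_of {T Γ : Type*} [Group T] [Group Γ] {e : T →* Γ} (he : Function.Injective e) {N : Subgroup Γ}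
    (hr : N ≤ e.range) {a b : T} {x y g : Γ} (ha : e a = x) (hb : e b = y) (h : g * y * g⁻¹ = x)
    (hg : ∃ c, Commute c x ∧ ∃ n ∈ N, g = c * n) : IsConj b a := by
  obtain ⟨c, hc, n, hn, rfl⟩ := hg
  obtain ⟨n, rfl⟩ := hr hn
  exact isConj_iff.2 ⟨n, he (by rw [map_mul, map_mul, map_inv, ha, hb]; exact conj_cancel hc h)⟩

theorem aux {T Ω : Type*} [Group T] [Finite T] [Fintype Ω] [MulAction T Ω] [FaithfulSMul T Ω]
    (hΩ : 3 ≤ Fintype.card Ω) {e : T →* chevF4.group (ZMod 2)} (he : Function.Injective e) (hr : e.range = ℕ₂)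
    (hT : Nat.card T ∣ 35942400) (hS : IsPGroup 2 ((𝔸).U.comap e)) (hodd : Odd ((𝔸).U.comap e).index) :
    ¬ IsMultiplyPretransitive T Ω 2 := fun h2 => by
  obtain ⟨z, hz⟩ := hr.ge m3
  choose v hv using fun i => hr.ge (inv_mem (L := vL i) (by revert i; decide +kernel))
  choose q hq using fun i => hr.ge (mul_mem (inv_mem (L := (qL i).1) (by revert i; decide +kernel))
    (inv_mem (L := (qL i).2) (by revert i; decide +kernel)))
  have hv0 : e (v 0) = ev 𝔸 [40, 46] := hv 0
  have hzz := (repsF4 hθ2).inv [47, 44] (by simp [rsF4t])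
  refine no2 h2 hΩ hT (z := z) (v := v) (q := q)
    (fun h => hzz.2.2 (by rw [← hz, h, map_one])) (he (by rw [map_mul, hz, hzz.2.1, map_one])) (fun i => he ?_)
    (fun i j => he ?_) (fun i => he ?_) (fun i j => ?_) hS hodd (fun g hg => ?_) (top_unique fun g _ => ?_) ?_
  · rw [map_mul, hv, map_one, ← ev_append, ev_of_col1 𝔸 tab_F4 (L' := []) (by revert i; decide +kernel), ev_nil]
  · rw [map_mul, map_mul, hv, hv]; exact comm_ev (by revert i j; decide +kernel)
  · rw [map_mul, map_mul, hv, hz]; exact comm_ev (by revert i; decide +kernel)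
  · rw [mul_inv_eq_iff_eq_mul]
    refine he ?_
    have : e (if j = i then z else 1) = ev 𝔸 (if j = i then [47, 44] else []) := by
      split_ifs
      exacts [hz, map_one e]
    simp only [map_mul, hv, hq, this, ← ev_append]
    exact ev_of_col1 𝔸 tab_F4 (by clear this; revert i j; decide +kernel)
  · exact mem_centralizer_singleton_iff.2 (he (by
      simpa only [map_mul, hz] using mem_centralizer_singleton_iff.1 (U_cent hg)))
  · have k : ∀ y : T, centralizer {e y} ⊓ ℕ₂ ≤ (centralizer {y}).map e := fun y g hg => by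
      obtain ⟨g, rfl⟩ := hr.ge hg.2
      exact mem_map_of_mem _ (mem_centralizer_singleton_iff.2 (he (by
        simpa only [map_mul] using mem_centralizer_singleton_iff.1 hg.1)))
    rw [← mem_map_iff_mem he, Subgroup.map_sup]
    exact (gen.trans (sup_le_sup (hz ▸ k z) (hv0 ▸ k (v 0)))) (hr.le ⟨g, rfl⟩)
  · obtain ⟨g, hg, h⟩ := (ctxF4 hθ2).of_chain (S := [.N [0], .U [] [47, 44]]) (L := [40, 46]) (L' := [47, 44])
      (by decide +kernel)
    exact (conj_of he hr.ge hz hv0 h (factor (L := [47, 44]) (by simp [rsF4t]) hg)).symm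

theorem tits {Ω : Type*} [Fintype Ω] [MulAction TitsGroup Ω] [FaithfulSMul TitsGroup Ω] (hΩ : 3 ≤ Fintype.card Ω) :
    ¬ IsMultiplyPretransitive TitsGroup Ω 2 := by
  have hG : Nat.card (twistedF4 (ZMod 2) 1) = 35942400 := by
    rw [Nat.card_congr (MonoidHom.ofInjective real2.e_inj).toEquiv, real2.e_range, TF4.card_G hθ2, Nat.card_zmod]
    norm_num
  have : Finite (twistedF4 (ZMod 2) 1) := Nat.finite_of_card_ne_zero (by omega)
  have hU : Nat.card ((𝔸).U.comap real2.e) = 2 ^ 12 := by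
    rw [← card_map_of_injective real2.e_inj, map_comap_eq, real2.e_range, inf_comm, TF4.card_U hθ2, Nat.card_zmod]
  have hi : ((𝔸).U.comap real2.e).index = 8775 := by
    have := ((𝔸).U.comap real2.e).card_mul_index
    rw [hU, hG] at this
    omega
  exact aux hΩ (e := real2.e.comp (Subgroup.subtype _)) (real2.e_inj.comp Subtype.val_injective)
    (by rw [MonoidHom.range_comp, range_subtype, map_comm]) (hG ▸ card_subgroup_dvd_card _)
    (IsPGroup.of_card hU).comap_subtype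
    (Odd.of_dvd_nat (by decide) (hi ▸ relIndex_dvd ((𝔸).U.comap real2.e) (commutator _)))

end CA.H12Tits2
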