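/-
Weakly closed subgroups of the unipotent subgroup of a Chevalley group.
-/
import Cfsg.Agent.Lib.Lie.H12BG6

set_option autoImplicit false

namespace CA.H12WC

open Equiv Cfsg.Lie CA.Chev CA.H12BT CA.H12BG1 CA.H12BG3 CA.H12BG4 CA.H12BG5 CA.H12BG6

variable {D : ChevalleyDatum} [Good D] {K : Type*} [Field K] {Γ : Type*} [Group Γ] {A : Sys D K Γ}

theorem cT_eq_of_tab {T : Tab} (hT : tab D = T) {r s : Rt D} {L : List (Rt D × ℤ × ℕ × ℕ)}
    (h : T.cT r s = L.map fun c => (c.1.val, c.2)) : cT r s = L := by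
  subst hT
  exact List.map_injective_iff.2 (fun _ _ e => Prod.ext (Fin.ext (Prod.mk.inj e).1) (Prod.mk.inj e).2)
    ((commTerms_eq r s).symm.trans h)

theorem mem_of_sq [Finite K] {S : AddSubgroup K} {a : K} (ha : a ≠ 0) (h : ∀ t, t ^ 2 * a ∈ S) (t : K) : t ∈ S := by
  obtain ⟨p, _⟩ := CharP.exists K
  have : Fact p.Prime := ⟨CharP.char_is_prime K p⟩
  by_cases e : p = 2
  · subst e
    obtain ⟨u, hu⟩ := Finite.injective_iff_surjective.1 (frobenius K 2).injective (t / a)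
    simpa [show u ^ 2 = t / a from hu, ha] using h u
  refine half_mem p e (half_mem p e ?_)
  convert sub_mem (h (t / a + 1)) (h (t / a - 1)) using 1
  field_simp; ring

/-- the subgroup contains the commutators -/
def Cm (A : Sys D K Γ) (J : Set (Nd D)) (Y : Subgroup Γ) : Prop := (∀ u ∈ A.U, ∀ y ∈ Y, u * y * u⁻¹ ∈ Y) ∧
  ∀ r s, Pos r → Pos s → ∀ k, Cmb r s k → k ∉ Phi J → ∀ t u, cw A.x r s t u ∈ Y

/-- the commutators generate enough -/
def Gen (A : Sys D K Γ) : Prop := ∀ J Y, Cm A J Y → ∀ γ, Pos γ → γ ∉ Phi J → (∀ i, γ ≠ sim i) → ∀ t, A.x γ t ∈ Y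

/-- pairs of positive roots -/
def PP (T : Tab) (r s : ℕ) : Prop := (T.n / 2 ≤ r ∧ r < T.n) ∧ T.n / 2 ≤ s ∧ s < T.n
/-- one term -/
def Pat1 (T : Tab) (γ r s : ℕ) : Prop := PP T r s ∧ ∃ C ∈ [(1 : ℤ), -1], T.cT r s = [(γ, C, 1, 1)]
/-- two terms -/
def Pat2 (T : Tab) (γ r s : ℕ) : Prop := PP T r s ∧ ∃ C ∈ [(1 : ℤ), -1], ∃ C' ∈ [(1 : ℤ), -1], ∃ k < T.n,
  T.cT r s = [(γ, C, 1, 1), (k, C', 2, 1)] ∨ T.cT r s = [(k, C, 1, 1), (γ, C', 2, 1)]

instance decPat1 (T : Tab) (γ r s : ℕ) : Decidable (Pat1 T γ r s) := inferInstanceAs (Decidable ((_ ∧ _) ∧ _))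
instance decPat2 (T : Tab) (γ r s : ℕ) : Decidable (Pat2 T γ r s) := inferInstanceAs (Decidable ((_ ∧ _) ∧ _))

theorem ne_zero_of_mem {C : ℤ} (h : C ∈ [(1 : ℤ), -1]) : (C : K) ≠ 0 := by
  simp only [List.mem_cons, List.not_mem_nil, or_false] at h
  rcases h with rfl | rfl <;> simp

theorem x_all {Y : Subgroup Γ} {γ : Rt D} {c : K} (hc : c ≠ 0) (h : ∀ u, A.x γ (c * u) ∈ Y) (t : K) : A.x γ t ∈ Y := by
  simpa [hc] using h (c⁻¹ * t)

theorem gen_of_pat (h2 : ∃ a : K, a ≠ 0 ∧ a ≠ 1) {T : Tab} (hT : tab D = T)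
    (h : ∀ γ : Rt D, Pos γ → (∃ i, γ = sim i) ∨ ∃ r s, Pat1 T γ r s ∨ Pat2 T γ r s) : Gen A := by
  intro J Y hY γ hγ hJ hs
  subst hT
  obtain ⟨a, a0, a1⟩ := h2
  obtain ⟨r, s, ⟨⟨⟨r1, r2⟩, s1, s2⟩, C, hC, e⟩ | ⟨⟨⟨r1, r2⟩, s1, s2⟩, C, hC, C', hC', k, hk, e⟩⟩ :=
    (h γ hγ).resolve_left fun ⟨i, e⟩ => hs i e
  · have e' := cT_of_tab (r := ⟨r, r2⟩) (s := ⟨s, s2⟩) rfl e
    refine x_all (c := C) (ne_zero_of_mem hC) fun u => ?_
    simpa [cw, e'] using hY.2 ⟨r, r2⟩ ⟨s, s2⟩ r1 s1 γ (cmb_of_mem (e' ▸ List.mem_cons_self)) hJ (-1) u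
  have key : ∀ k1 k2 : Rt D, cT ⟨r, r2⟩ ⟨s, s2⟩ = [(k1, C, 1, 1), (k2, C', 2, 1)] → (∀ t u, cw A.x ⟨r, r2⟩ ⟨s, s2⟩ t u ∈ Y) →
      (∀ t, A.x k1 t ∈ Y) ∧ ∀ t, A.x k2 t ∈ Y := fun k1 k2 e h => by
    simp only [cw, e, List.map_cons, List.map_nil, List.prod_cons, List.prod_nil, mul_one, pow_one] at h
    have b : ∀ t, A.x k2 t ∈ Y := x_all (c := C' * (a ^ 2 - a)) (mul_ne_zero (ne_zero_of_mem hC') fun e =>
      a1 (mul_left_cancel₀ a0 (by linear_combination e))) fun u => by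
      have := mul_mem (inv_mem (h 1 (a * u))) (h a u)
      rw [show (C : K) * -1 * (a * u) = C * -a * u by ring, show ∀ x y z : Γ, (x * y)⁻¹ * (x * z) = y⁻¹ * z by intros; group,
        ← A.x_neg, ← A.add] at this
      convert this using 2
      ring
    exact ⟨x_all (c := C) (ne_zero_of_mem hC) fun u => by simpa using (Subgroup.mul_mem_cancel_right Y (b _)).1 (h (-1) u), b⟩
  rcases e with e | e
  · have e' := cT_eq_of_tab (r := ⟨r, r2⟩) (s := ⟨s, s2⟩) (L := [(γ, C, 1, 1), (⟨k, hk⟩, C', 2, 1)]) rfl e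
    exact (key _ _ e' (hY.2 _ _ r1 s1 γ (cmb_of_mem (e' ▸ List.mem_cons_self)) hJ)).1
  · have e' := cT_eq_of_tab (r := ⟨r, r2⟩) (s := ⟨s, s2⟩) (L := [(⟨k, hk⟩, C, 1, 1), (γ, C', 2, 1)]) rfl e
    exact (key _ _ e' (hY.2 _ _ r1 s1 γ (cmb_of_mem (c := (γ, C', 2, 1)) (by simp [e'])) hJ)).2

theorem gen_G2 (h3 : ∃ a b : K, a ≠ 0 ∧ a ≠ 1 ∧ b ≠ 0 ∧ b ≠ 1 ∧ a ≠ b) {A : Sys chevG2 K Γ} : Gen A := by
  intro J Y hY γ hγ hJ hs
  obtain ⟨a, b, a0, a1, b0, b1, ab⟩ := h3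
  have hk : ∀ k : Rt chevG2, (∀ i, rt k i ≠ 0) → k ∉ Phi J := fun k h e => hJ fun i hi => absurd (e i hi) (h i)
  have e1 : cT (mkR chevG2 6) (mkR _ 10) = [(mkR _ 11, 1, 1, 1)] := cT_of_tab tab_G2 (by decide +kernel)
  have e2 : cT (mkR chevG2 7) (mkR _ 6) = [(mkR _ 8, -1, 1, 1), (mkR _ 9, 1, 2, 1), (mkR _ 10, 1, 3, 1), (mkR _ 11, 1, 3, 2)] :=
    cT_eq_of_tab tab_G2 (by decide +kernel)
  have k11 := hk (mkR _ 11) (by simp only [rt_of_pre pre_G2]; decide +kernel)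
  have x11 : ∀ t, A.x (mkR _ 11) t ∈ Y := fun t => by
    have := hY.2 _ _ (by decide +kernel) (by decide +kernel) _ (cmb_of_mem (e1 ▸ List.mem_cons_self)) k11 (-1) t
    rw [cw, e1] at this
    simpa using this
  have d : ∀ t u, A.x (mkR _ 8) (t * u) * (A.x (mkR _ 9) (t ^ 2 * u) * A.x (mkR _ 10) (-t ^ 3 * u)) ∈ Y := fun t u => by
    have := hY.2 (mkR _ 7) (mkR _ 6) (by decide +kernel) (by decide +kernel) _
      (cmb_of_mem (c := (mkR _ 11, 1, 3, 2)) (by rw [e2]; simp)) k11 t u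
    rw [cw, e2] at this
    simp only [List.map_cons, List.map_nil, List.prod_cons, List.prod_nil, mul_one, ← mul_assoc] at this
    rw [Subgroup.mul_mem_cancel_right Y (x11 _), mul_assoc] at this
    convert this using 4 <;> push_cast <;> ring
  have c : ∀ t u, Commute (A.x (mkR _ 10) t) (A.x (mkR _ 9) u) := fun t u => by
    rw [← xN_val A.x, ← xN_val A.x]
    exact commute_of_cmm A.add A.comm (p := 0) (by simp) (by rw [tab_G2]; decide +kernel) t u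
  have f : ∀ t : K, t ≠ 0 → t ≠ 1 → ∀ v, A.x (mkR _ 9) v * A.x (mkR _ 10) (-(t + 1) * v) ∈ Y := fun t t0 t1 v => by
    have h0 : t ^ 2 - t ≠ 0 := fun e => t1 (mul_left_cancel₀ t0 (by linear_combination e))
    have := mul_mem (inv_mem (d 1 (t * (v / (t ^ 2 - t))))) (d t (v / (t ^ 2 - t)))
    rw [one_mul, show ∀ x y z y' z' : Γ, (x * (y * z))⁻¹ * (x * (y' * z')) = z⁻¹ * (y⁻¹ * y') * z' by intros; group,
      ← A.x_neg, ← A.x_neg, ← A.add, (c _ _).eq, mul_assoc, ← A.add] at this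
    convert this using 3 <;> field_simp <;> ring
  have x10 : ∀ t, A.x (mkR _ 10) t ∈ Y := x_all (sub_ne_zero.2 ab) fun v => by
    have := mul_mem (inv_mem (f a a0 a1 v)) (f b b0 b1 v)
    rw [show ∀ x y z : Γ, (x * y)⁻¹ * (x * z) = y⁻¹ * z by intros; group, ← A.x_neg, ← A.add] at this
    convert this using 2
    ring
  have x9 : ∀ t, A.x (mkR _ 9) t ∈ Y := fun t => (Subgroup.mul_mem_cancel_right Y (x10 _)).1 (f a a0 a1 t)
  have x8 : ∀ t, A.x (mkR _ 8) t ∈ Y := fun t => by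
    simpa using (Subgroup.mul_mem_cancel_right Y (mul_mem (x9 _) (x10 _))).1 (d 1 t)
  rcases (by decide +kernel : ∀ γ : Rt chevG2, Pos γ → (∀ i, γ ≠ sim i) → γ = mkR _ 8 ∨ γ = mkR _ 9 ∨ γ = mkR _ 10 ∨
    γ = mkR _ 11) γ hγ hs with rfl | rfl | rfl | rfl <;> assumption

/-- the torus separates the fundamental roots -/
def Sep (D : ChevalleyDatum) [Good D] (K : Type*) [Field K] : Prop :=
  ∀ i j : Nd D, i ≠ j → ∃ r : Rt D, ∃ t : Kˣ, pr r (sim j) = 0 ∧ (t : K) ^ pr r (sim i) ≠ 1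

theorem exists_pure (hs : Sep D K) {X : Subgroup Γ} (hX : X ≤ A.U) (hB : ∀ b ∈ A.B, ∀ x ∈ X, b * x * b⁻¹ ∈ X) {i : Nd D}
    (h : ∃ x ∈ X, cf A (sim i) x ≠ 0) : ∃ x ∈ X, cf A (sim i) x ≠ 0 ∧ (A.x (sim i) (cf A (sim i) x))⁻¹ * x ∈ A.X (Lh 2) := by
  have key : ∀ L : List (Nd D), ∃ x ∈ X, cf A (sim i) x ≠ 0 ∧ ∀ j ∈ L, j ≠ i → cf A (sim j) x = 0 := fun L => by
    induction L with
    | nil => simpa using h
    | cons j L ih =>
      obtain ⟨x, x1, x2, x3⟩ := ih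
      by_cases e : i = j
      · exact ⟨x, x1, x2, by simpa [e] using x3⟩
      obtain ⟨r, t, h1, h2⟩ := hs i j e
      have a := hB _ (A.H_le_B (A.h_mem r t)) x x1
      have b : ∀ k, cf A (sim k) (A.h r t * x * (A.h r t)⁻¹ * x⁻¹) = ((t : K) ^ pr r (sim k) - 1) * cf A (sim k) x := fun k => by
        rw [co_mul k (hX a) (inv_mem (hX x1)), co_inv k (hX x1), cf_H (pos_sim k) (A.h_mem r t) (A.h_conj r _ t)
          ((L_sim A k).ge (hX x1))]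
        ring
      refine ⟨_, mul_mem a (inv_mem x1), b i ▸ mul_ne_zero (sub_ne_zero.2 h2) x2, fun k hk e => ?_⟩
      rcases List.mem_cons.1 hk with rfl | hk
      · simp [b, h1]
      · simp [b, x3 k hk e]
  obtain ⟨x, x1, x2, x3⟩ := key (List.finRange _)
  have a := A.x_mem (S := {r | Pos r}) (pos_sim i) (cf A (sim i) x)
  refine ⟨x, x1, x2, mem_L_two (mul_mem (inv_mem a) (hX x1)) fun j => ?_⟩
  rw [co_mul j (inv_mem a) (hX x1), co_inv j a]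
  by_cases e : j = i
  · rw [e, cf_x (pos_sim i), neg_add_cancel]
  · rw [co_x_ne (pos_sim i) (sim_inj.not.2 (Ne.symm e)), x3 j (List.mem_finRange _) e, neg_add_cancel]

theorem UJ_le [Finite K] (hs : Sep D K) (hg : Gen A) {X : Subgroup Γ} (hB : ∀ b ∈ A.B, ∀ x ∈ X, b * x * b⁻¹ ∈ X)
    {J : Set (Nd D)} (hJ : X ≤ A.UJ J) (hi : ∀ i ∉ J, ∃ x ∈ X, cf A (sim i) x ≠ 0) : A.UJ J ≤ X := by
  have hU : A.UJ J ≤ A.U := A.X_mono fun _ h => h.1
  have zB : ∀ m, ∀ b ∈ A.B, ∀ y ∈ X ⊔ A.X (Lh m), b * y * b⁻¹ ∈ X ⊔ A.X (Lh m) := fun m b hb =>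
    sup_le (a := X) (c := (X ⊔ A.X (Lh m)).comap (MulAut.conj b).toMonoidHom)
      (fun y hy => Subgroup.mem_sup_left (hB b hb y hy)) fun y hy => Subgroup.mem_sup_right (by
        obtain ⟨u, hu, k, hk, rfl⟩ := A.mem_B.1 hb
        simpa [mul_assoc] using A.conj_mem (ideal_L m) hu _ (A.H_conj_X hk hy))
  have step : ∀ m, A.UJ J ≤ X ⊔ A.X (Lh m) → A.UJ J ≤ X ⊔ A.X (Lh (m + 1)) := fun m hm => by
    have zU := fun u hu => zB (m + 1) u (A.U_le_B hu)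
    let C : Subgroup Γ :=
      { carrier := {g | g ∈ A.U ∧ ∀ u ∈ A.U, cm u g ∈ X ⊔ A.X (Lh (m + 1))}
        mul_mem' := fun {g g'} h h' => ⟨mul_mem h.1 h'.1, fun u hu => by
          convert mul_mem (h.2 u hu) (zU g h.1 _ (h'.2 u hu)) using 1
          simp only [cm]; group⟩
        one_mem' := ⟨one_mem _, fun u _ => by simp [cm]⟩
        inv_mem' := fun {g} h => ⟨inv_mem h.1, fun u hu => by
          convert zU _ (inv_mem h.1) _ (inv_mem (h.2 u hu)) using 1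
          simp only [cm]; group⟩ }
    have c : X ⊔ A.X (Lh m) ≤ C := sup_le (fun x hx => ⟨hU (hJ hx), fun u hu => Subgroup.mem_sup_left
      (mul_mem (hB u (A.U_le_B hu) x hx) (inv_mem hx))⟩) (A.X_le.2 fun r hr t => ⟨A.x_mem hr.1 t, fun u hu =>
        Subgroup.mem_sup_right (L_mono A (by have := hr.2; omega) (comm_mem_L hr.1 hu t))⟩)
    have g := hg J _ ⟨zU, fun r s hr hs k hk hk' t u => by
      have e := A.conj_eq (r := r) (s := s) (fun e => not_cmb_self _ _ (e ▸ hk)) (nil_pos.ne_ng hr hs) t u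
      rw [show cw A.x r s t u = cm (A.x s u)⁻¹ (A.x r t)⁻¹ by rw [← inv_mul_cancel_left (A.x s u) (cw _ _ _ _ _), ← e, cm]; group]
      by_cases h : r ∈ Phi J
      · have h' : s ∉ Phi J := fun h' => hk' fun i hi => by obtain ⟨a, b, -, -, e⟩ := hk.coord; simp [e, h i hi, h' i hi]
        convert inv_mem ((c (hm (inv_mem (A.x_mem (S := {s | Pos s ∧ s ∉ Phi J}) ⟨hs, h'⟩ u)))).2 _
          (inv_mem (A.x_mem hr t))) using 1
        simp only [cm]; group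
      · exact (c (hm (inv_mem (A.x_mem (S := {s | Pos s ∧ s ∉ Phi J}) ⟨hr, h⟩ t)))).2 _ (inv_mem (A.x_mem hs u))⟩
    refine A.X_le.2 fun γ hγ t => ?_
    by_cases e : ∀ i, γ ≠ sim i
    · exact g γ hγ.1 hγ.2 e t
    obtain ⟨i, rfl⟩ : ∃ i, γ = sim i := by simpa using e
    obtain ⟨x, x1, x2, x3⟩ := exists_pure hs (hJ.trans hU) hB (hi i (sim_mem_Phi.not.1 hγ.2))
    have x4 := A.X_le.2 (fun r hr => g r hr.1.1 hr.2.2 fun i e => by have := hr.1.2; rw [e, ht_sim] at this; omega)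
      ((A.X_inf nil_pos (nil_L 2) (Sys.nil_UJ' J) (fun _ h => h.1) fun _ h => h.1).le
        (Subgroup.mem_inf.2 ⟨x3, mul_mem (inv_mem (A.x_mem (S := {s | Pos s ∧ s ∉ Phi J}) hγ _)) (hJ x1)⟩))
    rw [Subgroup.mul_mem_cancel_right _ (Subgroup.mem_sup_left x1), inv_mem_iff] at x4
    refine mem_AA.1 (mem_of_sq x2 (fun u => ?_) t)
    by_cases u0 : u = 0
    · simp [u0]
    have := zB _ _ (A.H_le_B (A.h_mem (sim i) (Units.mk0 u u0))) _ x4
    rw [A.h_conj, pr_self] at this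
    exact_mod_cast this
  have all : ∀ m : ℕ, A.UJ J ≤ X ⊔ A.X (Lh (m + 1)) := fun m => by
    induction m with
    | zero => rw [Nat.cast_zero, zero_add, Lh_one]; exact le_sup_of_le_right hU
    | succ m ih => exact_mod_cast step _ ih
  refine (all (ht (tp D)).toNat).trans (sup_le le_rfl (A.X_le.2 fun r hr _ => ?_))
  have h1 := hr.2
  have h2 := eq_tp_of_ht (k := r) (by omega)
  rw [h2] at h1; omega

theorem eq_UJ [Finite K] (hs : Sep D K) (hg : Gen A) {X : Subgroup Γ} (hX : X ≤ A.U)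
    (h : ∀ g ∈ A.G, (∀ x ∈ X, g * x * g⁻¹ ∈ A.U) → ∀ x ∈ X, g * x * g⁻¹ ∈ X) : ∃ J, X = A.UJ J := by
  let J : Set (Nd D) := {i | ∀ x ∈ X, cf A (sim i) x = 0}
  have a : ∀ L : List (Nd D), (∀ j ∈ L, j ∈ J) → ∀ x ∈ X, A.nw L * x * (A.nw L)⁻¹ ∈ X := fun L hL => by
    induction L with
    | nil => simp
    | cons j L ih =>
      intro x hx
      have := h _ (A.N_le_G (A.n_mem (sim j) 1)) (fun y hy => n_conj_Up j (by
        simpa [hL j List.mem_cons_self y hy] using co_spec j (hX hy))) _ (ih (fun k hk => hL k (List.mem_cons_of_mem _ hk)) x hx)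
      simpa [mul_assoc] using this
  have b : X ≤ A.UJ J := fun x hx => by
    obtain ⟨L, hL, e⟩ := exists_wd_J (wJ_mem J)
    have h1 := (A.act_nw L).conj_X' (T := wJ J ⁻¹' {r | Pos r}) (fun s hs => by
      rw [e]; change Pos (wJ J _); rwa [papply_inv]) (hX (a L hL x hx))
    rw [show ∀ n : Γ, n⁻¹ * (n * x * n⁻¹) * n = x by intros; group] at h1
    exact A.X_mono (T := {s | Pos s ∧ s ∉ Phi J}) (fun r hr => ⟨hr.1, fun e => wJ_neg hr.1 e hr.2⟩)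
      (X_inf' A nil_pos (nil_pos.comap (wJ_ra J)) (fun _ h => h) (wJ_mem_W J) (fun _ h => h) (hX hx) h1)
  refine ⟨J, le_antisymm b (UJ_le hs hg (fun g hg => h g (A.B_le_G hg) fun x hx => ?_) b fun i hi => by simpa [J] using hi)⟩
  obtain ⟨u, hu, k, hk, rfl⟩ := A.mem_B.1 hg
  simpa [mul_assoc] using mul_mem (mul_mem hu (A.H_conj_X hk (hX hx))) (inv_mem hu)

theorem sep_of (h2 : ∃ a : K, a ≠ 0 ∧ a ≠ 1) {T : Tab} (hT : tab D = T) (P : Prop) (h3 : P → ∃ a : Kˣ, a ^ 2 ≠ 1)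
    (h : ∀ i j : Nd D, i ≠ j → ∃ r : Rt D, sumLt T.l (fun k => T.co r k * T.wt (sim j).val k) = 0 ∧
      (sumLt T.l (fun k => T.co r k * T.wt (sim i).val k) = 1 ∨
        P ∧ sumLt T.l (fun k => T.co r k * T.wt (sim i).val k) = 2)) : Sep D K := fun i j e => by
  simp only [← pr_eq_tab hT] at h
  obtain ⟨r, h1, h4 | ⟨p, h4⟩⟩ := h i j e
  · obtain ⟨a, a0, a1⟩ := h2
    exact ⟨r, Units.mk0 a a0, h1, by simpa [h4]⟩
  · obtain ⟨a, ha⟩ := h3 p
    exact ⟨r, a, h1, by rw [h4]; exact fun e => ha (Units.ext (by simpa [zpow_ofNat] using e))⟩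

theorem sep_gen [Finite K] (hD : D ∈ [chevG2, chevB2, chevD4, chevF4, chevE6, chevE7, chevE8]) (h2 : Nat.card K ≠ 2)
    (h3 : D ∈ [chevG2, chevB2, chevD4, chevF4] → Nat.card K ≠ 3) {A : Sys D K Γ} : Sep D K ∧ Gen A := by
  classical
  cases nonempty_fintype K
  have k : ∀ s : Finset K, s.card < Nat.card K → ∃ a, a ∉ s := fun s hs => by
    by_contra! h
    rw [Finset.eq_univ_iff_forall.2 h, Finset.card_univ, Nat.card_eq_fintype_card] at hs; omega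
  have k1 : 1 < Nat.card K := Finite.one_lt_card
  obtain ⟨a, ha⟩ := k {0, 1} (Finset.card_le_two.trans_lt (by omega))
  simp only [Finset.mem_insert, Finset.mem_singleton, not_or] at ha
  have k3 := fun h => exists_sq_ne_one (K := K) (by have := h3 h; omega)
  simp only [List.mem_cons, List.not_mem_nil, or_false] at hD
  rcases hD with rfl | rfl | rfl | rfl | rfl | rfl | rfl
  · obtain rfl := Subsingleton.elim ‹Good chevG2› good_G2
    obtain ⟨b, hb⟩ := k {0, 1, a} (Finset.card_le_three.trans_lt (by have := h3 (by simp); omega))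
    simp only [Finset.mem_insert, Finset.mem_singleton, not_or] at hb
    exact ⟨sep_of ⟨a, ha⟩ tab_G2 False False.elim (by decide +kernel), gen_G2 ⟨b, a, hb.1, hb.2.1, ha.1, ha.2, hb.2.2⟩⟩
  · obtain rfl := Subsingleton.elim ‹Good chevB2› good_B2
    exact ⟨sep_of ⟨a, ha⟩ tab_B2 True (fun _ => k3 (by simp)) (by decide +kernel), gen_of_pat ⟨a, ha⟩ tab_B2 fun γ h =>
      ((by decide +kernel : ∀ γ : Rt chevB2, Pos γ → (∃ i, γ = sim i) ∨ Pat2 tabB2 γ 5 4) γ h).imp_right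
        fun h => ⟨_, _, Or.inr h⟩⟩
  · obtain rfl := Subsingleton.elim ‹Good chevD4› good_D4
    exact ⟨sep_of ⟨a, ha⟩ tab_D4 True (fun _ => k3 (by simp)) (by decide +kernel), gen_of_pat ⟨a, ha⟩ tab_D4 fun γ h =>
      ((by decide +kernel : ∀ γ : Rt chevD4, Pos γ → (∃ i, γ = sim i) ∨ ∃ j < 4,
        Pat1 tabD4 γ (tabD4.simple j) (tabD4.rf j γ)) γ h).imp_right fun ⟨_, _, h⟩ => ⟨_, _, Or.inl h⟩⟩
  · obtain rfl := Subsingleton.elim ‹Good chevF4› good_F4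
    exact ⟨sep_of ⟨a, ha⟩ tab_F4 True (fun _ => k3 (by simp)) (by decide +kernel), gen_of_pat ⟨a, ha⟩ tab_F4 fun γ h =>
      ((by decide +kernel : ∀ γ : Rt chevF4, Pos γ → (∃ i, γ = sim i) ∨ ∃ w ∈ [(24, 25), (24, 30), (24, 41), (24, 46),
        (25, 31), (25, 42), (25, 45), (27, 25), (27, 26), (27, 33), (27, 35), (27, 36), (27, 39), (28, 33), (28, 36), (29, 33),
        (30, 42), (33, 30), (33, 40)], Pat1 tabF4 γ w.1 w.2 ∨ Pat2 tabF4 γ w.1 w.2) γ h).imp_right fun ⟨_, _, h⟩ => ⟨_, _, h⟩⟩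
  · obtain rfl := Subsingleton.elim ‹Good chevE6› good_E6
    exact ⟨sep_of ⟨a, ha⟩ tab_E6 False False.elim (by decide +kernel), gen_of_pat ⟨a, ha⟩ tab_E6 fun γ h =>
      ((by decide +kernel : ∀ γ : Rt chevE6, Pos γ → (∃ i, γ = sim i) ∨ ∃ j < 6,
        Pat1 tabE6 γ (tabE6.simple j) (tabE6.rf j γ)) γ h).imp_right fun ⟨_, _, h⟩ => ⟨_, _, Or.inl h⟩⟩
  · obtain rfl := Subsingleton.elim ‹Good chevE7› good_E7
    exact ⟨sep_of ⟨a, ha⟩ tab_E7 False False.elim (by decide +kernel), gen_of_pat ⟨a, ha⟩ tab_E7 fun γ h =>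
      ((by decide +kernel : ∀ γ : Rt chevE7, Pos γ → (∃ i, γ = sim i) ∨ ∃ j < 7,
        Pat1 tabE7 γ (tabE7.simple j) (tabE7.rf j γ)) γ h).imp_right fun ⟨_, _, h⟩ => ⟨_, _, Or.inl h⟩⟩
  · obtain rfl := Subsingleton.elim ‹Good chevE8› good_E8
    exact ⟨sep_of ⟨a, ha⟩ tab_E8 False False.elim (by decide +kernel), gen_of_pat ⟨a, ha⟩ tab_E8 fun γ h =>
      ((by decide +kernel : ∀ γ : Rt chevE8, Pos γ → (∃ i, γ = sim i) ∨ ∃ j < 8,
        Pat1 tabE8 γ (tabE8.simple j) (tabE8.rf j γ)) γ h).imp_right fun ⟨_, _, h⟩ => ⟨_, _, Or.inl h⟩⟩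

end CA.H12WC
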