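import Cfsg.Agent.Lib.Perm.H19Bin2
import Cfsg.Agent.Lib.Lie.SzClass
import Cfsg.Agent.Lib.Lie.SzModel

/-! Binary actions of Suzuki groups, even stabilizers. -/

set_option autoImplicit false

namespace CA.BinSz
open Cfsg MulAction CA.SzBasic CA.SzGroup CA.SzTori CA.SzSub CA.SzClass CA.TorusCount CA.SplitOne
  Subgroup CA.Bin

variable {F : Type*} [Field F] [Fintype F] {m : ℕ} [hy : Hyp F m]
include hy

theorem inv_conj {s : G F} (s1 : s ≠ 1) (s2 : s * s = 1) {c : F} (hc : c ≠ 0) :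
    ∃ k, k * s * k⁻¹ = T 0 c := by
  obtain ⟨-, k, hk⟩ := mem_cls_U s1 (n := 1) (by simpa [sq] using s2)
  have h2 : k * s * k⁻¹ * (k * s * k⁻¹) = 1 := by
    calc _ = k * (s * s) * k⁻¹ := by group
      _ = 1 := by rw [s2]; group
  obtain ⟨b, hb⟩ := (sq_eq_one_iff hk).1 h2
  have hb0 : b ≠ 0 := by
    rintro rfl
    exact conj_ne_one s1 k (hb.trans T_zero)
  obtain ⟨μ, hμ⟩ := exists_scale hb0 hc
  refine ⟨D μ * k, ?_⟩
  calc _ = D μ * (k * s * k⁻¹) * (D μ)⁻¹ := by group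
    _ = _ := by rw [hb, D_conj_T, hμ, mul_zero]

theorem hone (s t : G F) (s1 : s ≠ 1) (s2 : s * s = 1) (t1 : t ≠ 1) (t2 : t * t = 1) :
    IsConj s t := by
  obtain ⟨k, hk⟩ := inv_conj s1 s2 one_ne_zero
  obtain ⟨l, hl⟩ := inv_conj t1 t2 one_ne_zero
  exact (isConj_iff.2 ⟨k, hk⟩).trans (isConj_iff.2 ⟨l, hl⟩).symm

theorem T0_sq (b : F) : T 0 b * T 0 b = 1 := by simp [T_sq]

theorem T0_ne {b : F} (hb : b ≠ 0) : T 0 b ≠ 1 := fun e => hb (T_eq_one.1 e).2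

theorem T0_comm (b a c : F) : T 0 b * T a c = T a c * T 0 b := by simp [T_comm]

theorem U_fix {u : G F} (hu : u ∈ U F) (u1 : u ≠ 1) {p : Ov F} (h : u • p = p) : p = inf := by
  by_contra hp
  exact u1 (split.semireg u hu p hp h)

theorem lam_ne (μ : Fˣ) : th F μ * (μ : F) ^ 2 ≠ 0 := by simp

theorem eq_top_zero {M : Subgroup (G F)} (hZ : Z F ≤ M) {g : G F} (hg : g ∈ M)
    (h0 : g • (inf : Ov F) = pt 0 0) : M = ⊤ := by
  have hne : (inf : Ov F) ≠ pt 0 0 := (pt_ne_inf _ _).symm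
  have s1 : T (0 : F) 1 ≠ 1 := T0_ne one_ne_zero
  have hs' : g * T 0 1 * g⁻¹ ∈ M := mul_mem (mul_mem hg (hZ (T_mem_Z 1))) (inv_mem hg)
  have s'2 : g * T 0 1 * g⁻¹ * (g * T 0 1 * g⁻¹) = 1 := by
    calc _ = g * (T 0 1 * T 0 1) * g⁻¹ := by group
      _ = 1 := by rw [T0_sq]; group
  have s'f : (g * T 0 1 * g⁻¹) • (pt 0 0 : Ov F) = pt 0 0 := by
    rw [← h0, fix_conj, T_inf]
  have hH : H F ≤ M := by
    rintro _ ⟨μ, rfl⟩
    obtain ⟨k, hk, k1, k2, k3⟩ := exists_conj_two hne (hZ (T_mem_Z 1)) s1 (T0_sq 1) (T_inf _ _)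
      (hZ (T_mem_Z (th F μ * μ ^ 2))) (T0_ne (lam_ne μ)) (T0_sq _) (T_inf _ _)
      hs' (conj_ne_one s1 g) s'2 s'f
    obtain ⟨ν, rfl⟩ := exists_eq_D k1 k2
    rw [D_conj_T, mul_one] at k3
    obtain rfl := scale_inj (T_inj.1 k3).2
    exact hk
  obtain ⟨u, hu, -, -, u1, u2⟩ := exists_swap hne (hZ (T_mem_Z 1)) s1 (T0_sq 1) (T_inf _ _)
    hs' (conj_ne_one s1 g) s'2 s'f
  obtain ⟨κ, hκ⟩ := exists_eq_D (g := J F * u) (by rw [mul_smul, u1, J_zero])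
    (by rw [mul_smul, u2, J_inf])
  have hu' : u = J F * D κ := by rw [← hκ, ← mul_assoc, J_mul_J, one_mul]
  have p0 : Pt M (pt 0 0) := ⟨_, hs', conj_ne_one s1 g, s'2, s'f⟩
  have p1 : Pt M (u • T (0 : F) 1 • (pt 0 0 : Ov F)) := (p0.smul (hZ (T_mem_Z 1))).smul hu
  have hf : f (0 : F) (th F κ * κ ^ 2) ≠ 0 := fun e => lam_ne κ (f_eq_zero e).2
  rw [T_pt_zero, hu', mul_smul, D_pt, mul_zero, mul_one, J_pt hf] at p1
  obtain ⟨x, x0, x1⟩ := exists_ne_zero_one F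
  obtain ⟨v, hv, ⟨a, b, rfl⟩, hv'⟩ := exists_U_smul (hZ (T_mem_Z 1)) s1 (T0_sq 1) (T_inf _ _)
    (hZ (T_mem_Z x)) (T0_ne x0) (T0_sq _) (T_inf _ _) (fun e => x1 (T_inj.1 e).2.symm)
    (pt_ne_inf _ _) (pt_ne_inf _ _) p0 p1
  rw [T_pt_zero] at hv'
  have ha : a ≠ 0 := by
    rw [(pt_inj.1 hv').1]
    exact div_ne_zero (lam_ne κ) hf
  refine eq_top_of_le split U_ne_bot (U_le_of_H_le hH ha hv) fun hle => ?_
  exact hne ((hle hg).symm.trans h0)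

theorem le_B {M : Subgroup (G F)} (hZ : Z F ≤ M) (hM : M ≠ ⊤) : M ≤ stabilizer (G F) (inf : Ov F) := by
  intro g hg
  rcases cases_pt (g • (inf : Ov F)) with h | ⟨x, y, h⟩
  · exact h
  exfalso
  have := eq_top_zero (M := M.comap (MulAut.conj (T x y)).toMonoidHom) (g := (T x y)⁻¹ * g * T x y)
    (by
      rintro _ ⟨b, rfl⟩
      change T x y * T 0 b * (T x y)⁻¹ ∈ M
      rw [← T0_comm, mul_inv_cancel_right]
      exact hZ (T_mem_Z b))
    (by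
      change T x y * ((T x y)⁻¹ * g * T x y) * (T x y)⁻¹ ∈ M
      simpa [mul_assoc] using hg)
    (by rw [mul_smul, mul_smul, T_inf, h, inv_smul_eq_iff, T_pt_zero])
  apply hM
  rw [eq_top_iff]
  intro z _
  have h1 : (T x y)⁻¹ * z * T x y ∈ M.comap (MulAut.conj (T x y)).toMonoidHom := this ▸ mem_top _
  change T x y * ((T x y)⁻¹ * z * T x y) * (T x y)⁻¹ ∈ M at h1
  simpa [mul_assoc] using h1

theorem inv_two (s : G F) (a b : Ov F) (s2 : s * s = 1) (hab : a ≠ b) (ha : s • a = a)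
    (hb : s • b = b) : s = 1 := by
  by_contra s1
  obtain ⟨k, hk⟩ := inv_conj s1 s2 one_ne_zero
  have h1 := U_fix (T_mem_U 0 1) (T0_ne one_ne_zero) (hk ▸ fix_conj.2 ha)
  have h2 := U_fix (T_mem_U 0 1) (T0_ne one_ne_zero) (hk ▸ fix_conj.2 hb)
  exact hab (smul_left_cancel k (h1.trans h2.symm))

variable {Ω : Type*} [MulAction (G F) Ω] [Finite Ω] [IsPretransitive (G F) Ω]

omit [Finite Ω] [IsPretransitive (G F) Ω] in
theorem fix_inv {ω : Ω} (hZ : Z F ≤ stabilizer (G F) ω) {s : G F} (s2 : s * s = 1) :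
    ∃ α : Ω, s • α = α := by
  by_cases s1 : s = 1
  · exact ⟨ω, by simp [s1]⟩
  obtain ⟨k, hk⟩ := inv_conj s1 s2 one_ne_zero
  refine ⟨k⁻¹ • ω, stab_smul_mem.2 ?_⟩
  rw [inv_inv, hk]
  exact hZ (T_mem_Z 1)

theorem le_U (h : Bin (G F) Ω) {ω : Ω} (hZ : Z F ≤ stabilizer (G F) ω)
    (hB : stabilizer (G F) ω ≤ stabilizer (G F) (inf : Ov F)) : stabilizer (G F) ω ≤ U F := by
  intro x hx
  by_contra hU
  obtain ⟨u, hu, μ, hμ⟩ := exists_conj_H (hB hx) hU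
  have hμ' : D μ = u * x * u⁻¹ := hμ
  have μ1 : μ ≠ 1 := by
    rintro rfl
    rw [D_one] at hμ'
    by_cases x1 : x = 1
    · exact hU (x1 ▸ one_mem _)
    · exact conj_ne_one x1 u hμ'.symm
  have k2 : J F * D μ * (J F * D μ) = 1 := by rw [J_mul_D]; exact DJ_sq _
  obtain ⟨α, hα⟩ := fix_inv hZ (J_mul_J (F := F))
  obtain ⟨β, hβ⟩ := fix_inv hZ k2
  obtain ⟨p, h1, h2⟩ := h.zas (X := Ov F) (fun ω' => by
      obtain ⟨k, rfl⟩ := exists_smul_eq (G F) ω ω'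
      exact ⟨k • inf, fun g hg => stab_smul_mem.2 (hB (stab_smul_mem.1 hg))⟩)
    (fun g a b c => eq_one_of_fix_three) inv_two J_mul_J k2 hα hβ (γ := u • ω)
    (by rw [mul_smul, hμ', fix_conj.2 hx])
  rw [mul_smul, ← h1, smul_left_cancel_iff, h1] at h2
  rcases D_fix μ1 h2 with rfl | rfl
  · exact pt_ne_inf _ _ (J_inf.symm.trans h1)
  · exact pt_ne_inf _ _ (J_zero.symm.trans h1).symm

theorem le_Z (h : Bin (G F) Ω) {ω : Ω} (hZ : Z F ≤ stabilizer (G F) ω)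
    (hU : stabilizer (G F) ω ≤ U F) : stabilizer (G F) ω ≤ Z F := by
  intro x hx
  obtain ⟨a, b, rfl⟩ := hU hx
  by_cases ha : a = 0
  · exact ha ▸ T_mem_Z b
  exfalso
  have fixU : ∀ u ∈ U F, ∃ α : Ω, u • α = α := by
    rintro _ ⟨a', b', rfl⟩
    by_cases ha' : a' = 0
    · exact ⟨ω, hZ (ha' ▸ T_mem_Z b')⟩
    obtain ⟨μ, hμ⟩ := exists_scale' ha' ha
    refine ⟨(D μ)⁻¹ • ω, stab_smul_mem.2 ?_⟩
    rw [inv_inv, D_conj_T, hμ]
    have := mul_mem hx (hZ (T_mem_Z (b + th F μ * μ ^ 2 * b')))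
    rwa [T_mul, add_zero, mul_zero, add_zero, ← add_assoc, SzGroup.add_self, zero_add] at this
  have w2 : T (1 : F) 0 * T 1 0 ≠ 1 := by simp [T_sq, T_eq_one]
  have w1 : T (1 : F) 0 ≠ 1 := fun e => w2 (by rw [e, one_mul])
  rcases cases_G (J F * T 1 0 * J F) with ⟨a, b, μ, e⟩ | ⟨a, b, μ, c, d, e⟩
  · have : (J F * T 1 0 * J F) • (inf : Ov F) = inf := by rw [e, mul_smul, D_inf, T_inf]
    rw [mul_smul, mul_smul, J_inf, T_pt_zero, ← J_zero, smul_left_cancel_iff] at this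
    exact one_ne_zero (pt_inj.1 this).1
  obtain ⟨γ, hγ⟩ := fix_inv hZ (DJ_sq μ)
  obtain ⟨α, hα⟩ := fixU _ (mul_mem (T_mem_U c d) (T_mem_U a b))
  obtain ⟨β, hβ⟩ := fixU _ (T_mem_U 1 0)
  have hv : (T c d * J F) * T 1 0 * (T c d * J F)⁻¹ = T c d * T a b * (D μ * J F) := by
    calc _ = T c d * (J F * T 1 0 * J F) * (T c d)⁻¹ := by rw [mul_inv_rev, J_inv]; group
      _ = _ := by rw [e]; group
  have u1 : T c d * T a b ≠ 1 := by
    intro e1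
    rw [e1, one_mul] at hv
    apply conj_ne_one w2 (T c d * J F)
    rw [← DJ_sq μ, ← hv]; group
  have := h.uni (X := Ov F) (fun ω' => by
      obtain ⟨k, rfl⟩ := exists_smul_eq (G F) ω ω'
      refine ⟨k • inf, fun g hg => ⟨stab_smul_mem.2 (split.le (hU (stab_smul_mem.1 hg))), ?_⟩⟩
      intro g1 q hq
      have := U_fix (hU (stab_smul_mem.1 hg)) (by simpa using conj_ne_one g1 k⁻¹) (p := k⁻¹ • q)
        (by rw [mul_smul, mul_smul, smul_inv_smul, hq])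
      rw [← this, smul_inv_smul])
    u1 (conj_ne_one w1 (T c d * J F)) hα (fix_conj.2 hβ) (γ := γ) (by rw [hv, mul_smul _ (D μ * J F), hγ])
    (p := inf) (by rw [mul_smul, T_inf, T_inf]) (fix_conj.2 (T_inf 1 0))
  rw [mul_smul, J_inf, T_pt_zero] at this
  exact pt_ne_inf _ _ this.symm

theorem even_case (h : Bin (G F) Ω) {ω : Ω} (hω : stabilizer (G F) ω ≠ ⊤)
    (he : Even (Nat.card (stabilizer (G F) ω))) : ∃ k : G F, stabilizer (G F) (k • ω) = Z F := by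
  obtain ⟨t, ht, t1, t2⟩ := exists_inv_of_even he
  obtain ⟨k, hk⟩ := inv_conj t1 t2 one_ne_zero
  have h1 : T (0 : F) 1 • k • ω = k • ω := by rw [← hk]; exact fix_conj.2 ht
  have hZ : Z F ≤ stabilizer (G F) (k • ω) := by
    rintro _ ⟨b, rfl⟩
    by_cases hb : b = 0
    · rw [hb, T_zero]; exact one_mem _
    exact h.fix_of_comm hone (T0_ne one_ne_zero) (T0_sq 1) (T0_ne hb) (T0_sq b) (T0_comm _ _ _) h1
  have hne : stabilizer (G F) (k • ω) ≠ ⊤ := by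
    intro e
    apply hω
    rw [eq_top_iff]
    intro g _
    have : k * g * k⁻¹ ∈ stabilizer (G F) (k • ω) := e ▸ mem_top _
    exact fix_conj.1 this
  exact ⟨k, le_antisymm (le_Z h hZ (le_U h hZ (le_B hZ hne))) hZ⟩

omit [Finite Ω] in
theorem bin_Z {ω : Ω} (hω : stabilizer (G F) ω = Z F) : Bin (G F) Ω := by
  have key : ∀ k g : G F, g • k • ω = k • ω ↔ g • k • (inf : Ov F) = k • inf ∧ g * g = 1 := by
    intro k g
    refine stab_smul_mem.trans ?_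
    rw [hω]
    have e : k⁻¹ * g * k * (k⁻¹ * g * k) = 1 ↔ g * g = 1 := by
      have : k⁻¹ * g * k * (k⁻¹ * g * k) = k⁻¹ * (g * g) * k⁻¹⁻¹ := by group
      rw [this, mul_inv_eq_one, mul_eq_left]
    constructor
    · intro h
      exact ⟨stab_smul_mem.2 (split.le (Z_le_U h)), e.1 ((sq_eq_one_iff (Z_le_U h)).2 h)⟩
    · rintro ⟨h1, h2⟩
      exact mem_Z_of_inv (stab_smul_mem.1 h1) (e.2 h2)
  refine bin_of_inv (fun α g hg => ?_) fun α β g g' hg hg' g1 g1' hc => ?_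
  · obtain ⟨k, rfl⟩ := exists_smul_eq (G F) ω α
    exact ((key k g).1 hg).2
  · obtain ⟨k, rfl⟩ := exists_smul_eq (G F) ω α
    obtain ⟨k', rfl⟩ := exists_smul_eq (G F) ω β
    obtain ⟨a1, a2⟩ := (key _ _).1 hg
    obtain ⟨b1, b2⟩ := (key _ _).1 hg'
    have c1 : g • g' • k • (inf : Ov F) = g' • k • inf := by rw [← mul_smul, hc, mul_smul, a1]
    have c2 : g' • k • (inf : Ov F) = k • inf := by
      by_contra hne
      exact g1 (inv_two g _ _ a2 hne c1 a1)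
    have c3 : k • (inf : Ov F) = k' • inf := by
      by_contra hne
      exact g1' (inv_two g' _ _ b2 hne c2 b1)
    ext z
    rw [mem_stabilizer_iff, mem_stabilizer_iff, key, key, c3]

end CA.BinSz
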