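import Cfsg.Agent.Lib.Lie.H19BinSz

/-! Binary actions of Suzuki groups, odd stabilizers. -/

set_option autoImplicit false

namespace CA.BinSz
open Cfsg MulAction CA.SzBasic CA.SzGroup CA.SzTori CA.SzSub CA.SzClass CA.TorusCount CA.SplitOne
  Subgroup CA.Bin

section
variable {G : Type*} [Group G]

structure Tor (A : Subgroup G) : Prop where
  cc : CC A
  odd : Odd (Nat.card A)
  four : ∀ n ∈ normalizer (A : Set G), n ^ 4 ∈ A
  ex : ∃ n ∈ normalizer (A : Set G), n ∉ A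

theorem mem_conj {A : Subgroup G} {k y : G} :
    y ∈ A.map (MulAut.conj k).toMonoidHom ↔ k⁻¹ * y * k ∈ A := by
  rw [mem_map_equiv]; simp

theorem norm_conj {A : Subgroup G} {k y : G} :
    y ∈ normalizer (A.map (MulAut.conj k).toMonoidHom : Set G) ↔
      k⁻¹ * y * k ∈ normalizer (A : Set G) := by
  rw [mem_normalizer_iff, mem_normalizer_iff]
  constructor
  · intro h z
    have := h (k * z * k⁻¹)
    rw [mem_conj, mem_conj] at this
    simpa [mul_assoc] using this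
  · intro h z
    rw [mem_conj, mem_conj, h]
    simp [mul_assoc]

theorem Tor.conj {A : Subgroup G} (h : Tor A) (k : G) : Tor (A.map (MulAut.conj k).toMonoidHom) := by
  refine ⟨fun y hy y1 => ?_, ?_, fun n hn => ?_, ?_⟩
  · have e : y = k * (k⁻¹ * y * k) * k⁻¹ := by group
    rw [e, cent_conj, h.cc _ (mem_conj.1 hy) (by simpa using conj_ne_one y1 k⁻¹)]
  · rw [card_map_of_injective (MulAut.conj k).injective]; exact h.odd
  · have := h.four _ (norm_conj.1 hn)
    rw [mem_conj]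
    convert this using 1
    have e : k⁻¹ * n * k = k⁻¹ * n * k⁻¹⁻¹ := by group
    rw [e, conj_pow, inv_inv]
  · obtain ⟨n, h1, h2⟩ := h.ex
    exact ⟨k * n * k⁻¹, norm_conj.2 (by simpa [mul_assoc] using h1), fun h3 =>
      h2 (by simpa [mul_assoc] using mem_conj.1 h3)⟩

theorem Tor.cent {A : Subgroup G} (h : Tor A) {x : G} (hx : x ∈ Cls A) : Tor (centralizer {x}) := by
  obtain ⟨x1, k, hk⟩ := hx
  have e : x = k⁻¹ * (k * x * k⁻¹) * k⁻¹⁻¹ := by group
  rw [e, cent_conj, h.cc _ hk (conj_ne_one x1 k)]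
  exact h.conj _

theorem Tor.inv [Finite G] {A : Subgroup G} (h : Tor A) :
    ∃ t ∈ normalizer (A : Set G), t ≠ 1 ∧ t * t = 1 := by
  obtain ⟨n, h1, h2⟩ := h.ex
  rcases Nat.even_or_odd (orderOf n) with he | ho
  · obtain ⟨j, j1, j2⟩ := exists_inv_pow he
    exact ⟨_, pow_mem h1 j, j1, j2⟩
  · exact absurd (mem_of_pow_four ho (h.four n h1)) h2

theorem tor_of [Finite G] {A : Subgroup G} (hc : CC A) (ho : Odd (Nat.card A))
    (h : A.relIndex (normalizer (A : Set G)) = 4) : Tor A := by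
  refine ⟨hc, ho, fun n hn => ?_, ?_⟩
  · have := (A.subgroupOf (normalizer (A : Set G))).pow_index_mem ⟨n, hn⟩
    rw [show (A.subgroupOf (normalizer (A : Set G))).index = 4 from h] at this
    exact this
  · by_contra hne
    push Not at hne
    rw [relIndex_eq_one.2 hne] at h
    omega

end

variable {F : Type*} [Field F] [Fintype F] {m : ℕ} [hy : Hyp F m]
include hy

theorem tor_H : Tor (H F) := by
  refine ⟨cc_H, odd_card_H, fun n hn => ?_, J F, J_mem_normalizer_H, J_not_mem_H⟩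
  rcases mem_normalizer_H.1 hn with h | ⟨κ, rfl⟩
  · exact pow_mem h 4
  · have : (D κ * J F) ^ (2 * 2) = 1 := by rw [pow_mul, sq (D κ * J F), DJ_sq, one_pow]
    exact this ▸ one_mem _

theorem tor_cent {x : G F} (x1 : x ≠ 1) (hx : x ∉ Cls (U F)) : Tor (centralizer {x}) := by
  rcases cases_elt x1 with h | h | h
  · exact absurd h hx
  · exact tor_H.cent h
  obtain ⟨y, hy1, z, hz1, c1, c2, r1, r2, -, h4⟩ := exists_tori (F := F)
  rcases h4 x h with h | h
  · exact (tor_of (cc_cent hy1) (odd_order (F := F) (Or.inr (Or.inl c1))) r1).cent h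
  · exact (tor_of (cc_cent hz1) (odd_order (F := F) (Or.inr (Or.inr c2))) r2).cent h

theorem comm_mem_U {y z : G F} (h1 : y • (inf : Ov F) = inf) (h2 : z • (inf : Ov F) = inf) :
    y * z * y⁻¹ * z⁻¹ ∈ U F := by
  obtain ⟨a, b, μ, rfl⟩ := exists_eq_T_mul_D h1
  obtain ⟨c, d, ν, rfl⟩ := exists_eq_T_mul_D h2
  have e : T a b * D μ * (T c d * D ν) * (T a b * D μ)⁻¹ * (T c d * D ν)⁻¹ =
      T a b * (D μ * T c d * (D μ)⁻¹) * (D ν * (T a b)⁻¹ * (D ν)⁻¹) * (T c d)⁻¹ := by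
    calc _ = T a b * D μ * T c d * (D μ)⁻¹ * (D μ * D ν) * (D μ)⁻¹ * (T a b)⁻¹ * (D ν)⁻¹ * (T c d)⁻¹ := by
          group
      _ = _ := by rw [D_comm]; group
  rw [e]
  exact mul_mem (mul_mem (mul_mem (T_mem_U _ _) (split.conj_mem _ (D_inf μ) _ (T_mem_U _ _)))
    (split.conj_mem _ (D_inf ν) _ (inv_mem (T_mem_U _ _)))) (inv_mem (T_mem_U _ _))

theorem le_cent {M : Subgroup (G F)} (ho : Odd (Nat.card M)) (hM : M ≠ ⊥) :
    ∃ x ∈ M, x ≠ 1 ∧ M ≤ centralizer {x} := by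
  rcases classify M with h | ⟨g, K, h, -⟩
  · rcases solvable_cases h with ⟨a, ha⟩ | ⟨x, hx, x1, hU, h⟩
    · obtain ⟨⟨x, hx⟩, x1⟩ := (ne_bot_iff_exists_ne_one.1 hM)
      refine ⟨x, hx, fun e => x1 (Subtype.ext e), fun y hy => ?_⟩
      rw [mem_centralizer_singleton_iff]
      by_contra hne
      have c1 : y * x * y⁻¹ * x⁻¹ ≠ 1 := fun e => hne (by
        rw [mul_inv_eq_one, mul_inv_eq_iff_eq_mul] at e; exact e)
      apply not_cls_U_of_odd (odd_orderOf ho
        (mul_mem (mul_mem (mul_mem hy hx) (inv_mem hy)) (inv_mem hx)))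
      haveI := (two_trans (F := F))
      haveI : IsPretransitive (G F) (Ov F) := isPretransitive_of_is_two_pretransitive
      obtain ⟨k, rfl⟩ := exists_smul_eq (G F) a inf |>.imp fun k (hk : k • a = inf) =>
        (show a = k⁻¹ • inf by rw [← hk, inv_smul_smul])
      refine ⟨c1, k, ?_⟩
      have := comm_mem_U (stab_smul_mem.1 (ha hy)) (stab_smul_mem.1 (ha hx))
      convert this using 1
      group
    · exact ⟨x, hx, x1, fun y hy =>
        mem_of_pow_four (odd_orderOf ho hy) ((tor_cent x1 hU).four y (h hy))⟩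
  · exfalso
    have : J F ∈ M.map (MulAut.conj g).toMonoidHom := h ▸ J_mem_Sub
    refine J_ne_one (eq_one_of_odd ?_ this J_mul_J)
    rw [card_map_of_injective (MulAut.conj g).injective]; exact ho

theorem exists_u (y : F) (κ : Fˣ) : ∃ ν : Fˣ, ∃ v ∈ U F, ∃ v' ∈ U F,
    J F * (D ν * T 1 y * (D ν)⁻¹) * J F = v * D κ * J F * v' := by
  rcases cases_G (J F * T 1 y * J F) with ⟨a, b, μ, e⟩ | ⟨a, b, μ, c, d, e⟩
  · have : (J F * T 1 y * J F) • (inf : Ov F) = inf := by rw [e, mul_smul, D_inf, T_inf]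
    rw [mul_smul, mul_smul, J_inf, T_pt_zero, ← J_zero, smul_left_cancel_iff] at this
    exact absurd (pt_inj.1 this).1 one_ne_zero
  obtain ⟨ν, hν⟩ := exists_sq (μ * κ⁻¹)
  refine ⟨ν, _, split.conj_mem _ (D_inf ν⁻¹) _ (T_mem_U a b), _,
    split.conj_mem _ (D_inf ν⁻¹) _ (T_mem_U c d), ?_⟩
  have h1 : D μ = D ν * D κ * D ν := by
    rw [← D_mul, ← D_mul, mul_right_comm, hν, inv_mul_cancel_right]
  have h2 : J F * D ν = (D ν)⁻¹ * J F := by rw [J_mul_D, D_inv]
  have h3 : (D ν)⁻¹ * J F = J F * D ν := h2.symm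
  have h4 : D ν * J F = J F * (D ν)⁻¹ := by rw [← D_inv, J_mul_D, inv_inv]
  calc _ = (J F * D ν) * T 1 y * ((D ν)⁻¹ * J F) := by group
    _ = (D ν)⁻¹ * (J F * T 1 y * J F) * D ν := by rw [h2, h3]; nth_rw 1 [h2]; group
    _ = (D ν)⁻¹ * T a b * D ν * D κ * (D ν * J F) * T c d * D ν := by rw [e, h1]; group
    _ = _ := by rw [h4, D_inv]; group

theorem J_conj_D_T (κ : Fˣ) (c : F) :
    D κ * (J F * T 0 c * J F) * (D κ)⁻¹ = J F * (D κ⁻¹ * T 0 c * (D κ⁻¹)⁻¹) * J F := by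
  have h4 : D κ * J F = J F * D κ⁻¹ := by rw [J_mul_D, inv_inv]
  have h5 : J F * (D κ)⁻¹ = (D κ⁻¹)⁻¹ * J F := by rw [← D_inv, J_mul_D, D_inv]
  calc _ = (D κ * J F) * T 0 c * (J F * (D κ)⁻¹) := by group
    _ = _ := by rw [h4, h5]; group

variable {Ω : Type*} [MulAction (G F) Ω] [Finite Ω]

theorem odd_core (h : Bin (G F) Ω) {ω : Ω} {A : Subgroup (G F)} (hA : Tor A)
    (hω : stabilizer (G F) ω ≤ A) {b c : F} (hb : b ≠ 0) (hc : c ≠ 0)
    (hx : (T 0 b * (J F * T 0 c * J F)) • ω = ω) (hn : T 0 b ∈ normalizer (A : Set (G F))) :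
    False := by
  set s2 := J F * T 0 c * J F with hs2
  have x1 : T 0 b * s2 ≠ 1 := by
    intro e
    have : (T 0 b * s2) • (pt 0 0 : Ov F) = pt 0 0 := by rw [e, one_smul]
    rw [hs2, mul_smul, mul_smul, mul_smul, J_zero, T_inf, J_inf, T_pt_zero] at this
    exact hb (pt_inj.1 this).2
  have s22 : s2 * s2 = 1 := by
    calc _ = J F * T 0 c * (J F * J F) * T 0 c * J F := by rw [hs2]; group
      _ = J F * (T 0 c * T 0 c) * J F := by rw [J_mul_J]; group
      _ = 1 := by rw [T0_sq, mul_one, J_mul_J]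
  have hZ : ∀ e : F, e ≠ 0 → T 0 e ∈ normalizer (A : Set (G F)) → e = b := by
    intro e he hen
    have i1 := inv_of_cc hA.cc hA.odd hn (T0_ne hb) (T0_sq b) (hω hx)
    have i2 := inv_of_cc hA.cc hA.odd hen (T0_ne he) (T0_sq e) (inv_mem (hω hx))
    have : T 0 e * T 0 b ∈ A := by
      rw [← hA.cc _ (hω hx) x1, mem_centralizer_singleton_iff, ← mul_inv_eq_iff_eq_mul]
      calc _ = T 0 e * (T 0 b * (T 0 b * s2) * (T 0 b)⁻¹) * (T 0 e)⁻¹ := by group
        _ = _ := by rw [i1, i2, inv_inv]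
    rw [T_mul, add_zero, mul_zero, add_zero] at this
    have := (T_eq_one.1 (eq_one_of_odd hA.odd this (T0_sq _))).2
    rw [← add_zero e, ← SzGroup.add_self b, ← add_assoc, this, zero_add]
  obtain ⟨ρ, hρ⟩ := exists_scale hb hc
  have key : ∀ y : F, ∃ ν : Fˣ, D ν * T 1 y * (D ν)⁻¹ ∈ normalizer (A : Set (G F)) := by
    intro y
    obtain ⟨ν, v, hv, v', hv', e⟩ := exists_u y ρ
    refine ⟨ν, ?_⟩
    set u := D ν * T 1 y * (D ν)⁻¹ with hu
    have hu' : u ∈ U F := split.conj_mem _ (D_inf ν) _ (T_mem_U _ _)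
    have cZ : ∀ w ∈ U F, ∀ e : F, w * T 0 e = T 0 e * w := by
      rintro _ ⟨a, b, rfl⟩ e; exact (T0_comm _ _ _).symm
    refine h.cc hA.cc hω (k := u * (T 0 b * s2) * u⁻¹) (w := J F * v * D ρ) x1 hx (fix_conj.2 hx)
      (conj_ne_one x1 u) ?_
    have e1 : u * (T 0 b * s2) * u⁻¹ =
        (T 0 b * s2) * ((J F * v * D ρ) * (T 0 b * s2) * (J F * v * D ρ)⁻¹) := by
      have e2 : u = J F * (v * D ρ * J F * v') * J F := by
        rw [← e]
        calc u = (J F * J F) * u * (J F * J F) := by rw [J_mul_J]; group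
          _ = _ := by group
      have e3 : u * s2 * u⁻¹ = J F * v * (D ρ * s2 * (D ρ)⁻¹) * v⁻¹ * J F := by
        rw [e2, hs2]
        simp only [mul_inv_rev, J_inv]
        calc _ = J F * v * D ρ * J F * v' * (J F * J F) * T 0 c * (J F * J F) * v'⁻¹ * J F *
              (D ρ)⁻¹ * v⁻¹ * J F := by group
          _ = J F * v * D ρ * J F * (v' * T 0 c) * v'⁻¹ * J F * (D ρ)⁻¹ * v⁻¹ * J F := by
              rw [J_mul_J]; group
          _ = _ := by rw [cZ v' hv']; group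
      have e4 : D ρ * T 0 b * (D ρ)⁻¹ = T 0 c := by rw [D_conj_T, hρ, mul_zero]
      have e5 : J F * v * T 0 c * v⁻¹ * J F = s2 := by
        rw [mul_assoc (J F), cZ v hv, hs2]; group
      calc _ = (u * T 0 b) * u⁻¹ * (u * s2 * u⁻¹) := by group
        _ = T 0 b * (s2 * s2) * (u * s2 * u⁻¹) := by rw [cZ u hu', s22]; group
        _ = T 0 b * s2 * (J F * v * T 0 c * v⁻¹ * (J F * J F) * v * (D ρ * s2 * (D ρ)⁻¹) * v⁻¹ * J F) := by
            rw [e3]; nth_rw 2 [← e5]; group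
        _ = _ := by rw [J_mul_J, ← e4, mul_inv_rev, mul_inv_rev, J_inv]; group
    rw [e1, mul_smul (T 0 b * s2), fix_conj.2 hx]
  have k2 : ∀ y : F, ∃ ν : Fˣ, T (th F ν) (th F ν * ν ^ 2 * y) ∈ normalizer (A : Set (G F)) ∧
      th F (th F ν) * th F ν = b := by
    intro y
    obtain ⟨ν, h1⟩ := key y
    rw [D_conj_T, mul_one] at h1
    refine ⟨ν, h1, hZ _ (by simp) ?_⟩
    rw [← T_sq]; exact mul_mem h1 h1
  obtain ⟨ν, n0, hν⟩ := k2 0
  have k3 : ∀ y : F, y ≠ 0 → th F ν * ν ^ 2 * y = b := by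
    intro y y0
    obtain ⟨ν', n1, hν'⟩ := k2 y
    obtain rfl : ν = ν' := Units.ext (th_injective (mul_th_inj (hν.trans hν'.symm)))
    refine hZ _ (mul_ne_zero (lam_ne ν) y0) ?_
    have := mul_mem (inv_mem n0) n1
    rw [T_inv, T_mul, SzGroup.add_self, mul_zero, zero_add, add_right_comm, SzGroup.add_self,
      zero_add] at this
    exact this
  obtain ⟨z, z0, z1⟩ := exists_ne_zero_one F
  exact z1 (mul_left_cancel₀ (lam_ne ν) ((k3 z z0).trans (k3 1 one_ne_zero).symm))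

theorem odd_case (h : Bin (G F) Ω) {ω : Ω} (ho : Odd (Nat.card (stabilizer (G F) ω))) :
    stabilizer (G F) ω = ⊥ := by
  by_contra hM
  obtain ⟨x, hx, x1, hle⟩ := le_cent ho hM
  have hU := not_cls_U_of_odd (odd_orderOf ho hx)
  have hA := tor_cent x1 hU
  obtain ⟨t, ht, t1, t2⟩ := hA.inv
  have hxA : x ∈ centralizer {x} := mem_centralizer_singleton_iff.2 rfl
  have i1 := inv_of_cc hA.cc hA.odd ht t1 t2 hxA
  have ht' : t⁻¹ = t := inv_eq_of_mul_eq_one_right t2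
  have s2 : t * x * (t * x) = 1 := by
    calc _ = (t * x * t⁻¹) * x := by rw [ht']; group
      _ = 1 := by rw [i1]; group
  have s1 : t * x ≠ 1 := by
    intro e
    have : x = t := by rw [← ht', inv_eq_of_mul_eq_one_right e]
    exact t1 (eq_one_of_odd ho (this ▸ hx) t2)
  have ex : x = t * (t * x) := by rw [← mul_assoc, t2, one_mul]
  obtain ⟨k1, hk1⟩ := inv_conj t1 t2 one_ne_zero
  obtain ⟨k2, hk2⟩ := inv_conj s1 s2 one_ne_zero
  have p1 : t • k1⁻¹ • (inf : Ov F) = k1⁻¹ • inf := stab_smul_mem.2 (by rw [inv_inv, hk1]; exact T_inf _ _)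
  have p2 : (t * x) • k2⁻¹ • (inf : Ov F) = k2⁻¹ • inf :=
    stab_smul_mem.2 (by rw [inv_inv, hk2]; exact T_inf _ _)
  have inv2 : ∀ {s : G F} (k : G F), s * s = 1 → k * s * k⁻¹ * (k * s * k⁻¹) = 1 := by
    intro s k hs
    calc _ = k * (s * s) * k⁻¹ := by group
      _ = 1 := by rw [hs]; group
  have hne : k1⁻¹ • (inf : Ov F) ≠ k2⁻¹ • inf := by
    intro e
    rw [← e] at p2
    have a1 := mem_Z_of_inv (s := k1 * (t * x) * k1⁻¹) (by simpa using stab_smul_mem.1 p2) (inv2 _ s2)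
    refine hU ⟨x1, k1, ?_⟩
    have := mul_mem (hk1 ▸ T_mem_U 0 1) (Z_le_U a1)
    convert this using 1
    rw [ex]; nth_rw 2 [← ex]; group
  obtain ⟨k, e1, e2⟩ := split.two' hne (pt_ne_inf (0 : F) 0).symm
  obtain ⟨b, hb⟩ := mem_Z_of_inv (s := k * t * k⁻¹) (e1 ▸ fix_conj.2 p1) (inv2 _ t2)
  obtain ⟨c, hc⟩ := mem_Z_of_inv (s := J F * (k * (t * x) * k⁻¹) * (J F)⁻¹)
    (J_zero (F := F) ▸ fix_conj.2 (e2 ▸ fix_conj.2 p2)) (inv2 _ (inv2 _ s2))
  have hc' : J F * T 0 c * J F = k * (t * x) * k⁻¹ := by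
    rw [← hc, J_inv]
    calc _ = (J F * J F) * (k * (t * x) * k⁻¹) * (J F * J F) := by group
      _ = _ := by rw [J_mul_J]; group
  refine odd_core h (ω := k • ω) (hA.conj k) (fun y hy => mem_conj.2 (hle (stab_smul_mem.1 hy)))
    (b := b) (c := c) ?_ ?_ ?_ ?_
  · rintro rfl
    exact conj_ne_one t1 k (hb.trans T_zero)
  · rintro rfl
    exact conj_ne_one (conj_ne_one s1 k) _ (hc.trans T_zero)
  · rw [hc', ← hb]
    have : k * t * k⁻¹ * (k * (t * x) * k⁻¹) = k * x * k⁻¹ := by nth_rw 2 [ex]; group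
    rw [this]; exact fix_conj.2 hx
  · rw [← hb, norm_conj]
    simpa [mul_assoc] using ht

theorem main [IsPretransitive (G F) Ω] {ω : Ω} (hω : stabilizer (G F) ω ≠ ⊤) :
    Bin (G F) Ω ↔ stabilizer (G F) ω = ⊥ ∨ ∃ k : G F, stabilizer (G F) (k • ω) = Z F := by
  constructor
  · intro h
    rcases Nat.even_or_odd (Nat.card (stabilizer (G F) ω)) with he | ho
    · exact Or.inr (even_case h hω he)
    · exact Or.inl (odd_case h ho)
  · rintro (h | ⟨k, hk⟩)
    · refine bin_of fun α β _ _ _ _ _ _ => Or.inl ?_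
      have : ∀ α : Ω, stabilizer (G F) α = ⊥ := by
        intro α
        obtain ⟨k, rfl⟩ := exists_smul_eq (G F) ω α
        rw [eq_bot_iff]
        intro g hg
        have := stab_smul_mem.1 hg
        rw [h, mem_bot] at this
        by_contra g1
        exact conj_ne_one g1 k⁻¹ (by simpa using this)
      rw [this, this]
    · exact bin_Z hk

theorem cen_U {g : G F} : g ∈ (center (U F)).map (U F).subtype ↔ g ∈ Z F := by
  constructor
  · rintro ⟨u, hu, rfl⟩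
    exact mem_center_U.1 hu
  · intro h
    exact ⟨⟨g, Z_le_U h⟩, mem_center_U.2 h, rfl⟩

omit [Finite Ω] in
theorem cen_iff {ω : Ω} : (∃ k : G F, stabilizer (G F) (k • ω) = Z F) ↔
    ∃ P : Sylow 2 (G F), stabilizer (G F) ω = (center (P : Subgroup (G F))).map (P : Subgroup (G F)).subtype := by
  constructor
  · rintro ⟨k, hk⟩
    obtain ⟨P, hP⟩ := exists_sylow_equiv (MulAut.conj k).symm (sylU (F := F))
    refine ⟨P, Subgroup.ext fun g => ?_⟩
    have := cen_equiv (MulAut.conj k).symm hP (k * g * k⁻¹)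
    rw [coe_sylU, cen_U, ← hk] at this
    refine (fix_conj.symm.trans this).trans ?_
    simp [mul_assoc]
  · rintro ⟨P, hP⟩
    obtain ⟨k, hk⟩ := exists_sylow_eq P
    refine ⟨k⁻¹, Subgroup.ext fun g => ?_⟩
    rw [stab_smul_mem, hP, ← cen_U, inv_inv]
    refine (cen_equiv (MulAut.conj k) (fun y => ?_) g).symm
    rw [hk, mem_conj]; simp [mul_assoc]

end CA.BinSz
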