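import Mathlib
import Cfsg.Prelude.Def_G2

/-!
The octonion group `G2 F`: action on vectors, the subgroup `SO₄⁺` (Cayley-Dickson form), transitivity on idempotents.
-/

set_option autoImplicit false
set_option linter.unusedSimpArgs false

namespace CA.H19G2

open Cfsg Cfsg.Lie Matrix
open scoped MatrixGroups

variable {F : Type*} [Field F]

instance act : MulAction (G2 F) (Fin 8 → F) where
  smul g x := ((g : GL (Fin 8) F) : Matrix (Fin 8) (Fin 8) F) *ᵥ x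
  one_smul x := Matrix.one_mulVec x
  mul_smul g h x := (Matrix.mulVec_mulVec x _ _).symm

theorem smul_def (g : G2 F) (x : Fin 8 → F) :
    g • x = ((g : GL (Fin 8) F) : Matrix (Fin 8) (Fin 8) F) *ᵥ x := rfl

theorem smul_zorn (g : G2 F) (x y : Fin 8 → F) : g • zornMul x y = zornMul (g • x) (g • y) := g.2 x y

theorem smul_add' (g : G2 F) (x y : Fin 8 → F) : g • (x + y) = g • x + g • y := Matrix.mulVec_add _ _ _

theorem smul_smul' (g : G2 F) (c : F) (x : Fin 8 → F) : g • (c • x) = c • (g • x) := Matrix.mulVec_smul _ _ _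

theorem ext_smul {g h : G2 F} (e : ∀ x : Fin 8 → F, g • x = h • x) : g = h := by
  apply Subtype.ext
  apply Units.ext
  exact Matrix.toLin'.injective (LinearMap.ext fun x => by rw [Matrix.toLin'_apply, Matrix.toLin'_apply]; exact e x)

theorem zorn_eq (a0 a1 a2 a3 a4 a5 a6 a7 b0 b1 b2 b3 b4 b5 b6 b7 : F) :
    zornMul ![a0, a1, a2, a3, a4, a5, a6, a7] ![b0, b1, b2, b3, b4, b5, b6, b7] =
      ![a0 * b0 + (a1 * b4 + a2 * b5 + a3 * b6), a0 * b1 + b7 * a1 - (a5 * b6 - a6 * b5),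
        a0 * b2 + b7 * a2 - (a6 * b4 - a4 * b6), a0 * b3 + b7 * a3 - (a4 * b5 - a5 * b4),
        b0 * a4 + a7 * b4 + (a2 * b3 - a3 * b2), b0 * a5 + a7 * b5 + (a3 * b1 - a1 * b3),
        b0 * a6 + a7 * b6 + (a1 * b2 - a2 * b1), a4 * b1 + a5 * b2 + a6 * b3 + a7 * b7] := rfl

theorem vec8 (x : Fin 8 → F) : ∃ a0 a1 a2 a3 a4 a5 a6 a7, x = ![a0, a1, a2, a3, a4, a5, a6, a7] :=
  ⟨x 0, x 1, x 2, x 3, x 4, x 5, x 6, x 7, by ext i; fin_cases i <;> rfl⟩

theorem vec8_inj {a0 a1 a2 a3 a4 a5 a6 a7 b0 b1 b2 b3 b4 b5 b6 b7 : F} :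
    (![a0, a1, a2, a3, a4, a5, a6, a7] : Fin 8 → F) = ![b0, b1, b2, b3, b4, b5, b6, b7] ↔
      a0 = b0 ∧ a1 = b1 ∧ a2 = b2 ∧ a3 = b3 ∧ a4 = b4 ∧ a5 = b5 ∧ a6 = b6 ∧ a7 = b7 := by
  simp only [Matrix.vecCons_inj, and_true]

/-- an element of `G2` from a multiplicative linear equivalence -/
def ofHom {M : Type*} [Group M] (φ : M →* Module.End F (Fin 8 → F))
    (h : ∀ m x y, φ m (zornMul x y) = zornMul (φ m x) (φ m y)) : M →* G2 F :=
  ((LinearMap.toMatrixAlgEquiv' (R := F) (n := Fin 8)).toMulEquiv.toMonoidHom.comp φ).toHomUnits.codRestrict _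
    fun m x y => by
      have e : ∀ z, LinearMap.toMatrix' (φ m) *ᵥ z = φ m z := fun z => LinearMap.toMatrix'_mulVec _ _
      exact (e _).trans ((h m x y).trans (congrArg₂ zornMul (e x).symm (e y).symm))

theorem ofHom_smul {M : Type*} [Group M] (φ : M →* Module.End F (Fin 8 → F))
    (h : ∀ m x y, φ m (zornMul x y) = zornMul (φ m x) (φ m y)) (m : M) (x : Fin 8 → F) :
    ofHom φ h m • x = φ m x := LinearMap.toMatrix'_mulVec (φ m) x

abbrev M2 (F : Type*) := Matrix (Fin 2) (Fin 2) F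

/-- Cayley-Dickson coordinates -/
def enc : (Fin 8 → F) ≃ₗ[F] M2 F × M2 F where
  toFun x := (!![x 0, x 3; x 6, x 7], !![x 1, x 5; x 2, -x 4])
  invFun y := ![y.1 0 0, y.2 0 0, y.2 1 0, y.1 0 1, -y.2 1 1, y.2 0 1, y.1 1 0, y.1 1 1]
  map_add' x y := by
    refine Prod.ext ?_ ?_ <;> ext i j <;> fin_cases i <;> fin_cases j <;> simp [add_comm]
  map_smul' c x := by
    refine Prod.ext ?_ ?_ <;> ext i j <;> fin_cases i <;> fin_cases j <;> simp
  left_inv x := by ext i; fin_cases i <;> simp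
  right_inv y := by
    refine Prod.ext ?_ ?_ <;> ext i j <;> fin_cases i <;> fin_cases j <;> simp

theorem enc_apply (a0 a1 a2 a3 a4 a5 a6 a7 : F) :
    enc ![a0, a1, a2, a3, a4, a5, a6, a7] = (!![a0, a3; a6, a7], !![a1, a5; a2, -a4]) := rfl

def cd (x y : M2 F × M2 F) : M2 F × M2 F :=
  (x.1 * y.1 - adjugate y.2 * x.2, y.2 * x.1 + x.2 * adjugate y.1)

theorem enc_zorn (x y : Fin 8 → F) : enc (zornMul x y) = cd (enc x) (enc y) := by
  obtain ⟨a0, a1, a2, a3, a4, a5, a6, a7, rfl⟩ := vec8 x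
  obtain ⟨b0, b1, b2, b3, b4, b5, b6, b7, rfl⟩ := vec8 y
  rw [zorn_eq, enc_apply, enc_apply, enc_apply, cd]
  refine Prod.ext ?_ ?_ <;> ext i j <;> fin_cases i <;> fin_cases j <;>
    simp [adjugate_fin_two, Matrix.mul_apply, Fin.sum_univ_two] <;> ring

/-- pairs with equal determinant -/
def Gm (F : Type*) [Field F] : Subgroup (GL (Fin 2) F × GL (Fin 2) F) :=
  MonoidHom.eqLocus (GeneralLinearGroup.det.comp (MonoidHom.fst _ _)) (GeneralLinearGroup.det.comp (MonoidHom.snd _ _))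

theorem mem_Gm {u v : GL (Fin 2) F} : (u, v) ∈ Gm F ↔ GeneralLinearGroup.det u = GeneralLinearGroup.det v := Iff.rfl

def cdA (u v : GL (Fin 2) F) : Module.End F (M2 F × M2 F) where
  toFun y := ((u : M2 F) * y.1 * ((u⁻¹ : GL (Fin 2) F) : M2 F), (v : M2 F) * y.2 * ((u⁻¹ : GL (Fin 2) F) : M2 F))
  map_add' x y := by simp [Matrix.mul_add, Matrix.add_mul]
  map_smul' c x := by simp

theorem adj_gl (u : GL (Fin 2) F) : adjugate (u : M2 F) = (u : M2 F).det • ((u⁻¹ : GL (Fin 2) F) : M2 F) := by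
  have h : (u : M2 F) * ((u⁻¹ : GL (Fin 2) F) : M2 F) = 1 := u.mul_inv
  calc adjugate (u : M2 F) = adjugate (u : M2 F) * ((u : M2 F) * ((u⁻¹ : GL (Fin 2) F) : M2 F)) := by
        rw [h, mul_one]
    _ = _ := by rw [← mul_assoc, adjugate_mul, smul_mul_assoc, one_mul]

theorem cdA_cd {u v : GL (Fin 2) F} (h : (u, v) ∈ Gm F) (x y : M2 F × M2 F) :
    cdA u v (cd x y) = cd (cdA u v x) (cdA u v y) := by
  have hd : (u : M2 F).det = (v : M2 F).det := congrArg Units.val (mem_Gm.1 h)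
  have h1 : ∀ A : M2 F, ((u⁻¹ : GL (Fin 2) F) : M2 F) * ((u : M2 F) * A) = A := fun A => by
    rw [← mul_assoc, u.inv_mul, one_mul]
  have h2 : ∀ A : M2 F, ((v⁻¹ : GL (Fin 2) F) : M2 F) * ((v : M2 F) * A) = A := fun A => by
    rw [← mul_assoc, v.inv_mul, one_mul]
  have h3 : ((u⁻¹ : GL (Fin 2) F) : M2 F).det * (u : M2 F).det = 1 := by
    rw [← det_mul, u.inv_mul, det_one]
  simp only [cdA, cd, LinearMap.coe_mk, AddHom.coe_mk, adjugate_mul_distrib, adj_gl, inv_inv, ← hd,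
    smul_mul_assoc, mul_smul_comm, smul_smul, mul_assoc, h1, h2, h3, mul_comm (u : M2 F).det, one_smul,
    Matrix.mul_sub, Matrix.sub_mul, Matrix.mul_add, Matrix.add_mul]

def phi0 : Gm F →* Module.End F (Fin 8 → F) where
  toFun g := enc.symm.toLinearMap ∘ₗ cdA g.1.1 g.1.2 ∘ₗ enc.toLinearMap
  map_one' := LinearMap.ext fun x => by simp [cdA]
  map_mul' g h := LinearMap.ext fun x => by simp [cdA, mul_assoc]

/-- the subgroup `SO₄⁺` -/
def Phi : Gm F →* G2 F := ofHom phi0 fun g x y => by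
  apply enc.injective
  simp only [phi0, MonoidHom.coe_mk, OneHom.coe_mk, LinearMap.comp_apply, LinearEquiv.coe_coe,
    LinearEquiv.apply_symm_apply, enc_zorn]
  exact cdA_cd g.2 _ _

theorem enc_Phi (g : Gm F) (x : Fin 8 → F) : enc (Phi g • x) = cdA g.1.1 g.1.2 (enc x) := by
  rw [Phi, ofHom_smul]
  simp [phi0]

/-- the cyclic permutation of coordinates -/
def cyc0 : Module.End F (Fin 8 → F) where
  toFun x := ![x 0, x 2, x 3, x 1, x 5, x 6, x 4, x 7]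
  map_add' x y := by ext i; fin_cases i <;> simp
  map_smul' c x := by ext i; fin_cases i <;> simp

theorem cyc0_cube : (cyc0 : Module.End F (Fin 8 → F)) * cyc0 * cyc0 = 1 := by
  ext x i; fin_cases i <;> rfl

def cycU : (Module.End F (Fin 8 → F))ˣ := ⟨cyc0, cyc0 * cyc0, by rw [← mul_assoc, cyc0_cube], cyc0_cube⟩

theorem exists_cyc : ∃ g : G2 F, ∀ a0 a1 a2 a3 a4 a5 a6 a7 : F,
    g • (![a0, a1, a2, a3, a4, a5, a6, a7] : Fin 8 → F) = ![a0, a2, a3, a1, a5, a6, a4, a7] := by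
  let H : Subgroup (Module.End F (Fin 8 → F))ˣ :=
    { carrier := {m | ∀ x y, m.1 (zornMul x y) = zornMul (m.1 x) (m.1 y)}
      one_mem' := fun _ _ => rfl
      mul_mem' := fun {a b} ha hb x y => by
        simp only [Units.val_mul, Module.End.mul_apply]; rw [hb, ha]
      inv_mem' := fun {a} ha x y => by
        have h1 : ∀ z, a.1 ((a⁻¹).1 z) = z := fun z => by
          rw [← Module.End.mul_apply, a.mul_inv]; rfl
        have h2 : ∀ z, (a⁻¹).1 (a.1 z) = z := fun z => by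
          rw [← Module.End.mul_apply, a.inv_mul]; rfl
        rw [← h2 (zornMul ((a⁻¹).1 x) _), ha, h1, h1] }
  have hc : cycU ∈ H := by
    intro x y
    obtain ⟨a0, a1, a2, a3, a4, a5, a6, a7, rfl⟩ := vec8 x
    obtain ⟨b0, b1, b2, b3, b4, b5, b6, b7, rfl⟩ := vec8 y
    have e : ∀ a0 a1 a2 a3 a4 a5 a6 a7 : F, (cycU (F := F)).1 ![a0, a1, a2, a3, a4, a5, a6, a7] =
      ![a0, a2, a3, a1, a5, a6, a4, a7] := fun _ _ _ _ _ _ _ _ => rfl
    rw [zorn_eq, e, e, e, zorn_eq, vec8_inj]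
    refine ⟨?_, rfl, rfl, rfl, rfl, rfl, rfl, ?_⟩ <;> ring
  exact ⟨ofHom ((Units.coeHom _).comp H.subtype) (fun m => m.2) ⟨cycU, hc⟩, fun _ _ _ _ _ _ _ _ =>
    ofHom_smul _ _ _ _⟩

/-! ### transitivity on idempotents -/

def e0 : Fin 8 → F := ![1, 0, 0, 0, 0, 0, 0, 0]

/-- membership in the orbit of `e0` -/
def Ob (a0 a1 a2 a3 a4 a5 a6 a7 : F) : Prop :=
  (![a0, a1, a2, a3, a4, a5, a6, a7] : Fin 8 → F) ∈ MulAction.orbit (G2 F) (e0 : Fin 8 → F)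

variable {a0 a1 a2 a3 a4 a5 a6 a7 : F}

theorem ob_of (g : G2 F) {x y : Fin 8 → F} (h : g • x = y) (hy : y ∈ MulAction.orbit (G2 F) (e0 : Fin 8 → F)) :
    x ∈ MulAction.orbit (G2 F) (e0 : Fin 8 → F) := by
  obtain ⟨k, hk⟩ := hy
  exact ⟨g⁻¹ * k, by simp only at hk ⊢; rw [mul_smul, hk, ← h, inv_smul_smul]⟩

theorem Ob.cyc (h : Ob a0 a2 a3 a1 a5 a6 a4 a7) : Ob a0 a1 a2 a3 a4 a5 a6 a7 := by
  obtain ⟨g, hg⟩ := exists_cyc (F := F)
  exact ob_of g (hg ..) h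

def up (t : F) : GL (Fin 2) F := ⟨!![1, t; 0, 1], !![1, -t; 0, 1], by simp [one_fin_two], by simp [one_fin_two]⟩
def lo (t : F) : GL (Fin 2) F := ⟨!![1, 0; t, 1], !![1, 0; -t, 1], by simp [one_fin_two], by simp [one_fin_two]⟩

theorem Ob.e12 (t : F) (h : Ob a0 (a1 + t * a2) a2 a3 a4 (a5 - t * a4) a6 a7) : Ob a0 a1 a2 a3 a4 a5 a6 a7 := by
  refine ob_of (Phi ⟨(1, up t), mem_Gm.2 (Units.ext (by simp [up]))⟩) (enc.injective ?_) h
  rw [enc_Phi, enc_apply, enc_apply]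
  simp [cdA, up, sub_eq_add_neg]

theorem Ob.e21 (t : F) (h : Ob a0 a1 (a2 + t * a1) a3 (a4 - t * a5) a5 a6 a7) : Ob a0 a1 a2 a3 a4 a5 a6 a7 := by
  refine ob_of (Phi ⟨(1, lo t), mem_Gm.2 (Units.ext (by simp [lo]))⟩) (enc.injective ?_) h
  rw [enc_Phi, enc_apply, enc_apply]
  simp [cdA, lo, sub_eq_add_neg, add_comm]

theorem Ob.sh (t : F) (h : Ob (a0 + t * a6) a1 a2 (a3 + t * (a7 - a0) - t ^ 2 * a6) (a4 + t * a2) (a5 - t * a1) a6
    (a7 - t * a6)) : Ob a0 a1 a2 a3 a4 a5 a6 a7 := by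
  refine ob_of (Phi ⟨(up t, 1), mem_Gm.2 (Units.ext (by simp [up]))⟩) (enc.injective ?_) h
  rw [enc_Phi, enc_apply, enc_apply]
  refine Prod.ext ?_ ?_ <;> ext i j <;> fin_cases i <;> fin_cases j <;>
    simp [cdA, up, Matrix.mul_apply, Fin.sum_univ_two, -Matrix.coe_units_inv] <;> ring

theorem ob_Q (h1 : a0 + a7 = 1) (h2 : a0 * a7 = a3 * a6) : Ob a0 0 0 a3 0 0 a6 a7 := by
  have key : ∀ u : M2 F, u.det ≠ 0 → !![a0, a3; a6, a7] * u = u * !![1, 0; 0, 0] → Ob a0 0 0 a3 0 0 a6 a7 := by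
    intro u hu e
    let U : GL (Fin 2) F := GeneralLinearGroup.mkOfDetNeZero u hu
    have hU : (U : M2 F) = u := rfl
    refine ⟨Phi ⟨(U, U), mem_Gm.2 rfl⟩, enc.injective ?_⟩
    simp only
    rw [enc_Phi, e0, enc_apply, enc_apply]
    simp only [cdA, LinearMap.coe_mk, AddHom.coe_mk, hU, ← e]
    rw [← hU, mul_assoc, U.mul_inv, mul_one, neg_zero,
      show (!![0, 0; 0, 0] : M2 F) = 0 by ext i j; fin_cases i <;> fin_cases j <;> rfl, mul_zero, zero_mul]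
  by_cases h0 : a0 = 0
  · refine key !![a3, a7; a7, -a6] ?_ ?_
    · rw [det_fin_two_of]; intro h; grind
    · ext i j; fin_cases i <;> fin_cases j <;> simp <;> grind
  · refine key !![a0, -a3; a6, a0] ?_ ?_
    · rw [det_fin_two_of]; intro h; apply h0; grind
    · ext i j; fin_cases i <;> fin_cases j <;> simp <;> grind

theorem ob_K1 (h1 : a0 + a7 = 1) (h2 : a0 * a7 = a3 * a6) : Ob a0 0 0 a3 a4 a5 a6 a7 := by
  have k1 : ∀ a4 : F, Ob a0 0 0 a3 a4 0 a6 a7 := by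
    intro a4
    by_cases h6 : a6 = 0
    · subst h6
      have hd : a7 - a0 ≠ 0 := by intro h; grind
      refine Ob.sh (-a3 / (a7 - a0)) ?_
      rw [div_mul_cancel₀ _ hd]
      simp only [mul_zero, add_zero, sub_zero, add_neg_cancel]
      exact Ob.cyc (ob_Q h1 (by rw [h2]; simp))
    · refine Ob.cyc (Ob.cyc (Ob.e12 (a4 / a6) ?_))
      rw [div_mul_cancel₀ _ h6]
      simp only [mul_zero, add_zero, sub_self]
      exact Ob.cyc (ob_Q h1 h2)
  have k2 : ∀ a4 a5 : F, a4 ≠ 0 → Ob a0 0 0 a3 a4 a5 a6 a7 := by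
    intro a4 a5 h4
    refine Ob.e12 (a5 / a4) ?_
    rw [div_mul_cancel₀ _ h4]
    simpa using k1 a4
  by_cases h4 : a4 = 0
  · by_cases h5 : a5 = 0
    · rw [h5]; exact k1 _
    · refine Ob.e21 1 ?_
      simpa [h4] using k2 _ _ (neg_ne_zero.2 h5)
  · exact k2 _ _ h4

theorem ob_all (h1 : a0 + a7 = 1) (h2 : a0 * a7 = a1 * a4 + a2 * a5 + a3 * a6) : Ob a0 a1 a2 a3 a4 a5 a6 a7 := by
  have k : ∀ a1 a2 a3 a4 a5 a6 : F, a0 * a7 = a1 * a4 + a2 * a5 + a3 * a6 → a3 ≠ 0 →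
      Ob a0 a1 a2 a3 a4 a5 a6 a7 := by
    intro a1 a2 a3 a4 a5 a6 h2 h3
    refine Ob.cyc (Ob.e12 (-a2 / a3) ?_)
    rw [div_mul_cancel₀ _ h3, add_neg_cancel]
    refine Ob.cyc (Ob.e21 (-a1 / a3) ?_)
    rw [div_mul_cancel₀ _ h3, add_neg_cancel]
    refine Ob.cyc (ob_K1 h1 ?_)
    rw [h2]; field_simp; ring
  by_cases h3 : a3 = 0
  · by_cases h2' : a2 = 0
    · by_cases h1' : a1 = 0
      · subst h1' h2'; exact ob_K1 h1 (by rw [h2]; simp)
      · exact Ob.cyc (k _ _ _ _ _ _ (by rw [h2]; ring) h1')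
    · exact Ob.cyc (Ob.cyc (k _ _ _ _ _ _ (by rw [h2]; ring) h2'))
  · exact k _ _ _ _ _ _ h2 h3

end CA.H19G2
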