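import Cfsg.Agent.Lib.Lie.H19G2
import Cfsg.Agent.Lib.Lin.SLnCard

/-!
The order of the octonion group `G2 F`: orbit of an idempotent, stabiliser `SL₃`.
-/

set_option autoImplicit false
set_option linter.unusedSimpArgs false

namespace CA.H19G2

open Cfsg Cfsg.Lie Matrix
open scoped MatrixGroups

variable {F : Type*} [Field F]

def un : Fin 8 → F := ![1, 0, 0, 0, 0, 0, 0, 1]

theorem zorn_un (x : Fin 8 → F) : zornMul x un = x := by
  obtain ⟨a0, a1, a2, a3, a4, a5, a6, a7, rfl⟩ := vec8 x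
  rw [un, zorn_eq]; simp

theorem un_zorn (x : Fin 8 → F) : zornMul un x = x := by
  obtain ⟨a0, a1, a2, a3, a4, a5, a6, a7, rfl⟩ := vec8 x
  rw [un, zorn_eq]; simp

theorem smul_un (g : G2 F) : g • (un : Fin 8 → F) = un := by
  have := smul_zorn g (g⁻¹ • un) un
  rw [zorn_un, smul_inv_smul, un_zorn] at this
  exact this.symm

theorem smul_zero' (g : G2 F) : g • (0 : Fin 8 → F) = 0 := Matrix.mulVec_zero _

theorem mem_orbit_iff (x : Fin 8 → F) : x ∈ MulAction.orbit (G2 F) (e0 : Fin 8 → F) ↔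
    x 0 + x 7 = 1 ∧ x 0 * x 7 = x 1 * x 4 + x 2 * x 5 + x 3 * x 6 := by
  constructor
  · rintro ⟨g, rfl⟩
    simp only
    have h1 : zornMul (g • (e0 : Fin 8 → F)) (g • e0) = g • e0 := by
      rw [← smul_zorn]; congr 1; rw [e0, zorn_eq]; simp
    have h2 : g • (e0 : Fin 8 → F) ≠ 0 := by
      rw [← smul_zero' g, Ne, smul_left_cancel_iff]
      intro h; simpa [e0] using congrFun h 0
    have h3 : g • (e0 : Fin 8 → F) ≠ un := by
      rw [← smul_un g, Ne, smul_left_cancel_iff]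
      intro h; simpa [e0, un] using congrFun h 7
    generalize g • (e0 : Fin 8 → F) = y at h1 h2 h3
    obtain ⟨a0, a1, a2, a3, a4, a5, a6, a7, rfl⟩ := vec8 y
    rw [zorn_eq, vec8_inj] at h1
    rw [show (0 : Fin 8 → F) = ![0, 0, 0, 0, 0, 0, 0, 0] by ext i; fin_cases i <;> rfl, Ne, vec8_inj] at h2
    rw [un, Ne, vec8_inj] at h3
    obtain ⟨e0, e1, e2, e3, e4, e5, e6, e7⟩ := h1
    show a0 + a7 = 1 ∧ a0 * a7 = a1 * a4 + a2 * a5 + a3 * a6
    by_cases hT : a0 + a7 = 1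
    · exact ⟨hT, by grind⟩
    · exfalso
      have hT' : a0 + a7 - 1 ≠ 0 := sub_ne_zero.2 hT
      have z : ∀ a : F, (a0 + a7 - 1) * a = 0 → a = 0 := fun a h => (mul_eq_zero.1 h).resolve_left hT'
      obtain rfl := z a1 (by linear_combination e1)
      obtain rfl := z a2 (by linear_combination e2)
      obtain rfl := z a3 (by linear_combination e3)
      obtain rfl := z a4 (by linear_combination e4)
      obtain rfl := z a5 (by linear_combination e5)
      obtain rfl := z a6 (by linear_combination e6)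
      grind
  · rintro ⟨h1, h2⟩
    obtain ⟨a0, a1, a2, a3, a4, a5, a6, a7, rfl⟩ := vec8 x
    exact ob_all h1 h2

section Card
variable [Fintype F] [DecidableEq F]

theorem card_lin (a1 a2 a3 c : F) : (Finset.univ.filter fun b : F × F × F =>
    c = a1 * b.1 + a2 * b.2.1 + a3 * b.2.2).card =
      if a1 = 0 ∧ a2 = 0 ∧ a3 = 0 then (if c = 0 then Fintype.card F ^ 3 else 0) else Fintype.card F ^ 2 := by
  split_ifs with h hc
  · obtain ⟨rfl, rfl, rfl⟩ := h
    simp [hc, pow_succ, mul_assoc]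
  · obtain ⟨rfl, rfl, rfl⟩ := h
    simp [hc]
  · have key : ∀ (a : F) (f : F × F → F) (e : F × F × F ≃ F × F × F), a ≠ 0 →
        (∀ b, a1 * b.1 + a2 * b.2.1 + a3 * b.2.2 = a * (e b).1 + f (e b).2) →
        (Finset.univ.filter fun b : F × F × F => c = a1 * b.1 + a2 * b.2.1 + a3 * b.2.2).card =
          Fintype.card F ^ 2 := by
      intro a f e ha he
      rw [pow_two, ← Fintype.card_prod, ← Finset.card_univ]
      refine Finset.card_bij' (fun b _ => (e b).2) (fun y _ => e.symm ((c - f y) / a, y)) (by simp) ?_ ?_ ?_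
      · intro y _
        simp only [Finset.mem_filter, Finset.mem_univ, true_and, he, Equiv.apply_symm_apply]
        field_simp; ring
      · intro b hb
        simp only [Finset.mem_filter, Finset.mem_univ, true_and, he] at hb
        rw [Equiv.symm_apply_eq, hb]
        ext <;> simp [ha]
      · intro y _; simp
    by_cases h1 : a1 = 0
    · by_cases h2 : a2 = 0
      · exact key a3 (fun y => a1 * y.1 + a2 * y.2) ⟨fun b => (b.2.2, b.1, b.2.1), fun b => (b.2.1, b.2.2, b.1),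
          fun _ => rfl, fun _ => rfl⟩ (fun h3 => h ⟨h1, h2, h3⟩) fun b => by simp; ring
      · exact key a2 (fun y => a1 * y.1 + a3 * y.2) ⟨fun b => (b.2.1, b.1, b.2.2), fun b => (b.2.1, b.1, b.2.2),
          fun _ => rfl, fun _ => rfl⟩ h2 fun b => by simp; ring
    · exact key a1 (fun y => a2 * y.1 + a3 * y.2) (Equiv.refl _) h1 fun b => by simp; ring

theorem card_orbit : Nat.card (MulAction.orbit (G2 F) (e0 : Fin 8 → F)) =
    Fintype.card F ^ 3 * (Fintype.card F ^ 3 + 1) := by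
  let e : MulAction.orbit (G2 F) (e0 : Fin 8 → F) ≃
      {y : (F × F × F × F) × F × F × F // y.1.1 * (1 - y.1.1) =
        y.1.2.1 * y.2.1 + y.1.2.2.1 * y.2.2.1 + y.1.2.2.2 * y.2.2.2} :=
    { toFun := fun x => ⟨((x.1 0, x.1 1, x.1 2, x.1 3), x.1 4, x.1 5, x.1 6), by
        obtain ⟨h1, h2⟩ := (mem_orbit_iff _).1 x.2
        simp only; rw [← h2, ← h1]; ring⟩
      invFun := fun y => ⟨![y.1.1.1, y.1.1.2.1, y.1.1.2.2.1, y.1.1.2.2.2, y.1.2.1, y.1.2.2.1, y.1.2.2.2,
        1 - y.1.1.1], (mem_orbit_iff _).2 ⟨by simp, y.2⟩⟩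
      left_inv := fun x => Subtype.ext (by
        obtain ⟨h1, h2⟩ := (mem_orbit_iff _).1 x.2
        ext i; fin_cases i <;> simp [← h1])
      right_inv := fun y => rfl }
  rw [Nat.card_congr e, Nat.card_eq_fintype_card, Fintype.card_subtype, Finset.card_filter, Fintype.sum_prod_type]
  simp only [← Finset.card_filter, card_lin]
  rw [Fintype.sum_prod_type]
  have h1 : ∀ α : F, (∑ a : F × F × F, if a.1 = 0 ∧ a.2.1 = 0 ∧ a.2.2 = 0 then
      (if α * (1 - α) = 0 then Fintype.card F ^ 3 else 0) else Fintype.card F ^ 2) =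
      (if α * (1 - α) = 0 then Fintype.card F ^ 3 else 0) + (Fintype.card F ^ 3 - 1) * Fintype.card F ^ 2 := by
    intro α
    rw [← Finset.add_sum_erase _ _ (Finset.mem_univ ((0, 0, 0) : F × F × F)), if_pos ⟨rfl, rfl, rfl⟩,
      Finset.sum_congr rfl (g := fun _ => Fintype.card F ^ 2), Finset.sum_const, Finset.card_erase_of_mem (by simp)]
    · simp [pow_succ, mul_assoc]
    · rintro ⟨a, b, c⟩ ha
      rw [if_neg]
      rintro ⟨h1, h2, h3⟩
      simp only at h1 h2 h3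
      simp [h1, h2, h3] at ha
  simp only [h1, Finset.sum_add_distrib, Finset.sum_const, Finset.card_univ, smul_eq_mul]
  rw [← Finset.sum_filter, Finset.sum_const, show (Finset.univ.filter fun α : F => α * (1 - α) = 0) = {0, 1} by
    ext α; simp [sub_eq_zero, eq_comm (a := (1 : F))], Finset.card_pair zero_ne_one, smul_eq_mul]
  have hq : 1 ≤ Fintype.card F ^ 3 := Nat.one_le_pow _ _ Fintype.card_pos
  zify [hq]
  ring

end Card

/-! ### the stabiliser -/

def ub (i : Fin 3) : Fin 8 := ![1, 2, 3] i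

theorem stab_u {g : G2 F} (hg : g • (e0 : Fin 8 → F) = e0) (a1 a2 a3 : F) :
    ∃ c1 c2 c3 : F, g • (![0, a1, a2, a3, 0, 0, 0, 0] : Fin 8 → F) = ![0, c1, c2, c3, 0, 0, 0, 0] := by
  have h1 := smul_zorn g e0 ![0, a1, a2, a3, 0, 0, 0, 0]
  have h2 := smul_zorn g ![0, a1, a2, a3, 0, 0, 0, 0] e0
  rw [hg, e0, zorn_eq] at h1 h2
  simp only [mul_zero, zero_mul, add_zero, sub_zero, one_mul, mul_one, sub_self, zero_add] at h1 h2
  rw [show (![0, 0, 0, 0, 0, 0, 0, 0] : Fin 8 → F) = 0 by ext i; fin_cases i <;> rfl, smul_zero'] at h2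
  obtain ⟨c0, c1, c2, c3, c4, c5, c6, c7, e⟩ := vec8 (g • (![0, a1, a2, a3, 0, 0, 0, 0] : Fin 8 → F))
  rw [e] at h1 h2 ⊢
  rw [zorn_eq, vec8_inj] at h1
  rw [zorn_eq] at h2
  have h3 := congrFun h2 0
  refine ⟨c1, c2, c3, vec8_inj.2 ?_⟩
  simp at h1 h3 ⊢
  tauto

theorem smul_single (g : G2 F) (j k : Fin 8) :
    (g • (Pi.single j 1 : Fin 8 → F)) k = ((g : GL (Fin 8) F) : Matrix (Fin 8) (Fin 8) F) k j := by
  rw [smul_def, mulVec_single_one]; rfl

theorem single_eq : (Pi.single 1 1 : Fin 8 → F) = ![0, 1, 0, 0, 0, 0, 0, 0] ∧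
    (Pi.single 2 1 : Fin 8 → F) = ![0, 0, 1, 0, 0, 0, 0, 0] ∧
    (Pi.single 3 1 : Fin 8 → F) = ![0, 0, 0, 1, 0, 0, 0, 0] := by
  refine ⟨?_, ?_, ?_⟩ <;> ext i <;> fin_cases i <;> simp

theorem stab_col {g : G2 F} (hg : g • (e0 : Fin 8 → F) = e0) (j : Fin 3) :
    g • (Pi.single (ub j) 1 : Fin 8 → F) = ![0, ((g : GL (Fin 8) F) : Matrix (Fin 8) (Fin 8) F) 1 (ub j),
      ((g : GL (Fin 8) F) : Matrix (Fin 8) (Fin 8) F) 2 (ub j),
      ((g : GL (Fin 8) F) : Matrix (Fin 8) (Fin 8) F) 3 (ub j), 0, 0, 0, 0] := by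
  simp only [← smul_single]
  obtain ⟨c1, c2, c3, e⟩ : ∃ c1 c2 c3 : F, g • (Pi.single (ub j) 1 : Fin 8 → F) = ![0, c1, c2, c3, 0, 0, 0, 0] := by
    fin_cases j
    · exact (single_eq (F := F)).1 ▸ stab_u hg 1 0 0
    · exact (single_eq (F := F)).2.1 ▸ stab_u hg 0 1 0
    · exact (single_eq (F := F)).2.2 ▸ stab_u hg 0 0 1
  rw [e]; rfl

def blk (g : G2 F) : Matrix (Fin 3) (Fin 3) F :=
  Matrix.of fun i j => ((g : GL (Fin 8) F) : Matrix (Fin 8) (Fin 8) F) (ub i) (ub j)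

theorem det_blk {g : G2 F} (hg : g • (e0 : Fin 8 → F) = e0) : (blk g).det = 1 := by
  have h : zornMul (Pi.single (ub 2) 1) (zornMul (Pi.single (ub 0) 1) (Pi.single (ub 1) 1)) = (e0 : Fin 8 → F) := by
    show zornMul (Pi.single 3 1) (zornMul (Pi.single 1 1) (Pi.single 2 1)) = _
    rw [single_eq.1, single_eq.2.1, single_eq.2.2, zorn_eq, zorn_eq, e0]; simp
  have h2 := congrArg (g • ·) h
  simp only [smul_zorn, hg, stab_col hg, zorn_eq] at h2
  have h3 := congrFun h2 0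
  simp [e0] at h3
  rw [det_fin_three]
  simp only [blk, of_apply]
  simp only [ub, cons_val] at h3 ⊢
  linear_combination h3

def stabHom : MulAction.stabilizer (G2 F) (e0 : Fin 8 → F) →* SL(3, F) :=
  MonoidHom.mk' (fun g => ⟨blk g.1, det_blk g.2⟩) fun g h => by
    apply Subtype.ext
    ext i j
    have hc := fun k => congrFun (stab_col h.2 j) k
    simp only [smul_single] at hc
    show blk (g * h).1 i j = (blk g.1 * blk h.1) i j
    simp only [blk, Subgroup.coe_mul, Units.val_mul, of_apply, Matrix.mul_apply,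
      Fin.sum_univ_three, Fin.sum_univ_eight, hc 0, hc 4, hc 5, hc 6, hc 7]
    simp [ub]

theorem stabHom_inj : Function.Injective (stabHom (F := F)) := by
  rw [injective_iff_map_eq_one]
  rintro ⟨g, hg⟩ h
  have hb : blk g = 1 := congrArg Subtype.val h
  have hu : ∀ j, g • (Pi.single (ub j) 1 : Fin 8 → F) = Pi.single (ub j) 1 := by
    intro j
    have h1 := congrFun (congrFun hb 0) j
    have h2 := congrFun (congrFun hb 1) j
    have h3 := congrFun (congrFun hb 2) j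
    simp only [blk, of_apply] at h1 h2 h3
    rw [stab_col hg, show (1 : Fin 8) = ub 0 from rfl, show (2 : Fin 8) = ub 1 from rfl,
      show (3 : Fin 8) = ub 2 from rfl, h1, h2, h3]
    fin_cases j <;> ext i <;> fin_cases i <;> simp [ub, Matrix.one_apply]
  have u1 : g • (Pi.single 1 1 : Fin 8 → F) = Pi.single 1 1 := hu 0
  have u2 : g • (Pi.single 2 1 : Fin 8 → F) = Pi.single 2 1 := hu 1
  have u3 : g • (Pi.single 3 1 : Fin 8 → F) = Pi.single 3 1 := hu 2
  rw [single_eq.1] at u1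
  rw [single_eq.2.1] at u2
  rw [single_eq.2.2] at u3
  have hz : ∀ x y : Fin 8 → F, g • x = x → g • y = y → g • zornMul x y = zornMul x y := fun x y hx hy => by
    rw [smul_zorn, hx, hy]
  apply Subtype.ext
  refine ext_smul fun x => ?_
  obtain ⟨a0, a1, a2, a3, a4, a5, a6, a7, rfl⟩ := vec8 x
  have : (![a0, a1, a2, a3, a4, a5, a6, a7] : Fin 8 → F) = (a0 - a7) • e0 + a7 • un +
      a1 • ![0, 1, 0, 0, 0, 0, 0, 0] + a2 • ![0, 0, 1, 0, 0, 0, 0, 0] + a3 • ![0, 0, 0, 1, 0, 0, 0, 0] +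
      a4 • zornMul ![0, 0, 1, 0, 0, 0, 0, 0] ![0, 0, 0, 1, 0, 0, 0, 0] +
      a5 • zornMul ![0, 0, 0, 1, 0, 0, 0, 0] ![0, 1, 0, 0, 0, 0, 0, 0] +
      a6 • zornMul ![0, 1, 0, 0, 0, 0, 0, 0] ![0, 0, 1, 0, 0, 0, 0, 0] := by
    simp only [zorn_eq, e0, un]
    ext i; fin_cases i <;> simp
  rw [OneMemClass.coe_one, one_smul, this]
  simp only [smul_add', smul_smul', smul_un, MulAction.mem_stabilizer_iff.1 hg, u1, u2, u3, hz _ _ u1 u2,
    hz _ _ u2 u3, hz _ _ u3 u1]

theorem card_SL3 [Finite F] : Nat.card SL(3, F) = Nat.card F ^ 3 * (Nat.card F ^ 2 - 1) * (Nat.card F ^ 3 - 1) := by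
  have h := SLnCard.card_SL (F := F) 3 (by norm_num)
  have hq : 1 < Nat.card F := Finite.one_lt_card
  rw [Fin.prod_univ_three] at h
  apply Nat.eq_of_mul_eq_mul_left (show 0 < Nat.card F - 1 by omega)
  rw [h]
  have h1 : 1 ≤ Nat.card F ^ 2 := Nat.one_le_pow _ _ (by omega)
  have h2 : 1 ≤ Nat.card F ^ 3 := Nat.one_le_pow _ _ (by omega)
  have h3 : Nat.card F ≤ Nat.card F ^ 3 := Nat.le_self_pow (by norm_num) _
  have h4 : Nat.card F ^ 2 ≤ Nat.card F ^ 3 := Nat.pow_le_pow_right (by omega) (by norm_num)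
  simp only [Fin.isValue, Fin.val_zero, pow_zero, Fin.val_one, pow_one, Fin.val_two]
  zify [h1, h2, h3, h4, hq.le]
  ring

theorem card_G2_dvd [Finite F] : Nat.card (G2 F) ∣
    Nat.card F ^ 6 * (Nat.card F ^ 2 - 1) * (Nat.card F ^ 6 - 1) := by
  classical
  haveI := Fintype.ofFinite F
  have h1 := Nat.card_congr (MulAction.orbitProdStabilizerEquivGroup (G2 F) (e0 : Fin 8 → F))
  rw [Nat.card_prod, card_orbit, ← Nat.card_eq_fintype_card] at h1
  have h2 := Subgroup.card_dvd_of_injective _ (stabHom_inj (F := F))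
  rw [card_SL3] at h2
  rw [← h1]
  refine (mul_dvd_mul_left _ h2).trans (dvd_of_eq ?_)
  have h3 : 1 ≤ Nat.card F ^ 2 := Nat.one_le_pow _ _ Nat.card_pos
  have h4 : 1 ≤ Nat.card F ^ 3 := Nat.one_le_pow _ _ Nat.card_pos
  have h5 : 1 ≤ Nat.card F ^ 6 := Nat.one_le_pow _ _ Nat.card_pos
  zify [h3, h4, h5]
  ring

end CA.H19G2
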