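/-
`E₇(2)` has no element of order `65`.
-/
import Cfsg.Agent.Lib.Lie.SST
import Cfsg.Agent.Lib.Lie.H23Core

set_option autoImplicit false

namespace CA.H23E7

open Polynomial Matrix CA.Chev Equiv Cfsg.Lie

theorem exists_prime_factor {R S : Type*} [CommRing R] [IsDomain R] [CommRing S] [IsDomain S] (φ : R →+* S)
    {Q : Set R} (hQ : ∀ q ∈ Q, Prime q) {x : R} (hx : x ∈ Submonoid.closure Q) :
    ∀ f, f ∣ x → φ f = 0 → ∃ q ∈ Q, q ∣ f ∧ φ q = 0 := by
  induction hx using Submonoid.closure_induction_left with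
  | one => intro f hf h; exact absurd h ((isUnit_of_dvd_one hf).map φ).ne_zero
  | mul_left q hq y hy ih =>
    intro f hf h
    rcases (hQ q hq).left_dvd_or_dvd_right_of_dvd_mul hf with ⟨g, rfl⟩ | h'
    · rw [map_mul, mul_eq_zero] at h
      rcases h with h | h
      · exact ⟨q, hq, dvd_mul_right _ _, h⟩
      · obtain ⟨q', h1, h2, h3⟩ := ih g ((mul_dvd_mul_iff_left (hQ q hq).ne_zero).1 hf) h
        exact ⟨q', h1, h2.mul_left _, h3⟩
    · exact ih f h' h

section
variable {n : Type*} [Fintype n] [DecidableEq n] {M : Matrix n n ℤ} {o : ℕ}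

theorem charpoly_dvd (h : M ^ o = 1) : M.charpoly ∣ (X ^ o - 1) ^ Fintype.card n := by
  have hc : Commute (scalar n (X : ℤ[X])) ((C : ℤ →+* ℤ[X]).mapMatrix M) :=
    scalar_commute _ (fun _ => Commute.all _ _) _
  have := congrArg det (hc.mul_geom_sum₂ o)
  rw [det_mul, ← map_pow, ← map_pow, h, map_one, ← map_one (scalar n), ← map_sub, scalar_apply (X ^ o - 1), det_diagonal,
    Finset.prod_const, Finset.card_univ] at this
  exact ⟨_, this.symm⟩

theorem exists_cyc (h : M ^ o = 1) (ho : 0 < o) {p : ℕ} [Fact p.Prime] {b : ZMod p}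
    (hb : M.charpoly.eval₂ (Int.castRingHom _) b = 0) {m : ℕ} (hm : orderOf b = m)
    (hφ : Fintype.card n < (p * m).totient) : cyclotomic m ℤ ∣ M.charpoly := by
  obtain ⟨_, ⟨d, hd, rfl⟩, h1, h2⟩ := exists_prime_factor (eval₂RingHom (Int.castRingHom (ZMod p)) b)
    (Q := {q | ∃ d, 0 < d ∧ q = cyclotomic d ℤ}) (by rintro _ ⟨d, hd, rfl⟩; exact (cyclotomic.irreducible hd).prime)
    (x := (X ^ o - 1) ^ Fintype.card n) (pow_mem (by
      rw [← prod_cyclotomic_eq_X_pow_sub_one ho]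
      exact prod_mem fun d hd => Submonoid.subset_closure ⟨d, Nat.pos_of_mem_divisors hd, rfl⟩) _) _
    (charpoly_dvd h) hb
  obtain ⟨k, e, he, rfl⟩ := Nat.exists_eq_pow_mul_and_not_dvd hd.ne' p (Fact.out : p.Prime).ne_one
  haveI : NeZero (e : ZMod p) := ⟨by rwa [Ne, ZMod.natCast_eq_zero_iff]⟩
  have h3 : (cyclotomic (p ^ k * e) (ZMod p)).IsRoot b := by
    rw [← map_cyclotomic_int, IsRoot, eval_map]; exact h2
  obtain rfl : e = m := (isRoot_cyclotomic_prime_pow_mul_iff_of_charP.1 h3).eq_orderOf.trans hm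
  rcases k with _ | k
  · simpa using h1
  · have h4 := natDegree_le_of_dvd h1 M.charpoly_monic.ne_zero
    rw [natDegree_cyclotomic, charpoly_natDegree_eq_dim] at h4
    have := Nat.le_of_dvd (Nat.totient_pos.2 hd) (Nat.totient_dvd_of_dvd (a := p * e) ⟨p ^ k, by ring⟩)
    omega

theorem cyc_mul : cyclotomic 4 ℤ * cyclotomic 12 ℤ = X ^ 6 + 1 := by
  have h1 := prod_cyclotomic_eq_X_pow_sub_one (n := 12) (by norm_num) ℤ
  have h2 := prod_cyclotomic_eq_X_pow_sub_one (n := 6) (by norm_num) ℤ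
  rw [show Nat.divisors 12 = insert 4 (insert 12 (Nat.divisors 6)) by decide, Finset.prod_insert (by decide),
    Finset.prod_insert (by decide), h2, ← mul_assoc] at h1
  refine mul_right_cancel₀ (b := X ^ 6 - 1) (by simpa using X_pow_sub_C_ne_zero (n := 6) (by norm_num) (1 : ℤ)) ?_
  rw [h1]; ring

theorem charpoly_eq (h : M ^ o = 1) (ho : 0 < o) (hn : Fintype.card n = 7) (h4 : cyclotomic 4 ℤ ∣ M.charpoly)
    (h12 : cyclotomic 12 ℤ ∣ M.charpoly) : ∃ a : ℤ, (a = 1 ∨ a = -1) ∧ M.charpoly = (X ^ 6 + 1) * (X - C a) := by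
  obtain ⟨g, hg⟩ := h4
  obtain ⟨g, rfl⟩ : cyclotomic 12 ℤ ∣ g := by
    refine ((cyclotomic.irreducible (by norm_num)).prime.dvd_or_dvd (hg ▸ h12)).resolve_left fun e => ?_
    have := natDegree_le_of_dvd e (cyclotomic_ne_zero 4 ℤ)
    rw [natDegree_cyclotomic, natDegree_cyclotomic] at this
    revert this; decide
  rw [← mul_assoc] at hg
  have hm : (cyclotomic 4 ℤ * cyclotomic 12 ℤ).Monic := (cyclotomic.monic _ _).mul (cyclotomic.monic _ _)
  have hg1 : g.Monic := hm.of_mul_monic_left (hg ▸ M.charpoly_monic)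
  have hd := congrArg natDegree hg
  rw [charpoly_natDegree_eq_dim, hm.natDegree_mul hg1, (cyclotomic.monic _ _).natDegree_mul (cyclotomic.monic _ _),
    natDegree_cyclotomic, natDegree_cyclotomic, hn, show Nat.totient 4 = 2 by decide,
    show Nat.totient 12 = 4 by decide] at hd
  have e : g = X - C (-g.coeff 0) := by simpa using hg1.eq_X_add_C (by omega)
  rw [cyc_mul, e] at hg
  refine ⟨_, ?_, hg⟩
  have := (show X - C (-g.coeff 0) ∣ M.charpoly from hg ▸ dvd_mul_left _ _).trans (charpoly_dvd h)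
  rw [dvd_iff_isRoot, IsRoot, eval_pow, hn, pow_eq_zero_iff (by norm_num), eval_sub, eval_pow, eval_X, eval_one,
    sub_eq_zero] at this
  exact Int.isUnit_iff.1 (IsUnit.of_pow_eq_one this ho.ne')

theorem rank_one {a : ℤ} (ha : a = 1 ∨ a = -1) (h : M.charpoly = (X ^ 6 + 1) * (X - C a)) :
    ∃ v : n → ℚ, ∀ y : n → ℤ, y ᵥ* M = a • y → ∃ c : ℚ, ∀ i, (y i : ℚ) = c * v i := by
  have h1 := LinearMap.finrank_eigenspace_le (Mᵀ.map (Int.castRingHom ℚ)).mulVecLin (a : ℚ)
  have h2 : ((X ^ 6 + 1 : ℚ[X])).eval (a : ℚ) ≠ 0 := by rcases ha with rfl | rfl <;> norm_num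
  have h3 : (X ^ 6 + 1 : ℚ[X]) ≠ 0 := fun e => h2 (by rw [e, eval_zero])
  rw [charpoly_mulVecLin, charpoly_map, charpoly_transpose, h, Polynomial.map_mul, Polynomial.map_add,
    Polynomial.map_pow, Polynomial.map_sub, map_X, Polynomial.map_one, map_C,
    rootMultiplicity_mul (mul_ne_zero h3 (X_sub_C_ne_zero _)), rootMultiplicity_eq_zero h2, eq_intCast,
    rootMultiplicity_X_sub_C_self, zero_add, finrank_le_one_iff] at h1
  obtain ⟨v, hv⟩ := h1
  refine ⟨v.1, fun y hy => ?_⟩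
  obtain ⟨c, hc⟩ := hv ⟨fun i => y i, by
    rw [Module.End.mem_eigenspace_iff]
    funext i
    have := congrArg (fun z : n → ℤ => (z i : ℚ)) hy
    simpa [vecMul, mulVec, dotProduct, mul_comm] using this⟩
  exact ⟨c, fun i => (congrFun (congrArg Subtype.val hc) i).symm⟩

theorem eval_eq_zero {G : Type*} [CommGroup G] {c : n → G} {q : ℕ} (hc : mact M c ^ q = c) :
    ∃ z : ℤ, c ^ z = 1 ∧ ∀ (p : ℕ) (b : ZMod p), (q : ZMod p) * b = 1 → (p : ℤ) ∣ z →
      M.charpoly.eval₂ (Int.castRingHom _) b = 0 := by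
  refine ⟨_, zpow_ev_eq_one hc (m := Fintype.card n) (f := fun k => M.charpoly.coeff (Fintype.card n - k)) ?_,
    fun p b hb hz => ?_⟩
  · have := M.aeval_self_charpoly
    rw [aeval_eq_sum_range, charpoly_natDegree_eq_dim, ← Finset.sum_range_reflect] at this
    simpa using this
  · rw [← ZMod.intCast_zmod_eq_zero_iff_dvd, ev_eq] at hz
    rw [eval₂_eq_sum_range, charpoly_natDegree_eq_dim, ← Finset.sum_range_reflect, ← mul_zero (b ^ Fintype.card n),
      ← hz, Int.cast_sum, Finset.mul_sum]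
    refine Finset.sum_congr rfl fun k hk => ?_
    obtain ⟨j, e⟩ := Nat.exists_eq_add_of_le (Finset.mem_range_succ_iff.1 hk)
    rw [e, show k + j + 1 - 1 - k = j by omega, show k + j - k = j by omega]
    push_cast
    rw [eq_intCast]
    have h1 : ((q : ZMod p) * b) ^ k = 1 := by rw [hb, one_pow]
    linear_combination (-(M.charpoly.coeff j : ZMod p) * b ^ j) * h1
end

section
variable {D : ChevalleyDatum} [Good D] {w : Perm (Rt D)} (hw : w ∈ W D)
include hw

theorem wM_pow' (k : ℕ) : wM (w ^ k) = wM w ^ k := by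
  induction k with
  | zero => simpa using wM_one
  | succ k ih => rw [pow_succ', wM_mul (W_le_RA hw), ih, pow_succ]

theorem vm (k : ℕ) (r : Rt D) : cor r ᵥ* wM w ^ k = cor ((w ^ k) r) := by
  rw [← wM_pow' hw, ← clin_cor (W_le_RA (pow_mem hw k))]
  funext j
  simp [vecMul, dotProduct, wM, clin, Fintype.linearCombination_apply]

theorem not_charpoly (hl : ∀ r s : Rt D, pr r s = pr s r) (hn : D.rank = 7)
    (h1 : ∀ r s : Rt D, (∀ i, (wt r i + wt s i) % 2 = 0) → s = r ∨ s = ng r) (h2 : ∀ r : Rt D, ∃ i, wt r i % 2 = 1)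
    {a : ℤ} (ha : a = 1 ∨ a = -1) : (wM w).charpoly ≠ (X ^ 6 + 1) * (X - C a) := fun h => by
  obtain ⟨v, hv⟩ := rank_one ha h
  have hP : (wM w ^ 6 + 1) * wM w = a • (wM w ^ 6 + 1) := by
    have := (wM w).aeval_self_charpoly
    rw [h, map_mul, map_add, map_pow, map_sub, aeval_X, map_one, aeval_C, mul_sub, sub_eq_zero,
      Algebra.algebraMap_eq_smul_one, mul_smul_comm, mul_one] at this
    exact this
  have hPk : ∀ k, (wM w ^ 6 + 1) * wM w ^ k = a ^ k • (wM w ^ 6 + 1) := fun k => by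
    induction k with
    | zero => simp
    | succ k ih => rw [pow_succ _ k, ← mul_assoc, ih, smul_mul_assoc, hP, smul_smul, pow_succ _ k]
  have h12 : ∀ r s, pr ((w ^ 12) r) s = pr r s := fun r s => by
    have := hPk 6
    rw [show a ^ 6 = 1 by rcases ha with rfl | rfl <;> norm_num, one_smul, add_mul, one_mul, ← pow_add,
      add_comm (wM w ^ 6), add_left_inj] at this
    rw [pr, ← vm hw, this, vecMul_one, pr]
  have hs : ∀ (k : ℕ) r s, pr ((w ^ k) r) ((w ^ k) s) = pr r s := fun k => pr_map (W_le_RA (pow_mem hw k))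
  have hsym : ∀ r s, pr ((w ^ 6) r) s = pr ((w ^ 6) s) r := fun r s => by
    rw [← hs 6, ← Perm.mul_apply, ← pow_add, h12, hl]
  have hev : ∀ r, 2 ∣ pr ((w ^ 6) r) r + 2 := fun r => by
    have := congrArg (fun N => cor r ᵥ* N ⬝ᵥ wt r) (hPk 3)
    simp only [add_mul, one_mul, ← pow_add, vecMul_add, vecMul_smul, vm hw, vecMul_one, add_dotProduct,
      smul_dotProduct, smul_eq_mul] at this
    change pr _ _ + pr _ _ = _ * (pr _ _ + pr _ _) at this
    rw [← hs 3 _ r, ← Perm.mul_apply, ← pow_add, h12, hl r, pr_self] at this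
    rcases ha with rfl | rfl <;> omega
  have hB : ∀ r s, (pr ((w ^ 6) r) s + pr r s) ^ 2 = (pr ((w ^ 6) r) r + 2) * (pr ((w ^ 6) s) s + 2) := by
    have key : ∀ r, ∃ c : ℚ, ∀ s, ((pr ((w ^ 6) r) s + pr r s : ℤ) : ℚ) = c * ∑ i, v i * wt s i := fun r => by
      obtain ⟨c, hc⟩ := hv (cor r ᵥ* (wM w ^ 6 + 1)) (by rw [vecMul_vecMul, hP, vecMul_smul])
      refine ⟨c, fun s => ?_⟩
      rw [vecMul_add, vm hw, vecMul_one] at hc
      rw [pr, pr, ← add_dotProduct, dotProduct, Int.cast_sum, Finset.mul_sum]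
      exact Finset.sum_congr rfl fun i _ => by rw [Int.cast_mul, hc, mul_assoc]
    intro r s
    obtain ⟨c, hc⟩ := key r
    obtain ⟨d, hd⟩ := key s
    have e1 := hc r
    have e2 := hd s
    have e3 := hd r
    rw [pr_self] at e1 e2
    rw [← hsym, ← hl r] at e3
    apply Int.cast_injective (α := ℚ)
    rw [Int.cast_mul, e1, e2, Int.cast_pow, sq]
    nth_rewrite 1 [e3]
    rw [hc]; ring
  have hpm : ∀ r, (w ^ 6) r = r ∨ (w ^ 6) r = ng r := fun r => h1 r _ fun i => by
    have h3 : 2 ∣ pr ((w ^ 6) r) (sim i) + pr r (sim i) :=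
      Int.prime_two.dvd_of_dvd_pow (n := 2) (hB r (sim i) ▸ (hev r).mul_right _)
    rw [hl _ (sim i), hl _ (sim i), pr_sim_left, pr_sim_left] at h3
    omega
  have hng : ∀ r, (w ^ 6) r = ng r := fun r => (hpm r).resolve_left fun e => by
    obtain ⟨i, hi⟩ := h2 r
    have := hB r (sim i)
    rw [e, hl r, pr_sim_left, pr_self] at this
    rcases hpm (sim i) with e' | e' <;> rw [e'] at this
    · rw [pr_self] at this
      have : (wt r i - 2) * (wt r i + 2) = 0 := by linarith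
      rcases mul_eq_zero.1 this with h | h <;> omega
    · rw [pr_ng_left, pr_self] at this
      have : wt r i = 0 := by nlinarith
      omega
  have h3 : wM w ^ 6 = -1 := by
    rw [← wM_pow' hw]
    ext i j
    simp [wM, hng, cor_sim, Pi.single_apply, one_apply, eq_comm]
  have h4 := congrArg det h3
  rw [det_pow, det_neg, det_one, Fintype.card_fin, show (-1 : ℤ) ^ D.rank = -1 by rw [hn]; rfl] at h4
  have := Even.pow_nonneg (by decide : Even 6) (wM w).det
  omega
end

theorem hl : ∀ r s : Rt chevE7, pr r s = pr s r := (sl_of_chk tab_E7 sl_E7).1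

theorem wt_eq' (r : Rt chevE7) (i : Nd chevE7) : wt r i = tabE7.wt r i := by rw [← tab_E7, tab_wt]; rfl

theorem chk1 : (allLt 126 fun r => allLt 126 fun s => !(allLt 7 fun i => decide ((tabE7.wt r i + tabE7.wt s i) % 2 = 0)) ||
    decide (s = r ∨ s = 125 - r)) = true := by decide +kernel

theorem chk2 : (allLt 126 fun r => !(allLt 7 fun i => decide (tabE7.wt r i % 2 ≠ 1))) = true := by decide +kernel

theorem ord5 : orderOf (3 : ZMod 5) = 4 := (orderOf_eq_iff (by norm_num)).2 (by decide)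
theorem ord13 : orderOf (7 : ZMod 13) = 12 := (orderOf_eq_iff (by norm_num)).2 (by decide)
theorem inv5 : ((2 : ℕ) : ZMod 5) * 3 = 1 := by decide
theorem inv13 : ((2 : ℕ) : ZMod 13) * 7 = 1 := by decide

theorem no65 (x : chevE7.group (ZMod 2)) : orderOf x ≠ 65 := fun hx => by
  haveI : Fact (Nat.Prime 5) := ⟨by norm_num⟩
  haveI : Fact (Nat.Prime 13) := ⟨by norm_num⟩
  obtain ⟨τ, Φ, -, -, hT, -⟩ := form_untw (p := 2) (D := chevE7) (by simp) (ZMod 2)
  obtain ⟨w, hw, c, hc, v, -, h1, -, ⟨k, h2⟩, -⟩ := Φ.ord_typ x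
  rw [hT, ZMod.card] at hc
  obtain ⟨z, hz, h3⟩ := eval_eq_zero hc
  have h4 : (65 : ℤ) ∣ z := by
    have h5 : 65 ∣ orderOf (tor c) := (Nat.Coprime.pow_right k (by norm_num : Nat.Coprime 65 2)).dvd_of_dvd_mul_right
      (by rw [← h2, ← hx, h1]; exact Nat.lcm_dvd_mul _ _)
    exact (Int.natCast_dvd_natCast.2 h5).trans (orderOf_dvd_iff_zpow_eq_one.2 (by rw [← map_zpow, hz, map_one]))
  have ho : wM w ^ orderOf w = 1 := by rw [← wM_pow' hw, pow_orderOf_eq_one, wM_one]
  have hn : Fintype.card (Nd chevE7) = 7 := Fintype.card_fin _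
  obtain ⟨a, ha, h5⟩ := charpoly_eq ho (orderOf_pos w) hn
    (exists_cyc ho (orderOf_pos w) (h3 5 3 inv5 ((by norm_num : (5 : ℤ) ∣ 65).trans h4))
      ord5 (by rw [hn]; decide))
    (exists_cyc ho (orderOf_pos w) (h3 13 7 inv13 ((by norm_num : (13 : ℤ) ∣ 65).trans h4))
      ord13 (by rw [hn]; decide +kernel))
  refine not_charpoly hw hl rfl (fun r s h => ?_) (fun r => ?_) ha h5
  · have := allLt_iff.1 (allLt_iff.1 chk1 r r.2) s s.2
    rw [allLt_iff.2 fun i hi => decide_eq_true (by simpa only [wt_eq'] using h ⟨i, hi⟩)] at this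
    exact (of_decide_eq_true this).imp Fin.ext fun e => Fin.ext (e.trans (ng_val' r).symm)
  · by_contra e
    have := allLt_iff.1 chk2 r r.2
    rw [(allLt_iff (n := 7) (f := fun i => decide (tabE7.wt r i % 2 ≠ 1))).2 fun i hi =>
      decide_eq_true fun e' => e ⟨⟨i, hi⟩, by rw [wt_eq']; exact e'⟩] at this
    exact absurd this (by decide)

end CA.H23E7
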