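/-
The small Ree groups: the minimal character degree.
-/
import Cfsg.Agent.Lib.Lie.ReeInv
import Cfsg.Agent.Lib.Char.Wt

set_option autoImplicit false

namespace CA.Ree

open Cfsg CA.Wt CChar.CharFun CChar.CharKer Finset

variable {K G : Type*} [Field K] [Group G] (R : Ree K G) [Finite K]

include R in
theorem deg_le (hq : 3 < Nat.card K) {χ : G → ℂ} (hχ : IsIrrCharacter G χ) {k : ℕ} (hk : χ 1 = k) (h2 : 2 ≤ k) :
    Nat.card K ^ 2 - Nat.card K + 1 ≤ k := by
  classical
  have := R.finite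
  have := Fintype.ofFinite K
  have := R.simple hq
  have hc := char_of_irr hχ
  have ker := charKer_eq_bot_of_simple hχ (by rintro rfl; have : 1 = k := (by simpa using hk.symm : k = 1).symm; omega)
  obtain ⟨ψ, hψ⟩ := exists_addChar K (one_ne_zero (α := K))
  let x : AddChar (K × K) G := ⟨fun a => R.X 0 a.1 a.2, R.X_zero, fun a b => by simp [X_mul]⟩
  have hx : Function.Injective x := fun a b h => Prod.ext (R.X_inj h).2.1 (R.X_inj h).2.2
  let P : Par (K × K) (K × K) := .of ψ (AddMonoidHom.mk' (fun y => AddMonoidHom.mk' (fun a => y.1 * a.1 + y.2 * a.2) fun a b => by simp; ring)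
    fun y z => AddMonoidHom.ext fun a => by simp; ring) (fun a ha => by
      by_cases h : a.1 = 0
      exacts [⟨(0, a.2⁻¹), by simpa [inv_mul_cancel₀ (fun e => ha (Prod.ext h e) : a.2 ≠ 0)]⟩, ⟨(a.1⁻¹, 0), by simpa [h]⟩]) rfl
  have pe : ∀ y a, P.e y a = ψ (y.1 * a.1 + y.2 * a.2) := fun _ _ => rfl
  obtain ⟨m, m1, m2, m3⟩ := exists_mults P hc hx
  have m4 : ∀ y : K × K, y.2 ≠ 0 → m y = m (0, 1) := fun ⟨a, b⟩ hb => by
    obtain ⟨κ, e⟩ := R.exists_v (Units.mk0 b hb)
    rw [← m3 (R.X (a / b) 0 0) (.ofBijective (AddMonoidHom.mk' (fun c => (c.1, c.2 + a / b * c.1)) fun c d => by simp; ring)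
      (Finite.injective_iff_bijective.1 fun c d h => by obtain ⟨h1, h2⟩ := Prod.ext_iff.1 h; ext <;> simp_all))
      (fun c => by rw [mul_inv_eq_iff_eq_mul]; simp [x, X_mul, X_eq_iff]; ring) (a, b) (0, b)
      fun c => by simp only [pe]; congr 1; simp; field_simp; ring]
    exact (m3 (R.D κ) (.ofBijective (AddMonoidHom.mk' (fun c => (κ * R.s κ * c.1, κ ^ 2 * R.s κ * c.2)) fun c d => by simp [mul_add])
      (Finite.injective_iff_bijective.1 fun c d h => by obtain ⟨h1, h2⟩ := Prod.ext_iff.1 h; ext <;> simp_all))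
      (fun c => by simp [x, D_X]) (0, b) (0, 1) fun c => by simp [pe, e]).symm
  have m5 : k = ∑ y, m y := by simpa [hk, ← Nat.cast_sum] using m2 0
  have m6 : m (0, 1) ≠ 0 := fun h => by
    have : x (0, 1) ∈ charKer χ := (mem_charKer hc).2 (by
      rw [m2, hk, m5, Nat.cast_sum]
      refine sum_congr rfl fun y _ => ?_
      by_cases hy : y.2 = 0
      exacts [by simp [pe, hy], by simp [m4 y hy, h]])
    simp [ker, x, X_eq_one] at this
  have m7 : k = (∑ a, m (a, 0)) + Nat.card K * ((Nat.card K - 1) * m (0, 1)) := by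
    rw [m5, Fintype.sum_prod_type, Nat.card_eq_fintype_card, ← smul_eq_mul, ← card_univ, ← sum_const, ← sum_add_distrib]
    refine sum_congr rfl fun a _ => ?_
    rw [← add_sum_erase _ _ (mem_univ 0), sum_congr rfl fun b hb => m4 (a, b) (ne_of_mem_erase hb)]; simp
  obtain ⟨t, ht⟩ := R.exists_t
  by_contra hlt
  have e1 : Nat.card K ^ 2 - Nat.card K = 64 * t ^ 2 + 40 * t + 6 := by rw [ht]; exact Nat.sub_eq_of_eq_add (by ring)
  have e2 : Nat.card K * ((Nat.card K - 1) * m (0, 1)) = (64 * t ^ 2 + 40 * t + 6) * m (0, 1) := by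
    rw [ht, show 8 * t + 3 - 1 = 8 * t + 2 by omega]; ring
  have e3 := Nat.le_mul_of_pos_right (64 * t ^ 2 + 40 * t + 6) (Nat.pos_of_ne_zero m6)
  have e4 : ∀ a, m (a, 0) = 0 := fun a => sum_eq_zero_iff.1 (by omega : ∑ a, m (a, 0) = 0) a (mem_univ a)
  have hJ : χ R.J = 0 := by
    rw [← sum_wt P (χ := χ) (x := x)]
    refine sum_eq_zero fun ⟨a, b⟩ _ => ?_
    rcases eq_or_ne b 0 with rfl | hb
    · exact wt_eq_zero_of hc hx (by simp [m1, e4]) fun c => ⟨(c.1, -c.2), by simp [x, J_X]⟩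
    refine wt_eq_zero (char_classFun hc) (a := (0, b⁻¹)) (b := (0, -b⁻¹)) (mul_inv_eq_iff_eq_mul.1 (by simp [x, J_X])) fun e => hψ ?_
    have : ψ (1 + 1 + 1) = ψ (-1 + 1 + 1) := by simp only [AddChar.map_add_eq_mul]; rw [show ψ 1 = ψ (-1) by simpa [pe, hb] using e]
    rw [show (1 + 1 + 1 : K) = 0 by linear_combination R.three] at this
    simpa using this.symm
  obtain ⟨S⟩ : Nonempty (Sylow 2 G) := inferInstance
  have := Fintype.ofFinite S
  obtain ⟨n, hn⟩ := inner_char_char (char_restrict hc S) char_one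
  rw [inner_def, sum_eq_single 1 (fun s _ hs => by
    rw [← classFun_of_isConj (char_classFun hc) (R.isConj_J hq (fun e => hs (Subtype.ext e)) (R.sq_of_pgroup S.2 s.2)), hJ, zero_mul]) (by simp),
    inv_mul_eq_iff_eq_mul₀ (by simp)] at hn
  have : k = 8 * n := by
    rw [← R.card_sylow S]; exact_mod_cast (by simpa [hk] using hn : (k : ℂ) = Nat.card S * n)
  omega

end CA.Ree
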