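/-
The small Ree groups: groups with the same element orders as the cube.
-/
import Cfsg.Agent.Lib.Lie.ReeTori2

set_option autoImplicit false

namespace CA.Ree

open Subgroup CA.SL2Unip CA.PSL2Struct Matrix
open scoped MatrixGroups

variable {K G : Type*} [Field K] [Group G] (R : Ree K G) (N : ℕ)

/-- the sign -/
def sg (e : Z2) : K := if e = 1 then 1 else -1

theorem sg_mul (a b : Z2) : (sg (a * b) : K) = sg a * sg b := by
  rcases Z2_cases a with rfl | rfl <;> rcases Z2_cases b with rfl | rfl <;> simp [sg]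

/-- the module -/
abbrev Mod (K : Type*) (N : ℕ) := Multiplicative (Fin (N + 1) → Matrix (Fin 2) (Fin 2) K)

/-- the action on the module -/
def act0 (p : Z2 × SL(2, K)) : Mod K N →* Mod K N := AddMonoidHom.toMultiplicative
  { toFun A i := (sg p.1 : K) • (p.2.1 * A i * (p.2.1.map R.s)ᵀ)
    map_zero' := by ext1; simp
    map_add' A B := by ext1; simp [mul_add, add_mul] }

theorem act0_apply (p : Z2 × SL(2, K)) (A : Mod K N) (i : Fin (N + 1)) :
    (R.act0 N p A).toAdd i = (sg p.1 : K) • (p.2.1 * A.toAdd i * (p.2.1.map R.s)ᵀ) := rfl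

theorem act0_mul (p q : Z2 × SL(2, K)) : R.act0 N (p * q) = (R.act0 N p).comp (R.act0 N q) := by
  refine MonoidHom.ext fun A => Multiplicative.toAdd.injective (funext fun i => ?_)
  simp [act0_apply, sg_mul, Matrix.map_mul, mul_assoc, smul_smul]

theorem act0_one : R.act0 N 1 = MonoidHom.id _ := by
  refine MonoidHom.ext fun A => Multiplicative.toAdd.injective (funext fun i => ?_)
  simp [act0_apply, sg]

/-- the action as automorphisms -/
def act1 : Z2 × SL(2, K) →* MulAut (Mod K N) := MonoidHom.mk' (fun p => (R.act0 N p).toMulEquiv (R.act0 N p⁻¹)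
    (by rw [← act0_mul, inv_mul_cancel, act0_one]) (by rw [← act0_mul, mul_inv_cancel, act0_one]))
  fun p q => MulEquiv.ext fun x => DFunLike.congr_fun (R.act0_mul N p q) x

theorem exists_act : ∃ φ : Z2 × PSL(2, K) →* MulAut (Mod K N), ∀ e g A i,
    (φ (e, pr K g) A).toAdd i = (sg e : K) • (g.1 * A.toAdd i * (g.1.map R.s)ᵀ) := by
  let π : Z2 × SL(2, K) →* Z2 × PSL(2, K) := (MonoidHom.id _).prodMap (pr K)
  have hs : Function.Surjective π := Function.surjective_id.prodMap pr_surj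
  have hk : π.ker ≤ (R.act1 N).ker := by
    rintro ⟨e, g⟩ h
    obtain ⟨rfl, h'⟩ : e = 1 ∧ pr K g = 1 := Prod.ext_iff.1 h
    refine MulEquiv.ext fun A => Multiplicative.toAdd.injective (funext fun i => (R.act0_apply ..).trans ?_)
    rcases pr_eq_one_iff.1 h' with rfl | rfl <;> simp [sg, Matrix.map_neg]
  exact ⟨π.liftOfSurjective hs ⟨_, hk⟩, fun e g A i => by
    rw [show (e, pr K g) = π (e, g) from rfl, MonoidHom.liftOfRightInverse_comp_apply]; rfl⟩

theorem fix_cases {e : Z2} {g : SL(2, K)} {A : Matrix (Fin 2) (Fin 2) K} (hA : A ≠ 0)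
    (h : (sg e : K) • (g.1 * A * (g.1.map R.s)ᵀ) = A) : (e, pr K g) ^ 2 = 1 ∨ (e, pr K g) ^ 3 = 1 := by
  have c : g.1 + (g⁻¹).1 = g.1.trace • (1 : Matrix _ _ K) := by
    rw [sl_inv_coe]; ext i j; fin_cases i <;> fin_cases j <;> simp [trace_fin_two, add_comm]
  have i1 : (g⁻¹).1 * g.1 = 1 := congrArg Subtype.val (inv_mul_cancel g)
  have i2 : (g.1.map R.s)ᵀ * ((g⁻¹).1.map R.s)ᵀ = 1 := by rw [← transpose_mul, ← Matrix.map_mul, i1]; simp
  have c2 : (g.1.map R.s)ᵀ + ((g⁻¹).1.map R.s)ᵀ = R.s g.1.trace • (1 : Matrix _ _ K) := by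
    rw [← transpose_add, ← Matrix.map_add _ (map_add _), c]; ext i j; fin_cases i <;> fin_cases j <;> simp
  have h1 : (g⁻¹).1 * A = (sg e : K) • (A * (g.1.map R.s)ᵀ) := by
    conv_lhs => rw [← h]
    rw [mul_smul_comm, mul_assoc g.1, ← mul_assoc, i1, one_mul]
  have h2 : A * ((g⁻¹).1.map R.s)ᵀ = (sg e : K) • (g.1 * A) := by
    conv_lhs => rw [← h]
    rw [smul_mul_assoc, mul_assoc, i2, mul_one]
  have ee : (sg e : K) * sg e = 1 := by rw [← sg_mul]; simp [sg]
  have h3 : g.1.trace = sg e * R.s g.1.trace := smul_left_injective K hA (by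
    have e1 := congrArg (· * A) c
    have e2 := congrArg (fun B => (sg e : K) • (A * B)) c2
    simp only [add_mul, mul_add, smul_add, h1, h2, smul_smul, ee, one_smul, smul_mul_assoc, mul_smul_comm, one_mul, mul_one] at e1 e2
    exact e1.symm.trans ((add_comm ..).trans e2))
  have h4 : g.1.trace ^ 3 = g.1.trace := by
    have : R.s (sg e) = sg e := by unfold sg; split_ifs <;> simp
    rw [← R.ss]; nth_rw 2 [h3, h3]; rw [map_mul, this, ← mul_assoc, ee, one_mul]
  have cube : ∀ g : SL(2, K), g.1.trace = -1 → pr K g ^ 3 = 1 := fun g h => by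
    obtain ⟨a, b, c, d, hd, rfl⟩ := sl_ex4 g
    obtain rfl : d = -1 - a := by rw [trace_mk2] at h; linear_combination h
    rw [← map_pow, pow_three, mk2_mul, mk2_mul, pr_eq_one_iff, one_eq_mk2, mk2_eq_iff]
    exact Or.inl ⟨by linear_combination (1 - a) * hd, by linear_combination -b * hd, by linear_combination -c * hd,
      by linear_combination (2 + a) * hd⟩
  rcases eq_or_ne g.1.trace 0 with h0 | h0
  · exact Or.inl (by rw [sq, Prod.mk_mul_mk, Z2_sq, pr_mul_self_of_trace h0]; rfl)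
  have h5 : g.1.trace = 1 ∨ g.1.trace = -1 := sq_eq_one_iff.1 (mul_left_cancel₀ h0 (by linear_combination h4))
  obtain rfl : e = 1 := (Z2_cases e).resolve_right (by
    rintro rfl
    rcases h5 with h | h <;> rw [h] at h3 <;> simp [sg] at h3
    exacts [R.two_ne (by linear_combination h3), R.two_ne (by linear_combination -h3)])
  refine Or.inr (Prod.ext rfl ?_)
  rcases h5 with h | h
  exacts [pr_neg g ▸ cube (-g) (by simp [h]), cube g h]

include R in
theorem exists_spec [Finite K] (hq : 3 < Nat.card K) {r : ℕ} (hr : r ^ 2 = 3 * Nat.card K) :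
    ∃ φ : Z2 × PSL(2, K) →* MulAut (Mod K N), (∀ f : Mod K N ⋊[φ] (Z2 × PSL(2, K)), ∃ g : G, orderOf g = orderOf f) ∧
      ∀ g : G, (∃ f : Mod K N ⋊[φ] (Z2 × PSL(2, K)), orderOf f = orderOf g) ∨ orderOf g ∣ Nat.card K - r + 1 ∨ orderOf g ∣ Nat.card K + r + 1 := by
  have := R.finite
  have : Fact (Nat.Prime 3) := ⟨Nat.prime_three⟩
  obtain ⟨φ, hφ⟩ := R.exists_act N
  have : Finite (Mod K N ⋊[φ] (Z2 × PSL(2, K))) := Finite.of_equiv _ SemidirectProduct.equivProd.symm
  have h3 : ∀ w : Mod K N, w ^ 3 = 1 := fun w => Multiplicative.toAdd.injective (by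
    ext i j k; simp [R.three])
  refine ⟨φ, fun f => ?_, fun g => ?_⟩
  · obtain ⟨Θ, hΘ, -⟩ := R.exists_invC_J
    have h1 : ∀ n, f.right ^ n = 1 → ∃ w, f ^ n = .inl w := fun n h => by
      have : f ^ n ∈ (SemidirectProduct.rightHom (φ := φ)).ker := by rw [MonoidHom.mem_ker, map_pow]; exact h
      exact (SemidirectProduct.range_inl_eq_ker_rightHom.ge this).imp fun _ => Eq.symm
    have h2 : ∀ n, f.right ^ n = 1 → orderOf f ∣ n * 3 := fun n h => by
      obtain ⟨w, e⟩ := h1 n h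
      rw [orderOf_dvd_iff_pow_eq_one, pow_mul, e, ← map_pow, h3, map_one]
    obtain ⟨w, e⟩ := h1 _ (pow_orderOf_eq_one _)
    rcases eq_or_ne w 1 with rfl | hw
    · exact ⟨Θ f.right, (orderOf_injective Θ hΘ.inj _).trans (Nat.dvd_antisymm (orderOf_map_dvd SemidirectProduct.rightHom f)
        (orderOf_dvd_of_pow_eq_one (e.trans (map_one _))))⟩
    have h4 : φ f.right w = w := by
      have := congrArg SemidirectProduct.left (e ▸ (Commute.refl f).pow_right _ : Commute f (.inl w)).eq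
      simpa [mul_comm w] using this
    obtain ⟨i, hi⟩ := Function.ne_iff.1 (show w.toAdd ≠ 0 from hw)
    obtain ⟨y, hy⟩ := pr_surj f.right.2
    have e : f.right = (f.right.1, pr K y) := by rw [hy]
    refine (R.order_iff hq hr _).2 ((R.fix_cases hi ((hφ _ y w i).symm.trans (by rw [← e, h4]))).imp (fun h => ?_) fun h => Or.inl ?_) <;>
      exact h2 _ (by rwa [← e] at h)
  have k : ∀ {n} (f : Mod K N ⋊[φ] (Z2 × PSL(2, K))), orderOf f = n → orderOf g ∣ n →
      ∃ f : Mod K N ⋊[φ] (Z2 × PSL(2, K)), orderOf f = orderOf g := fun x e h =>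
    ⟨x ^ (orderOf x / orderOf g), orderOf_pow_orderOf_div (orderOf_pos x).ne' (e ▸ h)⟩
  have k2 : ∀ {n}, 2 ∣ n → (∃ x : G, orderOf x = n) → orderOf g ∣ n → ∃ f : Mod K N ⋊[φ] (Z2 × PSL(2, K)), orderOf f = orderOf g := by
    rintro _ h ⟨x, rfl⟩
    have e := orderOf_pow_orderOf_div (orderOf_pos x).ne' h
    obtain ⟨Θ, hΘ⟩ := R.exists_invC hq (j := x ^ (orderOf x / 2)) (by rintro e'; simp [e'] at e) (by rw [← sq, ← orderOf_dvd_iff_pow_eq_one, e])
    obtain ⟨a, y, e⟩ := hΘ.ex ((Commute.refl x).pow_right _).eq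
    exact k (.inr (a, y)) (by rw [orderOf_injective _ SemidirectProduct.inr_injective, e, orderOf_injective Θ hΘ.inj])
  have o := R.order_iff hq hr
  obtain ⟨t, ht⟩ := R.exists_t
  rcases (o _).1 ⟨g, rfl⟩ with h | h | h | h | h
  · exact Or.inl (k2 (by decide) ((o _).2 (by simp)) h)
  · let f : Mod K N ⋊[φ] (Z2 × PSL(2, K)) := ⟨.ofAdd fun _ => !![0, 0; 0, 1], (1, pr K (u 1))⟩
    have e : f ^ 3 = .inl (.ofAdd fun _ => !![2, 0; 0, 0]) := by
      refine SemidirectProduct.ext (Multiplicative.toAdd.injective (funext fun i => ?_)) (Prod.ext rfl ?_)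
      · have : ((u 1).1.map R.s)ᵀ = !![1, 0; 1, 1] := by ext j k; fin_cases j <;> fin_cases k <;> simp
        simp only [f, pow_three, SemidirectProduct.mul_left, map_mul, toAdd_mul, Pi.add_apply, hφ, this]
        ext j k; fin_cases j <;> fin_cases k <;> simp [sg] <;> linear_combination R.three
      · exact (pr_u_pow (b := (1 : K)) (n := 3)).trans (by simp [R.three])
    refine Or.inl (k f (orderOf_eq_prime_pow (p := 3) (n := 1) (fun h => R.two_ne ?_) ?_) h)
    · rw [pow_one, e, map_eq_one_iff _ SemidirectProduct.inl_injective] at h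
      simpa using congrFun (congrFun (congrFun (congrArg Multiplicative.toAdd h) 0) 0) 0
    · rw [pow_succ, pow_one, pow_mul, e, ← map_pow, h3, map_one]
  · exact Or.inl (k2 (by omega) ((o _).2 (by simp)) h)
  · exact Or.inl (k2 (by omega) ((o _).2 (by simp)) h)
  · exact Or.inr h

include R in
theorem cube_spec [Finite K] (hq : 3 < Nat.card K) {r : ℕ} (hr : r ^ 2 = 3 * Nat.card K) :
    ∃ (H : Type) (_ : Group H) (_ : Fintype H), N < Fintype.card H ∧ Set.range (orderOf : H → ℕ) = Set.range (orderOf : G × G × G → ℕ) := by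
  have := R.finite
  obtain ⟨φ, h1, h2⟩ := R.exists_spec N hq hr
  have : Finite (Mod K N ⋊[φ] (Z2 × PSL(2, K))) := Finite.of_equiv _ SemidirectProduct.equivProd.symm
  let H := G × G × Mod K N ⋊[φ] (Z2 × PSL(2, K))
  have : Finite (Shrink.{0} H) := Finite.of_equiv _ (equivShrink.{0} H)
  refine ⟨Shrink.{0} H, inferInstance, Fintype.ofFinite _, ?_, ?_⟩
  · rw [← @Nat.card_eq_fintype_card _ (_), ← Nat.card_congr (equivShrink.{0} H)]
    refine lt_of_lt_of_le ?_ (Nat.card_le_card_of_injective (fun x : Fin (N + 1) → K =>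
      ((1, 1, .inl (.ofAdd fun i => !![x i, 0; 0, 0])) : H)) fun x y e => funext fun i => ?_)
    · rw [Nat.card_fun, Nat.card_eq_fintype_card (α := Fin _), Fintype.card_fin]
      exact (Nat.lt_succ_self N).trans (Nat.lt_pow_self (by omega))
    · simpa using congrFun (congrFun (congrFun (congrArg Multiplicative.toAdd
        (SemidirectProduct.inl_injective (congrArg (·.2.2) e))) i) 0) 0
  trans Set.range (orderOf : H → ℕ)
  · rw [← (Shrink.mulEquiv.{0} (α := H)).surjective.range_comp]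
    exact congrArg _ (funext fun x => (MulEquiv.orderOf_eq ..).symm)
  ext d
  constructor
  · rintro ⟨⟨a, b, f⟩, rfl⟩
    obtain ⟨c, e⟩ := h1 f
    exact ⟨(a, b, c), by simp [H, Prod.orderOf, e]⟩
  rintro ⟨⟨a, b, c⟩, rfl⟩
  have k : ∀ a b c : G, ∀ n, (n = Nat.card K - r + 1 ∨ n = Nat.card K + r + 1) → orderOf a ∣ n → orderOf b ∣ n →
      ∃ x : H, orderOf x = (orderOf a).lcm ((orderOf b).lcm (orderOf c)) := fun a b c n hn ha hb => by
    obtain ⟨g, e⟩ := (R.order_iff hq hr _).2 (by have := Nat.lcm_dvd ha hb; rcases hn with rfl | rfl <;> tauto)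
    exact ⟨(g, c, 1), by simp [H, Prod.orderOf, e, Nat.lcm_assoc]⟩
  have lc : ∀ a b c : ℕ, a.lcm (b.lcm c) = b.lcm (a.lcm c) := fun a b c => by rw [← Nat.lcm_assoc, Nat.lcm_comm a, Nat.lcm_assoc]
  simp only [Set.mem_range, Prod.orderOf]
  rcases h2 a with ⟨f, e⟩ | ha
  · exact ⟨(b, c, f), by simp [H, Prod.orderOf, e, Nat.lcm_comm (orderOf c), lc (orderOf b)]⟩
  rcases h2 b with ⟨f, e⟩ | hb
  · exact ⟨(a, c, f), by simp [H, Prod.orderOf, e, Nat.lcm_comm]⟩
  rcases h2 c with ⟨f, e⟩ | hc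
  · exact ⟨(a, b, f), by simp [H, Prod.orderOf, e]⟩
  have k1 := fun n => k a b c n
  have k2 := fun n => Nat.lcm_comm (orderOf c) _ ▸ k a c b n
  have k3 := fun n => lc (orderOf b) _ _ ▸ Nat.lcm_comm (orderOf c) _ ▸ k b c a n
  rcases ha with ha | ha <;> rcases hb with hb | hb <;> rcases hc with hc | hc <;> first
    | exact k1 _ (by simp) ha hb | exact k2 _ (by simp) ha hc | exact k3 _ (by simp) hb hc

end CA.Ree
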