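/-
Exponents of the maximal tori of `F₄(q)` and `²F₄(q)`.
-/
import Cfsg.Agent.Lib.Lie.SSF4

set_option autoImplicit false

namespace CA.Chev

open Matrix Equiv Cfsg.Lie Cfsg.Lie.ChevalleyDatum

theorem exp_F4 {M : Type*} [CommGroup M] {w : Perm (Rt chevF4)} (hw : w ∈ RA chevF4) {q : ℕ} {c : Nd chevF4 → M}
    (hc : mact (wM w) c ^ q = c) : c ^ ((q : ℤ) ^ 4 - 1) = 1 ∨ c ^ (((q : ℤ) ^ 2 - 1) * (q ^ 2 + q + 1)) = 1 ∨
      c ^ (((q : ℤ) ^ 2 - 1) * (q ^ 2 - q + 1)) = 1 ∨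
      (c ^ ((q : ℤ) ^ 4 + 1) = 1 ∨ c ^ ((q : ℤ) ^ 4 - q ^ 2 + 1) = 1) ∧ (wM w).det = 1 := by
  obtain ⟨S, h, hS⟩ := wAll_spec tab_F4 prChk_F4 f4P_all hw
  have e : toMat 4 (mkM 4 fun i j => 1 * tabF4.co (getN S (id i)) j) = wM w :=
    (tab_F4 ▸ toMat_co hS id (ι' := id) (fun _ => rfl) fun _ => 1 :).trans (by simp [wM])
  have k : ∀ (f : List ℤ) (n : ℤ), ev 5 (getG 0 f) q = n →
      kill 4 4 (mps 4 (mkM 4 fun i j => 1 * tabF4.co (getN S (id i)) j) 4) (getG 0 f) = true → c ^ n = 1 :=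
    fun f n e1 h => e1 ▸ zpow_ev_eq_one hc (e ▸ kill_spec h)
  simp only [f4P, Bool.or_eq_true, Bool.and_eq_true, decide_eq_true_eq, ← det4_eq, or_assoc] at h
  refine h.imp (k _ _ ?_) (.imp (k _ _ ?_) (.imp (k _ _ ?_) (.imp (.imp (k _ _ ?_) (k _ _ ?_)) fun h => e ▸ h))) <;>
    simp [ev_eq, Finset.sum_range_succ, getG_eq] <;> ring

theorem exp_2F4 {M : Type*} [CommGroup M] {w : Perm (Rt chevF4)} (hw : w ∈ RA chevF4) (hd : (wM w).det ≠ 1) {q : ℕ}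
    {c : Nd chevF4 → M} (hc : mact (Matrix.of fun i j => eF4 (sim i).1 * cor (w (sim (ιF4 i))) j) c ^ q = c) :
    c ^ (16 * (q : ℤ) ^ 8 - 1) = 1 := by
  obtain ⟨S, h, hS⟩ := wAll_spec tab_F4 prChk_F4 f4Q_all hw
  have e : toMat 4 (mkM 4 fun i j => 1 * tabF4.co (getN S (id i)) j) = wM w :=
    (tab_F4 ▸ toMat_co hS id (ι' := id) (fun _ => rfl) fun _ => 1 :).trans (by simp [wM])
  have e' : toMat 4 (mkM 4 fun i j => getG 0 [2, 2, 1, 1] i * tabF4.co (getN S ([3, 2, 1, 0].getD i 0)) j) =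
      Matrix.of fun i j => (eF4 (sim i).1 : ℤ) * cor (w (sim (ιF4 i))) j :=
    (tab_F4 ▸ toMat_co hS ιF4 (ι' := ([3, 2, 1, 0].getD · 0)) (fun _ => rfl) (getG 0 [2, 2, 1, 1]) :).trans (by
      ext i j
      rw [of_apply, of_apply, (by decide +kernel : ∀ i : Nd chevF4, getG 0 [2, 2, 1, 1] i = (eF4 (sim i).1 : ℤ)) i])
  simp only [f4Q, Bool.or_eq_true, decide_eq_true_eq, ← det4_eq] at h
  have h1 := kill_spec (h.resolve_left fun h => hd (e ▸ h))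
  rw [toMat_mmL, toMat_mmL, ← sq, ← sq, ← pow_mul] at h1
  rw [show 16 * (q : ℤ) ^ 8 - 1 = ev (2 + 1) (getG 0 [-1, 0, 16]) (q ^ (2 * 2) : ℕ) by
    simp [ev_eq, Finset.sum_range_succ, getG_eq]; ring]
  exact zpow_ev_eq_one (ι := Fin 4) (mact_pow_fix (e'.symm ▸ hc) _) h1

section
variable {r : ℕ} [Fact r.Prime] {x : ZMod r}

theorem ord_mem_of (h2 : r ≠ 2) (h0 : x ≠ 0) : (x ^ 4 - 1 = 0 → orderOf x ∈ ({1, 2, 4} : Finset ℕ)) ∧
    ((x ^ 2 - 1) * (x ^ 2 + x + 1) = 0 → orderOf x ∈ ({1, 2, 3} : Finset ℕ)) ∧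
    ((x ^ 2 - 1) * (x ^ 2 - x + 1) = 0 → orderOf x ∈ ({1, 2, 6} : Finset ℕ)) ∧
    (x ^ 4 + 1 = 0 → orderOf x = 8) ∧ (x ^ 4 - x ^ 2 + 1 = 0 → orderOf x = 12) := by
  have h2' : (2 : ZMod r) ≠ 0 := fun e => h2 ((Nat.prime_dvd_prime_iff_eq Fact.out Nat.prime_two).1
    ((ZMod.natCast_eq_zero_iff 2 r).1 e))
  have k : ∀ n, x ^ n = 1 → 0 < n → orderOf x ∈ n.divisors := fun n h hn =>
    Nat.mem_divisors.2 ⟨orderOf_dvd_of_pow_eq_one h, hn.ne'⟩
  have k' : ∀ n, orderOf x ∣ n → x ^ n = 1 := fun n => orderOf_dvd_iff_pow_eq_one.1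
  refine ⟨fun h => k 4 (sub_eq_zero.1 h) (by omega), fun h => ?_, fun h => ?_, fun h => ?_, fun h => ?_⟩
  · rcases mul_eq_zero.1 h with h | h
    · exact (by decide : Nat.divisors 2 ⊆ _) (k 2 (sub_eq_zero.1 h) two_pos)
    · exact (by decide : Nat.divisors 3 ⊆ _) (k 3 (by linear_combination (x - 1) * h) three_pos)
  · rcases mul_eq_zero.1 h with h | h
    · exact (by decide : Nat.divisors 2 ⊆ _) (k 2 (sub_eq_zero.1 h) two_pos)
    · exact (by decide : ∀ a ∈ Nat.divisors 6, ¬ a ∣ 3 → _) _ (k 6 (by linear_combination (x + 1) * (x ^ 3 - 1) * h) (by omega))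
        fun e => h2' (by linear_combination (x + 1) * h - k' _ e)
  · exact (by decide : ∀ a ∈ Nat.divisors 8, ¬ a ∣ 4 → a = 8) _ (k 8 (by linear_combination (x ^ 4 - 1) * h) (by omega))
      fun e => h2' (by linear_combination h - k' _ e)
  · refine (by decide : ∀ a ∈ Nat.divisors 12, ¬ a ∣ 4 → ¬ a ∣ 6 → a = 12) _
      (k 12 (by linear_combination (x ^ 2 + 1) * (x ^ 6 - 1) * h) (by omega)) (fun e => ?_)
      fun e => h2' (by linear_combination (x ^ 2 + 1) * h - k' _ e)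
    obtain rfl : r = 3 := (Nat.prime_dvd_prime_iff_eq Fact.out Nat.prime_three).1 ((ZMod.natCast_eq_zero_iff 3 r).1 (by
      push_cast; linear_combination (x ^ 2 + 2) * h - (x ^ 2 + 1) * k' _ e))
    exact one_ne_zero (by linear_combination h - k' _ e + ZMod.pow_card_sub_one_eq_one h0 : (1 : ZMod 3) = 0)

theorem root_of_ord : (orderOf x = 1 → x - 1 = 0) ∧ (orderOf x = 2 → x + 1 = 0) ∧ (orderOf x = 3 → x ^ 2 + x + 1 = 0) ∧
    (orderOf x = 4 → x ^ 2 + 1 = 0) ∧ (orderOf x = 6 → x ^ 2 - x + 1 = 0) ∧ (orderOf x = 8 → x ^ 4 + 1 = 0) ∧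
    (orderOf x = 12 → x ^ 4 - x ^ 2 + 1 = 0) := by
  have k : ∀ {n}, orderOf x = n → x ^ n = 1 := fun h => h ▸ pow_orderOf_eq_one x
  have k' : ∀ {n} m, orderOf x = n → ¬ n ∣ m → x ^ m - 1 ≠ 0 := fun m h h' e =>
    h' (h ▸ orderOf_dvd_of_pow_eq_one (sub_eq_zero.1 e))
  refine ⟨fun h => by linear_combination k h, fun h => ?_, fun h => ?_, fun h => ?_, fun h => ?_, fun h => ?_, fun h => ?_⟩
  · exact mul_left_cancel₀ (k' 1 h (by decide)) (by linear_combination k h)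
  · exact mul_left_cancel₀ (k' 1 h (by decide)) (by linear_combination k h)
  · exact mul_left_cancel₀ (k' 2 h (by decide)) (by linear_combination k h)
  · exact mul_left_cancel₀ (mul_ne_zero (k' 2 h (by decide)) (k' 3 h (by decide))) (by linear_combination (x - 1) * k h)
  · exact mul_left_cancel₀ (k' 4 h (by decide)) (by linear_combination k h)
  · exact mul_left_cancel₀ (mul_ne_zero (k' 4 h (by decide)) (k' 6 h (by decide))) (by linear_combination (x ^ 2 - 1) * k h)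
end

end CA.Chev
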