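/-
Involutions and their centralisers in Chevalley groups of odd characteristic.
-/
import Cfsg.Agent.Lib.Lie.SST

set_option autoImplicit false

namespace CA.Chev

open Matrix Equiv Cfsg.Lie Cfsg.Lie.ChevalleyDatum

variable {D : ChevalleyDatum} [Good D] {K : Type*} [Field K] {Γ : Type*} [Group Γ]

theorem stab_sum {S : Subgroup (Perm (Rt D))} {Ψ : Set (Rt D)} (hS : S ≤ W D) (hΨ : ∀ w ∈ S, ∀ r, w r ∈ Ψ ↔ r ∈ Ψ)
    {J : Set (Nd D)} {ω : Nd D → ℤ} (hω : ∀ r, Pos r → 0 ≤ ω ⬝ᵥ wt r) (hJ : ∀ r, ω ⬝ᵥ wt r = 0 ↔ r ∈ Phi J)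
    (h1 : Phi J ⊆ Ψ) (h2 : WJ J ≤ S) {n : ℕ} {O : ℕ → Nd D → ℤ} (hO : ∀ k < n, ∀ k' < n, O k = O k' → k = k')
    (h3 : ∀ w ∈ S, ∃ k < n, clin w ω = O k) (h4 : ∀ k < n, ∃ w ∈ S, clin w ω = O k) (q : ℕ) :
    ∑ᶠ w : S, q ^ (↑(invs w.1) ∩ Ψ).ncard =
      (∑ k ∈ Finset.range n, q ^ {r | r ∈ Ψ ∧ ¬ Pos r ∧ 0 < O k ⬝ᵥ wt r}.ncard) * poin J q := by
  classical
  have ra : ∀ w ∈ S, w ∈ RA D := fun w hw => W_le_RA (hS hw)
  have fx : ∀ u ∈ WJ J, clin u ω = ω := fun u hu => WJ_induction (P := fun u => clin u ω = ω) (clin_one ω)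
    (fun u hu i hi _ h => by
      rw [clin_mul (ra u (h2 hu)) (sR_mem_RA i), ← refl_sim, clin_refl, (hJ _).2 (sim_mem_Phi.2 hi), zero_smul, sub_zero,
        h]) hu
  have ex : ∀ k < n, ∃ d ∈ S, clin d ω = O k ∧ ∀ j ∈ J, Pos (d (sim j)) := fun k hk => by
    obtain ⟨w, hw, e⟩ := h4 k hk
    obtain ⟨u, hu⟩ := Finite.exists_min fun u : WJ J => lg (w * u.1)
    refine ⟨w * u.1, mul_mem hw (h2 u.2), by rw [clin_mul (ra w hw) (ra _ (h2 u.2)), fx _ u.2, e], fun j hj => ?_⟩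
    by_contra hn
    have := hu (u * ⟨_, sR_mem_WJ hj⟩)
    have := lg_mul_sR' (ra _ (mul_mem hw (h2 u.2))) hn
    simp only [Subgroup.coe_mul, ← mul_assoc] at *
    omega
  choose! d hd e1 e2 using ex
  have := Fintype.ofFinite (WJ J)
  have := Fintype.ofFinite S
  rw [poin, finsum_eq_sum_of_fintype, finsum_eq_sum_of_fintype, Finset.sum_mul_sum, ← Finset.sum_product']
  symm
  refine Finset.sum_bij (fun p hp => ⟨d p.1 * p.2, mul_mem (hd _ (by simpa using hp)) (h2 p.2.2)⟩)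
    (fun _ _ => Finset.mem_univ _) ?_ ?_ ?_
  · rintro ⟨k, w⟩ hp ⟨k', w'⟩ hp' e
    have e : d k * w = d k' * w' := congrArg Subtype.val e
    simp only [Finset.mem_product, Finset.mem_range, Finset.mem_univ, and_true] at hp hp'
    have h5 := congrArg (clin · ω) e
    simp only [clin_mul (ra _ (hd _ hp)) (ra _ (h2 w.2)), clin_mul (ra _ (hd _ hp')) (ra _ (h2 w'.2)), fx _ w.2,
      fx _ w'.2, e1 _ hp, e1 _ hp'] at h5
    obtain rfl := hO _ hp _ hp' h5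
    rw [Subtype.ext (mul_left_cancel e)]
  · rintro ⟨w, hw⟩ -
    obtain ⟨k, hk, e⟩ := h3 w hw
    refine ⟨(k, ⟨(d k)⁻¹ * w, (Subgroup.closure_le _).2 ?_ (mem_WS_of_fix (v := ω) (hS (mul_mem (inv_mem (hd k hk)) hw)) ?_)⟩),
      by simpa using hk, Subtype.ext (by simp)⟩
    · rintro _ ⟨r, hr, rfl⟩; exact refl_mem_WJ ((hJ r).1 hr)
    · rw [clin_mul (inv_mem (ra _ (hd k hk))) (ra w hw), e, ← e1 k hk, ← clin_mul (inv_mem (ra _ (hd k hk))) (ra _ (hd k hk)),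
        inv_mul_cancel, clin_one]
  · rintro ⟨k, u⟩ hp
    have hk : k < n := by simpa using hp
    have hw := mul_mem (hd k hk) (h2 u.2)
    have e : clin (d k * u.1) ω = O k := by rw [clin_mul (ra _ (hd _ hk)) (ra _ (h2 u.2)), fx _ u.2, e1 k hk]
    have h5 : ∀ r ∈ Phi J, Pos (d k r) ↔ Pos r := fun r hr => ⟨fun h => by_contra fun hn => (pos_ng _).1
      (map_ng (ra _ (hd k hk)) r ▸ pos_of_Phi (ra _ (hd k hk)) (e2 k hk) ((pos_ng r).2 hn) (ng_mem_Phi.2 hr)) h,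
      fun h => pos_of_Phi (ra _ (hd k hk)) (e2 k hk) h hr⟩
    have h6 : ∀ r ∈ invs u.1, r ∈ Phi J := fun r hr => by_contra fun hn =>
      (mem_invs.1 hr).2 ((mem_invs.1 hr).1.map_WJ u.2 hn)
    rw [← pow_add, lg, ← Set.ncard_coe_finset, ← Set.ncard_preimage_of_injective_subset_range (d k * u.1).injective
      ((d k * u.1).surjective.range_eq ▸ Set.subset_univ _), ← Set.ncard_union_eq]
    · congr 2
      ext r
      simp only [Set.mem_union, Set.mem_preimage, Set.mem_ofPred_eq, ← e, clin_dot (ra _ hw), hΨ _ hw, Set.mem_inter_iff,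
        Finset.mem_coe, mem_invs]
      refine ⟨?_, fun ⟨⟨a, b⟩, c⟩ => ?_⟩
      · rintro (⟨a, b, c⟩ | h)
        · refine ⟨⟨by_contra fun hn => ?_, b⟩, a⟩
          have := hω _ ((pos_ng r).2 hn)
          rw [wt_ng, dotProduct_neg] at this; omega
        · have := h6 r (mem_invs.2 h)
          exact ⟨⟨h.1, fun e => h.2 ((h5 _ ((map_mem_Phi u.2).2 this)).1 e)⟩, h1 this⟩
      · refine (hω r a).eq_or_lt.symm.imp (fun h => ⟨c, b, h⟩) fun h => ⟨a, fun e => b ?_⟩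
        exact (h5 _ ((map_mem_Phi u.2).2 ((hJ r).1 h.symm))).2 e
    · refine Set.disjoint_left.2 fun r hr h => ?_
      have := hr.2.2
      rw [← e, clin_dot (ra _ hw), (hJ r).2 (h6 r h)] at this
      exact lt_irrefl _ this

theorem Sys.R3.card_cent [Finite K] {A : Sys D K Γ} (h3 : A.R3) (hG : A.G = ⊤) (hi : Function.Injective h3.torH)
    (c : Nd D → Kˣ) : Nat.card (Subgroup.centralizer {h3.torH c}) =
      (∑ᶠ w : {w // w ∈ W D ∧ mact (wM w) c = c}, Nat.card K ^ (↑(invs w.1) ∩ Psi c).ncard) *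
        (Nat.card K ^ ({r | Pos r} ∩ Psi c).ncard * (Nat.card K - 1) ^ D.rank) := by
  have h1 := h3.card_cells hG hi c (β := RingHom.id K) (ψ := MonoidHom.id Γ) (fun _ _ => rfl) rfl (f := id)
    fun y => ⟨y, rfl, rfl⟩
  simp only [id, RingHom.id_apply, Nat.card_congr (Equiv.subtypeUnivEquiv fun _ => trivial)] at h1
  have h2 : ∀ d, h3.torH d ∈ Subgroup.centralizer {h3.torH c} := fun d =>
    Subgroup.mem_centralizer_singleton_iff.2 (by rw [← map_mul, ← map_mul, mul_comm])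
  have h4 : ∀ v ∈ A.X ({r | Pos r} ∩ Psi c), v ∈ Subgroup.centralizer {h3.torH c} := fun v hv =>
    Subgroup.mem_centralizer_singleton_iff.2 (mul_inv_eq_iff_eq_mul.1 ((h3.comm_iff nil_pos c).1 hv).2).symm
  rw [← h1, ← A.card_X (nil_pos.psi c), ← Nat.card_units, ← Fintype.card_fin D.rank, ← Nat.card_eq_fintype_card,
    ← Nat.card_fun, ← Nat.card_prod, Subgroup.card_eq_card_quotient_mul_card_subgroup (A.B.subgroupOf _)]
  congr 1
  refine (Nat.card_congr (Equiv.ofBijective (fun p => ⟨⟨p.1 * h3.torH p.2, mul_mem (h4 _ p.1.2) (h2 _)⟩,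
    mul_mem (A.U_le_B (A.X_mono Set.inter_subset_left p.1.2)) (A.H_le_B (h3.torH_mem _))⟩) ⟨?_, ?_⟩)).symm
  · rintro ⟨u, a⟩ ⟨v, b⟩ e
    have := A.UH_unique (A.X_mono Set.inter_subset_left u.2) (A.X_mono Set.inter_subset_left v.2) (h3.torH_mem a)
      (h3.torH_mem b) (congrArg (·.1.1) e)
    exact Prod.ext (Subtype.ext this.1) (hi this.2)
  · rintro ⟨⟨b, hb⟩, hB⟩
    obtain ⟨v, hv, k, hk, rfl⟩ := A.mem_B.1 hB
    obtain ⟨d, rfl⟩ := h3.torH_range.ge hk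
    exact ⟨(⟨v, (h3.comm_iff nil_pos c).2 ⟨hv, mul_inv_eq_iff_eq_mul.2 (Subgroup.mem_centralizer_singleton_iff.1
      ((mul_mem_cancel_right (h2 d)).1 hb)).symm⟩⟩, d), rfl⟩

theorem mem_WS_Psi {c : Nd D → Kˣ} (hc : IsOfFinOrder c) {w : Perm (Rt D)} :
    w ∈ WS (Psi c) ↔ w ∈ W D ∧ mact (wM w) c = c := by
  refine ⟨fun h => ⟨WS_le _ h, ?_⟩, fun h => (stab_Psi hc h.1 h.2).1⟩
  induction h using Subgroup.closure_induction with
  | mem w hw => obtain ⟨r, hr, rfl⟩ := hw; exact mact_refl hr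
  | one => rw [wM_one, mact_one]
  | mul u w hu _ h h' => rw [wM_mul (W_le_RA (WS_le _ hu)), mact_mul, h', h]
  | inv w hw h =>
    rw [← h, ← mact_mul, ← wM_mul (inv_mem (W_le_RA (WS_le _ hw))), inv_mul_cancel, wM_one, mact_one, h]

theorem mem_Psi_zpow {ζ : Kˣ} {v : Nd D → ℤ} {r : Rt D} : r ∈ Psi (fun j => ζ ^ v j) ↔ (orderOf ζ : ℤ) ∣ v ⬝ᵥ wt r := by
  rw [Psi, Set.mem_ofPred_eq, tor_zpow, Units.val_eq_one]; exact orderOf_dvd_iff_zpow_eq_one.symm

noncomputable def dotT (T : Tab) (v : ℕ → ℤ) (r : ℕ) : ℤ := sumLt T.l fun i => v i * T.wt r i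

omit [Good D] in
theorem dotT_eq (v : ℕ → ℤ) (r : Rt D) : dotT (tab D) v r = (fun i : Nd D => v i) ⬝ᵥ wt r := sumLt_eq _ _

theorem ncard_eq_sumLt {n N : ℕ} {P : ℕ → Prop} [DecidablePred P] (h : sumLt n (fun r => if P r then 1 else 0) = N) :
    {r : Fin n | P r}.ncard = N := by
  rw [sumLt_eq, Finset.sum_boole, Nat.cast_inj] at h
  rw [← h, ← Set.ncard_coe_finset]; simp

/-- certificate for the order of the centraliser of `ω(ζ)` -/
noncomputable def cenChk (T : Tab) (e : ℤ) (m n : ℕ) (O : ℕ → ℕ → ℤ) (pk pr δ : ℕ → ℕ) (N : ℕ) : Bool :=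
  (allLt T.l fun j => decide (dotT T (O 0) (T.simple j) = if m.testBit j then 0 else 1)) && decide (0 < n) &&
  decide (sumLt T.n (fun r => if T.n / 2 ≤ r ∧ e ∣ dotT T (O 0) r then 1 else 0) = N) &&
  allLt n fun k => (allLt T.n fun r => !decide (e ∣ dotT T (O 0) r) ||
      !allLt n fun k' => !allLt T.l fun i => decide (O k' i = O k i - dotT T (O k) r * T.co r i)) &&
    (decide (k = 0) || decide (pk k < k) && decide (pr k < T.n) && decide (e ∣ dotT T (O 0) (pr k)) &&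
      allLt T.l fun i => decide (O k i = O (pk k) i - dotT T (O (pk k)) (pr k) * T.co (pr k) i)) &&
    (allLt n fun k' => decide (k = k') || !allLt T.l fun i => decide (O k i = O k' i)) &&
    decide (sumLt T.n (fun r => if e ∣ dotT T (O 0) r ∧ ¬ T.n / 2 ≤ r ∧ 0 < dotT T (O k) r then 1 else 0) = δ k)

theorem Sys.R3.card_cent_of_chk [Finite K] {A : Sys D K Γ} (h3 : A.R3) (hG : A.G = ⊤) (hi : Function.Injective h3.torH)
    {T : Tab} (hT : tab D = T) (ζ : Kˣ) {e : ℤ} (he : orderOf ζ = e) {m n : ℕ} {O : ℕ → ℕ → ℤ} {pk pr δ : ℕ → ℕ} {N : ℕ}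
    (h : cenChk T e m n O pk pr δ N = true) : Nat.card (Subgroup.centralizer {h3.torH fun j => ζ ^ O 0 j}) =
      (∑ k ∈ Finset.range n, Nat.card K ^ δ k) * poin (JM D m) (Nat.card K) * (Nat.card K ^ N * (Nat.card K - 1) ^ T.l) := by
  subst hT he
  simp only [cenChk, Bool.and_eq_true, allLt_iff, decide_eq_true_eq, Bool.or_eq_true, Bool.not_eq_true', ← Bool.not_eq_true,
    not_forall] at h
  obtain ⟨⟨⟨h1, h0⟩, h2⟩, h⟩ := h
  have hc := isOfFinOrder_of_finite fun j : Nd D => ζ ^ O 0 j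
  have h4 : ∀ j : Nd D, (fun i : Nd D => O 0 i) ⬝ᵥ wt (sim j) = if m.testBit j then 0 else 1 := fun j =>
    (dotT_eq _ _).symm.trans (h1 j j.2)
  have h5 : ∀ r, Pos r → 0 ≤ (fun i : Nd D => O 0 i) ⬝ᵥ wt r ∧ ((fun i : Nd D => O 0 i) ⬝ᵥ wt r = 0 ↔ r ∈ Phi (JM D m)) :=
    fun r hr => by
    have : ∀ i ∈ Finset.univ, 0 ≤ rt r i * ((fun i : Nd D => O 0 i) ⬝ᵥ wt (sim i)) := fun i _ =>
      mul_nonneg (hr.rt_nonneg i) (by rw [h4]; split_ifs <;> simp)
    rw [dot_wt, Finset.sum_eq_zero_iff_of_nonneg this]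
    exact ⟨Finset.sum_nonneg this, forall_congr' fun i => by by_cases e : m.testBit i <;> simp [h4, JM, e]⟩
  have h6 : ∀ r, (fun i : Nd D => O 0 i) ⬝ᵥ wt r = 0 ↔ r ∈ Phi (JM D m) := fun r => by
    by_cases hr : Pos r
    · exact (h5 r hr).2
    · simpa [ng_mem_Phi] using (h5 _ ((pos_ng r).2 hr)).2
  have h7 : Phi (JM D m) ⊆ Psi fun j => ζ ^ O 0 j := fun r hr => mem_Psi_zpow.2 ((h6 r).2 hr ▸ dvd_zero _)
  have h8 : ∀ k k' (r : Rt D), (∀ i < D.rank, O k' i = O k i - dotT (tab D) (O k) r * (tab D).co r i) →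
      clin (refl r) (fun i => O k i) = fun i : Nd D => O k' i := fun k k' r h => funext fun i => by
    rw [clin_refl, h i i.2, dotT_eq]; rfl
  rw [h3.card_cent hG hi, ← finsum_comp_equiv (Equiv.subtypeEquivRight fun _ => mem_WS_Psi hc)]
  congr 1
  · refine (stab_sum (WS_le _) (fun w hw r => ?_) (fun r hr => (h5 r hr).1) h6 h7 ((Subgroup.closure_le _).2 ?_)
      (O := fun k i => O k i) (fun k hk k' hk' e => ((h k hk).1.2 k' hk').resolve_right fun ⟨i, hi, h⟩ =>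
        h (congrFun e ⟨i, hi⟩)) (fun w hw => ?_) (fun k hk => ?_) _).trans ?_
    · rw [Psi, Set.mem_ofPred_eq, Set.mem_ofPred_eq, ← tor_mact (W_le_RA (WS_le _ hw)) _ r, ((mem_WS_Psi hc).1 hw).2]
    · rintro _ ⟨j, hj, rfl⟩; exact refl_sim j ▸ refl_mem_WS (h7 (sim_mem_Phi.2 hj))
    · refine Subgroup.closure_induction_left (p := fun w _ => ∃ k < n, clin w (fun i => O 0 i) = fun i : Nd D => O k i)
        ⟨0, h0, clin_one _⟩ ?_ ?_ hw <;>
      · rintro _ ⟨r, hr, rfl⟩ u hu ⟨k, hk, e⟩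
        obtain ⟨k', hk', e'⟩ := ((h k hk).1.1.1 r r.2).resolve_left fun h => h (dotT_eq _ _ ▸ mem_Psi_zpow.1 hr)
        refine ⟨k', hk', ?_⟩
        simp only [refl_inv, clin_mul (refl_mem_RA r) (W_le_RA (WS_le _ hu)), e,
          h8 k k' r fun i hi => by_contra fun h => e' ⟨i, hi, h⟩]
    · induction k using Nat.strong_induction_on with
      | _ k ih =>
      rcases (h k hk).1.1.2 with rfl | ⟨⟨⟨a, b⟩, d⟩, e⟩
      · exact ⟨1, one_mem _, clin_one _⟩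
      obtain ⟨w, hw, e'⟩ := ih _ a (a.trans hk)
      exact ⟨refl ⟨_, b⟩ * w, mul_mem (refl_mem_WS (mem_Psi_zpow.2 (dotT_eq _ _ ▸ d))) hw, by
        rw [clin_mul (refl_mem_RA _) (W_le_RA (WS_le _ hw)), e', h8 _ _ ⟨_, b⟩ e]⟩
    · congr 1
      refine Finset.sum_congr rfl fun k hk => ?_
      rw [← ncard_eq_sumLt (h k (Finset.mem_range.1 hk)).2]
      simp only [mem_Psi_zpow, ← dotT_eq]; rfl
  · rw [← ncard_eq_sumLt h2]
    congr 3
    exact Set.ext fun r => and_congr_right' (mem_Psi_zpow.trans (by rw [← dotT_eq]))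

/-- certificate for the classes of involutions in the torus -/
noncomputable def sgnChk (T : Tab) (ω₁ ω₂ : ℕ → ℤ) (par nx d : ℕ → ℕ) : Bool :=
  allLt (2 ^ T.l) fun m => let v := fun j => if m.testBit j then (1 : ℤ) else 0
    decide (m = 0) || (allLt T.l fun j => decide (2 ∣ v j - ω₁ j)) || (allLt T.l fun j => decide (2 ∣ v j - ω₂ j)) ||
    decide (par m < T.n) && decide (nx m < 2 ^ T.l) && decide (d (nx m) < d m) && decide (nx m ≠ 0) &&
    allLt T.l fun j => decide (2 ∣ (if (nx m).testBit j then 1 else 0) - (v j - dotT T v (par m) * T.co (par m) j))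

theorem Sys.R3.isConj_of_chk {A : Sys D K Γ} (h3 : A.R3) {T : Tab} (hT : tab D = T) {ω₁ ω₂ : ℕ → ℤ} {par nx d : ℕ → ℕ}
    (h : sgnChk T ω₁ ω₂ par nx d = true) {c : Nd D → Kˣ} (h1 : c ≠ 1) (h2 : c ^ 2 = 1) :
    IsConj (h3.torH c) (h3.torH fun j => (-1) ^ ω₁ j) ∨ IsConj (h3.torH c) (h3.torH fun j => (-1) ^ ω₂ j) := by
  subst hT
  simp only [sgnChk, Bool.and_eq_true, allLt_iff, decide_eq_true_eq, Bool.or_eq_true] at h
  have k : ∀ {u v : ℕ → ℤ}, (∀ j < D.rank, 2 ∣ u j - v j) → (fun j : Nd D => (-1 : Kˣ) ^ u j) = fun j : Nd D => (-1) ^ v j :=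
    fun h => funext fun j => by
      obtain ⟨a, ha⟩ := h j j.2
      rw [eq_add_of_sub_eq ha, _root_.zpow_add, _root_.zpow_mul]; simp
  obtain ⟨m, hm, h0, rfl⟩ : ∃ m < 2 ^ D.rank, m ≠ 0 ∧ c = fun j : Nd D => (-1) ^ if m.testBit j then (1 : ℤ) else 0 := by
    classical
    have e : c = fun j : Nd D => (-1) ^ if (Nat.ofBits fun j => decide (c j ≠ 1)).testBit j then (1 : ℤ) else 0 :=
      funext fun j => by
        have := congrArg Units.val (congrFun h2 j)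
        simp only [Pi.pow_apply, Units.val_pow_eq_pow_val, Pi.one_apply, Units.val_one] at this
        by_cases e : c j = 1
        · simp [e]
        · simpa [e] using Units.ext ((sq_eq_one_iff.1 this).resolve_left fun h => e (Units.ext h))
    exact ⟨_, Nat.ofBits_lt_two_pow _, fun e' => h1 (by rw [e, e']; funext j; simp), e⟩
  clear h1 h2
  induction hn : d m using Nat.strong_induction_on generalizing m with
  | _ n ih =>
  rcases h m hm with ((e | e) | e) | ⟨⟨⟨⟨a, b⟩, e⟩, f⟩, g⟩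
  exacts [absurd e h0, .inl (k e ▸ .refl _), .inr (k e ▸ .refl _), by
    obtain ⟨y, -, hy⟩ := A.exists_N (refl_mem ⟨_, a⟩)
    have : IsConj _ _ := isConj_iff.2 ⟨y, h3.conj_torH hy fun j : Nd D => (-1) ^ if m.testBit j then (1 : ℤ) else 0⟩
    rw [mact_zpow, clin_refl, ← dotT_eq fun j => if m.testBit j then (1 : ℤ) else 0] at this
    exact (k g ▸ ih _ (hn ▸ e) _ b f rfl).imp this.trans this.trans]

theorem invol_conj (hD : D ∈ [chevG2, chevB2, chevD4, chevF4, chevE6, chevE7, chevE8]) {F : Type*} [Field F] [Fintype F]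
    (hF : Odd (Fintype.card F)) (hi : Function.Injective (tor (D := D) (K := AlgebraicClosure F))) {T : Tab} (hT : tab D = T)
    {ω₁ ω₂ : ℕ → ℤ} {par nx d : ℕ → ℕ} (h : sgnChk T ω₁ ω₂ par nx d = true) (u : D.group F) (hu : orderOf u = 2) :
    IsConj u (Twist.adjG_R3.torH fun j => (-1) ^ ω₁ j) ∨ IsConj u (Twist.adjG_R3.torH fun j => (-1) ^ ω₂ j) := by
  obtain ⟨p, hp⟩ := CharP.exists F
  obtain ⟨n, hp', hn⟩ := FiniteField.card F p
  have := Fact.mk hp'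
  obtain ⟨τ, Φ, -, -, -, h1, h2⟩ := form_untw (p := p) hD F
  have h3 : ∀ g : τ.F, Φ.π g = 1 → g = 1 := fun g e => by
    obtain ⟨c, hc⟩ := Φ.S.h3.torH_range.ge ((stG D _).mem_H_of_θ (Φ.S.mem_G _) ((Φ.ker g).1 e))
    rw [Φ.ker, ← hc, Φ.S.h3.θ_torH, ← map_one dgG, ← map_one tor] at e
    exact Subtype.ext (by rw [← hc, hi (dgG_injective e), map_one]; rfl)
  obtain ⟨g, rfl⟩ := Φ.surj u
  rw [orderOf_injective _ ((injective_iff_map_eq_one _).2 h3)] at hu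
  have h4 : (orderOf g).Coprime p := hu ▸ Nat.coprime_two_left.2 ((hn ▸ hF :).of_dvd_nat (dvd_pow_self p n.2.ne'))
  have h5 : (stG D _).IsFr τ.σ (p ^ (n : ℕ)) := fun r t => hn ▸ h1 r t
  obtain ⟨y, c, e⟩ := Φ.S.exists_conj_torH h5 n.2 (g := g) (by simpa using h4)
  have h6 : orderOf c = 2 := by
    rw [← orderOf_injective _ Φ.S.inj, ← e, ← hu, ← Subgroup.orderOf_coe]
    simpa using orderOf_injective (MulAut.conj y⁻¹).toMonoidHom (MulAut.conj y⁻¹).injective g.1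
  have k : ∀ ω : ℕ → ℤ, IsConj (Φ.S.h3.torH c) (Φ.S.h3.torH fun j => (-1) ^ ω j) →
      IsConj (Φ.π g) (Twist.adjG_R3.torH fun j => (-1) ^ ω j) := fun ω h => by
    have := Φ.π.map_isConj (τ.isConj_F Φ.S Φ.fr (s' := ⟨Φ.S.h3.torH fun j => (-1) ^ ω j, τ.mem_F.2 (by
      refine (h5.torH _ _).trans ?_
      rw [← map_pow, ← hn]; congr 1; funext j
      rw [Pi.pow_apply, ← zpow_natCast, ← _root_.zpow_mul, mul_comm, _root_.zpow_mul, zpow_natCast, hF.neg_one_pow])⟩) h4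
      (.trans (isConj_iff.2 ⟨y⁻¹, by rw [inv_inv, e]⟩) h))
    refine this.trans (Eq.subst (motive := IsConj _) (Subtype.ext
      (GL_map_injective (algebraMap F (AlgebraicClosure F)) ?_)) (.refl _))
    rw [h2, Φ.S.h3.θ_torH]
    refine Eq.trans (GeneralLinearGroup.ext fun a b => ?_) (congrArg _ ((Twist.adjG_R3 (K := F)).θ_torH _)).symm
    by_cases e : a = b <;> simp [dg, tor_apply, e]
  exact (Φ.S.h3.isConj_of_chk hT h (by rintro rfl; simp at h6) (h6 ▸ pow_orderOf_eq_one c)).imp (k _) (k _)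

theorem invol_classes (hD : D ∈ [chevG2, chevB2, chevD4, chevF4, chevE6, chevE7, chevE8]) {F : Type*} [Field F] [Fintype F]
    (hF : Odd (Fintype.card F)) (hi : Function.Injective (tor (D := D) (K := AlgebraicClosure F)))
    (hi' : Function.Injective (tor (D := D) (K := F))) {T : Tab} (hT : tab D = T) {m n m' n' : ℕ} {O O' : ℕ → ℕ → ℤ}
    {pk pr δ pk' pr' δ' par nx d : ℕ → ℕ} {N N' : ℕ} (h1 : cenChk T 2 m n O pk pr δ N = true)
    (h2 : cenChk T 2 m' n' O' pk' pr' δ' N' = true) (h : sgnChk T (O 0) (O' 0) par nx d = true) {a b : ℕ}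
    (h3 : ∃ j < T.l, ¬ 2 ∣ O 0 j) (h4 : ∃ j < T.l, ¬ 2 ∣ O' 0 j)
    (ha : (∑ k ∈ Finset.range n, Fintype.card F ^ δ k) * poin (JM D m) (Fintype.card F) *
      (Fintype.card F ^ N * (Fintype.card F - 1) ^ T.l) = a)
    (hb : (∑ k ∈ Finset.range n', Fintype.card F ^ δ' k) * poin (JM D m') (Fintype.card F) *
      (Fintype.card F ^ N' * (Fintype.card F - 1) ^ T.l) = b) :
    ∃ s t : D.group F, orderOf s = 2 ∧ orderOf t = 2 ∧ (IsConj s t → a = b) ∧
      (∀ u : D.group F, orderOf u = 2 → IsConj u s ∨ IsConj u t) ∧ Nat.card (Subgroup.centralizer {s}) = a ∧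
      Nat.card (Subgroup.centralizer {t}) = b := by
  have h5 : orderOf (-1 : Fˣ) = 2 := by
    rw [← orderOf_units, Units.val_neg, Units.val_one, orderOf_neg_one, if_neg fun e => ?_]
    have := FiniteField.even_card_iff_char_two.1 e
    have := Nat.odd_iff.1 hF
    omega
  have hi'' : Function.Injective (Twist.adjG_R3 (D := D) (K := F)).torH := fun a b e =>
    hi' (dgG_injective (by rw [← Twist.adjG_R3.θ_torH, e, Twist.adjG_R3.θ_torH]))
  have h6 : ∀ ω : ℕ → ℤ, (∃ j < T.l, ¬ 2 ∣ ω j) → orderOf ((Twist.adjG_R3 (D := D) (K := F)).torH fun j => (-1) ^ ω j) = 2 :=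
    fun ω ⟨j, hj, h⟩ => by
    rw [orderOf_injective _ hi'']
    exact orderOf_eq_prime (funext fun j => by
      rw [Pi.pow_apply, ← zpow_natCast, ← _root_.zpow_mul, mul_comm, _root_.zpow_mul]; simp) fun e =>
      h (by simpa [h5] using orderOf_dvd_iff_zpow_eq_one.2 (congrFun e ⟨j, by subst hT; exact hj⟩))
  have e1 := Twist.adjG_R3.card_cent_of_chk adjG_G hi'' hT (-1) (by rw [h5]; rfl) h1
  have e2 := Twist.adjG_R3.card_cent_of_chk adjG_G hi'' hT (-1) (by rw [h5]; rfl) h2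
  rw [Nat.card_eq_fintype_card (α := F)] at e1 e2
  refine ⟨_, _, h6 _ h3, h6 _ h4, fun h => ?_, invol_conj hD hF hi hT h, e1.trans ha, e2.trans hb⟩
  obtain ⟨g, hg⟩ := isConj_iff.1 h
  rw [← ha, ← hb, ← e1, ← e2, ← hg]
  exact Nat.card_congr ((MulAut.conj g).toEquiv.subtypeEquiv fun x => by
    simp [Subgroup.mem_centralizer_singleton_iff, ← mul_assoc]; simp [mul_assoc])

theorem pow_mul_ne {q a b m n : ℕ} (hq : 1 < q) (h : m < n) (ha : a.Coprime q) : q ^ m * a ≠ q ^ n * b := fun e => by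
  obtain ⟨k, rfl⟩ := Nat.exists_eq_add_of_lt h
  rw [add_assoc, pow_add, mul_assoc, Nat.mul_right_inj (by positivity)] at e
  exact hq.ne' (ha.symm.eq_one_of_dvd (e ▸ (dvd_pow_self q k.succ_ne_zero).mul_right b))

theorem coprime_pow_sub_one {q k : ℕ} (hq : 1 < q) (hk : k ≠ 0) : (q ^ k - 1).Coprime q :=
  (Nat.coprime_pow_right_iff hk.bot_lt _ _).1 ((Nat.coprime_self_sub_left (Nat.one_le_pow _ _ (by omega))).2 (by simp))

end CA.Chev
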