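import Cfsg.Agent.Lib.Lie.TorusCount

/-!
Normalizers of cyclic subgroups `T` that are the centralizer of each of their non-identity elements.
-/

set_option autoImplicit false

namespace CA.TorusNorm

open Subgroup CA.TorusCount

variable {G : Type*} [Group G] {T : Subgroup G}

local notation "N" => normalizer (T : Set G)

theorem conj_mem {n t : G} (hn : n ∈ N) (ht : t ∈ T) : n * t * n⁻¹ ∈ T := (mem_normalizer_iff.1 hn t).1 ht

theorem eq_one (hT : CC T) {n t : G} (hn : n ∉ T) (ht : t ∈ T) (h : n * t = t * n) : t = 1 := by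
  by_contra h1
  exact hn (hT t ht h1 ▸ mem_centralizer_singleton_iff.2 h)

theorem comm_mem (hT : CC T) (hc : IsCyclic T) (h1 : T ≠ ⊥) {x y : G} (hx : x ∈ N) (hy : y ∈ N) :
    x * y * x⁻¹ * y⁻¹ ∈ T := by
  obtain ⟨t, rfl⟩ := (T.isCyclic_iff_exists_zpowers_eq_top).1 hc
  obtain ⟨a, ha⟩ := conj_mem (inv_mem hx) (mem_zpowers t)
  obtain ⟨b, hb⟩ := conj_mem (inv_mem hy) (mem_zpowers t)
  simp only [inv_inv] at ha hb
  rw [← hT t (mem_zpowers t) (by simpa using h1), mem_centralizer_singleton_iff]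
  have e1 : y⁻¹ * (x⁻¹ * t * x) * y = x⁻¹ * (y⁻¹ * t * y) * x := by
    have k : ∀ (g : G) (c : ℤ), g⁻¹ * t ^ c * g = (g⁻¹ * t * g) ^ c := fun g c => by
      simpa using (conj_zpow (a := g⁻¹) (b := t) (i := c)).symm
    rw [← ha, k, ← hb, k, ← ha, ← zpow_mul, ← zpow_mul, mul_comm]
  calc _ = x * y * (x⁻¹ * (y⁻¹ * t * y) * x) * x⁻¹ * y⁻¹ := by group
    _ = _ := by rw [← e1]; group

theorem solvable_norm (hT : CC T) (hc : IsCyclic T) (h1 : T ≠ ⊥) : Group.IsSolvable N := by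
  refine ⟨2, ?_⟩
  have : derivedSeries N 1 ≤ T.subgroupOf N := commutator_le.2 fun x _ y _ => comm_mem hT hc h1 x.2 y.2
  exact eq_bot_iff.2 (commutator_le.2 fun x hx y hy => Subtype.ext (commutatorElement_eq_one_iff_mul_comm.2
    (hT.comm (this hx) (this hy))))

variable [Finite G]

theorem exists_conj (hT : CC T) {n s : G} (hn : n ∈ N) (hn' : n ∉ T) (hs : s ∈ T) : ∃ t ∈ T, t * n * t⁻¹ = s * n := by
  let f : T → T := fun t => ⟨t * (n * (t : G)⁻¹ * n⁻¹), T.mul_mem t.2 (conj_mem hn (inv_mem t.2))⟩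
  obtain ⟨t, ht⟩ := Finite.injective_iff_surjective.1 (show Function.Injective f from fun t u e => by
    have e' : (t : G) * (n * (t : G)⁻¹ * n⁻¹) = u * (n * (u : G)⁻¹ * n⁻¹) := congrArg Subtype.val e
    refine Subtype.ext (inv_mul_eq_one.1 (eq_one hT hn' (T.mul_mem (inv_mem u.2) t.2) ?_)).symm
    calc _ = (u : G)⁻¹ * (u * (n * (u : G)⁻¹ * n⁻¹)) * n * t := by group
      _ = _ := by rw [← e']; group) ⟨s, hs⟩
  exact ⟨t, t.2, by rw [← show (t : G) * (n * (t : G)⁻¹ * n⁻¹) = s from congrArg Subtype.val ht]; group⟩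

omit [Finite G] in
theorem inverts (hT : CC T) {n t : G} (hn : n ∈ N) (hn' : n ∉ T) (h2 : n * n = 1) (ht : t ∈ T) : n * t * n⁻¹ = t⁻¹ := by
  refine eq_inv_of_mul_eq_one_left (eq_one hT hn' (T.mul_mem (conj_mem hn ht) ht) ?_)
  calc _ = n * n * (t * n⁻¹ * t) := by group
    _ = t * (n * t * n⁻¹) * n := by
      rw [h2, ← eq_inv_of_mul_eq_one_left h2, mul_assoc t (n * t * n), mul_assoc (n * t), h2]; group
    _ = _ := by rw [hT.comm ht (conj_mem hn ht)]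

omit [Finite G] in
theorem inv_fusion (hT : CC T) (h1 : T ≠ ⊥) {x y : G} (hx : x ∈ N) (hx' : x ∉ T) (h2 : x * x = 1) (hy : y ∈ N)
    (hy' : y ∉ T) (h3 : y * y = 1) : y * x⁻¹ ∈ T := by
  obtain ⟨⟨t, ht⟩, ht1⟩ := ne_bot_iff_exists_ne_one.1 h1
  rw [← hT t ht (fun e => ht1 (Subtype.ext e)), mem_centralizer_singleton_iff]
  calc _ = y * (x⁻¹ * t * x⁻¹⁻¹) * x⁻¹ := by group
    _ = (y * t * y⁻¹)⁻¹ * (y * x⁻¹) := by
      rw [inverts hT (inv_mem hx) (by simpa using hx') (by rw [← mul_inv_rev, h2, inv_one]) ht]; group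
    _ = _ := by rw [inverts hT hy hy' h3 ht, inv_inv]

theorem pow_eq_one (hT : CC T) {n : G} (hn : n ∈ N) (hn' : n ∉ T) : n ^ T.relIndex N = 1 := by
  have : (T.subgroupOf N).Normal := normal_in_normalizer
  exact eq_one hT hn' (pow_index_mem (T.subgroupOf N) ⟨n, hn⟩) (Commute.self_pow _ _).eq

theorem four_fusion (hT : CC T) (hi : T.relIndex N = 4) (ho : Odd (Nat.card T)) {x y : G} (hx : x ∈ N) (h4 : orderOf x = 4)
    (hy : y ∈ N) (h5 : IsConj x y) (hr : ¬ IsConj x x⁻¹) : y * x⁻¹ ∈ T := by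
  have : (T.subgroupOf N).Normal := normal_in_normalizer
  have k : ∀ z : G, orderOf z = 4 → z ^ 2 ∉ T := fun z hz h => by
    have := ho.of_dvd_nat (T.orderOf_dvd_natCard h)
    rw [orderOf_pow' _ two_ne_zero, hz] at this
    exact absurd this (by decide)
  have hy4 : orderOf y = 4 := by
    obtain ⟨c, rfl⟩ := isConj_iff.1 h5
    exact (MulAut.conj c).orderOf_eq x |>.trans h4
  let π := QuotientGroup.mk' (T.subgroupOf N)
  have hπ : ∀ z : N, π z = 1 ↔ (z : G) ∈ T := fun z => QuotientGroup.eq_one_iff z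
  have h8 : x ^ 4 ∈ T := by rw [← h4, pow_orderOf_eq_one]; exact T.one_mem
  have h6 : orderOf (π ⟨x, hx⟩) = 2 ^ (1 + 1) := orderOf_eq_prime_pow (by rw [← map_pow, hπ]; exact k x h4) (by
    rw [← map_pow, hπ]; exact h8)
  have h7 : π ⟨y, hy⟩ ∈ zpowers (π ⟨x, hx⟩) := by
    rw [eq_top_of_card_eq (zpowers _) (by rw [Nat.card_zpowers, h6]; exact hi.symm)]; trivial
  classical
  obtain ⟨i, hi', e⟩ := Finset.mem_image.1 (mem_zpowers_iff_mem_range_orderOf.1 h7)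
  rw [h6, Finset.mem_range] at hi'
  have e' : y * (x ^ i)⁻¹ ∈ T := (hπ (⟨y, hy⟩ * (⟨x, hx⟩ ^ i)⁻¹)).1 (by rw [map_mul, map_inv, map_pow, e, mul_inv_cancel])
  interval_cases i
  · exact absurd (T.pow_mem (by simpa using e') 2) (k y hy4)
  · simpa using e'
  · refine absurd ((hπ (⟨y, hy⟩ ^ 2)).1 ?_) (k y hy4)
    rw [map_pow, ← e, ← pow_mul, ← map_pow, hπ]
    exact h8
  · have h9 : x ^ 3 = x⁻¹ := eq_inv_of_mul_eq_one_left (by
      rw [← pow_succ]; exact orderOf_dvd_iff_pow_eq_one.1 (by rw [h4]))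
    obtain ⟨t, -, ht⟩ := exists_conj hT (inv_mem hx) (fun h => k x h4 (T.pow_mem (by simpa using h) 2)) (h9 ▸ e')
    exact absurd (h5.trans (isConj_iff.2 ⟨t, by rw [ht]; group⟩ : IsConj x⁻¹ y).symm) hr

theorem exists_four (hT : CC T) (h1 : T ≠ ⊥) (hi : T.relIndex N = 4) (ho : Odd (Nat.card T)) : ∃ n ∈ N, orderOf n = 4 := by
  have : (T.subgroupOf N).Normal := normal_in_normalizer
  obtain ⟨s, hs⟩ := exists_prime_orderOf_dvd_card' (G := N) 2 ((by decide : 2 ∣ 4).trans (hi ▸ index_dvd_card _))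
  have hs2 : (s : G) * s = 1 := by rw [← sq, ← coe_pow, ← hs, pow_orderOf_eq_one, coe_one]
  have hs' : (s : G) ∉ T := fun h => by
    have := ho.of_dvd_nat (T.orderOf_dvd_natCard h)
    rw [orderOf_coe, hs] at this
    exact absurd this (by decide)
  classical
  have := Fintype.ofFinite (N ⧸ T.subgroupOf N)
  obtain ⟨q, -, hq⟩ := Finset.exists_mem_notMem_of_card_lt_card (s := {1, (s : N ⧸ T.subgroupOf N)}) (t := Finset.univ)
    (Finset.card_le_two.trans_lt (by rw [Finset.card_univ, ← Nat.card_eq_fintype_card]; exact (by decide : 2 < 4).trans_eq hi.symm))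
  obtain ⟨n, rfl⟩ := QuotientGroup.mk_surjective q
  simp only [Finset.mem_insert, Finset.mem_singleton, not_or, QuotientGroup.eq_one_iff] at hq
  refine ⟨n, n.2, orderOf_eq_prime_pow (p := 2) (n := 1) (fun h => hq.2 (QuotientGroup.eq_iff_div_mem.2 ?_))
    (by simpa [hi] using pow_eq_one hT n.2 hq.1)⟩
  rw [div_eq_mul_inv]
  exact inv_fusion hT h1 s.2 hs' hs2 n.2 hq.1 (by rw [← sq]; exact h)

/-- elements not commuting with `x` that lie together with `x` in the normalizer of a conjugate of `T` -/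
def A (T : Subgroup G) (x : G) : Set G := {y | y ∉ centralizer {x} ∧
  ∃ g : G, g * x * g⁻¹ ∈ normalizer (T : Set G) ∧ g * y * g⁻¹ ∈ normalizer (T : Set G)}

omit [Finite G] in
theorem comm_mem_cls (hT : CC T) (hc : IsCyclic T) (h1 : T ≠ ⊥) {x y : G} (hy : y ∈ A T x) : x * y * x⁻¹ * y⁻¹ ∈ Cls T := by
  obtain ⟨h2, g, h3, h4⟩ := hy
  refine ⟨fun e => h2 (mem_centralizer_singleton_iff.2 (commutatorElement_eq_one_iff_mul_comm.1 e).symm), g, ?_⟩
  convert comm_mem hT hc h1 h3 h4 using 1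
  group

omit [Finite G] in
theorem A_conj (x g : G) : (A T (g * x * g⁻¹)).ncard = (A T x).ncard := by
  rw [← Set.ncard_image_of_injective (A T x) (MulAut.conj g).injective]
  congr 1
  ext y
  obtain ⟨y, rfl⟩ := (MulAut.conj g).surjective y
  rw [(MulAut.conj g).injective.mem_set_image]
  refine and_congr (by rw [mem_cent_conj]; simp [mul_assoc]) ⟨fun ⟨h, h1, h2⟩ => ⟨h * g, ?_, ?_⟩, fun ⟨h, h1, h2⟩ => ⟨h * g⁻¹, ?_, ?_⟩⟩
  exacts [by simpa [mul_assoc] using h1, by simpa [mul_assoc] using h2, by simpa [mul_assoc] using h1,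
    by simpa [mul_assoc] using h2]

theorem card_A (hT : CC T) (hc : IsCyclic T) (h1 : T ≠ ⊥) {x : G} (hx : x ∈ N) (hx' : x ∉ T)
    (hf : ∀ y ∈ N, IsConj x y → y * x⁻¹ ∈ T) : (A T x).ncard = Nat.card (centralizer {x}) * (Nat.card T - 1) := by
  let P := centralizer {x} ⊓ N
  have p1 : ∀ {p}, p ∈ P → p ∈ centralizer {x} := fun h => h.1
  have cx : ∀ c ∈ centralizer {x}, c * x * c⁻¹ = x := fun c h => by
    rw [mem_centralizer_singleton_iff.1 h, mul_inv_cancel_right]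
  have cc : ∀ c ∈ centralizer {x}, ∀ y, c * y * c⁻¹ ∈ centralizer {x} ↔ y ∈ centralizer {x} := fun c h y => by
    rw [mul_mem_cancel_right (inv_mem h), mul_mem_cancel_left h]
  have dec : ∀ g : G, g * x * g⁻¹ ∈ N → ∃ t ∈ T, t⁻¹ * g ∈ centralizer {x} := fun g hg => by
    obtain ⟨t, ht, e⟩ := exists_conj hT hx hx' (hf _ hg (isConj_iff.2 ⟨g, rfl⟩))
    refine ⟨t, ht, mem_centralizer_singleton_iff.2 ?_⟩
    calc _ = t⁻¹ * (g * x * g⁻¹ * x⁻¹ * x) * g := by group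
      _ = _ := by rw [← e]; group
  let φ : centralizer {x} × ({t : T // t ≠ 1} × P) → A T x := fun p => ⟨p.1 * (p.2.1 * p.2.2) * (p.1 : G)⁻¹,
    fun h => p.2.1.2 (Subtype.ext (eq_one hT hx' p.2.1.1.2 (mem_centralizer_singleton_iff.1
      ((mul_mem_cancel_right (p1 p.2.2.2)).1 ((cc _ p.1.2 _).1 h))).symm)), (p.1 : G)⁻¹,
      (cx _ (inv_mem p.1.2)).symm ▸ hx, by simpa [mul_assoc] using mul_mem (le_normalizer p.2.1.1.2) p.2.2.2.2⟩
  have h2 := CA.H13Count.card_eq_mul_of_fibers φ (Nat.card P) (by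
    rintro ⟨y, hy, g, h3, h4⟩
    obtain ⟨s, hs, h5⟩ := dec g h3
    have h6 : s⁻¹ * g * y * (s⁻¹ * g)⁻¹ ∈ N := by
      simpa [mul_assoc] using mul_mem (mul_mem (inv_mem (le_normalizer hs)) h4) (le_normalizer hs)
    generalize s⁻¹ * g = c at h5 h6
    obtain ⟨t, ht, h7⟩ := dec _ (mul_mem (mul_mem h6 hx) (inv_mem h6))
    have h8 : t⁻¹ * (c * y * c⁻¹) ∈ P := mem_inf.2 ⟨h7, mul_mem (inv_mem (le_normalizer ht)) h6⟩
    refine (Nat.card_congr (Equiv.ofBijective (fun p : P => (⟨(⟨c⁻¹ * (p : G)⁻¹, mul_mem (inv_mem h5) (inv_mem (p1 p.2))⟩,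
      ⟨⟨p * t * (p : G)⁻¹, conj_mem p.2.2 ht⟩, fun e => conj_ne_one (y := t) (by
        rintro rfl; exact hy ((cc _ h5 _).1 (by simpa using h7))) _ (congrArg Subtype.val e)⟩,
      p * ⟨_, h8⟩ * p⁻¹), Subtype.ext (by simp [φ, mul_assoc])⟩ : {a // φ a = ⟨y, hy, g, h3, h4⟩})) ⟨fun p p' e => ?_, ?_⟩)).symm
    · exact Subtype.ext (inv_injective (mul_left_cancel (congrArg (fun a => (a.1.1 : G)) e)))
    · rintro ⟨⟨⟨d, hd⟩, ⟨⟨u, hu⟩, hu1⟩, p, hp⟩, e⟩
      have e' : d * (u * p) * d⁻¹ = y := congrArg Subtype.val e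
      have h9 : d⁻¹ * y * d⁻¹⁻¹ ∈ N := by simpa [← e', mul_assoc] using mul_mem (le_normalizer hu) hp.2
      have h10 : d⁻¹ * c⁻¹ ∈ N := hT.ti _ _ (comm_mem hT hc h1 hx h6) (fun e => hy ((cc _ h5 _).1
        (mem_centralizer_singleton_iff.2 (commutatorElement_eq_one_iff_mul_comm.1 e).symm))) (by
          convert comm_mem hT hc h1 hx h9 using 1
          conv_rhs => rw [← cx _ (mul_mem (inv_mem hd) (inv_mem h5))]
          group)
      have h11 : d⁻¹ * c⁻¹ ∈ P := mem_inf.2 ⟨mul_mem (inv_mem hd) (inv_mem h5), h10⟩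
      have h12 : u⁻¹ * (d⁻¹ * c⁻¹ * t * (d⁻¹ * c⁻¹)⁻¹) = 1 := eq_one hT hx' (mul_mem (inv_mem hu) (conj_mem h10 ht))
        (mem_centralizer_singleton_iff.1 (by
          convert mul_mem (p1 hp) (inv_mem ((cc _ (p1 h11) _).2 h7)) using 1
          rw [← e']; group)).symm
      refine ⟨⟨_, h11⟩, Subtype.ext (Prod.ext (Subtype.ext (by simp)) (Prod.ext (Subtype.ext (Subtype.ext
        (inv_mul_eq_one.1 h12).symm)) (Subtype.ext ?_)))⟩
      show d⁻¹ * c⁻¹ * (t⁻¹ * (c * y * c⁻¹)) * (d⁻¹ * c⁻¹)⁻¹ = p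
      rw [← e', inv_mul_eq_one.1 h12]; group)
  rw [Nat.card_prod, Nat.card_prod, ← mul_assoc, mul_left_inj' Nat.card_pos.ne'] at h2
  rw [← Nat.card_coe_set_eq, ← h2]
  congr 1
  classical
  have := Fintype.ofFinite T
  rw [Nat.card_eq_fintype_card, Nat.card_eq_fintype_card, Fintype.card_subtype_compl, Fintype.card_subtype_eq]

end CA.TorusNorm
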